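import Mathlib
import Cfsg.Agent.H45.UDefs
import Cfsg.Agent.H17.SUGen

set_option autoImplicit false
set_option linter.unusedSectionVars false

/-!
# Piece ISO of S2412 (helper98): the unitary group in hyperbolic block coordinates is isomorphic
to the frozen `Cfsg.SU`, compatibly with a linear isometry of the underlying spaces.
-/

namespace Cfsg.Agent.H98.U

open Matrix Cfsg.Agent.H45.U

section form

variable {F : Type*} [Field F] (σ : F →+* F)
variable {m d : Type*} [Fintype m] [DecidableEq m] [Fintype d] [DecidableEq d]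

theorem hH_add_left (u u' v : m ⊕ (m ⊕ d) → F) :
    hH σ (u + u') v = hH σ u v + hH σ u' v := by
  unfold hH
  simp only [Pi.add_apply, add_mul, Finset.sum_add_distrib]
  ring

theorem hH_add_right (u v v' : m ⊕ (m ⊕ d) → F) :
    hH σ u (v + v') = hH σ u v + hH σ u v' := by
  unfold hH
  simp only [Pi.add_apply, map_add, mul_add, Finset.sum_add_distrib]
  ring

theorem hH_smul_left (a : F) (u v : m ⊕ (m ⊕ d) → F) : hH σ (a • u) v = a * hH σ u v := by
  unfold hH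
  simp only [Pi.smul_apply, smul_eq_mul, mul_add, Finset.mul_sum, mul_assoc]

theorem hH_smul_right (a : F) (u v : m ⊕ (m ⊕ d) → F) :
    hH σ u (a • v) = σ a * hH σ u v := by
  unfold hH
  simp only [Pi.smul_apply, smul_eq_mul, map_mul, mul_add, Finset.mul_sum]
  congr 1
  · congr 1
    · exact Finset.sum_congr rfl fun i _ => by ring
    · exact Finset.sum_congr rfl fun i _ => by ring
  · exact Finset.sum_congr rfl fun i _ => by ring

theorem hH_zero_left (v : m ⊕ (m ⊕ d) → F) : hH σ 0 v = 0 := by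
  unfold hH; simp

theorem hH_zero_right (u : m ⊕ (m ⊕ d) → F) : hH σ u 0 = 0 := by
  unfold hH; simp

theorem hH_conj (hσ : ∀ a, σ (σ a) = a) (u v : m ⊕ (m ⊕ d) → F) :
    σ (hH σ u v) = hH σ v u := by
  unfold hH
  simp only [map_add, map_sum, map_mul, hσ]
  have e1 : ∑ i, σ (u (Sum.inl i)) * v (Sum.inr (Sum.inl i)) =
      ∑ i, v (Sum.inr (Sum.inl i)) * σ (u (Sum.inl i)) :=
    Finset.sum_congr rfl fun _ _ => mul_comm _ _
  have e2 : ∑ i, σ (u (Sum.inr (Sum.inl i))) * v (Sum.inl i) =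
      ∑ i, v (Sum.inl i) * σ (u (Sum.inr (Sum.inl i))) :=
    Finset.sum_congr rfl fun _ _ => mul_comm _ _
  have e3 : ∑ l, σ (u (Sum.inr (Sum.inr l))) * v (Sum.inr (Sum.inr l)) =
      ∑ l, v (Sum.inr (Sum.inr l)) * σ (u (Sum.inr (Sum.inr l))) :=
    Finset.sum_congr rfl fun _ _ => mul_comm _ _
  rw [e1, e2, e3]
  ring

theorem hH_sum_left {κ : Type*} [Fintype κ] (x : m ⊕ (m ⊕ d) → F) (c : κ → F)
    (u : κ → m ⊕ (m ⊕ d) → F) :
    hH σ (∑ a, c a • u a) x = ∑ a, c a * hH σ (u a) x := by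
  classical
  induction (Finset.univ : Finset κ) using Finset.induction_on with
  | empty => simp [hH_zero_left]
  | insert a s ha ih =>
    rw [Finset.sum_insert ha, Finset.sum_insert ha, hH_add_left, hH_smul_left, ih]

theorem hH_sum_right {κ : Type*} [Fintype κ] (x : m ⊕ (m ⊕ d) → F) (c : κ → F)
    (u : κ → m ⊕ (m ⊕ d) → F) :
    hH σ x (∑ a, c a • u a) = ∑ a, σ (c a) * hH σ x (u a) := by
  classical
  induction (Finset.univ : Finset κ) using Finset.induction_on with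
  | empty => simp [hH_zero_right]
  | insert a s ha ih =>
    rw [Finset.sum_insert ha, Finset.sum_insert ha, hH_add_right, hH_smul_right, ih]

/-- values of `hH` against coordinate vectors (left slot). -/
theorem hH_single_inl (i : m) (v : m ⊕ (m ⊕ d) → F) :
    hH σ (Pi.single (Sum.inl i) 1) v = σ (v (Sum.inr (Sum.inl i))) := by
  unfold hH
  simp [Pi.single_apply]

theorem hH_single_inrl (i : m) (v : m ⊕ (m ⊕ d) → F) :
    hH σ (Pi.single (Sum.inr (Sum.inl i)) 1) v = σ (v (Sum.inl i)) := by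
  unfold hH
  simp [Pi.single_apply]

theorem hH_single_inrr (l : d) (v : m ⊕ (m ⊕ d) → F) :
    hH σ (Pi.single (Sum.inr (Sum.inr l)) 1) v = σ (v (Sum.inr (Sum.inr l))) := by
  unfold hH
  simp [Pi.single_apply]

/-- the sesquilinear form `(x, y) ↦ hH y x`. -/
noncomputable def hSesq :
    (m ⊕ (m ⊕ d) → F) →ₛₗ[σ] (m ⊕ (m ⊕ d) → F) →ₗ[F] F :=
  LinearMap.mk₂'ₛₗ σ (RingHom.id F) (fun x y => hH σ y x)
    (fun x x' y => hH_add_right σ y x x')
    (fun c x y => by rw [hH_smul_right]; rfl)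
    (fun x y y' => hH_add_left σ y y' x)
    (fun c x y => by rw [hH_smul_left]; rfl)

theorem hSesq_apply (x y : m ⊕ (m ⊕ d) → F) : hSesq σ x y = hH σ y x := rfl

theorem hSesq_isSymm (hσ : ∀ a, σ (σ a) = a) :
    (hSesq σ : (m ⊕ (m ⊕ d) → F) →ₛₗ[σ] (m ⊕ (m ⊕ d) → F) →ₗ[F] F).IsSymm :=
  ⟨fun x y => by rw [hSesq_apply, hSesq_apply, hH_conj σ hσ]⟩

theorem hSesq_nondegenerate (hσ : ∀ a, σ (σ a) = a) :
    (hSesq σ : (m ⊕ (m ⊕ d) → F) →ₛₗ[σ] (m ⊕ (m ⊕ d) → F) →ₗ[F] F).Nondegenerate := by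
  have hinj : ∀ a : F, σ a = 0 → a = 0 := fun a ha => by
    have := congrArg σ ha
    rwa [hσ, map_zero] at this
  have key : ∀ x : m ⊕ (m ⊕ d) → F, (∀ y, hH σ y x = 0) → x = 0 := by
    intro x hx
    funext j
    rcases j with i | i | l
    · have := hx (Pi.single (Sum.inr (Sum.inl i)) 1)
      rw [hH_single_inrl] at this
      exact hinj _ this
    · have := hx (Pi.single (Sum.inl i) 1)
      rw [hH_single_inl] at this
      exact hinj _ this
    · have := hx (Pi.single (Sum.inr (Sum.inr l)) 1)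
      rw [hH_single_inrr] at this
      exact hinj _ this
  constructor
  · intro x hx
    exact key x (fun y => hx y)
  · intro y hy
    apply key y
    intro x
    have := hy x
    rw [hSesq_apply] at this
    have h2 := hH_conj σ hσ y x
    rw [this, map_zero] at h2
    exact h2.symm

end form

/-- piece ISO of S2412. -/
theorem uh_iso {F : Type*} [Field F] [Fintype F] {q : ℕ} (hF : Fintype.card F = q ^ 2)
    (k r n : ℕ) (hn : n = k + (k + r)) :
    ∃ (Φ : ↥(UH (H17.frobHom hF) (Fin k) (Fin r)) ≃* ↥(Cfsg.SU n F q))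
      (P : (Fin k ⊕ (Fin k ⊕ Fin r) → F) ≃ₗ[F] (Fin n → F)),
      (∀ u v, Cfsg.hermForm n F q (P u) (P v) = hH (H17.frobHom hF) u v) ∧
      (∀ (g : ↥(UH (H17.frobHom hF) (Fin k) (Fin r))) (u : Fin k ⊕ (Fin k ⊕ Fin r) → F),
        H17.suAct (Φ g) (P u) = P (g.1.1 *ᵥ u)) := by
  classical
  have hσ2 := H17.frobHom_invol hF
  have hfr : Module.finrank F (Fin k ⊕ (Fin k ⊕ Fin r) → F) = n := by
    rw [Module.finrank_fintype_fun_eq_card]
    simp [hn]
  obtain ⟨b, hb⟩ := H17.herm_onb_aux (H17.frobHom hF) (H17.frobHom_ne_id hF) hσ2 n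
    (Fin k ⊕ (Fin k ⊕ Fin r) → F) (hSesq (H17.frobHom hF)) (hSesq_isSymm _ hσ2)
    (hSesq_nondegenerate _ hσ2) hfr
  have hP : ∀ u v, Cfsg.hermForm n F q (b.equivFun u) (b.equivFun v) =
      hH (H17.frobHom hF) u v := by
    intro u v
    conv_rhs => rw [← b.sum_equivFun u, ← b.sum_equivFun v]
    rw [hH_sum_left]
    simp only [hH_sum_right]
    unfold Cfsg.hermForm
    refine Finset.sum_congr rfl fun i _ => ?_
    have hbi : ∀ j, hH (H17.frobHom hF) (b i) (b j) = if j = i then 1 else 0 := fun j => hb j i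
    simp only [hbi]
    simp [H17.frobHom_apply]
  obtain ⟨P, hPdef⟩ : ∃ P : (Fin k ⊕ (Fin k ⊕ Fin r) → F) ≃ₗ[F] (Fin n → F), P = b.equivFun :=
    ⟨_, rfl⟩
  rw [← hPdef] at hP
  let C : Matrix (Fin n) (Fin k ⊕ (Fin k ⊕ Fin r)) F :=
    LinearMap.toMatrix' (P : (Fin k ⊕ (Fin k ⊕ Fin r) → F) →ₗ[F] (Fin n → F))
  let C' : Matrix (Fin k ⊕ (Fin k ⊕ Fin r)) (Fin n) F :=
    LinearMap.toMatrix' (P.symm : (Fin n → F) →ₗ[F] (Fin k ⊕ (Fin k ⊕ Fin r) → F))
  have hCC' : C * C' = 1 := by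
    rw [← LinearMap.toMatrix'_comp]
    have : (P : (Fin k ⊕ (Fin k ⊕ Fin r) → F) →ₗ[F] (Fin n → F)).comp
        (P.symm : (Fin n → F) →ₗ[F] (Fin k ⊕ (Fin k ⊕ Fin r) → F)) = LinearMap.id := by
      ext x; simp
    rw [this, LinearMap.toMatrix'_id]
  have hC'C : C' * C = 1 := by
    rw [← LinearMap.toMatrix'_comp]
    have : (P.symm : (Fin n → F) →ₗ[F] (Fin k ⊕ (Fin k ⊕ Fin r) → F)).comp
        (P : (Fin k ⊕ (Fin k ⊕ Fin r) → F) →ₗ[F] (Fin n → F)) = LinearMap.id := by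
      ext x; simp
    rw [this, LinearMap.toMatrix'_id]
  have hCv : ∀ u, C *ᵥ u = P u := fun u => LinearMap.toMatrix'_mulVec _ u
  have hC'v : ∀ x, C' *ᵥ x = P.symm x := fun x => LinearMap.toMatrix'_mulVec _ x
  have hform : ∀ u v, Cfsg.hermForm n F q (C *ᵥ u) (C *ᵥ v) = hH (H17.frobHom hF) u v := by
    intro u v; rw [hCv, hCv]; exact hP u v
  have hform' : ∀ x y, hH (H17.frobHom hF) (C' *ᵥ x) (C' *ᵥ y) = Cfsg.hermForm n F q x y := by
    intro x y
    rw [← hform, mulVec_mulVec, mulVec_mulVec, hCC', one_mulVec, one_mulVec]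
  have hdet : ∀ g : Matrix.SpecialLinearGroup (Fin k ⊕ (Fin k ⊕ Fin r)) F,
      (C * g.1 * C').det = 1 := fun g => by
    rw [Matrix.det_conj_of_mul_eq_one hCC' hC'C]; exact g.2
  have hdet' : ∀ A : Matrix.SpecialLinearGroup (Fin n) F, (C' * A.1 * C).det = 1 := fun A => by
    rw [Matrix.det_conj_of_mul_eq_one hC'C hCC']; exact A.2
  have hfwd : ∀ g : ↥(UH (H17.frobHom hF) (Fin k) (Fin r)),
      (⟨C * g.1.1 * C', hdet g.1⟩ : Matrix.SpecialLinearGroup (Fin n) F) ∈ Cfsg.SU n F q := by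
    intro g u v
    have hg : ∀ u v, hH (H17.frobHom hF) (g.1.1 *ᵥ u) (g.1.1 *ᵥ v) =
        hH (H17.frobHom hF) u v := g.2
    show Cfsg.hermForm n F q ((C * g.1.1 * C') *ᵥ u) ((C * g.1.1 * C') *ᵥ v) = _
    rw [← mulVec_mulVec, ← mulVec_mulVec, ← mulVec_mulVec, ← mulVec_mulVec, hform, hg, hform']
  have hbwd : ∀ A : ↥(Cfsg.SU n F q),
      (⟨C' * A.1.1 * C, hdet' A.1⟩ : Matrix.SpecialLinearGroup (Fin k ⊕ (Fin k ⊕ Fin r)) F) ∈
        UH (H17.frobHom hF) (Fin k) (Fin r) := by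
    intro A u v
    have hA : ∀ u v, Cfsg.hermForm n F q (A.1.1 *ᵥ u) (A.1.1 *ᵥ v) =
        Cfsg.hermForm n F q u v := A.2
    show hH (H17.frobHom hF) ((C' * A.1.1 * C) *ᵥ u) ((C' * A.1.1 * C) *ᵥ v) = _
    rw [← mulVec_mulVec, ← mulVec_mulVec, ← mulVec_mulVec, ← mulVec_mulVec, hform', hA, hform]
  refine ⟨{ toFun := fun g => ⟨⟨C * g.1.1 * C', hdet g.1⟩, hfwd g⟩
            invFun := fun A => ⟨⟨C' * A.1.1 * C, hdet' A.1⟩, hbwd A⟩
            left_inv := ?_
            right_inv := ?_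
            map_mul' := ?_ }, P, hP, ?_⟩
  · intro g
    apply Subtype.ext
    apply Subtype.ext
    show C' * (C * g.1.1 * C') * C = g.1.1
    rw [← Matrix.mul_assoc, ← Matrix.mul_assoc, hC'C, Matrix.one_mul, Matrix.mul_assoc, hC'C,
      Matrix.mul_one]
  · intro A
    apply Subtype.ext
    apply Subtype.ext
    show C * (C' * A.1.1 * C) * C' = A.1.1
    rw [← Matrix.mul_assoc, ← Matrix.mul_assoc, hCC', Matrix.one_mul, Matrix.mul_assoc, hCC',
      Matrix.mul_one]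
  · intro g h
    apply Subtype.ext
    apply Subtype.ext
    show C * (g.1.1 * h.1.1) * C' = (C * g.1.1 * C') * (C * h.1.1 * C')
    have e : C * g.1.1 * C' * (C * h.1.1 * C') = C * g.1.1 * (C' * C) * h.1.1 * C' := by
      simp only [Matrix.mul_assoc]
    rw [e, hC'C, Matrix.mul_one]
    simp only [Matrix.mul_assoc]
  · intro g u
    show (C * g.1.1 * C') *ᵥ (P u) = P (g.1.1 *ᵥ u)
    rw [← mulVec_mulVec, ← mulVec_mulVec, hC'v, LinearEquiv.symm_apply_apply, hCv]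

end Cfsg.Agent.H98.U
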