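import Mathlib

set_option autoImplicit false

/-!
# S2478 (helper98, team project): definitions for the class number of `GL_n(q)`

* `cm q m`: the number of monic polynomials of degree `m` with non-zero constant coefficient over
  a field with `q` elements.
* `cfgCount q J n`: the number of tuples `(g_1, …, g_J)` of such polynomials with
  `∑ e * deg g_e = n`, defined by recursion on `J`.
* `Conf F J n`: the set of these tuples.
-/

namespace Cfsg.Agent.H98.GLk

open Polynomial

/-- The number of monic polynomials of degree `m` with non-zero constant coefficient over a field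
with `q` elements. -/
def cm (q m : ℕ) : ℕ := if m = 0 then 1 else q ^ m - q ^ (m - 1)

/-- `cfgCount q J n`: the number of tuples `(g_1, …, g_J)` of monic polynomials with non-zero
constant coefficient over a field with `q` elements such that `∑ e * deg g_e = n`. -/
def cfgCount (q : ℕ) : ℕ → ℕ → ℕ
  | 0, n => if n = 0 then 1 else 0
  | J + 1, n => ∑ m ∈ Finset.range (n / (J + 1) + 1), cm q m * cfgCount q J (n - (J + 1) * m)

theorem cfgCount_zero (q n : ℕ) : cfgCount q 0 n = if n = 0 then 1 else 0 := rfl

theorem cfgCount_succ (q J n : ℕ) : cfgCount q (J + 1) n =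
    ∑ m ∈ Finset.range (n / (J + 1) + 1), cm q m * cfgCount q J (n - (J + 1) * m) := rfl

/-- The tuples `(g_1, …, g_J)` of monic polynomials with non-zero constant coefficient and
`∑ e * deg g_e = n` (the index `e : Fin J` stands for the exponent `e + 1`). -/
def Conf (F : Type*) [Field F] (J n : ℕ) : Set (Fin J → F[X]) :=
  {g | (∀ e, (g e).Monic ∧ (g e).coeff 0 ≠ 0) ∧
    ∑ e : Fin J, (e.val + 1) * (g e).natDegree = n}

theorem mem_Conf {F : Type*} [Field F] {J n : ℕ} {g : Fin J → F[X]} :
    g ∈ Conf F J n ↔ (∀ e, (g e).Monic ∧ (g e).coeff 0 ≠ 0) ∧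
      ∑ e : Fin J, (e.val + 1) * (g e).natDegree = n := Iff.rfl

end Cfsg.Agent.H98.GLk
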