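import Mathlib
import Cfsg.Agent.H98.GLkDefs

set_option autoImplicit false

/-!
# S2479 (helper98, team project): definitions for the class number of `SL_n(q)`

* `cdet g`: the determinant read off a configuration `g = (g_1, …, g_n)` (the index `i : Fin n`
  stands for the exponent `i + 1`): `∏ i, ((-1) ^ deg (g i) * (g i)(0)) ^ (i + 1)`.
* `detCent A`: the subgroup of `Fˣ` of the determinants of the centralizer of `A` in `GL`.
* `cfgB q L s n`: the number of tuples `(g_s, …, g_(s+L-1))` of monic polynomials with non-zero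
  constant coefficient over a field with `q` elements with `∑ e * deg g_e = n`.
* `ConfFrom F n j`: the configurations in `Conf F n n` with `g i = 1` for all `i < j`.
* `ConfAt F n j`: those in `ConfFrom F n j` with `g j ≠ 1`.
-/

namespace Cfsg.Agent.H98.SLk

open Polynomial
open Cfsg.Agent.H98.GLk

/-- The determinant read off a configuration. -/
noncomputable def cdet {F : Type*} [Field F] {n : ℕ} (g : Fin n → F[X]) : F :=
  ∏ i : Fin n, ((-1) ^ (g i).natDegree * (g i).coeff 0) ^ (i.val + 1)

theorem cdet_def {F : Type*} [Field F] {n : ℕ} (g : Fin n → F[X]) :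
    cdet g = ∏ i : Fin n, ((-1) ^ (g i).natDegree * (g i).coeff 0) ^ (i.val + 1) := rfl

/-- The determinants of the centralizer of `A` in `GL`. -/
def detCent {F : Type*} [Field F] {n : ℕ} (A : Matrix.GeneralLinearGroup (Fin n) F) :
    Subgroup Fˣ :=
  (Subgroup.centralizer {A}).map Matrix.GeneralLinearGroup.det

theorem mem_detCent {F : Type*} [Field F] {n : ℕ} {A : Matrix.GeneralLinearGroup (Fin n) F}
    {c : Fˣ} : c ∈ detCent A ↔
      ∃ z ∈ Subgroup.centralizer {A}, Matrix.GeneralLinearGroup.det z = c := Iff.rfl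

/-- `cfgB q L s n`: the number of tuples `(g_s, …, g_(s+L-1))` of monic polynomials with non-zero
constant coefficient over a field with `q` elements such that `∑ e * deg g_e = n`. -/
def cfgB (q : ℕ) : ℕ → ℕ → ℕ → ℕ
  | 0, _, n => if n = 0 then 1 else 0
  | L + 1, s, n => ∑ m ∈ Finset.range (n / s + 1), cm q m * cfgB q L (s + 1) (n - s * m)

theorem cfgB_zero (q s n : ℕ) : cfgB q 0 s n = if n = 0 then 1 else 0 := rfl

theorem cfgB_succ (q L s n : ℕ) : cfgB q (L + 1) s n =
    ∑ m ∈ Finset.range (n / s + 1), cm q m * cfgB q L (s + 1) (n - s * m) := rfl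

/-- The configurations with `g i = 1` for all `i < j`. -/
def ConfFrom (F : Type*) [Field F] (n j : ℕ) : Set (Fin n → F[X]) :=
  {g | g ∈ Conf F n n ∧ ∀ i : Fin n, i.val < j → g i = 1}

theorem mem_ConfFrom {F : Type*} [Field F] {n j : ℕ} {g : Fin n → F[X]} :
    g ∈ ConfFrom F n j ↔ g ∈ Conf F n n ∧ ∀ i : Fin n, i.val < j → g i = 1 := Iff.rfl

/-- The configurations with `g i = 1` for all `i < j` and `g j ≠ 1`. -/
def ConfAt (F : Type*) [Field F] (n : ℕ) (j : Fin n) : Set (Fin n → F[X]) :=
  {g | g ∈ Conf F n n ∧ (∀ i : Fin n, i.val < j.val → g i = 1) ∧ g j ≠ 1}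

theorem mem_ConfAt {F : Type*} [Field F] {n : ℕ} {j : Fin n} {g : Fin n → F[X]} :
    g ∈ ConfAt F n j ↔
      g ∈ Conf F n n ∧ (∀ i : Fin n, i.val < j.val → g i = 1) ∧ g j ≠ 1 := Iff.rfl

end Cfsg.Agent.H98.SLk
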