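import Mathlib
import Cfsg.Agent.H98.SLkDefs

set_option autoImplicit false

/-!
# S2480 (helper98, team project): definitions for the class number of `PSL_n(q)`

* `sc a g`: the configuration `g` with the roots of every entry multiplied by the unit `a`
  (`Polynomial.scaleRoots`); this is the configuration of `a • A` when `g` is that of `A`.
* `wt n hn h1 w g`: the weight `1` if `g 0 ≠ 1`, `h1` if `g 0 = 1 ≠ g 1`, `w` otherwise.
-/

namespace Cfsg.Agent.H98.SLk

open Polynomial
open Cfsg.Agent.H98.GLk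

/-- Multiply the roots of every entry of a configuration by `a`. -/
noncomputable def sc {F : Type*} [Field F] {n : ℕ} (a : Fˣ) (g : Fin n → F[X]) : Fin n → F[X] :=
  fun i => (g i).scaleRoots (a : F)

theorem sc_apply {F : Type*} [Field F] {n : ℕ} (a : Fˣ) (g : Fin n → F[X]) (i : Fin n) :
    sc a g i = (g i).scaleRoots (a : F) := rfl

open Classical in
/-- The weight of a configuration: `1` if `g 0 ≠ 1`, `h1` if `g 0 = 1 ≠ g 1`, `w` otherwise. -/
noncomputable def wt {F : Type*} [Field F] (n : ℕ) (hn : 2 ≤ n) (h1 w : ℕ) (g : Fin n → F[X]) :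
    ℕ :=
  if g ⟨0, by omega⟩ ≠ 1 then 1 else if g ⟨1, by omega⟩ ≠ 1 then h1 else w

open Classical in
theorem wt_def {F : Type*} [Field F] (n : ℕ) (hn : 2 ≤ n) (h1 w : ℕ) (g : Fin n → F[X]) :
    wt n hn h1 w g =
      if g ⟨0, by omega⟩ ≠ 1 then 1 else if g ⟨1, by omega⟩ ≠ 1 then h1 else w := rfl

end Cfsg.Agent.H98.SLk
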