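import Mathlib
import Cfsg.Agent.H7.PsDefs
import Cfsg.Agent.H8.SzAut
import Cfsg.Agent.H8.SzPG2
import Cfsg.Agent.H41.SzF8

/-! S3664 team project (leader helper7), piece PS-INST split by helper98: the instance
`A = Sz(8) ⋊ C₃` acting on `M = Mat₄(𝔽₈)` by `(s, σ) • X = s * σ(X) * (s⁽²⁾)⁻¹`
(`s⁽²⁾` = entrywise squares).  Definitions, the action, and the EXACT sub-piece statements. -/

set_option autoImplicit false

namespace Cfsg.Agent.H98.Ps

open Cfsg Cfsg.Agent.H8 Matrix

/-- the field with eight elements (helper41's computable model) -/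
abbrev K : Type := Cfsg.Agent.H41.F8

theorem hK : Fintype.card K = 2 ^ (2 * 1 + 1) := rfl

/-- the Suzuki group `Sz(8)` (helper8's model: the stabilizer of the ovoid in `SL₄`) -/
abbrev S : Type := ↥(Sz K 1)

/-- the Frobenius automorphism `x ↦ x²` of the field -/
def frob : RingAut K where
  toFun x := x * x
  invFun x := x * x * (x * x)
  left_inv := by intro x; revert x; decide
  right_inv := by intro x; revert x; decide
  map_mul' := by decide
  map_add' := by decide

theorem frob_apply (x : K) : frob x = x * x := rfl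

/-- the group `Sz(8) ⋊ Aut(𝔽₈)` -/
abbrev A : Type := S ⋊[szFrob (le_refl 1) hK] RingAut K

/-- the module: `4 × 4` matrices -/
abbrev M : Type := Matrix (Fin 4) (Fin 4) K

/-- the matrix of an element of `Sz(8)` -/
def mat (s : S) : M := s.1.1

theorem mat_one : mat 1 = 1 := rfl

theorem mat_mul (s t : S) : mat (s * t) = mat s * mat t := rfl

theorem mat_pow (s : S) (n : ℕ) : mat (s ^ n) = mat s ^ n := by
  induction n with
  | zero => rfl
  | succ n ih => rw [pow_succ, pow_succ, mat_mul, ih]

theorem mat_inj : Function.Injective mat := fun _ _ h => Subtype.ext (Subtype.ext h)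

theorem mat_mul_inv (s : S) : mat s * mat s⁻¹ = 1 := by
  rw [← mat_mul, mul_inv_cancel, mat_one]

theorem mat_inv_mul (s : S) : mat s⁻¹ * mat s = 1 := by
  rw [← mat_mul, inv_mul_cancel, mat_one]

/-- a field automorphism applied entrywise, as a ring homomorphism of matrices -/
def fm (σ : RingAut K) : M →+* M := (σ : K →+* K).mapMatrix

theorem fm_apply (σ : RingAut K) (X : M) (i j : Fin 4) : fm σ X i j = σ (X i j) := rfl

theorem fm_one (X : M) : fm 1 X = X := rfl

theorem fm_mul (σ τ : RingAut K) (X : M) : fm (σ * τ) X = fm σ (fm τ X) := rfl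

theorem mat_szFrob (σ : RingAut K) (s : S) :
    mat (szFrob (le_refl 1) hK σ s) = fm σ (mat s) := rfl

/-- the twisting automorphism `s ↦ s⁽²⁾` of `Sz(8)` -/
noncomputable def tw : MulAut S := szFrob (le_refl 1) hK frob

theorem mat_tw (s : S) : mat (tw s) = fm frob (mat s) := rfl

theorem frob_comm (σ : RingAut K) : frob * σ = σ * frob := by
  ext x
  show frob (σ x) = σ (frob x)
  rw [frob_apply, frob_apply, map_mul]

theorem tw_szFrob (σ : RingAut K) (s : S) :
    tw (szFrob (le_refl 1) hK σ s) = szFrob (le_refl 1) hK σ (tw s) := by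
  show szFrob (le_refl 1) hK frob (szFrob (le_refl 1) hK σ s) =
    szFrob (le_refl 1) hK σ (szFrob (le_refl 1) hK frob s)
  rw [← MulAut.mul_apply, ← MulAut.mul_apply, ← map_mul, ← map_mul, frob_comm]

/-- the twisted action of `A` on `M` -/
noncomputable def act (a : A) (X : M) : M := mat a.left * fm a.right X * mat (tw a.left)⁻¹

theorem act_one (X : M) : act 1 X = X := by
  show mat (1 : A).left * fm (1 : A).right X * mat (tw (1 : A).left)⁻¹ = X
  rw [SemidirectProduct.one_left, SemidirectProduct.one_right, map_one, inv_one, mat_one, fm_one,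
    one_mul, mul_one]

theorem act_mul (a b : A) (X : M) : act (a * b) X = act a (act b X) := by
  show mat (a * b).left * fm (a * b).right X * mat (tw (a * b).left)⁻¹ =
    mat a.left * fm a.right (mat b.left * fm b.right X * mat (tw b.left)⁻¹) * mat (tw a.left)⁻¹
  rw [SemidirectProduct.mul_left, SemidirectProduct.mul_right, map_mul, _root_.mul_inv_rev, mat_mul,
    mat_mul, fm_mul, map_mul, map_mul, tw_szFrob, ← map_inv, mat_szFrob, mat_szFrob]
  simp only [mul_assoc]

noncomputable instance instAct : DistribMulAction A M where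
  smul := act
  one_smul := act_one
  mul_smul := act_mul
  smul_zero a := by
    show mat a.left * fm a.right 0 * mat (tw a.left)⁻¹ = 0
    rw [map_zero, mul_zero, zero_mul]
  smul_add a X Y := by
    show mat a.left * fm a.right (X + Y) * mat (tw a.left)⁻¹ =
      mat a.left * fm a.right X * mat (tw a.left)⁻¹ + mat a.left * fm a.right Y * mat (tw a.left)⁻¹
    rw [map_add, mul_add, add_mul]

theorem smul_def (a : A) (X : M) : a • X = mat a.left * fm a.right X * mat (tw a.left)⁻¹ := rfl

theorem inl_smul (s : S) (X : M) :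
    (SemidirectProduct.inl s : A) • X = mat s * X * mat (tw s)⁻¹ := by
  rw [smul_def, SemidirectProduct.left_inl, SemidirectProduct.right_inl, fm_one]

/-- the fixed points of an element of `Sz(8)`: `s • X = X ↔ s X = X s⁽²⁾` -/
theorem inl_smul_eq_iff (s : S) (X : M) :
    (SemidirectProduct.inl s : A) • X = X ↔ mat s * X = X * fm frob (mat s) := by
  rw [inl_smul, ← mat_tw]
  constructor
  · intro h
    calc mat s * X = mat s * X * (mat (tw s)⁻¹ * mat (tw s)) := by rw [mat_inv_mul, mul_one]
      _ = (mat s * X * mat (tw s)⁻¹) * mat (tw s) := by simp only [mul_assoc]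
      _ = X * mat (tw s) := by rw [h]
  · intro h
    rw [h, mul_assoc, mat_mul_inv, mul_one]

/-- the entrywise Frobenius map is entrywise squaring -/
theorem fm_frob (X : M) : fm frob X = X.map (fun a => a ^ 2) := by
  ext i j
  rw [fm_apply, frob_apply, Matrix.map_apply, pow_two]

/-! ### explicit elements -/

/-- the unipotent elements `M(a, b)` -/
noncomputable def gU (a b : K) : S := ((szUM hK a b : szU (m := 1) hK) : S)

/-- the Weyl element -/
noncomputable def gW : S := szWG hK

/-- the torus elements `h(κ)` -/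
noncomputable def gH (k : Kˣ) : S := szHG hK k

theorem mat_gU (a b : K) : mat (gU a b) = szMmat 1 a b := rfl

theorem mat_gW : mat gW = szWmat K := rfl

theorem mat_gH (k : Kˣ) : mat (gH k) = szHmat 1 k := rfl

/-- the unit `ζ + 1` (of order 7) -/
def u3 : Kˣ := Units.mk0 (Cfsg.Agent.H41.F8.ofNat 3) (by decide)

/-- an element of order 5 with entries in the prime field -/
noncomputable def g5 : S := gU 0 1 * gW

/-- an element of order 7 -/
noncomputable def g7 : S := gH u3

/-- an element of order 13 -/
noncomputable def g13 : S := gU 0 (Cfsg.Agent.H41.F8.ofNat 3) * gW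

/-! ### the sub-piece statements -/

/-- [PS-I-CARD] the order of `Sz(8) : 3` -/
def StCard : Prop := Nat.card A = 87360

/-- [PS-I-EX6] -/
def StEx6 : Prop := ∃ a : A, orderOf a = 6

/-- [PS-I-EX15] -/
def StEx15 : Prop := ∃ a : A, orderOf a = 15

/-- [PS-I-FIX5] an element of order 5 with a non-zero fixed point -/
def StFix5 : Prop := ∃ a : A, orderOf a = 5 ∧ ∃ x : M, x ≠ 0 ∧ a • x = x

/-- [PS-I-FIX7] an element of order 7 with a non-zero fixed point -/
def StFix7 : Prop := ∃ a : A, orderOf a = 7 ∧ ∃ x : M, x ≠ 0 ∧ a • x = x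

/-- [PS-I-SYL] (generic) if `p² ∤ |G|`, any two elements of order `p` are conjugate up to a power -/
def StSyl : Prop := ∀ (G : Type) [Group G] [Finite G] (p : ℕ), p.Prime → ¬ p ^ 2 ∣ Nat.card G →
  ∀ g s : G, orderOf g = p → orderOf s = p → ∃ (c : G) (i : ℕ), s = c * g ^ i * c⁻¹

/-- [PS-I-FPF13] the elements of order 13 fix no non-zero matrix -/
def StFpf13 : Prop := ∀ a : A, orderOf a = 13 → ∀ x : M, a • x = x → x = 0

/-- [PS-I-NOS] the element orders `35, 26, 65, 91` do not occur in `Sz(8)` -/
def StNoS : Prop := ∀ s : S, orderOf s ≠ 35 ∧ orderOf s ≠ 26 ∧ orderOf s ≠ 65 ∧ orderOf s ≠ 91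

/-- [PS-I-CENT] the elements of `Sz(8)` fixed by the Frobenius map do not have order 7 or 13 -/
def StCent : Prop := ∀ s : S, tw s = s → orderOf s ≠ 7 ∧ orderOf s ≠ 13

/-- [PS-I-NO] the element orders `21, 35, 26, 39, 65, 91` do not occur in `Sz(8) : 3` -/
def StNo : Prop := ∀ a : A, orderOf a ≠ 21 ∧ orderOf a ≠ 35 ∧ orderOf a ≠ 26 ∧ orderOf a ≠ 39 ∧
  orderOf a ≠ 65 ∧ orderOf a ≠ 91

end Cfsg.Agent.H98.Ps
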