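import Cfsg.Agent.H98.DihR3D

set_option autoImplicit false
set_option linter.unusedSectionVars false

/-!
# Piece R3O of S3572 (helper98): the rank 3 configuration is impossible for an odd prime.
-/

namespace Cfsg.Agent.H98.Dih

variable {n : ℕ} [NeZero n]

theorem sum_conv (u v : ZMod n → ℤ) :
    ∑ k, ∑ x, u x * v (k - x) = (∑ x, u x) * ∑ y, v y := by
  rw [Finset.sum_comm, Finset.sum_mul]
  refine Finset.sum_congr rfl fun x _ => ?_
  rw [← Finset.mul_sum]
  congr 1
  exact Fintype.sum_equiv (Equiv.subRight x) _ _ fun k => rfl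

theorem sum_corr (u v : ZMod n → ℤ) :
    ∑ k, ∑ y, u y * v (y + k) = (∑ y, u y) * ∑ y, v y := by
  rw [Finset.sum_comm, Finset.sum_mul]
  refine Finset.sum_congr rfl fun x _ => ?_
  rw [← Finset.mul_sum]
  congr 1
  exact Fintype.sum_equiv (Equiv.addLeft x) _ _ fun k => rfl

/-- the final inequality juggling of R3O. -/
theorem r3_arith (a b n p N μ T0 : ℤ) (hp3 : 3 ≤ p) (ha1 : 1 ≤ a) (han : a ≤ n - 1)
    (hb1 : 1 ≤ b) (hbn : b ≤ n - 1)
    (E1 : 2 * a * b = μ * n) (E2 : a ^ 2 + b ^ 2 = N + μ * n) (E3 : a + b = N + μ)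
    (hN : 1 ≤ N) (hs : p ≤ |a - b|) (E6 : a ^ 3 = N * a + n * T0)
    (CS : (a ^ 2 - p * a) ^ 2 ≤ (n - p) * (a * (N + T0) - p * a ^ 2)) : False := by
  have hn1 : 2 ≤ n := by linarith
  have hNs : N = (a - b) ^ 2 := by linear_combination E1 - E2
  have hs2 : |a - b| * |a - b| = N := by rw [hNs, abs_mul_abs_self]; ring
  have hs0 : 0 < |a - b| := by linarith
  have key : p * a * (n - a) ≤ N * (n - p) := by
    have h := mul_le_mul_of_nonneg_left CS (by linarith : (0 : ℤ) ≤ n)
    have hid : a * (n - a) * (a * p * (n - a) - (n - p) * N) =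
        n * (a ^ 2 - p * a) ^ 2 - n * ((n - p) * (a * (N + T0) - p * a ^ 2)) := by
      linear_combination (-(n - p) * a) * E6
    have hpos : 0 < a * (n - a) := mul_pos (by linarith) (by linarith)
    by_contra hcon
    have hcon' : N * (n - p) < p * a * (n - a) := not_le.mp hcon
    have : 0 < a * (n - a) * (a * p * (n - a) - (n - p) * N) := mul_pos hpos (by linarith)
    linarith
  have h8a : a * (n - a) + b * (n - b) = N * (n - 1) := by linear_combination n * E3 - E2
  have h8c : b * (n - b) - a * (n - a) ≤ |a - b| * (n - 2) := by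
    have e : b * (n - b) - a * (n - a) = (b - a) * (n - a - b) := by ring
    rw [e]
    have h1 : (b - a) * (n - a - b) ≤ |b - a| * |n - a - b| := by
      rw [← abs_mul]; exact le_abs_self _
    have h2 : |b - a| = |a - b| := abs_sub_comm _ _
    have h3 : |n - a - b| ≤ n - 2 := abs_le.mpr ⟨by linarith, by linarith⟩
    calc (b - a) * (n - a - b) ≤ |b - a| * |n - a - b| := h1
      _ ≤ |a - b| * (n - 2) := by rw [h2]; exact mul_le_mul_of_nonneg_left h3 hs0.le
  have h8d : |a - b| * (|a - b| * (n * (p - 2) + p)) ≤ |a - b| * (p * (n - 2)) := by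
    have hA : N * (n * (p - 2) + p) ≤ p * (b * (n - b) - a * (n - a)) := by
      have h8a' : p * (a * (n - a) + b * (n - b)) = p * (N * (n - 1)) := by rw [h8a]
      nlinarith [key, h8a']
    have hB : p * (b * (n - b) - a * (n - a)) ≤ p * (|a - b| * (n - 2)) :=
      mul_le_mul_of_nonneg_left h8c (by linarith)
    calc |a - b| * (|a - b| * (n * (p - 2) + p)) = N * (n * (p - 2) + p) := by
          rw [← hs2]; ring
      _ ≤ p * (b * (n - b) - a * (n - a)) := hA
      _ ≤ p * (|a - b| * (n - 2)) := hB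
      _ = |a - b| * (p * (n - 2)) := by ring
  have h8e : |a - b| * (n * (p - 2) + p) ≤ p * (n - 2) := le_of_mul_le_mul_left h8d hs0
  have hpos2 : 0 ≤ n * (p - 2) + p := by nlinarith
  have h8f : p * (n * (p - 2) + p) ≤ |a - b| * (n * (p - 2) + p) :=
    mul_le_mul_of_nonneg_right hs hpos2
  have h8g : n * (p - 2) + p ≤ n - 2 :=
    le_of_mul_le_mul_left (h8f.trans h8e) (by linarith)
  nlinarith

/-- the function `AA` of a finset. -/
def aaFun (A : Finset (ZMod n)) (m : ZMod n) : ℤ := ∑ u, ind A u * ind A (m - u)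

theorem sum_aaFun (A : Finset (ZMod n)) :
    ∑ m, aaFun A m = (∑ x, ind A x) * ∑ x, ind A x := sum_conv _ _

theorem aaFun_add (z : ZMod n) (A : Finset (ZMod n)) (hAz : ∀ i ∈ A, i + z ∈ A)
    (hAs : ∀ i ∈ A, -i ∈ A) (m : ZMod n) : aaFun A (m + z) = aaFun A m := by
  unfold aaFun
  refine Finset.sum_congr rfl fun u _ => ?_
  rw [show m + z - u = m - u + z by ring, ind_add_of_symm z A hAz hAs]

theorem aaFun_zero (A : Finset (ZMod n)) (hAs : ∀ i ∈ A, -i ∈ A) :
    aaFun A 0 = ∑ x, ind A x := by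
  unfold aaFun
  refine Finset.sum_congr rfl fun u _ => ?_
  rw [zero_sub, ind_neg_of_symm A hAs, ind_mul_self]

theorem aaFun_nsmul (z : ZMod n) (A : Finset (ZMod n)) (hAz : ∀ i ∈ A, i + z ∈ A)
    (hAs : ∀ i ∈ A, -i ∈ A) (j : ℕ) : aaFun A (j • z) = ∑ x, ind A x := by
  induction j with
  | zero => rw [zero_nsmul, aaFun_zero A hAs]
  | succ j ih => rw [succ_nsmul, aaFun_add z A hAz hAs, ih]

/-- `∑ η² = ∑_x α x * T x`. -/
theorem sum_aaFun_sq (A : Finset (ZMod n)) (hAs : ∀ i ∈ A, -i ∈ A) :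
    ∑ m, aaFun A m * aaFun A m = ∑ x, ind A x * ∑ u, ind A u * aaFun A (x - u) := by
  have h1 : ∑ m, aaFun A m * aaFun A m = ∑ m, ∑ x, aaFun A m * (ind A x * ind A (m - x)) := by
    refine Finset.sum_congr rfl fun m _ => ?_
    rw [← Finset.mul_sum]
    rfl
  rw [h1, Finset.sum_comm]
  refine Finset.sum_congr rfl fun x _ => ?_
  rw [Finset.mul_sum]
  refine Fintype.sum_equiv (Equiv.subLeft x) _ _ fun m => ?_
  simp only [Equiv.subLeft_apply]
  rw [show x - (x - m) = m by ring, show m - x = -(x - m) by ring, ind_neg_of_symm A hAs]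
  ring

/-- piece R3O of S3572. -/
theorem r3_odd_core (p : ℕ) (hp : p.Prime) (hp2 : p ≠ 2) (z : ZMod n) (hz : z ≠ 0)
    (hpz : p • z = 0) (A B : Finset (ZMod n)) (μ N : ℤ) (hA0 : (0 : ZMod n) ∉ A)
    (hAne : A.Nonempty) (hAz : ∀ i ∈ A, i + z ∈ A) (hAs : ∀ i ∈ A, -i ∈ A)
    (hBz : ¬ ∀ i ∈ B, i + z ∈ B)
    (h1 : ∀ k : ZMod n, 2 * (((A ×ˢ B).filter (fun x => x.1 + x.2 = k)).card : ℤ) = μ)
    (h2 : ∀ k : ZMod n, (((A ×ˢ A).filter (fun x => x.1 + x.2 = k)).card : ℤ) +
      (((B ×ˢ B).filter (fun x => x.2 - x.1 = k)).card : ℤ) = (if k = 0 then N else 0) + μ) :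
    False := by
  classical
  have hpN : (p : ℤ) ∣ N := r3_dvd p hp z hz hpz A B μ N hA0 hAne hAz hAs h1 h2
  have h1' : ∀ k, 2 * ∑ x, ind A x * ind B (k - x) = μ := fun k => by
    rw [← card_add_eq]; exact h1 k
  have h2' : ∀ k, aaFun A k + ∑ y, ind B y * ind B (y + k) =
      (if k = 0 then N else 0) + μ := fun k => by
    unfold aaFun
    rw [← card_add_eq, ← card_sub_eq]; exact h2 k
  have hcard : ((Finset.univ : Finset (ZMod n)).card : ℤ) = n := by
    rw [Finset.card_univ, ZMod.card]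
  obtain ⟨y0, hy0, hy0'⟩ : ∃ y0 ∈ B, y0 + z ∉ B := by
    by_contra hcon
    apply hBz
    intro i hi
    by_contra hi'
    exact hcon ⟨i, hi, hi'⟩
  -- the numbers
  have ha : ∑ x, ind A x = (A.card : ℤ) := sum_ind A
  have hb : ∑ y, ind B y = (B.card : ℤ) := sum_ind B
  have ha1 : (1 : ℤ) ≤ A.card := by exact_mod_cast Finset.card_pos.mpr hAne
  have han : (A.card : ℤ) ≤ n - 1 := by
    have := Finset.card_lt_univ_of_notMem hA0
    rw [ZMod.card] at this
    have h' : (A.card : ℤ) < n := by exact_mod_cast this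
    linarith
  have hb1 : (1 : ℤ) ≤ B.card := by exact_mod_cast Finset.card_pos.mpr ⟨y0, hy0⟩
  have hbn : (B.card : ℤ) ≤ n - 1 := by
    have := Finset.card_lt_univ_of_notMem hy0'
    rw [ZMod.card] at this
    have h' : (B.card : ℤ) < n := by exact_mod_cast this
    linarith
  -- E1
  have E1 : 2 * (A.card : ℤ) * B.card = μ * n := by
    have h : ∑ k : ZMod n, 2 * ∑ x, ind A x * ind B (k - x) = ∑ _k : ZMod n, μ :=
      Finset.sum_congr rfl (fun k _ => h1' k)
    rw [← Finset.mul_sum, sum_conv, Finset.sum_const, nsmul_eq_mul, hcard, ha, hb] at h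
    linarith
  -- E2
  have E2 : (A.card : ℤ) ^ 2 + (B.card : ℤ) ^ 2 = N + μ * n := by
    have h : ∑ k : ZMod n, (aaFun A k + ∑ y, ind B y * ind B (y + k)) =
        ∑ k : ZMod n, ((if k = 0 then N else 0) + μ) :=
      Finset.sum_congr rfl (fun k _ => h2' k)
    rw [Finset.sum_add_distrib, sum_aaFun, sum_corr, Finset.sum_add_distrib,
      Finset.sum_ite_eq', if_pos (Finset.mem_univ _), Finset.sum_const, nsmul_eq_mul, hcard,
      ha, hb] at h
    linarith
  -- E3
  have E3 : (A.card : ℤ) + B.card = N + μ := by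
    have h := h2' 0
    have e3b : ∑ y, ind B y * ind B (y + 0) = B.card := by
      rw [← hb]
      refine Finset.sum_congr rfl fun y _ => ?_
      rw [add_zero, ind_mul_self]
    rw [aaFun_zero A hAs, e3b, if_pos rfl, ha] at h
    exact h
  -- E4
  have hN1 : 1 ≤ N := by
    have h := h2' z
    have hz1 : aaFun A z = A.card := by
      have := aaFun_nsmul z A hAz hAs 1
      rwa [one_nsmul, ha] at this
    rw [hz1, if_neg hz, zero_add] at h
    have hNe : N = ∑ y, ind B y * (1 - ind B (y + z)) := by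
      simp only [mul_sub, mul_one, Finset.sum_sub_distrib]
      rw [hb]; linarith
    rw [hNe]
    have hterm : ind B y0 * (1 - ind B (y0 + z)) = 1 := by
      unfold ind; rw [if_pos hy0, if_neg hy0']; ring
    calc (1 : ℤ) = ind B y0 * (1 - ind B (y0 + z)) := hterm.symm
      _ ≤ ∑ y, ind B y * (1 - ind B (y + z)) :=
        Finset.single_le_sum (f := fun y => ind B y * (1 - ind B (y + z)))
          (fun y _ => mul_nonneg (ind_nonneg B y) (by linarith [ind_le_one B (y + z)]))
          (Finset.mem_univ y0)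
  -- E5
  have hNs : N = ((A.card : ℤ) - B.card) ^ 2 := by linear_combination E1 - E2
  have hs : (p : ℤ) ≤ |(A.card : ℤ) - B.card| := by
    have hd : (p : ℤ) ∣ (A.card : ℤ) - B.card := by
      rw [hNs] at hpN
      exact Int.Prime.dvd_pow' hp hpN
    have hne : (A.card : ℤ) - B.card ≠ 0 := by
      intro h0
      rw [h0] at hNs
      rw [hNs] at hN1
      norm_num at hN1
    exact Int.le_of_dvd (abs_pos.mpr hne) ((dvd_abs _ _).mpr hd)
  have hp3 : (3 : ℤ) ≤ p := by
    have := hp.two_le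
    have h3 : 3 ≤ p := by omega
    exact_mod_cast h3
  -- E6
  have i0 : ind A 0 = 0 := by unfold ind; rw [if_neg hA0]
  have h2'' : ∀ k, ∑ x, ind A x * ind A (k - x) + ∑ y, ind B y * ind B (y + k) =
      (if k = 0 then N else 0) + μ := h2'
  have hT : ∀ k, ∑ x, ind A x * aaFun A (k - x) =
      N * ind A k + ∑ x, ind A x * aaFun A (0 - x) := by
    intro k
    have t1 := triple_count (ind A) (ind B) μ N h1' h2'' k
    have t0 := triple_count (ind A) (ind B) μ N h1' h2'' 0
    rw [i0] at t0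
    have t1' : 2 * ∑ x, ind A x * aaFun A (k - x) =
        2 * N * ind A k + 2 * μ * ∑ x, ind A x - μ * ∑ y, ind B y := t1
    have t0' : 2 * ∑ x, ind A x * aaFun A (0 - x) =
        2 * N * 0 + 2 * μ * ∑ x, ind A x - μ * ∑ y, ind B y := t0
    linarith
  have E6 : (A.card : ℤ) ^ 3 = N * A.card + n * ∑ x, ind A x * aaFun A (0 - x) := by
    have h : ∑ k : ZMod n, ∑ x, ind A x * aaFun A (k - x) =
        ∑ k : ZMod n, (N * ind A k + ∑ x, ind A x * aaFun A (0 - x)) :=
      Finset.sum_congr rfl (fun k _ => hT k)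
    rw [sum_conv, sum_aaFun, Finset.sum_add_distrib, ← Finset.mul_sum, Finset.sum_const,
      nsmul_eq_mul, hcard, ha] at h
    linarith
  -- E7
  have hsq : ∑ m, aaFun A m * aaFun A m =
      A.card * (N + ∑ x, ind A x * aaFun A (0 - x)) := by
    rw [sum_aaFun_sq A hAs]
    have h : ∑ x, ind A x * ∑ u, ind A u * aaFun A (x - u) =
        ∑ x, (N * ind A x + (∑ x, ind A x * aaFun A (0 - x)) * ind A x) := by
      refine Finset.sum_congr rfl fun x _ => ?_
      rw [hT x]
      have := ind_mul_self A x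
      linear_combination N * this
    rw [h, Finset.sum_add_distrib, ← Finset.mul_sum, ← Finset.mul_sum, ha]
    ring
  -- the multiples of z
  have : Fact p.Prime := ⟨hp⟩
  have hord : addOrderOf z = p := addOrderOf_eq_prime hpz hz
  let Z : Finset (ZMod n) := (Finset.range p).image (fun j => j • z)
  have hZcard : Z.card = p := by
    apply (Finset.card_image_of_injOn _).trans (Finset.card_range p)
    rw [Finset.coe_range, ← hord]
    exact nsmul_injOn_Iio_addOrderOf
  have hZη : ∀ m ∈ Z, aaFun A m = A.card := by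
    intro m hm
    obtain ⟨j, -, rfl⟩ := Finset.mem_image.mp hm
    rw [aaFun_nsmul z A hAz hAs j, ha]
  have hZ1 : ∑ m ∈ Z, aaFun A m = p * A.card := by
    rw [Finset.sum_congr rfl hZη, Finset.sum_const, nsmul_eq_mul, hZcard]
  have hZ2 : ∑ m ∈ Z, aaFun A m ^ 2 = p * (A.card : ℤ) ^ 2 := by
    rw [Finset.sum_congr rfl (fun m hm => by rw [hZη m hm]), Finset.sum_const, nsmul_eq_mul,
      hZcard]
  have hsub : Z ⊆ Finset.univ := Finset.subset_univ _
  have hS1 : ∑ m ∈ Finset.univ \ Z, aaFun A m = (A.card : ℤ) ^ 2 - p * A.card := by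
    have := Finset.sum_sdiff (f := aaFun A) hsub
    rw [hZ1, sum_aaFun, ha] at this
    linarith
  have hS2 : ∑ m ∈ Finset.univ \ Z, aaFun A m ^ 2 =
      A.card * (N + ∑ x, ind A x * aaFun A (0 - x)) - p * (A.card : ℤ) ^ 2 := by
    have := Finset.sum_sdiff (f := fun m => aaFun A m ^ 2) hsub
    rw [hZ2] at this
    have h' : ∑ m, aaFun A m ^ 2 = ∑ m, aaFun A m * aaFun A m :=
      Finset.sum_congr rfl fun m _ => sq _
    rw [h', hsq] at this
    linarith
  have hS3 : ((Finset.univ \ Z).card : ℤ) = n - p := by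
    rw [Finset.cast_card_sdiff hsub, hcard, hZcard]
  have CS := sq_sum_le_card_mul_sum_sq (s := Finset.univ \ Z) (f := aaFun A)
  rw [hS1, hS2, hS3] at CS
  exact r3_arith A.card B.card n p N μ _ hp3 ha1 han hb1 hbn E1 E2 E3 hN1 hs E6 CS

end Cfsg.Agent.H98.Dih
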