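import Cfsg.Agent.H98.DihL2

set_option autoImplicit false
set_option linter.unusedSectionVars false

/-!
# Piece R3T of S3572 (helper98): the rank 3 configuration is impossible in a cyclic 2-group.
-/

namespace Cfsg.Agent.H98.Dih

variable {n : ℕ} [NeZero n]

/-- piece R3T of S3572. -/
theorem r3_two_core (e : ℕ) (hn : n = 2 ^ e) (z : ZMod n) (hz : z ≠ 0) (h2z : 2 • z = 0)
    (A B : Finset (ZMod n)) (μ N : ℤ) (hA0 : (0 : ZMod n) ∉ A) (hAne : A.Nonempty)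
    (hAz : ∀ i ∈ A, i + z ∈ A) (hAs : ∀ i ∈ A, -i ∈ A) (hBz : ¬ ∀ i ∈ B, i + z ∈ B)
    (h1 : ∀ k : ZMod n, 2 * (((A ×ˢ B).filter (fun x => x.1 + x.2 = k)).card : ℤ) = μ)
    (h2 : ∀ k : ZMod n, (((A ×ˢ A).filter (fun x => x.1 + x.2 = k)).card : ℤ) +
      (((B ×ˢ B).filter (fun x => x.2 - x.1 = k)).card : ℤ) = (if k = 0 then N else 0) + μ) :
    False := by
  apply hBz
  apply autocorr_even e hn z hz h2z B
  intro k
  have hN : (2 : ℤ) ∣ N := by
    exact_mod_cast r3_dvd 2 Nat.prime_two z hz h2z A B μ N hA0 hAne hAz hAs h1 h2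
  have hμ : (2 : ℤ) ∣ μ := ⟨_, (h1 0).symm⟩
  have hAA : (2 : ℤ) ∣ (((A ×ˢ A).filter (fun x => x.1 + x.2 = k)).card : ℤ) := by
    exact_mod_cast aa_dvd 2 Nat.prime_two z hz h2z A hAz hAs k
  have hBB : (2 : ℤ) ∣ (((B ×ˢ B).filter (fun x => x.2 - x.1 = k)).card : ℤ) := by
    have h := h2 k
    have e' : (((B ×ˢ B).filter (fun x => x.2 - x.1 = k)).card : ℤ) =
        (if k = 0 then N else 0) + μ -
          (((A ×ˢ A).filter (fun x => x.1 + x.2 = k)).card : ℤ) := by linarith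
    rw [e']
    refine dvd_sub (dvd_add ?_ hμ) hAA
    split_ifs
    · exact hN
    · exact dvd_zero _
  rw [even_iff_two_dvd]
  exact_mod_cast hBB

end Cfsg.Agent.H98.Dih
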