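import Mathlib
import Cfsg.Agent.H98.GLkDefs

set_option autoImplicit false

/-!
# S2478, piece NUM (helper98): the configuration count is at most `q ^ n`.
-/

namespace Cfsg.Agent.H98.GLk

/-- `oCount q J n = ∑_m q^m * cfgCount q J (n - (J+1) m)`: the count where the polynomial of
exponent `J + 1` may have constant coefficient zero. -/
def oCount (q J n : ℕ) : ℕ :=
  ∑ m ∈ Finset.range (n / (J + 1) + 1), q ^ m * cfgCount q J (n - (J + 1) * m)

theorem cfgCount_zero_right (q J : ℕ) : cfgCount q J 0 = 1 := by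
  induction J with
  | zero => rfl
  | succ J ih =>
    rw [cfgCount_succ]
    simp [cm, ih]

theorem div_succ_of_le {J n : ℕ} (h : J + 1 ≤ n) :
    n / (J + 1) = (n - (J + 1)) / (J + 1) + 1 :=
  Nat.div_eq_sub_div (Nat.succ_pos J) h

theorem cfgCount_step_lt (q J n : ℕ) (h : n < J + 1) : cfgCount q (J + 1) n = cfgCount q J n := by
  rw [cfgCount_succ, Nat.div_eq_of_lt h]
  simp [cm]

theorem cfgCount_step_ge (q J n : ℕ) (h : J + 1 ≤ n) :
    cfgCount q (J + 1) n = cfgCount q J n + (q - 1) * oCount q J (n - (J + 1)) := by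
  rw [cfgCount_succ, div_succ_of_le h, Finset.sum_range_succ', oCount, Finset.mul_sum]
  have h0 : cm q 0 * cfgCount q J (n - (J + 1) * 0) = cfgCount q J n := by simp [cm]
  rw [h0, add_comm]
  congr 1
  apply Finset.sum_congr rfl
  intro m _
  have h1 : cm q (m + 1) = (q - 1) * q ^ m := by
    simp only [cm, Nat.add_eq_zero_iff, one_ne_zero, and_false, if_false, Nat.add_sub_cancel]
    rw [pow_succ, Nat.sub_mul, one_mul, mul_comm]
  have h2 : n - (J + 1) * (m + 1) = n - (J + 1) - (J + 1) * m := by
    rw [Nat.mul_succ, Nat.sub_sub, add_comm]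
  rw [h1, h2, mul_assoc]

theorem oCount_step_lt (q J n : ℕ) (h : n < J + 1) : oCount q J n = cfgCount q J n := by
  rw [oCount, Nat.div_eq_of_lt h]
  simp

theorem oCount_step_ge (q J n : ℕ) (h : J + 1 ≤ n) :
    oCount q J n = cfgCount q J n + q * oCount q J (n - (J + 1)) := by
  rw [oCount, div_succ_of_le h, Finset.sum_range_succ', oCount, Finset.mul_sum]
  have h0 : q ^ 0 * cfgCount q J (n - (J + 1) * 0) = cfgCount q J n := by simp
  rw [h0, add_comm]
  congr 1
  apply Finset.sum_congr rfl
  intro m _
  have h2 : n - (J + 1) * (m + 1) = n - (J + 1) - (J + 1) * m := by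
    rw [Nat.mul_succ, Nat.sub_sub, add_comm]
  rw [h2, pow_succ, mul_comm (q ^ m) q, mul_assoc]

theorem oCount_le_of (q J : ℕ)
    (h1 : ∀ n, 1 ≤ n → cfgCount q J n + q ^ (n - min J n) ≤ q ^ n) (n : ℕ) :
    oCount q J n ≤ q ^ n := by
  induction n using Nat.strong_induction_on with
  | _ n ih =>
    by_cases h : n < J + 1
    · rw [oCount_step_lt q J n h]
      rcases Nat.eq_zero_or_pos n with rfl | hn
      · rw [cfgCount_zero_right]; simp
      · exact le_trans (Nat.le_add_right _ _) (h1 n hn)
    · have hge : J + 1 ≤ n := not_lt.mp h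
      rw [oCount_step_ge q J n hge]
      have h2 := ih (n - (J + 1)) (by omega)
      have h3 := h1 n (by omega)
      have h4 : min J n = J := min_eq_left (by omega)
      rw [h4] at h3
      have h5 : q * q ^ (n - (J + 1)) = q ^ (n - J) := by
        rw [← pow_succ']
        congr 1
        omega
      calc cfgCount q J n + q * oCount q J (n - (J + 1))
          ≤ cfgCount q J n + q * q ^ (n - (J + 1)) :=
            Nat.add_le_add_left (Nat.mul_le_mul_left _ h2) _
        _ = cfgCount q J n + q ^ (n - J) := by rw [h5]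
        _ ≤ q ^ n := h3

theorem cfgCount_inv (q : ℕ) (hq : 1 ≤ q) (J : ℕ) :
    ∀ n, 1 ≤ n → cfgCount q J n + q ^ (n - min J n) ≤ q ^ n := by
  induction J with
  | zero =>
    intro n hn
    rw [cfgCount_zero, if_neg (by omega)]
    simp
  | succ J ih =>
    intro n hn
    have hO := oCount_le_of q J ih
    by_cases h : n < J + 1
    · rw [cfgCount_step_lt q J n h]
      have h1 := ih n hn
      have h2 : min (J + 1) n = min J n := by
        rw [min_eq_right (by omega), min_eq_right (by omega)]
      rw [h2]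
      exact h1
    · have hge : J + 1 ≤ n := not_lt.mp h
      rw [cfgCount_step_ge q J n hge]
      have h1 := ih n hn
      have h4 : min J n = J := min_eq_left (by omega)
      have h5 : min (J + 1) n = J + 1 := min_eq_left hge
      rw [h4] at h1
      rw [h5]
      have h2 := hO (n - (J + 1))
      have h6 : (q - 1) * q ^ (n - (J + 1)) + q ^ (n - (J + 1)) = q ^ (n - J) := by
        have : (q - 1) * q ^ (n - (J + 1)) + q ^ (n - (J + 1)) = q * q ^ (n - (J + 1)) := by
          obtain ⟨r, rfl⟩ : ∃ r, q = r + 1 := ⟨q - 1, by omega⟩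
          rw [Nat.add_sub_cancel]
          ring
        rw [this, ← pow_succ']
        congr 1
        omega
      calc cfgCount q J n + (q - 1) * oCount q J (n - (J + 1)) + q ^ (n - (J + 1))
          ≤ cfgCount q J n + (q - 1) * q ^ (n - (J + 1)) + q ^ (n - (J + 1)) :=
            Nat.add_le_add_right (Nat.add_le_add_left (Nat.mul_le_mul_left _ h2) _) _
        _ = cfgCount q J n + q ^ (n - J) := by rw [add_assoc, h6]
        _ ≤ q ^ n := h1

/-- piece S2478-NUM. -/
theorem cfgCount_le (q : ℕ) (hq : 1 ≤ q) (J n : ℕ) : cfgCount q J n ≤ q ^ n := by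
  rcases Nat.eq_zero_or_pos n with rfl | hn
  · rw [cfgCount_zero_right]; simp
  · exact le_trans (Nat.le_add_right _ _) (cfgCount_inv q hq J n hn)

end Cfsg.Agent.H98.GLk
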