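import Mathlib
import Cfsg.Agent.H98.PartStab

/-!
# helper98: the affine group `AGL₃(2)` on `Fin 4 × Fin 2`, and the even part of `S₂ ≀ S₄`
-/

set_option autoImplicit false

namespace Cfsg.Agent.H98

/-- Bitwise xor on `Fin 4`. -/
def xor4 (a b : Fin 4) : Fin 4 :=
  ![![0, 1, 2, 3], ![1, 0, 3, 2], ![2, 3, 0, 1], ![3, 2, 1, 0]] a b

/-- The eight points, seen as `𝔽₂² × 𝔽₂`. -/
abbrev P8 := Fin 4 × Fin 2

/-- Addition of the elementary abelian group structure on `P8`. -/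
def add8 (p q : P8) : P8 := (xor4 p.1 q.1, p.2 + q.2)

/-- The affine permutations of `P8`. -/
def aff8 : Subgroup (Equiv.Perm P8) where
  carrier := {h | ∀ x y z, h (add8 (add8 x y) z) = add8 (add8 (h x) (h y)) (h z)}
  one_mem' := fun _ _ _ => rfl
  mul_mem' := by
    intro a b ha hb x y z
    change a (b (add8 (add8 x y) z)) = add8 (add8 (a (b x)) (a (b y))) (a (b z))
    rw [hb, ha]
  inv_mem' := by
    intro a ha x y z
    rw [Equiv.Perm.inv_eq_iff_eq, ha]
    simp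

theorem mem_aff8 {h : Equiv.Perm P8} :
    h ∈ aff8 ↔ ∀ x y z, h (add8 (add8 x y) z) = add8 (add8 (h x) (h y)) (h z) := Iff.rfl

theorem perm4_affine : ∀ σ : Equiv.Perm (Fin 4), ∀ a b d : Fin 4,
    σ (xor4 (xor4 a b) d) = xor4 (xor4 (σ a) (σ b)) (σ d) := by
  decide

theorem fun4_affine : ∀ c : Fin 4 → Fin 2,
    (∏ w, (if c w = 1 then (-1 : ℤˣ) else 1)) = 1 →
    ∀ a b d : Fin 4, c (xor4 (xor4 a b) d) = c a + c b + c d := by
  decide

theorem fin2_arith : ∀ a b d x y z : Fin 2,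
    a + b + d + (x + y + z) = a + x + (b + y) + (d + z) := by
  decide

theorem fin2_flip : ∀ a t : Fin 2,
    (if a = 1 then Equiv.swap (0 : Fin 2) 1 else 1) t = a + t := by
  decide

theorem fin2_ne : ∀ a b : Fin 2, a ≠ b → a = b + 1 := by
  decide

/-- The even elements of `S₂ ≀ S₄` are affine. -/
theorem partStab_inf_alt_le_aff8 :
    partStab (Prod.fst : P8 → Fin 4) ⊓ alternatingGroup P8 ≤ aff8 := by
  intro g hgmem
  obtain ⟨hg, hsign⟩ := Subgroup.mem_inf.mp hgmem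
  rw [Equiv.Perm.mem_alternatingGroup] at hsign
  have hg' : ∀ x y : P8, x.1 = y.1 ↔ (g x).1 = (g y).1 := hg
  have h1 : ∀ w, (g (w, 1)).1 = (g (w, 0)).1 := fun w => (hg' (w, 1) (w, 0)).mp rfl
  have h2 : ∀ w, (g (w, 1)).2 = (g (w, 0)).2 + 1 := by
    intro w
    have hne : g (w, 1) ≠ g (w, 0) := fun h => by
      have := g.injective h
      simp at this
    have : (g (w, 1)).2 ≠ (g (w, 0)).2 := fun h => hne (Prod.ext (h1 w) h)
    exact fin2_ne _ _ this
  have hinj : Function.Injective (fun w : Fin 4 => (g (w, 0)).1) := by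
    intro w w' h
    exact (hg' (w, 0) (w', 0)).mpr h
  let σ : Equiv.Perm (Fin 4) := Equiv.ofBijective _ (Finite.injective_iff_bijective.mp hinj)
  have hσ : ∀ w, σ w = (g (w, 0)).1 := fun w => rfl
  set c : Fin 4 → Fin 2 := fun w => (g (w, 0)).2 with hc
  have hgform : ∀ w t, g (w, t) = (σ w, c w + t) := by
    intro w t
    rcases Fin.exists_fin_two.mp ⟨t, rfl⟩ with rfl | rfl
    · exact Prod.ext (hσ w) (by simp [hc])
    · exact Prod.ext ((h1 w).trans (hσ w).symm) (h2 w)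
  have hdecomp : g = Equiv.prodCongrLeft (fun _ : Fin 2 => σ) *
      Equiv.prodCongrRight (fun w => if c w = 1 then Equiv.swap (0 : Fin 2) 1 else 1) := by
    ext ⟨w, t⟩ : 1
    rw [Equiv.Perm.mul_apply, Equiv.prodCongrRight_apply, Equiv.prodCongrLeft_apply, hgform,
      fin2_flip]
  have hsign' : (∏ w, (if c w = 1 then (-1 : ℤˣ) else 1)) = 1 := by
    rw [hdecomp, Equiv.Perm.sign_mul, Equiv.Perm.sign_prodCongrLeft,
      Equiv.Perm.sign_prodCongrRight, Fin.prod_univ_two, Int.units_mul_self, one_mul] at hsign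
    have key : ∀ w, (if c w = 1 then (-1 : ℤˣ) else 1) =
        Equiv.Perm.sign (if c w = 1 then Equiv.swap (0 : Fin 2) 1 else 1) := by
      intro w
      split_ifs
      · rw [Equiv.Perm.sign_swap (by decide)]
      · rw [Equiv.Perm.sign_one]
    rw [Finset.prod_congr rfl (fun w _ => key w)]
    exact hsign
  rw [mem_aff8]
  rintro ⟨x1, x2⟩ ⟨y1, y2⟩ ⟨z1, z2⟩
  simp only [add8, hgform]
  refine Prod.ext (perm4_affine σ x1 y1 z1) ?_
  change c (xor4 (xor4 x1 y1) z1) + (x2 + y2 + z2) = c x1 + x2 + (c y1 + y2) + (c z1 + z2)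
  rw [fun4_affine c hsign', fin2_arith]

/-- An even affine permutation that does not preserve the partition. -/
def aff8Wit : Equiv.Perm P8 :=
  Equiv.swap ((1 : Fin 4), (0 : Fin 2)) (0, 1) * Equiv.swap ((3 : Fin 4), (0 : Fin 2)) (2, 1)

theorem aff8Wit_mem : aff8Wit ∈ aff8 := by
  rw [mem_aff8]
  unfold aff8Wit
  decide

theorem aff8Wit_sign : Equiv.Perm.sign aff8Wit = 1 := by
  unfold aff8Wit
  rw [Equiv.Perm.sign_mul, Equiv.Perm.sign_swap (by decide), Equiv.Perm.sign_swap (by decide)]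
  rfl

theorem aff8Wit_not_mem : aff8Wit ∉ partStab (Prod.fst : P8 → Fin 4) := by
  intro h
  have := (h ((0 : Fin 4), (0 : Fin 2)) (0, 1)).mp rfl
  revert this
  unfold aff8Wit
  decide

/-- An even permutation that is not affine (a 3-cycle). -/
def nonAff8Wit : Equiv.Perm P8 :=
  Equiv.swap ((0 : Fin 4), (0 : Fin 2)) (0, 1) * Equiv.swap ((0 : Fin 4), (0 : Fin 2)) (1, 0)

theorem nonAff8Wit_sign : Equiv.Perm.sign nonAff8Wit = 1 := by
  unfold nonAff8Wit
  rw [Equiv.Perm.sign_mul, Equiv.Perm.sign_swap (by decide), Equiv.Perm.sign_swap (by decide)]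
  rfl

theorem nonAff8Wit_not_mem : nonAff8Wit ∉ aff8 := by
  intro h
  have := h ((0 : Fin 4), (0 : Fin 2)) (2, 0) (2, 1)
  revert this
  unfold nonAff8Wit
  decide

end Cfsg.Agent.H98
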