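import Mathlib
import Cfsg.Agent.H98.PartStab
import Cfsg.Agent.H98.SubgroupOf
import Cfsg.Agent.H98.Perfect

/-!
# helper98: the even part of the imprimitive wreath product `S_a ≀ S_b` in `A_{ab}`
-/

set_option autoImplicit false

namespace Cfsg.Agent.H98

open Equiv

section Cyc

variable {Ω : Type*} [DecidableEq Ω]

/-- The 3-cycle `x → y → z → x` (when `x, y, z` are distinct). -/
def cyc (x y z : Ω) : Perm Ω := Equiv.swap x y * Equiv.swap y z

theorem conj_cyc (g : Perm Ω) (x y z : Ω) : g * cyc x y z * g⁻¹ = cyc (g x) (g y) (g z) := by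
  unfold cyc
  rw [Equiv.swap_apply_apply, Equiv.swap_apply_apply]
  group

theorem cyc_inv (x y z : Ω) : (cyc x y z)⁻¹ = cyc z y x := by
  unfold cyc
  rw [mul_inv_rev, Equiv.swap_inv, Equiv.swap_inv, Equiv.swap_comm y z, Equiv.swap_comm x y]

theorem cyc_rot {x y z : Ω} (hxy : x ≠ y) (hxz : x ≠ z) : cyc x y z = cyc y z x := by
  unfold cyc
  have h := Equiv.swap_apply_apply (Equiv.swap y z) x z
  rw [Equiv.swap_apply_of_ne_of_ne hxy hxz, Equiv.swap_apply_right] at h
  rw [h, Equiv.swap_comm z x]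
  group

theorem sign_cyc [Fintype Ω] {x y z : Ω} (hxy : x ≠ y) (hyz : y ≠ z) :
    Equiv.Perm.sign (cyc x y z) = 1 := by
  unfold cyc
  rw [Equiv.Perm.sign_mul, Equiv.Perm.sign_swap hxy, Equiv.Perm.sign_swap hyz]
  rfl

theorem cyc_apply_left {x y z : Ω} (hxy : x ≠ y) (hxz : x ≠ z) : cyc x y z x = y := by
  unfold cyc
  rw [Perm.mul_apply, Equiv.swap_apply_of_ne_of_ne hxy hxz, Equiv.swap_apply_left]

theorem cyc_apply_mid {x y z : Ω} (hxz : x ≠ z) (hyz : y ≠ z) : cyc x y z y = z := by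
  unfold cyc
  rw [Perm.mul_apply, Equiv.swap_apply_left, Equiv.swap_apply_of_ne_of_ne (Ne.symm hxz) (Ne.symm hyz)]

theorem cyc_apply_right (x y z : Ω) : cyc x y z z = x := by
  unfold cyc
  rw [Perm.mul_apply, Equiv.swap_apply_right, Equiv.swap_apply_right]

theorem cyc_apply_of_ne {x y z u : Ω} (hx : u ≠ x) (hy : u ≠ y) (hz : u ≠ z) :
    cyc x y z u = u := by
  unfold cyc
  rw [Perm.mul_apply, Equiv.swap_apply_of_ne_of_ne hy hz, Equiv.swap_apply_of_ne_of_ne hx hy]

/-- A four point identity: `(R Q P)(P₂ Q R) = (P₂ P R)`. -/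
theorem cyc_mul_cyc {P Q R P₂ : Ω} (hPQ : P ≠ Q) (hPR : P ≠ R) (hQR : Q ≠ R) (hP₂P : P₂ ≠ P)
    (hP₂Q : P₂ ≠ Q) (hP₂R : P₂ ≠ R) : cyc R Q P * cyc P₂ Q R = cyc P₂ P R := by
  ext u
  rw [Perm.mul_apply]
  by_cases h1 : u = P₂
  · subst h1
    rw [cyc_apply_left hP₂Q hP₂R, cyc_apply_mid (Ne.symm hPR) (Ne.symm hPQ),
      cyc_apply_left hP₂P hP₂R]
  by_cases h2 : u = P
  · subst h2
    rw [cyc_apply_of_ne (Ne.symm hP₂P) hPQ hPR, cyc_apply_right,
      cyc_apply_mid hP₂R hPR]
  by_cases h3 : u = R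
  · subst h3
    rw [cyc_apply_right, cyc_apply_of_ne hP₂R hP₂Q hP₂P, cyc_apply_right]
  by_cases h4 : u = Q
  · subst h4
    rw [cyc_apply_mid hP₂R hQR, cyc_apply_left (Ne.symm hQR) (Ne.symm hPR),
      cyc_apply_of_ne (Ne.symm hP₂Q) (Ne.symm hPQ) hQR]
  · rw [cyc_apply_of_ne h1 h4 h3, cyc_apply_of_ne h3 h4 h2, cyc_apply_of_ne h1 h2 h3]

theorem cyc_mem_partStab {β : Type*} {f : Ω → β} {x y z : Ω} (hxy : f x = f y)
    (hyz : f y = f z) : cyc x y z ∈ partStab f :=
  (partStab f).mul_mem (swap_mem_partStab hxy) (swap_mem_partStab hyz)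

end Cyc

section Fibre

variable {Ω : Type*} [Finite Ω] {a b : ℕ}

theorem exists_ne_in_fibre (ha : 2 ≤ a) (f : Ω → Fin b)
    (hf : ∀ i : Fin b, Nat.card {x : Ω // f x = i} = a) (x : Ω) :
    ∃ x', f x' = f x ∧ x' ≠ x := by
  have : Nontrivial {y : Ω // f y = f x} :=
    Finite.one_lt_card_iff_nontrivial.mp (by rw [hf]; omega)
  obtain ⟨⟨y, hy⟩, hne⟩ := exists_ne (⟨x, rfl⟩ : {y : Ω // f y = f x})
  exact ⟨y, hy, fun h => hne (Subtype.ext h)⟩

theorem exists_pair_in_fibre (ha : 2 ≤ a) (f : Ω → Fin b)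
    (hf : ∀ i : Fin b, Nat.card {x : Ω // f x = i} = a) (i : Fin b) :
    ∃ z z', f z = i ∧ f z' = i ∧ z ≠ z' := by
  have : Nontrivial {y : Ω // f y = i} :=
    Finite.one_lt_card_iff_nontrivial.mp (by rw [hf]; omega)
  obtain ⟨⟨y, hy⟩, ⟨y', hy'⟩, hne⟩ := exists_pair_ne {y : Ω // f y = i}
  exact ⟨y, y', hy, hy', fun h => hne (Subtype.ext h)⟩

theorem exists_third_in_fibre [DecidableEq Ω] (ha : 3 ≤ a) (f : Ω → Fin b)
    (hf : ∀ i : Fin b, Nat.card {x : Ω // f x = i} = a) (x y : Ω) :
    ∃ z, f z = f x ∧ z ≠ x ∧ z ≠ y := by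
  by_contra hcon
  have hcon' : ∀ z, f z = f x → z ≠ x → z = y := by
    intro z h1 h2
    by_contra h3
    exact hcon ⟨z, h1, h2, h3⟩
  have hinj : Function.Injective (fun z : {z : Ω // f z = f x} => decide ((z : Ω) = x)) := by
    rintro ⟨z, hz⟩ ⟨w, hw⟩ h
    simp only [decide_eq_decide] at h
    apply Subtype.ext
    show z = w
    by_cases hzx : z = x
    · rw [hzx, h.mp hzx]
    · have hwx : w ≠ x := fun hw' => hzx (h.mpr hw')
      rw [hcon' z hz hzx, hcon' w hw hwx]
  have := Nat.card_le_card_of_injective _ hinj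
  rw [hf, Nat.card_eq_fintype_card, Fintype.card_bool] at this
  omega

end Fibre

section Main

variable {Ω : Type*} [Fintype Ω] [DecidableEq Ω] {a b : ℕ}

/-- If a subgroup contains the even part of the partition stabilizer and one 3-cycle with two
points in a block and the third point outside, then it contains the alternating group. -/
theorem alt_le_of_typeA (ha : 2 ≤ a) (f : Ω → Fin b)
    (hf : ∀ i : Fin b, Nat.card {x : Ω // f x = i} = a) (L : Subgroup (Perm Ω))
    (hKL : partStab f ⊓ alternatingGroup Ω ≤ L)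
    (hA : ∃ p q r, f q = f r ∧ q ≠ r ∧ f p ≠ f q ∧ cyc p q r ∈ L) :
    alternatingGroup Ω ≤ L := by
  obtain ⟨p, q, r, hqr, hqr', hpq, hc⟩ := hA
  have typeA : ∀ p₂ q₂ r₂, f q₂ = f r₂ → q₂ ≠ r₂ → f p₂ ≠ f q₂ → cyc p₂ q₂ r₂ ∈ L := by
    intro p₂ q₂ r₂ h1 h2 h3
    obtain ⟨k₁, hk₁, hk₁p, hk₁q⟩ := exists_mem_partStab_pair f hf hpq h3
    have hr'f : f (k₁ r) = f q₂ := by
      have := (hk₁ q r).mp hqr
      rw [hk₁q] at this
      exact this.symm
    have hr'q : k₁ r ≠ q₂ := by
      intro h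
      apply hqr'
      apply k₁.injective
      rw [hk₁q]
      exact h.symm
    have hp₂r' : p₂ ≠ k₁ r := fun h => h3 (by rw [h, hr'f])
    have hp₂r₂ : p₂ ≠ r₂ := fun h => h3 (by rw [h, h1])
    have hp₂q₂ : p₂ ≠ q₂ := fun h => h3 (by rw [h])
    have hk₂ : Equiv.swap (k₁ r) r₂ * k₁ ∈ partStab f :=
      (partStab f).mul_mem (swap_mem_partStab (hr'f.trans h1)) hk₁
    have hk₂p : (Equiv.swap (k₁ r) r₂ * k₁) p = p₂ := by
      rw [Perm.mul_apply, hk₁p, Equiv.swap_apply_of_ne_of_ne hp₂r' hp₂r₂]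
    have hk₂q : (Equiv.swap (k₁ r) r₂ * k₁) q = q₂ := by
      rw [Perm.mul_apply, hk₁q, Equiv.swap_apply_of_ne_of_ne (Ne.symm hr'q) h2]
    have hk₂r : (Equiv.swap (k₁ r) r₂ * k₁) r = r₂ := by
      rw [Perm.mul_apply, Equiv.swap_apply_left]
    by_cases hs : Equiv.Perm.sign (Equiv.swap (k₁ r) r₂ * k₁) = 1
    · have hmem : Equiv.swap (k₁ r) r₂ * k₁ ∈ L := hKL (Subgroup.mem_inf.mpr ⟨hk₂, hs⟩)
      have := L.mul_mem (L.mul_mem hmem hc) (L.inv_mem hmem)
      rwa [conj_cyc, hk₂p, hk₂q, hk₂r] at this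
    · have hs' : Equiv.Perm.sign (Equiv.swap (k₁ r) r₂ * k₁) = -1 :=
        (Int.units_eq_one_or _).resolve_left hs
      have hk₃ : Equiv.swap (k₁ r) r₂ * k₁ * Equiv.swap q r ∈ partStab f ⊓ alternatingGroup Ω := by
        refine Subgroup.mem_inf.mpr ⟨(partStab f).mul_mem hk₂ (swap_mem_partStab hqr), ?_⟩
        rw [Equiv.Perm.mem_alternatingGroup, Equiv.Perm.sign_mul, hs', Equiv.Perm.sign_swap hqr']
        rfl
      have hpq' : p ≠ q := fun h => hpq (by rw [h])
      have hpr' : p ≠ r := fun h => hpq (by rw [h, hqr])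
      have e1 : (Equiv.swap (k₁ r) r₂ * k₁ * Equiv.swap q r) p = p₂ := by
        rw [Perm.mul_apply, Equiv.swap_apply_of_ne_of_ne hpq' hpr', hk₂p]
      have e2 : (Equiv.swap (k₁ r) r₂ * k₁ * Equiv.swap q r) q = r₂ := by
        rw [Perm.mul_apply, Equiv.swap_apply_left, hk₂r]
      have e3 : (Equiv.swap (k₁ r) r₂ * k₁ * Equiv.swap q r) r = q₂ := by
        rw [Perm.mul_apply, Equiv.swap_apply_right, hk₂q]
      have := L.mul_mem (L.mul_mem (hKL hk₃) hc) (L.inv_mem (hKL hk₃))
      rw [conj_cyc, e1, e2, e3] at this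
      have h4 := L.inv_mem this
      rw [cyc_inv] at h4
      rw [cyc_rot hp₂q₂ hp₂r₂]
      exact h4
  rw [← Equiv.Perm.closure_three_cycles_eq_alternating, Subgroup.closure_le]
  intro σ hσ
  have hσ' : σ.IsThreeCycle := hσ
  obtain ⟨x, hx⟩ : ∃ x, x ∈ σ.support :=
    Finset.card_pos.mp (by rw [hσ'.card_support]; norm_num)
  have hnd := hσ'.nodup_iff_mem_support.mpr hx
  have heq : σ = cyc x (σ x) (σ (σ x)) := hσ'.eq_swap_mul_swap_iff_mem_support.mpr hx
  have hxy' : x ≠ σ x := by
    intro h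
    rw [← h, ← h] at hnd
    simp at hnd
  have hxz' : x ≠ σ (σ x) := by
    intro h
    rw [← h] at hnd
    simp at hnd
  have hyz' : σ x ≠ σ (σ x) := by
    intro h
    rw [← h] at hnd
    simp at hnd
  rw [SetLike.mem_coe, heq]
  generalize σ x = y at hxy' hxz' hyz'
  generalize σ y = z at hxz' hyz'
  by_cases hxy : f x = f y
  · by_cases hyz : f y = f z
    · exact hKL (Subgroup.mem_inf.mpr ⟨cyc_mem_partStab hxy hyz, sign_cyc hxy' hyz'⟩)
    · rw [cyc_rot hxy' hxz', cyc_rot hyz' (Ne.symm hxy')]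
      exact typeA z x y hxy hxy' (fun h => hyz (hxy.symm.trans h.symm))
  · by_cases hyz : f y = f z
    · exact typeA x y z hyz hyz' hxy
    · by_cases hxz : f x = f z
      · rw [cyc_rot hxy' hxz']
        exact typeA y z x hxz.symm (Ne.symm hxz') hyz
      · -- three different blocks
        obtain ⟨x', hx'f, hx'x⟩ := exists_ne_in_fibre ha f hf x
        have hτ : cyc z x' x ∈ L := typeA z x' x hx'f hx'x (fun h => hxz (h.trans hx'f).symm)
        have hα : cyc y x x' ∈ L := typeA y x x' hx'f.symm (Ne.symm hx'x) (fun h => hxy h.symm)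
        have h1 := L.mul_mem (L.mul_mem hτ hα) (L.inv_mem hτ)
        have hyz'' : y ≠ z := hyz'
        have hyx' : y ≠ x' := fun h => hxy (by rw [h, hx'f])
        have hzx' : z ≠ x' := fun h => hxz (by rw [h, hx'f])
        rw [conj_cyc, cyc_apply_of_ne hyz'' hyx' (Ne.symm hxy'), cyc_apply_right,
          cyc_apply_mid (Ne.symm hxz') hx'x] at h1
        rw [cyc_rot hxy' hxz']
        exact h1

/-- From an element of `L` that breaks a block, produce a 3-cycle of the right shape:
blocks of size at least three. -/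
theorem exists_typeA_of_three (ha : 3 ≤ a) (f : Ω → Fin b)
    (hf : ∀ i : Fin b, Nat.card {x : Ω // f x = i} = a) (L : Subgroup (Perm Ω))
    (hKL : partStab f ⊓ alternatingGroup Ω ≤ L) {h : Perm Ω} (hh : h ∈ L) {x y : Ω}
    (hxy : f x = f y) (hhxy : f (h x) ≠ f (h y)) :
    ∃ p q r, f q = f r ∧ q ≠ r ∧ f p ≠ f q ∧ cyc p q r ∈ L := by
  have hxy' : x ≠ y := fun h' => hhxy (by rw [h'])
  obtain ⟨z, hzf, hzx, hzy⟩ := exists_third_in_fibre ha f hf x y
  have hc : cyc x y z ∈ L := hKL (Subgroup.mem_inf.mpr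
    ⟨cyc_mem_partStab hxy (hxy.symm.trans hzf.symm), sign_cyc hxy' (Ne.symm hzy)⟩)
  have h1 := L.mul_mem (L.mul_mem hh hc) (L.inv_mem hh)
  rw [conj_cyc] at h1
  have hPQ : h x ≠ h y := fun h' => hxy' (h.injective h')
  have hPR : h x ≠ h z := fun h' => hzx (h.injective h').symm
  have hQR : h y ≠ h z := fun h' => hzy (h.injective h').symm
  by_cases hRQ : f (h z) = f (h y)
  · exact ⟨h x, h y, h z, hRQ.symm, hQR, hhxy, h1⟩
  by_cases hRP : f (h z) = f (h x)
  · refine ⟨h y, h z, h x, hRP, Ne.symm hPR, fun h' => hRQ h'.symm, ?_⟩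
    rw [← cyc_rot hPQ hPR]
    exact h1
  -- three different blocks
  obtain ⟨P₂, hP₂f, hP₂P⟩ := exists_ne_in_fibre (by omega) f hf (h x)
  obtain ⟨P₃, hP₃f, hP₃P, hP₃P₂⟩ := exists_third_in_fibre ha f hf (h x) P₂
  have hk : cyc (h x) P₂ P₃ ∈ L := hKL (Subgroup.mem_inf.mpr
    ⟨cyc_mem_partStab hP₂f.symm (hP₂f.trans hP₃f.symm), sign_cyc (Ne.symm hP₂P) (Ne.symm hP₃P₂)⟩)
  have hQP : h y ≠ h x := Ne.symm hPQ
  have hQP₂ : h y ≠ P₂ := fun h' => hhxy (by rw [h', hP₂f])
  have hQP₃ : h y ≠ P₃ := fun h' => hhxy (by rw [h', hP₃f])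
  have hRP' : h z ≠ h x := Ne.symm hPR
  have hRP₂ : h z ≠ P₂ := fun h' => hRP (by rw [h', hP₂f])
  have hRP₃ : h z ≠ P₃ := fun h' => hRP (by rw [h', hP₃f])
  have h2 := L.mul_mem (L.mul_mem hk h1) (L.inv_mem hk)
  rw [conj_cyc, cyc_apply_left (Ne.symm hP₂P) (Ne.symm hP₃P), cyc_apply_of_ne hQP hQP₂ hQP₃,
    cyc_apply_of_ne hRP' hRP₂ hRP₃] at h2
  have h3 := L.mul_mem (L.inv_mem h1) h2
  rw [cyc_inv, cyc_mul_cyc hPQ hPR hQR hP₂P (Ne.symm hQP₂) (Ne.symm hRP₂)] at h3
  refine ⟨h z, P₂, h x, hP₂f, hP₂P, fun h' => hRP (h'.trans hP₂f), ?_⟩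
  rw [cyc_rot hRP₂ hRP']
  exact h3

theorem exists_fin_notMem {b : ℕ} (s : Finset (Fin b)) (hs : s.card < b) : ∃ i, i ∉ s := by
  by_contra hcon
  have : s = Finset.univ :=
    Finset.eq_univ_iff_forall.mpr (fun i => by
      by_contra h
      exact hcon ⟨i, h⟩)
  rw [this, Finset.card_univ, Fintype.card_fin] at hs
  omega

omit [Fintype Ω] in
theorem conj_swap_mul_swap (k : Perm Ω) (p q r s : Ω) :
    k * (Equiv.swap p q * Equiv.swap r s) * k⁻¹ =
      Equiv.swap (k p) (k q) * Equiv.swap (k r) (k s) := by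
  rw [Equiv.swap_apply_apply, Equiv.swap_apply_apply]
  group

/-- From an element of `L` that breaks a block, produce a 3-cycle of the right shape:
at least five blocks. -/
theorem exists_typeA_of_five (ha : 2 ≤ a) (hb : 5 ≤ b) (f : Ω → Fin b)
    (hf : ∀ i : Fin b, Nat.card {x : Ω // f x = i} = a) (L : Subgroup (Perm Ω))
    (hKL : partStab f ⊓ alternatingGroup Ω ≤ L) {h : Perm Ω} (hh : h ∈ L) {x y : Ω}
    (hxy : f x = f y) (hhxy : f (h x) ≠ f (h y)) :
    ∃ p q r, f q = f r ∧ q ≠ r ∧ f p ≠ f q ∧ cyc p q r ∈ L := by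
  have hxy' : x ≠ y := fun h' => hhxy (by rw [h'])
  obtain ⟨q', hq'f, hq'q⟩ := exists_ne_in_fibre ha f hf (h y)
  obtain ⟨i, hi⟩ := exists_fin_notMem ({f x, f (h.symm q')} : Finset (Fin b))
    (lt_of_le_of_lt Finset.card_le_two (by omega))
  have hi1 : i ≠ f x := fun h' => hi (by simp [h'])
  have hi2 : i ≠ f (h.symm q') := fun h' => hi (by simp [h'])
  obtain ⟨z, z', hz, hz', hzz'⟩ := exists_pair_in_fibre ha f hf i
  have hk₀ : Equiv.swap x y * Equiv.swap z z' ∈ L := by
    apply hKL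
    refine Subgroup.mem_inf.mpr ⟨(partStab f).mul_mem (swap_mem_partStab hxy)
      (swap_mem_partStab (hz.trans hz'.symm)), ?_⟩
    rw [Equiv.Perm.mem_alternatingGroup, Equiv.Perm.sign_mul, Equiv.Perm.sign_swap hxy',
      Equiv.Perm.sign_swap hzz']
    rfl
  have ht := L.mul_mem (L.mul_mem hh hk₀) (L.inv_mem hh)
  rw [conj_swap_mul_swap] at ht
  obtain ⟨j, hj⟩ := exists_fin_notMem ({f (h x), f (h y), f (h z), f (h z')} : Finset (Fin b))
    (lt_of_le_of_lt Finset.card_le_four (by omega))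
  have hj1 : j ≠ f (h x) := fun h' => hj (by simp [h'])
  have hj2 : j ≠ f (h y) := fun h' => hj (by simp [h'])
  have hj3 : j ≠ f (h z) := fun h' => hj (by simp [h'])
  have hj4 : j ≠ f (h z') := fun h' => hj (by simp [h'])
  obtain ⟨u, u', hu, hu', huu'⟩ := exists_pair_in_fibre ha f hf j
  have hk : Equiv.swap (h y) q' * Equiv.swap u u' ∈ L := by
    apply hKL
    refine Subgroup.mem_inf.mpr ⟨(partStab f).mul_mem (swap_mem_partStab hq'f.symm)
      (swap_mem_partStab (hu.trans hu'.symm)), ?_⟩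
    rw [Equiv.Perm.mem_alternatingGroup, Equiv.Perm.sign_mul, Equiv.Perm.sign_swap (Ne.symm hq'q),
      Equiv.Perm.sign_swap huu']
    rfl
  -- distinctness facts
  have hpq : h x ≠ h y := fun h' => hxy' (h.injective h')
  have hpq' : h x ≠ q' := fun h' => hhxy (by rw [h', hq'f])
  have hzx : z ≠ x := fun h' => hi1 (by rw [← hz, h'])
  have hzy : z ≠ y := fun h' => hi1 (by rw [← hz, h', hxy])
  have hz'x : z' ≠ x := fun h' => hi1 (by rw [← hz', h'])
  have hz'y : z' ≠ y := fun h' => hi1 (by rw [← hz', h', hxy])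
  have hrp : h z ≠ h x := fun h' => hzx (h.injective h')
  have hrq : h z ≠ h y := fun h' => hzy (h.injective h')
  have hsp : h z' ≠ h x := fun h' => hz'x (h.injective h')
  have hsq : h z' ≠ h y := fun h' => hz'y (h.injective h')
  have hrq' : h z ≠ q' := by
    intro h'
    apply hi2
    rw [← h', Equiv.symm_apply_apply, hz]
  have hsq' : h z' ≠ q' := by
    intro h'
    apply hi2
    rw [← h', Equiv.symm_apply_apply, hz']
  have hpu : h x ≠ u := fun h' => hj1 (by rw [h', hu])
  have hpu' : h x ≠ u' := fun h' => hj1 (by rw [h', hu'])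
  have hqu : h y ≠ u := fun h' => hj2 (by rw [h', hu])
  have hqu' : h y ≠ u' := fun h' => hj2 (by rw [h', hu'])
  have hru : h z ≠ u := fun h' => hj3 (by rw [h', hu])
  have hru' : h z ≠ u' := fun h' => hj3 (by rw [h', hu'])
  have hsu : h z' ≠ u := fun h' => hj4 (by rw [h', hu])
  have hsu' : h z' ≠ u' := fun h' => hj4 (by rw [h', hu'])
  have kp : (Equiv.swap (h y) q' * Equiv.swap u u') (h x) = h x := by
    rw [Perm.mul_apply, Equiv.swap_apply_of_ne_of_ne hpu hpu',
      Equiv.swap_apply_of_ne_of_ne hpq hpq']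
  have kq : (Equiv.swap (h y) q' * Equiv.swap u u') (h y) = q' := by
    rw [Perm.mul_apply, Equiv.swap_apply_of_ne_of_ne hqu hqu', Equiv.swap_apply_left]
  have kr : (Equiv.swap (h y) q' * Equiv.swap u u') (h z) = h z := by
    rw [Perm.mul_apply, Equiv.swap_apply_of_ne_of_ne hru hru',
      Equiv.swap_apply_of_ne_of_ne hrq hrq']
  have ks : (Equiv.swap (h y) q' * Equiv.swap u u') (h z') = h z' := by
    rw [Perm.mul_apply, Equiv.swap_apply_of_ne_of_ne hsu hsu',
      Equiv.swap_apply_of_ne_of_ne hsq hsq']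
  have ht2 := L.mul_mem (L.mul_mem hk ht) (L.inv_mem hk)
  rw [conj_swap_mul_swap, kp, kq, kr, ks] at ht2
  have h3 := L.mul_mem ht ht2
  have hrs : h z ≠ h z' := fun h' => hzz' (h.injective h')
  have hcomm : Equiv.swap (h z) (h z') * Equiv.swap (h x) q' =
      Equiv.swap (h x) q' * Equiv.swap (h z) (h z') := by
    have hd : Equiv.Perm.Disjoint (Equiv.swap (h z) (h z')) (Equiv.swap (h x) q') := by
      apply Equiv.Perm.disjoint_swap_swap
      simp [hrs, hrp, hrq', hsp, hsq', hpq']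
    exact hd.commute.eq
  have h4 : Equiv.swap (h x) (h y) * Equiv.swap (h z) (h z') *
      (Equiv.swap (h x) q' * Equiv.swap (h z) (h z')) = cyc (h y) (h x) q' := by
    calc Equiv.swap (h x) (h y) * Equiv.swap (h z) (h z') *
          (Equiv.swap (h x) q' * Equiv.swap (h z) (h z'))
        = Equiv.swap (h x) (h y) * (Equiv.swap (h z) (h z') * Equiv.swap (h x) q') *
            Equiv.swap (h z) (h z') := by group
      _ = Equiv.swap (h x) (h y) * (Equiv.swap (h x) q' * Equiv.swap (h z) (h z')) *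
            Equiv.swap (h z) (h z') := by rw [hcomm]
      _ = Equiv.swap (h x) (h y) * Equiv.swap (h x) q' *
            (Equiv.swap (h z) (h z') * Equiv.swap (h z) (h z')) := by group
      _ = Equiv.swap (h x) (h y) * Equiv.swap (h x) q' := by rw [Equiv.swap_mul_self, mul_one]
      _ = cyc (h y) (h x) q' := by
        unfold cyc
        rw [Equiv.swap_comm (h y) (h x)]
  rw [h4] at h3
  refine ⟨h x, q', h y, hq'f, hq'q, fun h' => hhxy (h'.trans hq'f), ?_⟩
  rw [← cyc_rot (Ne.symm hpq) (Ne.symm hq'q)]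
  exact h3

end Main

section Count

/-- The order of the imprimitive wreath product `S_a ≀ S_b`, in its standard action on
`Fin b × Fin a`. -/
theorem card_partStab_fst (a b : ℕ) (ha : 0 < a) :
    Nat.card (partStab (Prod.fst : Fin b × Fin a → Fin b)) = b.factorial * a.factorial ^ b := by
  have : NeZero a := ⟨by omega⟩
  let Φ : Perm (Fin b) × (Fin b → Perm (Fin a)) → partStab (Prod.fst : Fin b × Fin a → Fin b) :=
    fun σh => ⟨Equiv.prodCongrLeft (fun _ => σh.1) * Equiv.prodCongrRight σh.2, by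
      intro x y
      show x.1 = y.1 ↔ σh.1 x.1 = σh.1 y.1
      exact σh.1.injective.eq_iff.symm⟩
  have hΦapp : ∀ σh i j, (Φ σh : Perm (Fin b × Fin a)) (i, j) = (σh.1 i, σh.2 i j) :=
    fun _ _ _ => rfl
  have hinj : Function.Injective Φ := by
    rintro ⟨σ, h⟩ ⟨σ', h'⟩ heq
    have key : ∀ i j, (σ i, h i j) = (σ' i, h' i j) := by
      intro i j
      have := congrArg (fun g : partStab (Prod.fst : Fin b × Fin a → Fin b) =>
        (g : Perm (Fin b × Fin a)) (i, j)) heq
      simpa only [hΦapp] using this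
    exact Prod.ext (Equiv.ext fun i => (Prod.ext_iff.mp (key i 0)).1)
      (funext fun i => Equiv.ext fun j => (Prod.ext_iff.mp (key i j)).2)
  have hsurj : Function.Surjective Φ := by
    rintro ⟨g, hg⟩
    have hg' : ∀ x y : Fin b × Fin a, x.1 = y.1 ↔ (g x).1 = (g y).1 := hg
    have key : ∀ i j, (g (i, j)).1 = (g (i, 0)).1 := fun i j => (hg' (i, j) (i, 0)).mp rfl
    have hσinj : Function.Injective (fun i : Fin b => (g (i, 0)).1) := by
      intro i i' h
      exact (hg' (i, 0) (i', 0)).mpr h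
    have hhinj : ∀ i, Function.Injective (fun j : Fin a => (g (i, j)).2) := by
      intro i j j' h
      have h1 : g (i, j) = g (i, j') := Prod.ext ((key i j).trans (key i j').symm) h
      exact (Prod.ext_iff.mp (g.injective h1)).2
    refine ⟨(Equiv.ofBijective _ (Finite.injective_iff_bijective.mp hσinj),
      fun i => Equiv.ofBijective _ (Finite.injective_iff_bijective.mp (hhinj i))), ?_⟩
    apply Subtype.ext
    ext ⟨i, j⟩ : 1
    rw [hΦapp]
    exact Prod.ext (key i j).symm rfl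
  rw [← Nat.card_congr (Equiv.ofBijective Φ ⟨hinj, hsurj⟩), Nat.card_prod, Nat.card_perm,
    Nat.card_fun, Nat.card_perm, Nat.card_fin, Nat.card_fin]

variable {Ω : Type*} [Fintype Ω] [DecidableEq Ω] {a b : ℕ}

/-- The order of the stabilizer of a partition into `b` blocks of size `a`. -/
theorem card_partStab (ha : 0 < a) (f : Ω → Fin b)
    (hf : ∀ i : Fin b, Nat.card {x : Ω // f x = i} = a) :
    Nat.card (partStab f) = b.factorial * a.factorial ^ b := by
  rw [← card_partStab_fst a b ha]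
  have hfst : ∀ x, (fibEquiv f hf x).1 = f x := fibEquiv_fst f hf
  apply Nat.card_congr
  refine Equiv.subtypeEquiv (fibEquiv f hf).permCongrHom.toEquiv (fun g => ?_)
  have happ : ∀ p, (fibEquiv f hf).permCongrHom.toEquiv g p =
      fibEquiv f hf (g ((fibEquiv f hf).symm p)) := fun p => rfl
  constructor
  · intro hg p q
    rw [happ, happ, hfst, hfst, ← hg ((fibEquiv f hf).symm p) ((fibEquiv f hf).symm q), ← hfst,
      ← hfst, Equiv.apply_symm_apply, Equiv.apply_symm_apply]
  · intro hg x y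
    have := hg (fibEquiv f hf x) (fibEquiv f hf y)
    rw [happ, happ, hfst, hfst, hfst, hfst, Equiv.symm_apply_apply, Equiv.symm_apply_apply] at this
    exact this

/-- A subgroup of the symmetric group that contains an odd permutation has twice as many
elements as its even part. -/
theorem card_inf_alternating (hΩ : 2 ≤ Fintype.card Ω) (P : Subgroup (Perm Ω))
    (hP : ¬ P ≤ alternatingGroup Ω) :
    Nat.card (P ⊓ alternatingGroup Ω : Subgroup (Perm Ω)) * 2 = Nat.card P := by
  have : Nontrivial Ω := Fintype.one_lt_card_iff_nontrivial.mp (by omega)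
  have h1 : (alternatingGroup Ω).relIndex P = 2 := by
    have hd : (alternatingGroup Ω).relIndex P ∣ (alternatingGroup Ω).index :=
      Subgroup.relIndex_dvd_index_of_normal _ _
    rw [alternatingGroup.index_eq_two] at hd
    have hne : (alternatingGroup Ω).relIndex P ≠ 1 := fun h => hP (Subgroup.relIndex_eq_one.mp h)
    have hle := Nat.le_of_dvd (by norm_num) hd
    have hpos : (alternatingGroup Ω).relIndex P ≠ 0 := fun h => by
      rw [h] at hd
      simp at hd
    omega
  have h2 := ((alternatingGroup Ω).subgroupOf P).card_mul_index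
  have h3 : ((alternatingGroup Ω).subgroupOf P).index = 2 := h1
  have h4 : Nat.card ((alternatingGroup Ω).subgroupOf P) =
      Nat.card (P ⊓ alternatingGroup Ω : Subgroup (Perm Ω)) := by
    rw [← Subgroup.inf_subgroupOf_left]
    exact Nat.card_congr (Subgroup.subgroupOfEquivOfLe inf_le_left).toEquiv
  rw [h3, h4] at h2
  exact h2

/-- The even part of the partition stabilizer is a proper subgroup of the alternating group. -/
theorem partStab_inf_alt_ne (ha : 2 ≤ a) (hb : 2 ≤ b) (f : Ω → Fin b)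
    (hf : ∀ i : Fin b, Nat.card {x : Ω // f x = i} = a) :
    partStab f ⊓ alternatingGroup Ω ≠ alternatingGroup Ω := by
  intro heq
  obtain ⟨x, y, hx, hy, hxy⟩ := exists_pair_in_fibre ha f hf ⟨0, by omega⟩
  obtain ⟨z, -, hz, -, -⟩ := exists_pair_in_fibre ha f hf ⟨1, by omega⟩
  have hfz : f z ≠ f y := by
    rw [hz, hy]
    intro h
    have := congrArg Fin.val h
    simp at this
  have hyz : y ≠ z := fun h => hfz (by rw [h])
  have hxz : x ≠ z := fun h => hfz (by rw [← h, hx, hy])
  have hmem : cyc x y z ∈ alternatingGroup Ω :=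
    Equiv.Perm.mem_alternatingGroup.mpr (sign_cyc hxy hyz)
  rw [← heq] at hmem
  have h1 := (Subgroup.mem_inf.mp hmem).1 x y
  rw [cyc_apply_left hxy hxz, cyc_apply_mid hxz hyz] at h1
  exact hfz (h1.mp (hx.trans hy.symm)).symm

/-- The even part of `S_a ≀ S_b` is maximal in `A_{ab}`, unless `ab = 8`. -/
theorem isCoatom_alt_partStab (h8 : Fintype.card Ω ≠ 8) (ha : 2 ≤ a) (hb : 2 ≤ b)
    (f : Ω → Fin b) (hf : ∀ i : Fin b, Nat.card {x : Ω // f x = i} = a) :
    IsCoatom ((partStab f ⊓ alternatingGroup Ω).subgroupOf (alternatingGroup Ω)) := by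
  have hcard : Fintype.card Ω = b * a := by
    rw [Fintype.card_congr (fibEquiv f hf), Fintype.card_prod, Fintype.card_fin, Fintype.card_fin]
  by_cases hgen : 3 ≤ a ∨ 5 ≤ b
  · rw [isCoatom_subgroupOf_iff inf_le_right]
    refine ⟨partStab_inf_alt_ne ha hb f hf, ?_⟩
    intro Y hKY hYA
    apply le_antisymm hYA
    obtain ⟨g, hgY, hgK⟩ := SetLike.exists_of_lt hKY
    have hgP : g ∉ partStab f := fun h => hgK (Subgroup.mem_inf.mpr ⟨h, hYA hgY⟩)
    obtain ⟨h, hh, x, y, hxy, hhxy⟩ : ∃ h ∈ Y, ∃ x y, f x = f y ∧ f (h x) ≠ f (h y) := by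
      have : ∃ x y, ¬ (f x = f y ↔ f (g x) = f (g y)) := by
        by_contra hcon
        apply hgP
        intro x y
        by_contra h
        exact hcon ⟨x, y, h⟩
      obtain ⟨x, y, hxy⟩ := this
      by_cases h1 : f x = f y
      · exact ⟨g, hgY, x, y, h1, fun h => hxy ⟨fun _ => h, fun _ => h1⟩⟩
      · have h2 : f (g x) = f (g y) := by
          by_contra h
          exact hxy ⟨fun h' => absurd h' h1, fun h' => absurd h' h⟩
        refine ⟨g⁻¹, Y.inv_mem hgY, g x, g y, h2, ?_⟩
        have e1 : g⁻¹ (g x) = x := g.symm_apply_apply x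
        have e2 : g⁻¹ (g y) = y := g.symm_apply_apply y
        rw [e1, e2]
        exact h1
    apply alt_le_of_typeA ha f hf Y hKY.le
    rcases hgen with h3 | h5
    · exact exists_typeA_of_three h3 f hf Y hKY.le hh hxy hhxy
    · exact exists_typeA_of_five ha h5 f hf Y hKY.le hh hxy hhxy
  · -- the small cases `a = 2`, `b ∈ {2, 3}`: counting
    have ha2 : a = 2 := by omega
    subst ha2
    have hb' : b = 2 ∨ b = 3 := by
      have : b ≠ 4 := by
        rintro rfl
        exact h8 hcard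
      omega
    have hΩ2 : 2 ≤ Fintype.card Ω := by
      rw [hcard]
      nlinarith
    have : Nontrivial Ω := Fintype.one_lt_card_iff_nontrivial.mp (by omega)
    have hP : Nat.card (partStab f) = b.factorial * (2 : ℕ).factorial ^ b :=
      card_partStab (by norm_num) f hf
    have hPA : ¬ partStab f ≤ alternatingGroup Ω := by
      intro hle
      obtain ⟨x, y, hx, hy, hxy⟩ := exists_pair_in_fibre (le_refl 2) f hf ⟨0, by omega⟩
      have := hle (swap_mem_partStab (hx.trans hy.symm))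
      rw [Equiv.Perm.mem_alternatingGroup, Equiv.Perm.sign_swap hxy] at this
      exact absurd this (by decide)
    have hK2 := card_inf_alternating hΩ2 (partStab f) hPA
    have hK' : Nat.card ((partStab f ⊓ alternatingGroup Ω).subgroupOf (alternatingGroup Ω)) =
        Nat.card (partStab f ⊓ alternatingGroup Ω : Subgroup (Perm Ω)) :=
      Nat.card_congr (Subgroup.subgroupOfEquivOfLe inf_le_right).toEquiv
    have hG : 2 * Nat.card (alternatingGroup Ω) = (Fintype.card Ω).factorial := by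
      rw [two_mul_nat_card_alternatingGroup, Nat.card_perm, Nat.card_eq_fintype_card]
    rcases hb' with rfl | rfl
    · -- `n = 4`
      have hG' : Nat.card (alternatingGroup Ω) = 12 := by
        rw [hcard] at hG
        have h24 : (2 * 2 : ℕ).factorial = 24 := rfl
        omega
      have hKc : Nat.card ((partStab f ⊓ alternatingGroup Ω).subgroupOf (alternatingGroup Ω))
          = 4 := by
        rw [hK']
        have h8' : (2 : ℕ).factorial * (2 : ℕ).factorial ^ 2 = 8 := rfl
        omega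
      constructor
      · intro htop
        rw [htop, Subgroup.card_top, hG'] at hKc
        omega
      · intro L hL
        apply Subgroup.eq_top_of_card_eq
        have h1 : Nat.card ((partStab f ⊓ alternatingGroup Ω).subgroupOf (alternatingGroup Ω)) ∣
            Nat.card L := Subgroup.card_dvd_of_le hL.le
        have h2 : Nat.card L ∣ Nat.card (alternatingGroup Ω) := Subgroup.card_subgroup_dvd_card L
        have h3 : ¬ Nat.card L ≤
            Nat.card ((partStab f ⊓ alternatingGroup Ω).subgroupOf (alternatingGroup Ω)) :=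
          fun h => hL.ne (Subgroup.eq_of_le_of_card_ge hL.le h)
        rw [hKc] at h1 h3
        rw [hG'] at h2 ⊢
        have h4 : Nat.card L ≤ 12 := Nat.le_of_dvd (by norm_num) h2
        generalize Nat.card L = m at h1 h2 h3 h4
        interval_cases m <;> omega
    · -- `n = 6`
      have hG' : Nat.card (alternatingGroup Ω) = 360 := by
        rw [hcard] at hG
        have h720 : (3 * 2 : ℕ).factorial = 720 := rfl
        omega
      have hKc : Nat.card ((partStab f ⊓ alternatingGroup Ω).subgroupOf (alternatingGroup Ω))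
          = 24 := by
        rw [hK']
        have h48 : (3 : ℕ).factorial * (2 : ℕ).factorial ^ 3 = 48 := rfl
        omega
      have hsimple : IsSimpleGroup (alternatingGroup Ω) :=
        alternatingGroup.isSimpleGroup (by rw [Nat.card_eq_fintype_card, hcard]; norm_num)
      constructor
      · intro htop
        rw [htop, Subgroup.card_top, hG'] at hKc
        omega
      · intro L hL
        by_contra hLtop
        have h1 : Nat.card ((partStab f ⊓ alternatingGroup Ω).subgroupOf (alternatingGroup Ω)) ∣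
            Nat.card L := Subgroup.card_dvd_of_le hL.le
        have h3 : ¬ Nat.card L ≤
            Nat.card ((partStab f ⊓ alternatingGroup Ω).subgroupOf (alternatingGroup Ω)) :=
          fun h => hL.ne (Subgroup.eq_of_le_of_card_ge hL.le h)
        have h5 := L.card_mul_index
        have h6 := card_le_factorial_index L hLtop
        rw [hKc] at h1 h3
        rw [hG'] at h5 h6
        obtain ⟨c, hc⟩ := h1
        rw [hc] at h3 h5
        have hc15 : c ≤ 15 := by
          by_contra hcon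
          have : 24 * 16 * L.index ≤ 24 * c * L.index :=
            Nat.mul_le_mul_right _ (Nat.mul_le_mul_left _ (by omega))
          have hidx : 0 < L.index := Nat.pos_of_ne_zero (fun h0 => by rw [h0] at h5; omega)
          nlinarith
        have hidx5 : L.index ≤ 5 := by
          interval_cases c <;> omega
        have h7 : (L.index).factorial ≤ (5 : ℕ).factorial := Nat.factorial_le hidx5
        have h8'' : (5 : ℕ).factorial = 120 := rfl
        omega

end Count

end Cfsg.Agent.H98
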