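import Cfsg.Agent.H98.DihR3D

set_option autoImplicit false
set_option linter.unusedSectionVars false

/-!
# Piece L2 of S3572 (helper98): a subset of a cyclic 2-group all of whose autocorrelation
counts are even is invariant under the involution.

Proof: on `ZMod 2`-valued functions the difference operator `D g = g (· + 1) + g` is nilpotent,
`D ^ (2 ^ i) g = g (· + 2 ^ i) + g`.  The vectors `D ^ a f` (`f` the indicator of `B`) are
pairwise orthogonal for the dot product, and the first `j` of them are linearly independent
when `D ^ (j - 1) f ≠ 0`; an isotropic family of `j` independent vectors in a space of dimension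
`n` has `2 * j ≤ n`.
-/

namespace Cfsg.Agent.H98.Dih

variable {n : ℕ} [NeZero n]

/-- the difference operator on `ZMod 2`-valued functions. -/
def dOp : (ZMod n → ZMod 2) →ₗ[ZMod 2] (ZMod n → ZMod 2) where
  toFun g := fun y => g (y + 1) + g y
  map_add' g h := by funext y; simp only [Pi.add_apply]; ring
  map_smul' c g := by
    funext y; simp only [Pi.smul_apply, smul_eq_mul, RingHom.id_apply]; ring

theorem dOp_apply (g : ZMod n → ZMod 2) (y : ZMod n) : dOp g y = g (y + 1) + g y := rfl

theorem dOp_pow_two_pow (i : ℕ) (g : ZMod n → ZMod 2) (y : ZMod n) :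
    ((dOp ^ (2 ^ i)) g) y = g (y + ((2 ^ i : ℕ) : ZMod n)) + g y := by
  induction i generalizing g y with
  | zero => simp [dOp_apply]
  | succ i ih =>
    rw [pow_succ, pow_mul, pow_two, Module.End.mul_apply, ih, ih, ih]
    have h : y + ((2 ^ i : ℕ) : ZMod n) + ((2 ^ i : ℕ) : ZMod n)
        = y + ((2 ^ i * 2 : ℕ) : ZMod n) := by push_cast; ring
    rw [h]
    have h2 := CharTwo.add_self_eq_zero (g (y + ((2 ^ i : ℕ) : ZMod n)))
    linear_combination h2

/-- correlation of two `ZMod 2`-valued functions. -/
def corr (g h : ZMod n → ZMod 2) (k : ZMod n) : ZMod 2 := ∑ y, g y * h (y + k)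

theorem corr_dOp_left (g h : ZMod n → ZMod 2) (k : ZMod n) :
    corr (dOp g) h k = corr g h (k - 1) + corr g h k := by
  unfold corr
  simp only [dOp_apply, add_mul, Finset.sum_add_distrib]
  congr 1
  refine Fintype.sum_equiv (Equiv.addRight 1) _ _ fun y => ?_
  simp only [Equiv.coe_addRight]
  rw [show y + 1 + (k - 1) = y + k by ring]

theorem corr_dOp_right (g h : ZMod n → ZMod 2) (k : ZMod n) :
    corr g (dOp h) k = corr g h (k + 1) + corr g h k := by
  unfold corr
  simp only [dOp_apply, mul_add, Finset.sum_add_distrib]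
  congr 1
  refine Finset.sum_congr rfl fun y _ => ?_
  rw [show y + k + 1 = y + (k + 1) by ring]

theorem corr_pow_eq_zero (f : ZMod n → ZMod 2) (hf : ∀ k, corr f f k = 0) (a b : ℕ) :
    ∀ k, corr ((dOp ^ a) f) ((dOp ^ b) f) k = 0 := by
  induction a with
  | zero =>
    induction b with
    | zero => simpa using hf
    | succ b ih =>
      intro k
      rw [pow_succ', Module.End.mul_apply, corr_dOp_right, ih, ih, add_zero]
  | succ a ih =>
    intro k
    rw [pow_succ', Module.End.mul_apply, corr_dOp_left, ih, ih, add_zero]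

/-- an isotropic nilpotent chain has length at most half the dimension. -/
theorem chain_le (f : ZMod n → ZMod 2) (hf : ∀ k, corr f f k = 0) (j : ℕ)
    (hj : (dOp ^ (j + 1)) f = 0) (hj' : (dOp ^ j) f ≠ 0) : 2 * (j + 1) ≤ n := by
  classical
  have hzero : ∀ k, j + 1 ≤ k → (dOp ^ k) f = 0 := by
    intro k hk
    obtain ⟨c, rfl⟩ := Nat.exists_eq_add_of_le hk
    rw [add_comm, pow_add, Module.End.mul_apply, hj, map_zero]
  let M : Matrix (Fin (j + 1)) (ZMod n) (ZMod 2) := Matrix.of fun a y => (dOp ^ (a : ℕ)) f y
  have hli : LinearIndependent (ZMod 2) M.row := by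
    rw [Fintype.linearIndependent_iff]
    intro c hc
    have hrow : ∀ a : Fin (j + 1), M.row a = (dOp ^ (a : ℕ)) f := fun a => rfl
    simp only [hrow] at hc
    -- strong induction on the index
    have key : ∀ m : ℕ, ∀ a : Fin (j + 1), (a : ℕ) ≤ m → c a = 0 := by
      intro m
      induction m with
      | zero =>
        intro a ha
        have h := congrArg (dOp ^ j) hc
        rw [map_sum, map_zero] at h
        rw [Finset.sum_eq_single a] at h
        · rw [map_smul, ← Module.End.mul_apply, ← pow_add] at h
          have ha0 : (a : ℕ) = 0 := Nat.le_zero.mp ha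
          rw [ha0, add_zero] at h
          exact (smul_eq_zero.mp h).resolve_right hj'
        · intro b _ hb
          rw [map_smul, ← Module.End.mul_apply, ← pow_add, hzero, smul_zero]
          have : (b : ℕ) ≠ 0 := by
            intro h0
            apply hb
            apply Fin.ext
            rw [h0, Nat.le_zero.mp ha]
          omega
        · intro h'; exact absurd (Finset.mem_univ a) h'
      | succ m ih =>
        intro a ha
        rcases Nat.lt_or_ge (a : ℕ) (m + 1) with hlt | hge
        · exact ih a (by omega)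
        have ham : (a : ℕ) = m + 1 := le_antisymm ha hge
        have hmj : m + 1 ≤ j := by have := a.2; omega
        have h := congrArg (dOp ^ (j - (m + 1))) hc
        rw [map_sum, map_zero] at h
        rw [Finset.sum_eq_single a] at h
        · rw [map_smul, ← Module.End.mul_apply, ← pow_add, ham] at h
          rw [show j - (m + 1) + (m + 1) = j by omega] at h
          exact (smul_eq_zero.mp h).resolve_right hj'
        · intro b _ hb
          rw [map_smul, ← Module.End.mul_apply, ← pow_add]
          rcases Nat.lt_or_ge (b : ℕ) (m + 1) with hlt | hge'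
          · rw [ih b (by omega), zero_smul]
          · have : (b : ℕ) ≠ m + 1 := by
              intro h0
              apply hb
              apply Fin.ext
              rw [h0, ham]
            rw [hzero, smul_zero]
            omega
        · intro h'; exact absurd (Finset.mem_univ a) h'
    intro a
    exact key a a le_rfl
  have hmul : M * M.transpose = 0 := by
    ext a b
    rw [Matrix.mul_apply, Matrix.zero_apply]
    have h := corr_pow_eq_zero f hf a b 0
    unfold corr at h
    simp only [add_zero] at h
    exact h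
  have hr := Matrix.rank_add_rank_le_card_of_mul_eq_zero hmul
  rw [Matrix.rank_transpose, hli.rank_matrix, Fintype.card_fin, ZMod.card] at hr
  omega

/-- the involution of a cyclic 2-group is the half. -/
theorem eq_half_of_two_nsmul (e : ℕ) (hn : n = 2 ^ e) (z : ZMod n) (hz : z ≠ 0)
    (h2z : 2 • z = 0) : 1 ≤ e ∧ z = ((2 ^ (e - 1) : ℕ) : ZMod n) := by
  have he : 1 ≤ e := by
    by_contra h
    have h0 : e = 0 := by omega
    rw [h0, pow_zero] at hn
    have : Subsingleton (ZMod n) := by rw [hn]; infer_instance
    exact hz (Subsingleton.elim _ _)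
  refine ⟨he, ?_⟩
  have hv := ZMod.val_lt z
  have hz' : ((2 * z.val : ℕ) : ZMod n) = 0 := by
    push_cast
    rw [ZMod.natCast_zmod_val, ← h2z, two_nsmul, two_mul]
  rw [ZMod.natCast_eq_zero_iff] at hz'
  have hn2 : n = 2 * 2 ^ (e - 1) := by
    rw [hn, ← pow_succ']
    congr 1
    omega
  have hv0 : z.val ≠ 0 := fun h => hz ((ZMod.val_eq_zero z).mp h)
  obtain ⟨c, hc⟩ := hz'
  have hc1 : c = 1 := by
    rcases Nat.lt_or_ge c 1 with h | h
    · have : c = 0 := by omega
      rw [this, mul_zero] at hc
      omega
    · rcases Nat.lt_or_ge 1 c with h' | h'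
      · have : n * 2 ≤ n * c := Nat.mul_le_mul_left n h'
        omega
      · omega
  rw [hc1, mul_one] at hc
  have hval : z.val = 2 ^ (e - 1) := by omega
  rw [← hval, ZMod.natCast_zmod_val]

/-- piece L2 of S3572. -/
theorem autocorr_even (e : ℕ) (hn : n = 2 ^ e) (z : ZMod n) (hz : z ≠ 0) (h2z : 2 • z = 0)
    (B : Finset (ZMod n))
    (hB : ∀ k : ZMod n, Even ((B ×ˢ B).filter (fun x => x.2 - x.1 = k)).card) :
    ∀ i ∈ B, i + z ∈ B := by
  classical
  obtain ⟨he, hzm⟩ := eq_half_of_two_nsmul e hn z hz h2z
  have hnm : n = 2 * 2 ^ (e - 1) := by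
    rw [hn, ← pow_succ']
    congr 1
    omega
  let f : ZMod n → ZMod 2 := fun y => ((ind B y : ℤ) : ZMod 2)
  have hf : ∀ k, corr f f k = 0 := by
    intro k
    have h := card_sub_eq B k
    have h' := congrArg (Int.cast : ℤ → ZMod 2) h
    push_cast at h'
    unfold corr
    rw [← h']
    exact (ZMod.natCast_eq_zero_iff_even).mpr (hB k)
  have hDn : (dOp ^ n) f = 0 := by
    funext y
    have h := dOp_pow_two_pow e f y
    rw [← hn, ZMod.natCast_self, add_zero] at h
    rw [h]
    exact CharTwo.add_self_eq_zero _
  have hDm : (dOp ^ (2 ^ (e - 1))) f = 0 := by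
    by_contra hne
    have hex : ∃ k, (dOp ^ k) f = 0 := ⟨n, hDn⟩
    have hj : (dOp ^ (Nat.find hex)) f = 0 := Nat.find_spec hex
    have hjm : 2 ^ (e - 1) < Nat.find hex := by
      by_contra hle
      have hle : Nat.find hex ≤ 2 ^ (e - 1) := not_lt.mp hle
      obtain ⟨c, hc⟩ := Nat.exists_eq_add_of_le hle
      apply hne
      rw [hc, add_comm, pow_add, Module.End.mul_apply, hj, map_zero]
    have hj1 : (dOp ^ (Nat.find hex - 1)) f ≠ 0 := Nat.find_min hex (by omega)
    have := chain_le f hf (Nat.find hex - 1)
      (by rwa [show Nat.find hex - 1 + 1 = Nat.find hex by omega]) hj1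
    omega
  intro i hi
  have h1 := congrFun hDm i
  rw [dOp_pow_two_pow, ← hzm] at h1
  simp only [Pi.zero_apply] at h1
  have h2 : f (i + z) = f i := CharTwo.add_eq_zero.mp h1
  have hfi : f i = 1 := by simp [f, ind, hi]
  by_contra hnot
  have h3 : f (i + z) = 0 := by simp [f, ind, hnot]
  rw [h3, hfi] at h2
  exact zero_ne_one h2

end Cfsg.Agent.H98.Dih
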