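import Mathlib

set_option autoImplicit false
set_option linter.unusedSectionVars false

/-!
# Pure counting lemmas on `ZMod n` for S3572 (helper98, pieces R3D and friends)

`ind A` is the integer indicator of a finset; the three counting functions of the statements
are rewritten as sums of products of indicators.
-/

namespace Cfsg.Agent.H98.Dih

variable {n : ℕ} [NeZero n]

/-- integer indicator of a finset of `ZMod n`. -/
def ind (A : Finset (ZMod n)) (x : ZMod n) : ℤ := if x ∈ A then 1 else 0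

theorem ind_mul_self (A : Finset (ZMod n)) (x : ZMod n) : ind A x * ind A x = ind A x := by
  unfold ind; split_ifs <;> simp

theorem ind_nonneg (A : Finset (ZMod n)) (x : ZMod n) : 0 ≤ ind A x := by
  unfold ind; split_ifs <;> simp

theorem ind_le_one (A : Finset (ZMod n)) (x : ZMod n) : ind A x ≤ 1 := by
  unfold ind; split_ifs <;> simp

theorem sum_ind (A : Finset (ZMod n)) : ∑ x, ind A x = (A.card : ℤ) := by
  unfold ind
  rw [Finset.sum_ite_mem, Finset.univ_inter]
  simp

theorem sum_ind_mul (A : Finset (ZMod n)) (g : ZMod n → ℤ) :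
    ∑ x, ind A x * g x = ∑ x ∈ A, g x := by
  unfold ind
  simp only [ite_mul, one_mul, zero_mul]
  rw [Finset.sum_ite_mem, Finset.univ_inter]

/-- `AB k` as a sum of indicators. -/
theorem card_add_eq (A B : Finset (ZMod n)) (k : ZMod n) :
    (((A ×ˢ B).filter (fun x => x.1 + x.2 = k)).card : ℤ) = ∑ x, ind A x * ind B (k - x) := by
  rw [sum_ind_mul, Finset.card_filter, Finset.sum_product]
  push_cast
  refine Finset.sum_congr rfl fun a _ => ?_
  have : ∀ b : ZMod n, (a + b = k) ↔ (b = k - a) := fun b => by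
    constructor
    · intro h; rw [← h]; ring
    · intro h; rw [h]; ring
  simp only [this]
  rw [Finset.sum_ite_eq']
  unfold ind
  split_ifs <;> simp

/-- `BB k` as a sum of indicators. -/
theorem card_sub_eq (B : Finset (ZMod n)) (k : ZMod n) :
    (((B ×ˢ B).filter (fun x => x.2 - x.1 = k)).card : ℤ) = ∑ y, ind B y * ind B (y + k) := by
  rw [sum_ind_mul, Finset.card_filter, Finset.sum_product]
  push_cast
  refine Finset.sum_congr rfl fun a _ => ?_
  have : ∀ b : ZMod n, (b - a = k) ↔ (b = a + k) := fun b => by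
    constructor
    · intro h; rw [← h]; ring
    · intro h; rw [h]; ring
  simp only [this]
  rw [Finset.sum_ite_eq']
  unfold ind
  split_ifs <;> simp

/-- a finset invariant under translation by an element of prime order `p` has cardinality
divisible by `p`. -/
theorem card_dvd_of_add_invariant (p : ℕ) (hp : p.Prime) (z : ZMod n) (hz : z ≠ 0)
    (hpz : p • z = 0) (S : Finset (ZMod n)) (hS : ∀ i ∈ S, i + z ∈ S) : p ∣ S.card := by
  classical
  have : Fact p.Prime := ⟨hp⟩
  let f : S → S := fun x => ⟨x.1 + z, hS x.1 x.2⟩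
  have hiter : ∀ k : ℕ, ∀ x : S, ((f^[k]) x).1 = x.1 + k • z := by
    intro k
    induction k with
    | zero => intro x; rw [Function.iterate_zero, id, zero_nsmul, add_zero]
    | succ k ih =>
      intro x
      rw [Function.iterate_succ_apply', succ_nsmul, ← add_assoc, ← ih x]
  let F : Function.End S := f
  have hf : F ^ p ^ 1 = 1 := by
    rw [pow_one]
    have h1 : ((F ^ p : Function.End S) : S → S) = f^[p] :=
      hom_coe_pow (fun g : Function.End S ↦ g) rfl (fun g h ↦ rfl) F p
    funext x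
    apply Subtype.ext
    have h2 := hiter p x
    rw [hpz, add_zero] at h2
    rw [h1, h2]
    rfl
  have h := Equiv.Perm.card_fixedPoints_modEq (f := F) (p := p) (n := 1) hf
  have h0 : Fintype.card (Function.fixedPoints F) = 0 := by
    rw [Fintype.card_eq_zero_iff]
    constructor
    rintro ⟨x, hx⟩
    have h3 : x.1 + z = x.1 := congrArg Subtype.val hx
    exact hz (by simpa using h3)
  rw [h0, Fintype.card_coe] at h
  exact (Nat.modEq_zero_iff_dvd).mp h

/-- `A - z ⊆ A` for a symmetric `z`-invariant set. -/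
theorem sub_mem_of_symm (z : ZMod n) (A : Finset (ZMod n)) (hAz : ∀ i ∈ A, i + z ∈ A)
    (hAs : ∀ i ∈ A, -i ∈ A) : ∀ i ∈ A, i - z ∈ A := by
  intro i hi
  have h := hAs _ (hAz _ (hAs i hi))
  rwa [show -(-i + z) = i - z by ring] at h

theorem ind_add_of_symm (z : ZMod n) (A : Finset (ZMod n)) (hAz : ∀ i ∈ A, i + z ∈ A)
    (hAs : ∀ i ∈ A, -i ∈ A) (x : ZMod n) : ind A (x + z) = ind A x := by
  unfold ind
  by_cases hx : x ∈ A
  · rw [if_pos hx, if_pos (hAz x hx)]
  · rw [if_neg hx, if_neg]
    intro h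
    apply hx
    have := sub_mem_of_symm z A hAz hAs _ h
    rwa [add_sub_cancel_right] at this

theorem ind_neg_of_symm (A : Finset (ZMod n)) (hAs : ∀ i ∈ A, -i ∈ A) (x : ZMod n) :
    ind A (-x) = ind A x := by
  unfold ind
  by_cases hx : x ∈ A
  · rw [if_pos hx, if_pos (hAs x hx)]
  · rw [if_neg hx, if_neg]
    intro h
    apply hx
    have := hAs _ h
    rwa [neg_neg] at this

/-- `AA m` is divisible by `p`. -/
theorem aa_dvd (p : ℕ) (hp : p.Prime) (z : ZMod n) (hz : z ≠ 0) (hpz : p • z = 0)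
    (A : Finset (ZMod n)) (hAz : ∀ i ∈ A, i + z ∈ A) (hAs : ∀ i ∈ A, -i ∈ A) (m : ZMod n) :
    p ∣ ((A ×ˢ A).filter (fun x => x.1 + x.2 = m)).card := by
  have h : (((A ×ˢ A).filter (fun x => x.1 + x.2 = m)).card : ℤ) =
      ((A.filter (fun x => m - x ∈ A)).card : ℤ) := by
    rw [card_add_eq, sum_ind_mul, Finset.card_filter]
    push_cast
    rfl
  have h' : ((A ×ˢ A).filter (fun x => x.1 + x.2 = m)).card =
      (A.filter (fun x => m - x ∈ A)).card := by exact_mod_cast h
  rw [h']
  apply card_dvd_of_add_invariant p hp z hz hpz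
  intro i hi
  rw [Finset.mem_filter] at hi ⊢
  refine ⟨hAz i hi.1, ?_⟩
  have := sub_mem_of_symm z A hAz hAs _ hi.2
  rwa [show m - i - z = m - (i + z) by ring] at this

/-- the count of triples with given sum, for functions satisfying the two rank 3 identities. -/
theorem triple_count (α β : ZMod n → ℤ) (μ N : ℤ)
    (h1 : ∀ k, 2 * ∑ x, α x * β (k - x) = μ)
    (h2 : ∀ k, ∑ x, α x * α (k - x) + ∑ y, β y * β (y + k) = (if k = 0 then N else 0) + μ)
    (k : ZMod n) :
    2 * ∑ x, α x * ∑ u, α u * α (k - x - u) =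
      2 * N * α k + 2 * μ * ∑ x, α x - μ * ∑ y, β y := by
  have hAA : ∀ m, ∑ u, α u * α (m - u) =
      (if m = 0 then N else 0) + μ - ∑ y, β y * β (y + m) := fun m => by linarith [h2 m]
  have e1 : ∑ x, α x * (if k - x = 0 then N else 0) = N * α k := by
    rw [Finset.sum_eq_single k]
    · simp [mul_comm]
    · intro b _ hb
      have : k - b ≠ 0 := sub_ne_zero.mpr (Ne.symm hb)
      simp [this]
    · simp
  have e2 : ∑ x, α x * μ = μ * ∑ x, α x := by
    rw [Finset.mul_sum]; exact Finset.sum_congr rfl (fun _ _ => mul_comm _ _)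
  have e3 : 2 * ∑ x, α x * ∑ y, β y * β (y + (k - x)) = μ * ∑ y, β y := by
    have : ∑ x, α x * ∑ y, β y * β (y + (k - x)) = ∑ y, β y * ∑ x, α x * β ((y + k) - x) := by
      simp only [Finset.mul_sum]
      rw [Finset.sum_comm]
      refine Finset.sum_congr rfl fun y _ => Finset.sum_congr rfl fun x _ => ?_
      rw [show y + (k - x) = y + k - x by ring]; ring
    rw [this, Finset.mul_sum, Finset.mul_sum]
    refine Finset.sum_congr rfl fun y _ => ?_
    rw [← h1 (y + k)]; ring
  have e4 : ∑ x, α x * ∑ u, α u * α (k - x - u) =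
      ∑ x, α x * (if k - x = 0 then N else 0) + ∑ x, α x * μ -
        ∑ x, α x * ∑ y, β y * β (y + (k - x)) := by
    rw [← Finset.sum_add_distrib, ← Finset.sum_sub_distrib]
    refine Finset.sum_congr rfl fun x _ => ?_
    rw [hAA (k - x)]; ring
  rw [e4, e1, e2]; linarith [e3]

/-- piece R3D of S3572. -/
theorem r3_dvd (p : ℕ) (hp : p.Prime) (z : ZMod n) (hz : z ≠ 0) (hpz : p • z = 0)
    (A B : Finset (ZMod n)) (μ N : ℤ) (hA0 : (0 : ZMod n) ∉ A) (hAne : A.Nonempty)
    (hAz : ∀ i ∈ A, i + z ∈ A) (hAs : ∀ i ∈ A, -i ∈ A)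
    (h1 : ∀ k : ZMod n, 2 * (((A ×ˢ B).filter (fun x => x.1 + x.2 = k)).card : ℤ) = μ)
    (h2 : ∀ k : ZMod n, (((A ×ˢ A).filter (fun x => x.1 + x.2 = k)).card : ℤ) +
      (((B ×ˢ B).filter (fun x => x.2 - x.1 = k)).card : ℤ) = (if k = 0 then N else 0) + μ) :
    (p : ℤ) ∣ N := by
  obtain ⟨x0, hx0⟩ := hAne
  have h1' : ∀ k, 2 * ∑ x, ind A x * ind B (k - x) = μ := fun k => by
    rw [← card_add_eq]; exact h1 k
  have h2' : ∀ k, ∑ x, ind A x * ind A (k - x) + ∑ y, ind B y * ind B (y + k) =
      (if k = 0 then N else 0) + μ := fun k => by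
    rw [← card_add_eq, ← card_sub_eq]; exact h2 k
  have hT : ∀ k, (p : ℤ) ∣ ∑ x, ind A x * ∑ u, ind A u * ind A (k - x - u) := by
    intro k
    refine Finset.dvd_sum fun x _ => dvd_mul_of_dvd_right ?_ _
    rw [← card_add_eq]
    exact_mod_cast aa_dvd p hp z hz hpz A hAz hAs (k - x)
  have t1 := triple_count (ind A) (ind B) μ N h1' h2' x0
  have t0 := triple_count (ind A) (ind B) μ N h1' h2' 0
  have i1 : ind A x0 = 1 := by unfold ind; rw [if_pos hx0]
  have i0 : ind A 0 = 0 := by unfold ind; rw [if_neg hA0]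
  rw [i1] at t1
  rw [i0] at t0
  have hN : N = ∑ x, ind A x * ∑ u, ind A u * ind A (x0 - x - u) -
      ∑ x, ind A x * ∑ u, ind A u * ind A (0 - x - u) := by linarith
  rw [hN]
  exact dvd_sub (hT x0) (hT 0)

end Cfsg.Agent.H98.Dih
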