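import Mathlib
import Cfsg.Prelude.Def_Solvable
import Cfsg.Agent.H75.Frobenius
import Cfsg.Agent.H1.FPF

/-!
# Fixed-point-free modules in characteristic zero (helper98)

For a finite group `G` we call `w ∈ ℤ[G]` an *fpf element* if `N_a * w = 0` for every element `a`
of prime order, where `N_a = 1 + a + ... + a^(o(a)-1)`.  Main results:

* `exists_fpfElt`: if `G` acts fixed-point-freely on a nontrivial finite elementary abelian
  `r`-group, then `ℤ[G]` has a nonzero fpf element (lifting of idempotents modulo `r^k` and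
  Maschke over `ℚ`);
* `frob_of_fpfElt`: if `ℤ[G]` has a nonzero fpf element then `G` is a Frobenius complement;
* `fpfElt_prod`: nonzero fpf elements for `A`, `B` of coprime orders give one for `A × B`.
-/

set_option autoImplicit false

namespace Cfsg.Agent.H98.FpfLift

open MonoidAlgebra

section Nel

variable {G : Type*} [Group G]

/-- the norm element of the cyclic subgroup generated by `a` -/
noncomputable def Nel (R : Type*) [CommRing R] (a : G) : MonoidAlgebra R G :=
  ∑ i ∈ Finset.range (orderOf a), MonoidAlgebra.of R G a ^ i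

variable (R : Type*) [CommRing R]

theorem of_mul_Nel (a : G) : MonoidAlgebra.of R G a * Nel R a = Nel R a := by
  have h := mul_geom_sum (MonoidAlgebra.of R G a) (orderOf a)
  have h2 : MonoidAlgebra.of R G a ^ orderOf a = 1 := by
    rw [← map_pow, pow_orderOf_eq_one, map_one]
  rw [h2, sub_self, sub_mul, one_mul, sub_eq_zero] at h
  exact h

theorem of_pow_mul_Nel (a : G) (i : ℕ) : MonoidAlgebra.of R G a ^ i * Nel R a = Nel R a := by
  induction i with
  | zero => rw [pow_zero, one_mul]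
  | succ i ih => rw [pow_succ, mul_assoc, of_mul_Nel, ih]

theorem Nel_mul_Nel (a : G) : Nel R a * Nel R a = (orderOf a : MonoidAlgebra R G) * Nel R a := by
  have h : Nel R a * Nel R a
      = ∑ i ∈ Finset.range (orderOf a), MonoidAlgebra.of R G a ^ i * Nel R a := by
    rw [← Finset.sum_mul]
    rfl
  rw [h, Finset.sum_congr rfl (fun i _ => of_pow_mul_Nel R a i), Finset.sum_const,
    Finset.card_range, nsmul_eq_mul]

theorem orderOf_conj' (g a : G) : orderOf (g * a * g⁻¹) = orderOf a := by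
  have := (MulAut.conj g).orderOf_eq a
  rwa [MulAut.conj_apply] at this

theorem of_mul_Nel_conj (g a : G) :
    MonoidAlgebra.of R G g * Nel R a = Nel R (g * a * g⁻¹) * MonoidAlgebra.of R G g := by
  unfold Nel
  rw [Finset.mul_sum, Finset.sum_mul, orderOf_conj']
  refine Finset.sum_congr rfl fun i _ => ?_
  rw [← map_pow, ← map_pow, ← map_mul, ← map_mul, conj_pow, inv_mul_cancel_right]

theorem mapRingHom_Nel {R S : Type*} [CommRing R] [CommRing S] (f : R →+* S) (a : G) :
    MonoidAlgebra.mapRingHom G f (Nel R a) = Nel S a := by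
  unfold Nel
  rw [map_sum]
  refine Finset.sum_congr rfl fun i _ => ?_
  rw [map_pow, MonoidAlgebra.of_apply, MonoidAlgebra.mapRingHom_single, map_one,
    MonoidAlgebra.of_apply]

theorem mapDomainRingHom_Nel {G' : Type*} [Group G'] (φ : G →* G') (hφ : Function.Injective φ)
    (a : G) : MonoidAlgebra.mapDomainRingHom R φ (Nel R a) = Nel R (φ a) := by
  unfold Nel
  rw [map_sum, orderOf_injective φ hφ a]
  refine Finset.sum_congr rfl fun i _ => ?_
  rw [map_pow, MonoidAlgebra.of_apply, MonoidAlgebra.of_apply,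
    MonoidAlgebra.mapDomainRingHom_apply, MonoidAlgebra.mapDomain_single]

/-- `w` is killed by all norm elements of prime-order elements -/
def IsFpfElt (w : MonoidAlgebra R G) : Prop :=
  ∀ a : G, (orderOf a).Prime → Nel R a * w = 0

variable {R}

theorem IsFpfElt.of_mul {w : MonoidAlgebra R G} (hw : IsFpfElt R w) (g : G) :
    IsFpfElt R (MonoidAlgebra.of R G g * w) := by
  intro a ha
  have h1 := of_mul_Nel_conj R g (g⁻¹ * a * g)
  have h2 : g * (g⁻¹ * a * g) * g⁻¹ = a := by group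
  rw [h2] at h1
  have h3 : (orderOf (g⁻¹ * a * g)).Prime := by
    have h4 := orderOf_conj' g⁻¹ a
    rw [inv_inv] at h4
    rw [h4]
    exact ha
  rw [← mul_assoc, ← h1, mul_assoc, hw _ h3, mul_zero]

theorem IsFpfElt.mul_left {w : MonoidAlgebra R G} (hw : IsFpfElt R w) (x : MonoidAlgebra R G) :
    IsFpfElt R (x * w) := by
  induction x using MonoidAlgebra.induction_on with
  | of g => exact hw.of_mul g
  | add x y hx hy =>
    intro a ha
    rw [add_mul, mul_add, hx a ha, hy a ha, add_zero]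
  | smul r x hx =>
    intro a ha
    rw [smul_mul_assoc, mul_smul_comm, hx a ha, smul_zero]

end Nel

/-! ### divisibility by integers in `ℤ[G]` -/

theorem natCast_dvd_iff {G : Type*} [Group G] (n : ℕ) (x : MonoidAlgebra ℤ G) :
    ((n : MonoidAlgebra ℤ G)) ∣ x ↔ ∀ g, (n : ℤ) ∣ x.coeff g := by
  constructor
  · rintro ⟨u, rfl⟩ g
    rw [MonoidAlgebra.natCast_def, MonoidAlgebra.coeff_single_one_mul]
    exact Dvd.intro _ rfl
  · intro h
    refine ⟨MonoidAlgebra.ofCoeff (x.coeff.mapRange (fun z => z / (n : ℤ)) (Int.zero_ediv _)), ?_⟩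
    apply MonoidAlgebra.coeff_injective
    ext g
    rw [MonoidAlgebra.natCast_def, MonoidAlgebra.coeff_single_one_mul]
    simp only [MonoidAlgebra.coeff_ofCoeff, Finsupp.mapRange_apply]
    exact (Int.mul_ediv_cancel' (h g)).symm

/-- reduction modulo `n` -/
noncomputable def redMod (G : Type*) [Group G] (n : ℕ) :
    MonoidAlgebra ℤ G →+* MonoidAlgebra (ZMod n) G :=
  MonoidAlgebra.mapRingHom G (Int.castRingHom (ZMod n))

theorem redMod_coeff {G : Type*} [Group G] (n : ℕ) (x : MonoidAlgebra ℤ G) (g : G) :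
    (redMod G n x).coeff g = ((x.coeff g : ℤ) : ZMod n) :=
  MonoidAlgebra.coeff_mapRingHom _ x g

theorem redMod_eq_zero_iff {G : Type*} [Group G] (n : ℕ) (x : MonoidAlgebra ℤ G) :
    redMod G n x = 0 ↔ (n : MonoidAlgebra ℤ G) ∣ x := by
  rw [natCast_dvd_iff]
  constructor
  · intro h g
    have h1 := redMod_coeff n x g
    rw [h] at h1
    exact (ZMod.intCast_zmod_eq_zero_iff_dvd _ _).mp h1.symm
  · intro h
    apply MonoidAlgebra.coeff_injective
    ext g
    rw [redMod_coeff]
    exact (ZMod.intCast_zmod_eq_zero_iff_dvd _ _).mpr (h g)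

theorem redMod_Nel {G : Type*} [Group G] (n : ℕ) (a : G) :
    redMod G n (Nel ℤ a) = Nel (ZMod n) a :=
  mapRingHom_Nel _ a

theorem redMod_surjective (G : Type*) [Group G] (n : ℕ) : Function.Surjective (redMod G n) :=
  MonoidAlgebra.map_surjective (M := G) ((Int.castRingHom (ZMod n) : ℤ →+* ZMod n) : ℤ →+ ZMod n)
    (fun z => ZMod.intCast_surjective z)

/-- extension of scalars to `ℚ` -/
noncomputable def toQ (G : Type*) [Group G] : MonoidAlgebra ℤ G →+* MonoidAlgebra ℚ G :=
  MonoidAlgebra.mapRingHom G (Int.castRingHom ℚ)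

theorem toQ_injective (G : Type*) [Group G] : Function.Injective (toQ G) :=
  MonoidAlgebra.map_injective (M := G) ((Int.castRingHom ℚ : ℤ →+* ℚ) : ℤ →+ ℚ)
    (fun _ _ h => Int.cast_injective h)

theorem toQ_Nel {G : Type*} [Group G] (a : G) : toQ G (Nel ℤ a) = Nel ℚ a :=
  mapRingHom_Nel _ a

theorem exists_clear_den {G : Type*} [Group G] (y : MonoidAlgebra ℚ G) :
    ∃ D : ℕ, D ≠ 0 ∧ ∃ y' : MonoidAlgebra ℤ G, toQ G y' = (D : MonoidAlgebra ℚ G) * y := by
  induction y using MonoidAlgebra.induction_linear with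
  | zero => exact ⟨1, one_ne_zero, 0, by rw [map_zero, mul_zero]⟩
  | add x y hx hy =>
    obtain ⟨D1, hD1, x', hx'⟩ := hx
    obtain ⟨D2, hD2, y', hy'⟩ := hy
    refine ⟨D1 * D2, mul_ne_zero hD1 hD2,
      (D2 : MonoidAlgebra ℤ G) * x' + (D1 : MonoidAlgebra ℤ G) * y', ?_⟩
    rw [map_add, map_mul, map_mul, hx', hy', map_natCast, map_natCast, Nat.cast_mul, mul_add,
      ← mul_assoc, ← mul_assoc, (Nat.cast_commute D2 (D1 : MonoidAlgebra ℚ G)).eq]
  | single g q =>
    refine ⟨q.den, q.den_ne_zero, MonoidAlgebra.single g q.num, ?_⟩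
    unfold toQ
    rw [MonoidAlgebra.mapRingHom_single, MonoidAlgebra.natCast_def,
      MonoidAlgebra.single_mul_single, one_mul]
    congr 1
    rw [mul_comm]
    exact (Rat.mul_den_eq_num q).symm

/-! ### lifting idempotents -/

theorem dvd_mul_left_of_comm {R : Type*} [Ring R] {c : R} (hc : ∀ x, Commute c x) {x : R} (y : R)
    (h : c ∣ x) : c ∣ y * x := by
  obtain ⟨u, rfl⟩ := h
  exact ⟨y * u, by rw [← mul_assoc, ← (hc y).eq, mul_assoc]⟩

theorem idem_lift {R : Type*} [Ring R] (c : R) (hc : ∀ x, Commute c x) (f : R)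
    (h : c ∣ f * f - f) (k : ℕ) : ∃ fk : R, c ^ (k + 1) ∣ fk * fk - fk ∧ c ∣ fk - f := by
  induction k with
  | zero => exact ⟨f, by simpa using h, by simp⟩
  | succ k ih =>
    obtain ⟨fk, h1, h2⟩ := ih
    obtain ⟨d, hd⟩ : ∃ d, d = fk * fk - fk := ⟨_, rfl⟩
    rw [← hd] at h1
    refine ⟨fk + d * (1 - 2 * fk), ?_, ?_⟩
    · have hid : (fk + d * (1 - 2 * fk)) * (fk + d * (1 - 2 * fk)) - (fk + d * (1 - 2 * fk))
          = d * d * (4 * d - 3) := by
        rw [hd]
        noncomm_ring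
      rw [hid]
      apply Dvd.dvd.mul_right
      obtain ⟨u, hu⟩ := h1
      have hcd : c ∣ u * d :=
        dvd_mul_left_of_comm hc u (dvd_trans (dvd_pow_self c (Nat.succ_ne_zero k)) ⟨u, hu⟩)
      obtain ⟨v, hv⟩ := hcd
      refine ⟨v, ?_⟩
      calc d * d = c ^ (k + 1) * u * d := by rw [← hu]
        _ = c ^ (k + 1) * (c * v) := by rw [mul_assoc, hv]
        _ = c ^ (k + 1 + 1) * v := by rw [pow_succ c (k + 1), mul_assoc]
    · have h3 : fk + d * (1 - 2 * fk) - f = (fk - f) + d * (1 - 2 * fk) := by abel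
      rw [h3]
      exact dvd_add h2
        (Dvd.dvd.mul_right (dvd_trans (dvd_pow_self c (Nat.succ_ne_zero k)) h1) _)

theorem dvd_Nel_mul {G : Type*} [Group G] [Finite G] (r : ℕ) (hr : r.Prime)
    (hrG : ¬ r ∣ Nat.card G) (a : G) (f f1 : MonoidAlgebra ℤ G) (k : ℕ)
    (h1 : (r : MonoidAlgebra ℤ G) ^ (k + 1) ∣ f * f - f)
    (h2 : (r : MonoidAlgebra ℤ G) ∣ f - f1)
    (h3 : ∀ x, (r : MonoidAlgebra ℤ G) ∣ Nel ℤ a * x * f1) :
    (r : MonoidAlgebra ℤ G) ^ (k + 1) ∣ Nel ℤ a * f := by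
  have hc : ∀ x : MonoidAlgebra ℤ G, Commute (r : MonoidAlgebra ℤ G) x :=
    fun x => Nat.cast_commute r x
  have hcomm : ∀ (n : ℕ) (u v : MonoidAlgebra ℤ G),
      u * ((r : MonoidAlgebra ℤ G) ^ n * v) = (r : MonoidAlgebra ℤ G) ^ n * (u * v) :=
    fun n u v => by rw [← mul_assoc, ← ((hc u).pow_left n).eq, mul_assoc]
  have h3' : ∀ x, (r : MonoidAlgebra ℤ G) ∣ Nel ℤ a * x * f := by
    intro x
    have h4 : Nel ℤ a * x * f = Nel ℤ a * x * f1 + Nel ℤ a * x * (f - f1) := by
      rw [mul_sub, add_sub_cancel]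
    rw [h4]
    exact dvd_add (h3 x) (dvd_mul_left_of_comm hc _ h2)
  have hcop : Nat.Coprime r (orderOf a) :=
    (Nat.Prime.coprime_iff_not_dvd hr).mpr (fun h => hrG (dvd_trans h (orderOf_dvd_natCard a)))
  have main : ∀ j, j ≤ k + 1 → (r : MonoidAlgebra ℤ G) ^ j ∣ Nel ℤ a * f := by
    intro j
    induction j with
    | zero => intro _; rw [pow_zero]; exact one_dvd _
    | succ j ih =>
      intro hj
      obtain ⟨y, hy⟩ := ih (by omega)
      have hq : (orderOf a : MonoidAlgebra ℤ G) * (Nel ℤ a * f)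
          = Nel ℤ a * (Nel ℤ a * f) * f - Nel ℤ a * Nel ℤ a * (f * f - f) := by
        have h5 : Nel ℤ a * (Nel ℤ a * f) * f - Nel ℤ a * Nel ℤ a * (f * f - f)
            = Nel ℤ a * Nel ℤ a * f := by noncomm_ring
        rw [h5, Nel_mul_Nel, mul_assoc]
      have h6 : (r : MonoidAlgebra ℤ G) ^ (j + 1)
          ∣ (orderOf a : MonoidAlgebra ℤ G) * (Nel ℤ a * f) := by
        rw [hq]
        apply dvd_sub
        · rw [hy, hcomm, mul_assoc, pow_succ]
          exact mul_dvd_mul_left _ (h3' y)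
        · exact dvd_mul_left_of_comm (fun z => (hc z).pow_left (j + 1)) _
            (dvd_trans (pow_dvd_pow _ hj) h1)
      rw [← Nat.cast_pow, natCast_dvd_iff] at h6 ⊢
      intro g
      have hg := h6 g
      rw [MonoidAlgebra.natCast_def, MonoidAlgebra.coeff_single_one_mul] at hg
      exact IsCoprime.dvd_of_dvd_mul_left
        (Nat.isCoprime_iff_coprime.mpr (Nat.Coprime.pow_left _ hcop)) hg
  exact main (k + 1) le_rfl

/-! ### the idempotent modulo `r` -/

theorem exists_idem_mod {G V : Type*} [Group G] [Finite G] [CommGroup V] [Nontrivial V]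
    [MulDistribMulAction G V] (r : ℕ) [Fact r.Prime] (hrG : ¬ r ∣ Nat.card G)
    (hexp : ∀ v : V, v ^ r = 1)
    (hfpf : ∀ g : G, g ≠ 1 → ∀ v : V, g • v = v → v = 1) :
    ∃ f : MonoidAlgebra (ZMod r) G, f * f = f ∧ f ≠ 0 ∧
      ∀ a : G, (orderOf a).Prime → ∀ x : MonoidAlgebra (ZMod r) G,
        Nel (ZMod r) a * x * f = 0 := by
  classical
  have hexp' : ∀ x : Additive V, r • x = 0 := fun x => by
    rw [← ofMul_toMul x, ← ofMul_pow, hexp, ofMul_one]
  letI : Module (ZMod r) (Additive V) := AddCommGroup.zmodModule (n := r) hexp'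
  let ρ : G →* Module.End (ZMod r) (Additive V) :=
    { toFun := fun g => AddMonoidHom.toZModLinearMap r
        (MonoidHom.toAdditive (MulDistribMulAction.toMonoidHom V g))
      map_one' := by
        ext v
        exact one_smul G (Additive.toMul v)
      map_mul' := fun g h => by
        ext v
        exact mul_smul g h (Additive.toMul v) }
  have hρ : ∀ (g : G) (v : Additive V), ρ g v = Additive.ofMul (g • Additive.toMul v) :=
    fun g v => rfl
  let ρ' := MonoidAlgebra.lift (ZMod r) (Module.End (ZMod r) (Additive V)) G ρ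
  have hρ' : ∀ g, ρ' (MonoidAlgebra.of (ZMod r) G g) = ρ g := fun g => MonoidAlgebra.lift_of ρ g
  have hN : ∀ a : G, (orderOf a).Prime → ρ' (Nel (ZMod r) a) = 0 := by
    intro a ha
    have ha1 : a ≠ 1 := by
      rintro rfl
      rw [orderOf_one] at ha
      exact Nat.not_prime_one ha
    ext v
    unfold Nel
    rw [map_sum, LinearMap.sum_apply]
    have h1 : ∀ i ∈ Finset.range (orderOf a),
        (ρ' (MonoidAlgebra.of (ZMod r) G a ^ i)) v
          = Additive.ofMul (a ^ i • Additive.toMul v) := by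
      intro i _
      rw [← map_pow, hρ', hρ]
    rw [Finset.sum_congr rfl h1, ← ofMul_prod]
    have h2 := Cfsg.Agent.H1.FPF.nrm_eq_one hfpf a (orderOf a) ha1 (pow_orderOf_eq_one a)
      (Additive.toMul v)
    unfold Cfsg.Agent.H1.FPF.nrm at h2
    rw [h2]
    rfl
  obtain ⟨v0, hv0⟩ := exists_ne (1 : V)
  obtain ⟨m, hmdef⟩ : ∃ m : Additive V, m = Additive.ofMul v0 := ⟨_, rfl⟩
  have hm : m ≠ 0 := by
    intro h
    rw [hmdef] at h
    exact hv0 (Additive.ofMul.injective h)
  let p : Submodule (MonoidAlgebra (ZMod r) G) (MonoidAlgebra (ZMod r) G) :=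
    { carrier := {x | ρ' x m = 0}
      add_mem' := by
        intro a b ha hb
        show ρ' (a + b) m = 0
        rw [map_add, LinearMap.add_apply, ha, hb, add_zero]
      zero_mem' := by
        show ρ' 0 m = 0
        rw [map_zero, LinearMap.zero_apply]
      smul_mem' := by
        intro c x hx
        show ρ' (c * x) m = 0
        rw [map_mul, Module.End.mul_apply, hx, map_zero] }
  have hp : ∀ x, x ∈ p ↔ ρ' x m = 0 := fun x => Iff.rfl
  haveI : NeZero (Nat.card G : ZMod r) :=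
    ⟨fun h => hrG ((ZMod.natCast_eq_zero_iff _ _).mp h)⟩
  obtain ⟨q, hq⟩ := MonoidAlgebra.Submodule.exists_isCompl p
  obtain ⟨e, he, f, hf, hef⟩ : ∃ e ∈ p, ∃ f ∈ q, e + f = 1 := by
    have h1 : (1 : MonoidAlgebra (ZMod r) G) ∈ p ⊔ q := by
      rw [hq.sup_eq_top]
      trivial
    exact Submodule.mem_sup.mp h1
  have hfe : f = 1 - e := eq_sub_of_add_eq' hef
  have key : ∀ x ∈ p, x * f = 0 := by
    intro x hx
    have h1 : x * f ∈ q := q.smul_mem x hf
    have h2 : x * f ∈ p := by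
      rw [hfe, mul_sub, mul_one]
      exact p.sub_mem hx (p.smul_mem x he)
    have h3 : x * f ∈ p ⊓ q := ⟨h2, h1⟩
    rw [hq.inf_eq_bot] at h3
    exact (Submodule.mem_bot _).mp h3
  refine ⟨f, ?_, ?_, ?_⟩
  · have h1 := key e he
    calc f * f = (1 - e) * f := by rw [← hfe]
      _ = f - e * f := by rw [sub_mul, one_mul]
      _ = f := by rw [h1, sub_zero]
  · intro h0
    have h1 : e = 1 := by
      rw [h0, add_zero] at hef
      exact hef
    have h2 := (hp e).mp he
    rw [h1, map_one, Module.End.one_apply] at h2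
    exact hm h2
  · intro a ha x
    apply key
    show ρ' (Nel (ZMod r) a * x) m = 0
    rw [map_mul, Module.End.mul_apply, hN a ha, LinearMap.zero_apply]

/-! ### the main lifting theorem -/

theorem exists_fpfElt {G V : Type*} [Group G] [Finite G] [CommGroup V] [Finite V] [Nontrivial V]
    [MulDistribMulAction G V] (r : ℕ) (hr : r.Prime) (hexp : ∀ v : V, v ^ r = 1)
    (hfpf : ∀ g : G, g ≠ 1 → ∀ v : V, g • v = v → v = 1) :
    ∃ w : MonoidAlgebra ℤ G, w ≠ 0 ∧ IsFpfElt ℤ w := by
  classical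
  haveI : Fact r.Prime := ⟨hr⟩
  have hrG : ¬ r ∣ Nat.card G := by
    intro hdvd
    obtain ⟨x, hx⟩ := exists_prime_orderOf_dvd_card' (G := G) r hdvd
    have hx1 : x ≠ 1 := by
      rintro rfl
      rw [orderOf_one] at hx
      exact hr.one_lt.ne hx
    have hxr : x ^ r = 1 := by
      have h := pow_orderOf_eq_one x
      rwa [hx] at h
    obtain ⟨v, hv1, hv⟩ := Cfsg.Agent.H1.FPF.exists_fixed_of_pow (V := V) r hr x hx1 hxr hexp
    exact hv1 (hfpf x hx1 v hv)
  obtain ⟨fbar, hf_idem, hf_ne, hf_N⟩ := exists_idem_mod r hrG hexp hfpf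
  obtain ⟨f1, hf1⟩ := redMod_surjective G r fbar
  have hc : ∀ x : MonoidAlgebra ℤ G, Commute (r : MonoidAlgebra ℤ G) x :=
    fun x => Nat.cast_commute r x
  have hi : (r : MonoidAlgebra ℤ G) ∣ f1 * f1 - f1 :=
    (redMod_eq_zero_iff r _).mp (by rw [map_sub, map_mul, hf1, hf_idem, sub_self])
  have hii : ¬ (r : MonoidAlgebra ℤ G) ∣ f1 := fun h =>
    hf_ne (by rw [← hf1]; exact (redMod_eq_zero_iff r _).mpr h)
  have hiii : ∀ a : G, (orderOf a).Prime → ∀ x, (r : MonoidAlgebra ℤ G) ∣ Nel ℤ a * x * f1 :=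
    fun a ha x => (redMod_eq_zero_iff r _).mp
      (by rw [map_mul, map_mul, hf1, redMod_Nel]; exact hf_N a ha _)
  choose fk hfk1 hfk2 using idem_lift (r : MonoidAlgebra ℤ G) hc f1 hi
  have hNK : ∀ (k : ℕ) (a : G), (orderOf a).Prime →
      (r : MonoidAlgebra ℤ G) ^ (k + 1) ∣ Nel ℤ a * fk k :=
    fun k a ha => dvd_Nel_mul r hr hrG a (fk k) f1 k (hfk1 k) (hfk2 k) (hiii a ha)
  have hfk_nd : ∀ k, ¬ (r : MonoidAlgebra ℤ G) ∣ fk k := by
    intro k h
    apply hii
    have h3 : f1 = fk k - (fk k - f1) := by abel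
    rw [h3]
    exact dvd_sub h (hfk2 k)
  -- Maschke over `ℚ`
  haveI : NeZero (Nat.card G : ℚ) := ⟨Nat.cast_ne_zero.mpr Nat.card_pos.ne'⟩
  obtain ⟨S, hSdef⟩ : ∃ S : Set (MonoidAlgebra ℚ G),
      S = {x | ∃ a : G, (orderOf a).Prime ∧ x = Nel ℚ a} := ⟨_, rfl⟩
  obtain ⟨J', hJ'⟩ :=
    MonoidAlgebra.Submodule.exists_isCompl (Submodule.span (MonoidAlgebra ℚ G) S)
  obtain ⟨e, he, e', he', hee⟩ :
      ∃ e ∈ Submodule.span (MonoidAlgebra ℚ G) S, ∃ e' ∈ J', e + e' = 1 := by
    have h1 : (1 : MonoidAlgebra ℚ G) ∈ Submodule.span (MonoidAlgebra ℚ G) S ⊔ J' := by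
      rw [hJ'.sup_eq_top]
      trivial
    exact Submodule.mem_sup.mp h1
  have hee' : e' = 1 - e := eq_sub_of_add_eq' hee
  have key : ∀ x ∈ Submodule.span (MonoidAlgebra ℚ G) S, x * e' = 0 := by
    intro x hx
    have h1 : x * e' ∈ J' := J'.smul_mem x he'
    have h2 : x * e' ∈ Submodule.span (MonoidAlgebra ℚ G) S := by
      rw [hee', mul_sub, mul_one]
      exact Submodule.sub_mem _ hx (Submodule.smul_mem _ x he)
    have h3 : x * e' ∈ Submodule.span (MonoidAlgebra ℚ G) S ⊓ J' := ⟨h2, h1⟩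
    rw [hJ'.inf_eq_bot] at h3
    exact (Submodule.mem_bot _).mp h3
  have he'fpf : IsFpfElt ℚ e' := fun a ha =>
    key _ (Submodule.subset_span (by rw [hSdef]; exact ⟨a, ha, rfl⟩))
  have hcm : ∀ (n : ℕ) (u v : MonoidAlgebra ℚ G),
      u * ((n : MonoidAlgebra ℚ G) * v) = (n : MonoidAlgebra ℚ G) * (u * v) :=
    fun n u v => by rw [← mul_assoc, ← (Nat.cast_commute n u).eq, mul_assoc]
  by_cases he'0 : e' = 0
  · exfalso
    have h1 : (1 : MonoidAlgebra ℚ G) ∈ Submodule.span (MonoidAlgebra ℚ G) S := by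
      have h2 : e = 1 := by
        rw [he'0, add_zero] at hee
        exact hee
      rw [← h2]
      exact he
    have claim : ∀ x ∈ Submodule.span (MonoidAlgebra ℚ G) S, ∃ D : ℕ, D ≠ 0 ∧
        ∃ x' : MonoidAlgebra ℤ G, toQ G x' = (D : MonoidAlgebra ℚ G) * x ∧
          ∀ k, (r : MonoidAlgebra ℤ G) ^ (k + 1) ∣ x' * fk k := by
      intro x hx
      induction hx using Submodule.span_induction with
      | mem x hx =>
        rw [hSdef] at hx
        obtain ⟨a, ha, rfl⟩ := hx
        exact ⟨1, one_ne_zero, Nel ℤ a, by rw [toQ_Nel, Nat.cast_one, one_mul],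
          fun k => hNK k a ha⟩
      | zero =>
        exact ⟨1, one_ne_zero, 0, by rw [map_zero, mul_zero],
          fun k => by rw [zero_mul]; exact dvd_zero _⟩
      | add x y _ _ hx hy =>
        obtain ⟨D1, hD1, x', hx', hxk⟩ := hx
        obtain ⟨D2, hD2, y', hy', hyk⟩ := hy
        refine ⟨D1 * D2, mul_ne_zero hD1 hD2,
          (D2 : MonoidAlgebra ℤ G) * x' + (D1 : MonoidAlgebra ℤ G) * y', ?_, ?_⟩
        · rw [map_add, map_mul, map_mul, hx', hy', map_natCast, map_natCast, Nat.cast_mul,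
            mul_add, ← mul_assoc, ← mul_assoc, (Nat.cast_commute D2 (D1 : MonoidAlgebra ℚ G)).eq]
        · intro k
          rw [add_mul, mul_assoc, mul_assoc]
          exact dvd_add
            (dvd_mul_left_of_comm (fun z => (hc z).pow_left (k + 1)) _ (hxk k))
            (dvd_mul_left_of_comm (fun z => (hc z).pow_left (k + 1)) _ (hyk k))
      | smul y x _ hx =>
        obtain ⟨D, hD, x', hx', hxk⟩ := hx
        obtain ⟨Dy, hDy, y', hy'⟩ := exists_clear_den y
        refine ⟨Dy * D, mul_ne_zero hDy hD, y' * x', ?_, ?_⟩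
        · rw [map_mul, hx', hy', Nat.cast_mul, smul_eq_mul, mul_assoc, hcm, ← mul_assoc]
        · intro k
          rw [mul_assoc]
          exact dvd_mul_left_of_comm (fun z => (hc z).pow_left (k + 1)) _ (hxk k)
    obtain ⟨D, hD, x', hx', hxk⟩ := claim 1 h1
    have hx'D : x' = (D : MonoidAlgebra ℤ G) := by
      apply toQ_injective G
      rw [hx', mul_one, map_natCast]
    have hdiv := hxk D
    rw [hx'D, ← Nat.cast_pow, natCast_dvd_iff] at hdiv
    obtain ⟨g, hg⟩ : ∃ g, ¬ (r : ℤ) ∣ (fk D).coeff g := by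
      by_contra hcon
      exact hfk_nd D ((natCast_dvd_iff r _).mpr (fun g => by
        by_contra hg
        exact hcon ⟨g, hg⟩))
    have h5 := hdiv g
    rw [MonoidAlgebra.natCast_def, MonoidAlgebra.coeff_single_one_mul] at h5
    have h7 : r ^ (D + 1) ∣ D := by
      have h5' := Int.natCast_dvd.mp h5
      rw [Int.natAbs_mul, Int.natAbs_natCast] at h5'
      exact Nat.Coprime.dvd_of_dvd_mul_right
        (Nat.Coprime.pow_left _ ((Nat.Prime.coprime_iff_not_dvd hr).mpr
          (fun h => hg (Int.natCast_dvd.mpr h)))) h5'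
    have h9 := Nat.le_of_dvd (Nat.pos_of_ne_zero hD) h7
    have h10 : D < r ^ D := Nat.lt_pow_self hr.one_lt
    have h11 : r ^ D ≤ r ^ (D + 1) := Nat.pow_le_pow_right hr.pos (Nat.le_succ D)
    omega
  · obtain ⟨D, hD, w, hw⟩ := exists_clear_den e'
    refine ⟨w, ?_, ?_⟩
    · rintro rfl
      rw [map_zero] at hw
      apply he'0
      apply MonoidAlgebra.coeff_injective
      ext g
      have h1 := congrArg (fun z => MonoidAlgebra.coeff z g) hw
      simp only [MonoidAlgebra.natCast_def, MonoidAlgebra.coeff_single_one_mul,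
        MonoidAlgebra.coeff_zero, Finsupp.coe_zero, Pi.zero_apply] at h1
      exact (mul_eq_zero.mp h1.symm).resolve_left (Nat.cast_ne_zero.mpr hD)
    · intro a ha
      apply toQ_injective G
      rw [map_mul, toQ_Nel, hw, map_zero, hcm, he'fpf a ha, mul_zero]

/-! ### from fpf elements to Frobenius complements -/

theorem frob_of_fpfElt {G : Type*} [Group G] [Finite G] [Nontrivial G]
    (w : MonoidAlgebra ℤ G) (hw0 : w ≠ 0) (hw : IsFpfElt ℤ w) :
    ∃ (L : Type) (_ : Group L) (_ : Finite L) (C : Subgroup L),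
      Cfsg.IsFrobeniusComplement C ∧ Nonempty (G ≃* C) := by
  classical
  obtain ⟨g0, hg0⟩ : ∃ g0, w.coeff g0 ≠ 0 := by
    by_contra hcon
    apply hw0
    apply MonoidAlgebra.coeff_injective
    ext g
    by_contra hg
    exact hcon ⟨g, hg⟩
  obtain ⟨t, ht, htp⟩ := Nat.exists_infinite_primes (Nat.card G + (w.coeff g0).natAbs + 1)
  haveI : Fact t.Prime := ⟨htp⟩
  have hwt : redMod G t w ≠ 0 := by
    intro h
    have h1 := (redMod_eq_zero_iff t w).mp h
    rw [natCast_dvd_iff] at h1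
    have h2 := Int.natCast_dvd.mp (h1 g0)
    have h3 := Nat.le_of_dvd (Int.natAbs_pos.mpr hg0) h2
    omega
  have hwfpf : IsFpfElt (ZMod t) (redMod G t w) := by
    intro a ha
    rw [← redMod_Nel, ← map_mul, hw a ha, map_zero]
  let Λ : Submodule (MonoidAlgebra (ZMod t) G) (MonoidAlgebra (ZMod t) G) :=
    { carrier := {x | IsFpfElt (ZMod t) x}
      add_mem' := by
        intro x y hx hy a ha
        rw [mul_add, hx a ha, hy a ha, add_zero]
      zero_mem' := fun a _ => mul_zero _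
      smul_mem' := fun c x hx => hx.mul_left c }
  haveI : Finite (MonoidAlgebra (ZMod t) G) :=
    Finite.of_injective (fun x : MonoidAlgebra (ZMod t) G => (x.coeff : G → ZMod t))
      (fun x y h => MonoidAlgebra.coeff_injective (DFunLike.coe_injective h))
  haveI : Nontrivial Λ := ⟨⟨⟨redMod G t w, hwfpf⟩, 0, fun h => hwt (congrArg Subtype.val h)⟩⟩
  letI : DistribMulAction G Λ := DistribMulAction.compHom Λ (MonoidAlgebra.of (ZMod t) G)
  have hsmul : ∀ (g : G) (v : Λ),
      ((g • v : Λ) : MonoidAlgebra (ZMod t) G) = MonoidAlgebra.of (ZMod t) G g * v :=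
    fun g v => rfl
  have hfpf : ∀ g : G, g ≠ 1 → ∀ v : Λ, g • v = v → v = 0 := by
    intro g hg1 v hv
    have hog : orderOf g ≠ 1 := fun h => hg1 (orderOf_eq_one_iff.mp h)
    obtain ⟨q, hqdef⟩ : ∃ q, q = (orderOf g).minFac := ⟨_, rfl⟩
    have hq : q.Prime := hqdef ▸ Nat.minFac_prime hog
    have hqd : q ∣ orderOf g := hqdef ▸ Nat.minFac_dvd _
    have hoc : orderOf (g ^ (orderOf g / q)) = q :=
      orderOf_pow_orderOf_div (orderOf_pos g).ne' hqd
    have h1 : MonoidAlgebra.of (ZMod t) G g * (v : MonoidAlgebra (ZMod t) G) = v := by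
      rw [← hsmul, hv]
    have h2 : ∀ i : ℕ,
        MonoidAlgebra.of (ZMod t) G g ^ i * (v : MonoidAlgebra (ZMod t) G) = v := by
      intro i
      induction i with
      | zero => rw [pow_zero, one_mul]
      | succ i ih => rw [pow_succ, mul_assoc, h1, ih]
    have h3 : ∀ i : ℕ, MonoidAlgebra.of (ZMod t) G (g ^ (orderOf g / q)) ^ i
        * (v : MonoidAlgebra (ZMod t) G) = v := by
      intro i
      rw [map_pow, ← pow_mul]
      exact h2 _
    have h4 : Nel (ZMod t) (g ^ (orderOf g / q)) * (v : MonoidAlgebra (ZMod t) G)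
        = (q : MonoidAlgebra (ZMod t) G) * v := by
      unfold Nel
      rw [Finset.sum_mul, Finset.sum_congr rfl (fun i _ => h3 i), Finset.sum_const,
        Finset.card_range, hoc, nsmul_eq_mul]
    have h5 : Nel (ZMod t) (g ^ (orderOf g / q)) * (v : MonoidAlgebra (ZMod t) G) = 0 :=
      v.2 _ (by rw [hoc]; exact hq)
    rw [h4] at h5
    have hqt : (q : ZMod t) ≠ 0 := by
      intro h
      have h6 := (ZMod.natCast_eq_zero_iff q t).mp h
      have h7 := Nat.le_of_dvd hq.pos h6
      have h8 : q ≤ orderOf g := Nat.le_of_dvd (orderOf_pos g) hqd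
      have h9 : orderOf g ≤ Nat.card G := Nat.le_of_dvd Nat.card_pos (orderOf_dvd_natCard g)
      omega
    apply Subtype.ext
    apply MonoidAlgebra.coeff_injective
    ext x
    have h10 := congrArg (fun z => MonoidAlgebra.coeff z x) h5
    simp only [MonoidAlgebra.natCast_def, MonoidAlgebra.coeff_single_one_mul,
      MonoidAlgebra.coeff_zero, Finsupp.coe_zero, Pi.zero_apply] at h10
    exact (mul_eq_zero.mp h10).resolve_left hqt
  obtain ⟨L, hL1, hL2, C, hC, hiso, -⟩ := Cfsg.Agent.H75.frobenius_of_fpf_distrib hfpf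
  exact ⟨L, hL1, hL2, C, hC, hiso⟩

/-! ### products -/

theorem coeff_map_inr_one {A B : Type*} [Group A] [Group B] (v : MonoidAlgebra ℤ B) (y : B) :
    (MonoidAlgebra.mapDomainRingHom ℤ (MonoidHom.inr A B) v).coeff ((1 : A), y) = v.coeff y := by
  rw [MonoidAlgebra.mapDomainRingHom_apply]
  show (Finsupp.mapDomain (MonoidHom.inr A B) v.coeff) ((1 : A), y) = _
  exact Finsupp.mapDomain_apply (fun b b' hb => congrArg Prod.snd hb) v.coeff y

theorem coeff_map_inr_ne {A B : Type*} [Group A] [Group B] (v : MonoidAlgebra ℤ B) (z : A) (y : B)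
    (hz : z ≠ 1) :
    (MonoidAlgebra.mapDomainRingHom ℤ (MonoidHom.inr A B) v).coeff (z, y) = 0 := by
  rw [MonoidAlgebra.mapDomainRingHom_apply]
  show (Finsupp.mapDomain (MonoidHom.inr A B) v.coeff) (z, y) = _
  apply Finsupp.mapDomain_notin_range
  rintro ⟨b, hb⟩
  have h1 : (1 : A) = z := congrArg Prod.fst hb
  exact hz h1.symm

theorem fpfElt_prod {A B : Type*} [Group A] [Group B] [Finite A] [Finite B]
    (hcop : (Nat.card A).Coprime (Nat.card B))
    (wA : MonoidAlgebra ℤ A) (wB : MonoidAlgebra ℤ B) (hA0 : wA ≠ 0) (hB0 : wB ≠ 0)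
    (hA : IsFpfElt ℤ wA) (hB : IsFpfElt ℤ wB) :
    ∃ w : MonoidAlgebra ℤ (A × B), w ≠ 0 ∧ IsFpfElt ℤ w := by
  classical
  obtain ⟨ιA, hιA⟩ : ∃ ι, ι = MonoidAlgebra.mapDomainRingHom ℤ (MonoidHom.inl A B) := ⟨_, rfl⟩
  obtain ⟨ιB, hιB⟩ : ∃ ι, ι = MonoidAlgebra.mapDomainRingHom ℤ (MonoidHom.inr A B) := ⟨_, rfl⟩
  have hιAs : ∀ (a : A) (z : ℤ),
      ιA (MonoidAlgebra.single a z) = MonoidAlgebra.single (a, (1 : B)) z := by
    intro a z
    rw [hιA, MonoidAlgebra.mapDomainRingHom_apply, MonoidAlgebra.mapDomain_single,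
      MonoidHom.inl_apply]
  have hιBs : ∀ (b : B) (z : ℤ),
      ιB (MonoidAlgebra.single b z) = MonoidAlgebra.single ((1 : A), b) z := by
    intro b z
    rw [hιB, MonoidAlgebra.mapDomainRingHom_apply, MonoidAlgebra.mapDomain_single,
      MonoidHom.inr_apply]
  have hcomm : ∀ (x : MonoidAlgebra ℤ A) (y : MonoidAlgebra ℤ B), ιA x * ιB y = ιB y * ιA x := by
    intro x y
    induction x using MonoidAlgebra.induction_linear with
    | zero => rw [map_zero, zero_mul, mul_zero]
    | add x1 x2 h1 h2 => rw [map_add, add_mul, mul_add, h1, h2]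
    | single a z =>
      induction y using MonoidAlgebra.induction_linear with
      | zero => rw [map_zero, zero_mul, mul_zero]
      | add y1 y2 h1 h2 => rw [map_add, add_mul, mul_add, h1, h2]
      | single b z' =>
        rw [hιAs, hιBs, MonoidAlgebra.single_mul_single, MonoidAlgebra.single_mul_single]
        congr 1
        · simp
        · exact mul_comm z z'
  have hNA : ∀ a : A, ιA (Nel ℤ a) = Nel ℤ ((a, 1) : A × B) := by
    intro a
    rw [hιA]
    exact mapDomainRingHom_Nel ℤ (MonoidHom.inl A B) (fun x y h => congrArg Prod.fst h) a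
  have hNB : ∀ b : B, ιB (Nel ℤ b) = Nel ℤ ((1, b) : A × B) := by
    intro b
    rw [hιB]
    exact mapDomainRingHom_Nel ℤ (MonoidHom.inr A B) (fun x y h => congrArg Prod.snd h) b
  refine ⟨ιA wA * ιB wB, ?_, ?_⟩
  · obtain ⟨x0, hx0⟩ : ∃ x, wA.coeff x ≠ 0 := by
      by_contra hcon
      apply hA0
      apply MonoidAlgebra.coeff_injective
      ext g
      by_contra hg
      exact hcon ⟨g, hg⟩
    obtain ⟨y0, hy0⟩ : ∃ y, wB.coeff y ≠ 0 := by
      by_contra hcon
      apply hB0
      apply MonoidAlgebra.coeff_injective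
      ext g
      by_contra hg
      exact hcon ⟨g, hg⟩
    have hcoef : ∀ (u : MonoidAlgebra ℤ A) (x : A) (y : B),
        (ιA u * ιB wB).coeff (x, y) = u.coeff x * wB.coeff y := by
      intro u x y
      induction u using MonoidAlgebra.induction_linear with
      | zero => simp
      | add u1 u2 h1 h2 =>
        simp only [map_add, add_mul, MonoidAlgebra.coeff_add, Finsupp.add_apply, h1, h2]
      | single a z =>
        rw [hιAs, MonoidAlgebra.coeff_single_mul_apply, hιB]
        have h1 : ((a, (1 : B)) : A × B)⁻¹ * (x, y) = (a⁻¹ * x, y) := by simp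
        rw [h1]
        by_cases hax : a = x
        · subst hax
          rw [inv_mul_cancel, coeff_map_inr_one]
          simp [MonoidAlgebra.coeff_single]
        · have h2 : ¬ a⁻¹ * x = 1 := fun h => hax (inv_mul_eq_one.mp h)
          rw [coeff_map_inr_ne _ _ _ h2, mul_zero]
          have h3 : (MonoidAlgebra.single a z).coeff x = 0 := by
            simp [MonoidAlgebra.coeff_single, Finsupp.single_apply, hax]
          rw [h3, zero_mul]
    intro h0
    have h1 := hcoef wA x0 y0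
    rw [h0] at h1
    exact mul_ne_zero hx0 hy0 h1.symm
  · rintro ⟨a, b⟩ hc
    have hoa : orderOf a ∣ Nat.card A := orderOf_dvd_natCard a
    have hob : orderOf b ∣ Nat.card B := orderOf_dvd_natCard b
    have hcop' : (orderOf a).Coprime (orderOf b) :=
      Nat.Coprime.coprime_dvd_left hoa (Nat.Coprime.coprime_dvd_right hob hcop)
    have h := Prod.orderOf (a, b)
    rw [h] at hc
    change ((orderOf a).lcm (orderOf b)).Prime at hc
    rw [hcop'.lcm_eq_mul] at hc
    rcases Nat.prime_mul_iff.mp hc with ⟨ha, hb1⟩ | ⟨hb, ha1⟩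
    · have hb' : b = 1 := orderOf_eq_one_iff.mp hb1
      subst hb'
      rw [← hNA, ← mul_assoc, ← map_mul, hA a ha, map_zero, zero_mul]
    · have ha' : a = 1 := orderOf_eq_one_iff.mp ha1
      subst ha'
      rw [← hNB, ← mul_assoc, ← hcomm, mul_assoc, ← map_mul, hB b hb, map_zero, mul_zero]

end Cfsg.Agent.H98.FpfLift
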