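import Mathlib
import Cfsg.Prelude.Def_Solvable
import Cfsg.Agent.H75.Frobenius
import Cfsg.Agent.H1.FPF
import Cfsg.Agent.Lib.Helper96.Frob6
import Cfsg.Agent.S0033
import Cfsg.Agent.H98.FpfLift

/-!
# Frobenius complements act fixed-point-freely on elementary abelian groups (helper98)

* `exists_fpf_module`: an (abstract) Frobenius complement `G` acts fixed-point-freely on a
  nontrivial finite elementary abelian `r`-group (kernel is nilpotent by Thompson, take
  `Ω₁` of a Sylow subgroup of its centre);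
* `frob_of_injective`: nontrivial subgroups of Frobenius complements are Frobenius complements;
* `exists_fpfElt_of_frob`, `frob_iff_fpfElt`: a nontrivial finite group is a Frobenius complement
  iff `ℤ[G]` has a nonzero fpf element.
-/

set_option autoImplicit false

namespace Cfsg.Agent.H98.FpfLift

theorem exists_fpf_module {G : Type*} [Group G]
    (hFC : ∃ (L : Type) (_ : Group L) (_ : Finite L) (H : Subgroup L),
      Cfsg.IsFrobeniusComplement H ∧ Nonempty (G ≃* H)) :
    ∃ (V : Type) (_ : CommGroup V) (_ : Finite V) (_ : Nontrivial V)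
      (_ : MulDistribMulAction G V) (r : ℕ), r.Prime ∧ (∀ v : V, v ^ r = 1) ∧
        ∀ g : G, g ≠ 1 → ∀ v : V, g • v = v → v = 1 := by
  classical
  obtain ⟨L, hL1, hL2, H, hH, ⟨e⟩⟩ := hFC
  obtain ⟨K, hKn, hKbot, hKc, hfpf⟩ := Cfsg.Agent.Lib.Helper96.frob_exists_kernel hH
  haveI := hKn
  -- an element of prime order in `H`
  have hHcard : Nat.card H ≠ 1 := fun h => hH.1 (Subgroup.card_eq_one.mp h)
  obtain ⟨p, hpdef⟩ : ∃ p, p = (Nat.card H).minFac := ⟨_, rfl⟩
  have hp : p.Prime := hpdef ▸ Nat.minFac_prime hHcard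
  have hpd : p ∣ Nat.card H := hpdef ▸ Nat.minFac_dvd _
  haveI : Fact p.Prime := ⟨hp⟩
  obtain ⟨y, hy⟩ := exists_prime_orderOf_dvd_card' (G := H) p hpd
  have hyL : orderOf (y : L) = p := by
    rw [Subgroup.orderOf_coe]
    exact hy
  have hy1 : (y : L) ≠ 1 := by
    intro h
    rw [h, orderOf_one] at hyL
    exact hp.one_lt.ne hyL
  have hyfix : K ⊓ Subgroup.centralizer {(y : L)} = ⊥ := hfpf y y.2 hy1
  -- the automorphism induced by `y`
  let φ : MulAut K := MulAut.conjNormal (y : L)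
  have hφapp : ∀ k : K, ((φ k : K) : L) = y * k * (y : L)⁻¹ :=
    fun k => MulAut.conjNormal_apply _ k
  have hφfix : MonoidHom.FixedPointFree ((φ : K ≃* K) : K →* K) := by
    intro k hk
    have h1 : (y : L) * k * (y : L)⁻¹ = k := by
      have h0 := congrArg Subtype.val hk
      rw [← hφapp k]
      exact h0
    have h2 : (k : L) ∈ K ⊓ Subgroup.centralizer {(y : L)} := by
      rw [Subgroup.mem_inf]
      refine ⟨k.2, ?_⟩
      rw [Subgroup.mem_centralizer_iff]
      intro z hz
      rw [Set.mem_singleton_iff] at hz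
      subst hz
      calc (y : L) * (k : L) = ((y : L) * (k : L) * (y : L)⁻¹) * (y : L) := by group
        _ = k * (y : L) := by rw [h1]
    rw [hyfix, Subgroup.mem_bot] at h2
    exact Subtype.ext h2
  have hφp : φ ^ p = 1 := by
    have h1 : φ ^ p = MulAut.conjNormal ((y : L) ^ p) :=
      (map_pow MulAut.conjNormal (y : L) p).symm
    have h2 : (y : L) ^ p = 1 := by
      have h3 := pow_orderOf_eq_one (y : L)
      rwa [hyL] at h3
    rw [h1, h2, map_one]
  obtain ⟨k0, hk0⟩ : ∃ k : K, k ≠ 1 := by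
    by_contra hcon
    apply hKbot
    rw [Subgroup.eq_bot_iff_forall]
    intro x hx
    by_contra hx1
    exact hcon ⟨⟨x, hx⟩, fun h => hx1 (congrArg Subtype.val h)⟩
  have hφ1 : φ ≠ 1 := by
    intro h
    apply hk0
    apply hφfix
    show φ k0 = k0
    rw [h]
    rfl
  have hord : orderOf φ = p := orderOf_eq_prime hφp hφ1
  haveI hnil : Group.IsNilpotent K := Cfsg.Agent.S0033.result φ hφfix p hp hord
  -- a central element of prime order
  haveI : Nontrivial K := ⟨⟨k0, 1, hk0⟩⟩
  have hcen := Group.IsNilpotent.center_ne_bot K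
  obtain ⟨a, ha1⟩ := (Subgroup.ne_bot_iff_exists_ne_one).mp hcen
  obtain ⟨z0, hz0def⟩ : ∃ z0 : L, z0 = ((a : K) : L) := ⟨_, rfl⟩
  have hz0K : z0 ∈ K := hz0def ▸ (a : K).2
  have hz0c : ∀ k ∈ K, k * z0 = z0 * k := by
    intro k hk
    have h1 := Subgroup.mem_center_iff.mp a.2 ⟨k, hk⟩
    have h2 := congrArg Subtype.val h1
    rw [hz0def]
    exact h2
  have hz01 : z0 ≠ 1 := by
    intro h
    apply ha1
    apply Subtype.ext
    apply Subtype.ext
    rw [← hz0def]
    exact h
  have hoz : orderOf z0 ≠ 1 := fun h => hz01 (orderOf_eq_one_iff.mp h)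
  obtain ⟨r, hrdef⟩ : ∃ r, r = (orderOf z0).minFac := ⟨_, rfl⟩
  have hr : r.Prime := hrdef ▸ Nat.minFac_prime hoz
  have hrd : r ∣ orderOf z0 := hrdef ▸ Nat.minFac_dvd _
  obtain ⟨z1, hz1def⟩ : ∃ z1 : L, z1 = z0 ^ (orderOf z0 / r) := ⟨_, rfl⟩
  have hz1o : orderOf z1 = r := by
    rw [hz1def]
    exact orderOf_pow_orderOf_div (orderOf_pos z0).ne' hrd
  have hz1K : z1 ∈ K := hz1def ▸ K.pow_mem hz0K _
  have hz1c : ∀ k ∈ K, k * z1 = z1 * k := by
    intro k hk
    have h1 : Commute k z0 := hz0c k hk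
    rw [hz1def]
    exact (h1.pow_right _).eq
  have hz1r : z1 ^ r = 1 := by
    have h := pow_orderOf_eq_one z1
    rwa [hz1o] at h
  have hz11 : z1 ≠ 1 := by
    intro h
    rw [h, orderOf_one] at hz1o
    exact hr.one_lt.ne hz1o
  -- the elementary abelian normal subgroup
  let E : Subgroup L :=
    { carrier := {x | x ∈ K ∧ (∀ k ∈ K, k * x = x * k) ∧ x ^ r = 1}
      one_mem' := ⟨K.one_mem, fun k _ => by rw [mul_one, one_mul], one_pow r⟩
      mul_mem' := by
        rintro x y ⟨hxK, hxc, hxr⟩ ⟨hyK, hyc, hyr⟩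
        refine ⟨K.mul_mem hxK hyK, fun k hk => ?_, ?_⟩
        · rw [← mul_assoc, hxc k hk, mul_assoc, hyc k hk, ← mul_assoc]
        · have hcomm : Commute x y := (hxc y hyK).symm
          rw [hcomm.mul_pow, hxr, hyr, one_mul]
      inv_mem' := by
        rintro x ⟨hxK, hxc, hxr⟩
        refine ⟨K.inv_mem hxK, fun k hk => ?_, by rw [inv_pow, hxr, inv_one]⟩
        have h1 : Commute k x := hxc k hk
        exact h1.inv_right.eq }
  have hEmem : ∀ x, x ∈ E ↔ x ∈ K ∧ (∀ k ∈ K, k * x = x * k) ∧ x ^ r = 1 := fun x => Iff.rfl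
  have hEconj : ∀ (g x : L), x ∈ E → g * x * g⁻¹ ∈ E := by
    intro g x hx
    obtain ⟨hxK, hxc, hxr⟩ := (hEmem x).mp hx
    refine (hEmem _).mpr ⟨hKn.conj_mem x hxK g, fun k hk => ?_,
      by rw [conj_pow, hxr, mul_one, mul_inv_cancel]⟩
    have hk' : g⁻¹ * k * g ∈ K := by
      have h1 := hKn.conj_mem k hk g⁻¹
      rwa [inv_inv] at h1
    have h1 := hxc _ hk'
    calc k * (g * x * g⁻¹) = g * ((g⁻¹ * k * g) * x) * g⁻¹ := by group
      _ = g * (x * (g⁻¹ * k * g)) * g⁻¹ := by rw [h1]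
      _ = g * x * g⁻¹ * k := by group
  have hEnorm : H ≤ Subgroup.normalizer (E : Set L) := by
    intro h _
    rw [Subgroup.mem_normalizer_iff]
    intro x
    constructor
    · exact hEconj h x
    · intro hx
      have h1 := hEconj h⁻¹ _ hx
      have h2 : h⁻¹ * (h * x * h⁻¹) * h⁻¹⁻¹ = x := by group
      rwa [h2] at h1
  have hz1E : z1 ∈ E := (hEmem z1).mpr ⟨hz1K, hz1c, hz1r⟩
  have hEbot : E ≠ ⊥ := by
    intro h
    rw [h, Subgroup.mem_bot] at hz1E
    exact hz11 hz1E
  letI instC : CommGroup E :=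
    { (inferInstance : Group E) with
      mul_comm := fun a b =>
        Subtype.ext (((hEmem _).mp a.2).2.1 b ((hEmem _).mp b.2).1).symm }
  haveI instN : Nontrivial E := (Subgroup.nontrivial_iff_ne_bot E).mpr hEbot
  letI instA : MulDistribMulAction H E := Cfsg.Agent.H1.FPF.conjAction H E hEnorm
  letI instG : MulDistribMulAction G E := MulDistribMulAction.compHom E (e : G →* H)
  refine ⟨E, instC, inferInstance, instN, instG, r, hr, ?_, ?_⟩
  · intro v
    exact Subtype.ext ((hEmem _).mp v.2).2.2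
  · intro g hg v hv
    have hg' : (e g : H) ≠ 1 := fun h => hg (e.injective (h.trans (map_one e).symm))
    have hg'' : ((e g : H) : L) ≠ 1 := fun h => hg' (Subtype.ext h)
    have h1 : ((e g : H) : L) * (v : L) * ((e g : H) : L)⁻¹ = v := by
      have h0 := congrArg Subtype.val hv
      exact h0
    have h2 : (v : L) ∈ K ⊓ Subgroup.centralizer {((e g : H) : L)} := by
      rw [Subgroup.mem_inf]
      refine ⟨((hEmem _).mp v.2).1, ?_⟩
      rw [Subgroup.mem_centralizer_iff]
      intro z hz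
      rw [Set.mem_singleton_iff] at hz
      subst hz
      calc ((e g : H) : L) * (v : L)
          = (((e g : H) : L) * (v : L) * ((e g : H) : L)⁻¹) * ((e g : H) : L) := by group
        _ = v * ((e g : H) : L) := by rw [h1]
    rw [hfpf _ (e g).2 hg'', Subgroup.mem_bot] at h2
    exact Subtype.ext h2

/-- nontrivial subgroups of Frobenius complements are Frobenius complements -/
theorem frob_of_injective {G' G : Type*} [Group G'] [Finite G'] [Nontrivial G'] [Group G]
    (hFC : ∃ (L : Type) (_ : Group L) (_ : Finite L) (H : Subgroup L),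
      Cfsg.IsFrobeniusComplement H ∧ Nonempty (G ≃* H))
    (f : G' →* G) (hf : Function.Injective f) :
    ∃ (L : Type) (_ : Group L) (_ : Finite L) (H : Subgroup L),
      Cfsg.IsFrobeniusComplement H ∧ Nonempty (G' ≃* H) := by
  classical
  obtain ⟨L, hL1, hL2, H, hH, ⟨e⟩⟩ := hFC
  obtain ⟨K, hKn, hKbot, hKc, hfpf⟩ := Cfsg.Agent.Lib.Helper96.frob_exists_kernel hH
  haveI := hKn
  haveI : Nontrivial K := (Subgroup.nontrivial_iff_ne_bot K).mpr hKbot
  let φ : G' →* MulAut K :=
    (MulAut.conjNormal (H := K)).comp (H.subtype.comp ((e : G ≃* H).toMonoidHom.comp f))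
  have hφ : ∀ (g : G') (k : K),
      ((φ g k : K) : L) = ((e (f g) : H) : L) * k * ((e (f g) : H) : L)⁻¹ :=
    fun g k => MulAut.conjNormal_apply _ k
  have hfix : ∀ g : G', g ≠ 1 → ∀ k : K, φ g k = k → k = 1 := by
    intro g hg k hk
    have hg' : ((e (f g) : H) : L) ≠ 1 := by
      intro h
      apply hg
      apply hf
      apply e.injective
      rw [map_one, map_one]
      exact Subtype.ext h
    have h1 : ((e (f g) : H) : L) * k * ((e (f g) : H) : L)⁻¹ = k := by
      have h0 := congrArg Subtype.val hk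
      rw [← hφ g k]
      exact h0
    have h2 : (k : L) ∈ K ⊓ Subgroup.centralizer {((e (f g) : H) : L)} := by
      rw [Subgroup.mem_inf]
      refine ⟨k.2, ?_⟩
      rw [Subgroup.mem_centralizer_iff]
      intro z hz
      rw [Set.mem_singleton_iff] at hz
      subst hz
      calc ((e (f g) : H) : L) * (k : L)
          = (((e (f g) : H) : L) * (k : L) * ((e (f g) : H) : L)⁻¹) * ((e (f g) : H) : L) := by
            group
        _ = k * ((e (f g) : H) : L) := by rw [h1]
    rw [hfpf _ (e (f g)).2 hg', Subgroup.mem_bot] at h2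
    exact Subtype.ext h2
  obtain ⟨L', h1, h2, C, hC, hiso, -⟩ := Cfsg.Agent.H75.frobenius_of_fpf φ hfix
  exact ⟨L', h1, h2, C, hC, hiso⟩

/-- A Frobenius complement has a nonzero fpf element in its integral group ring. -/
theorem exists_fpfElt_of_frob {G : Type*} [Group G] [Finite G]
    (hFC : ∃ (L : Type) (_ : Group L) (_ : Finite L) (H : Subgroup L),
      Cfsg.IsFrobeniusComplement H ∧ Nonempty (G ≃* H)) :
    ∃ w : MonoidAlgebra ℤ G, w ≠ 0 ∧ IsFpfElt ℤ w := by
  obtain ⟨V, i1, i2, i3, i4, r, hr, hexp, hfpf⟩ := exists_fpf_module hFC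
  exact @exists_fpfElt G V _ _ i1 i2 i3 i4 r hr hexp hfpf

end Cfsg.Agent.H98.FpfLift
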