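import Mathlib
import Cfsg.Agent.S0243
import Cfsg.Agent.S0280
import Cfsg.Agent.H8.SzLie2

set_option autoImplicit false

namespace Cfsg.Agent.H98.GL52

open Matrix

/-! ### Generalities on sections -/

theorem card_GL52 : Nat.card (GL (Fin 5) (ZMod 2)) = 9999360 := by
  rw [Matrix.card_GL_field, ZMod.card]
  decide

theorem card_section_dvd {G : Type*} [Group G] [Finite G] (H : Subgroup G) (K : Subgroup H)
    [K.Normal] : Nat.card (H ⧸ K) ∣ Nat.card G :=
  (Subgroup.card_quotient_dvd_card K).trans (Subgroup.card_subgroup_dvd_card H)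

theorem exists_order_of_section {G : Type*} [Group G] [Finite G] (H : Subgroup G)
    (K : Subgroup H) [K.Normal] (x : H ⧸ K) : ∃ g : G, orderOf g = orderOf x := by
  obtain ⟨h, rfl⟩ := QuotientGroup.mk_surjective x
  have hd : orderOf (QuotientGroup.mk' K h) ∣ orderOf h := orderOf_map_dvd (QuotientGroup.mk' K) h
  obtain ⟨d, hd'⟩ := hd
  have hpos : 0 < orderOf h := orderOf_pos h
  have hd0 : d ≠ 0 := by
    rintro rfl
    rw [mul_zero] at hd'
    omega
  refine ⟨((h ^ d : H) : G), ?_⟩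
  rw [Subgroup.orderOf_coe, orderOf_pow_of_dvd hd0 ⟨_, by rw [hd', mul_comm]⟩, hd',
    Nat.mul_div_cancel _ (Nat.pos_of_ne_zero hd0)]
  rfl

/-! ### Elements of order 3 in GL(5,2) with distinct traces -/

def mA : Matrix (Fin 5) (Fin 5) (ZMod 2) :=
  !![0,1,0,0,0; 1,1,0,0,0; 0,0,1,0,0; 0,0,0,1,0; 0,0,0,0,1]

def mB : Matrix (Fin 5) (Fin 5) (ZMod 2) :=
  !![0,1,0,0,0; 1,1,0,0,0; 0,0,0,1,0; 0,0,1,1,0; 0,0,0,0,1]

theorem mA_cube : mA * mA * mA = 1 := by decide
theorem mB_cube : mB * mB * mB = 1 := by decide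
theorem mA_trace : Matrix.trace mA = 0 := by decide
theorem mB_trace : Matrix.trace mB = 1 := by decide
theorem mA_ne : mA ≠ 1 := by decide
theorem mB_ne : mB ≠ 1 := by decide

def uA : GL (Fin 5) (ZMod 2) := ⟨mA, mA * mA, by rw [← mul_assoc]; exact mA_cube, mA_cube⟩
def uB : GL (Fin 5) (ZMod 2) := ⟨mB, mB * mB, by rw [← mul_assoc]; exact mB_cube, mB_cube⟩

theorem uA_order : orderOf uA = 3 := by
  have : Fact (Nat.Prime 3) := ⟨by norm_num⟩
  refine orderOf_eq_prime ?_ ?_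
  · apply Units.ext
    rw [Units.val_pow_eq_pow_val, pow_succ, pow_succ, pow_one]
    exact mA_cube
  · intro h
    exact mA_ne (congrArg Units.val h)

theorem uB_order : orderOf uB = 3 := by
  have : Fact (Nat.Prime 3) := ⟨by norm_num⟩
  refine orderOf_eq_prime ?_ ?_
  · apply Units.ext
    rw [Units.val_pow_eq_pow_val, pow_succ, pow_succ, pow_one]
    exact mB_cube
  · intro h
    exact mB_ne (congrArg Units.val h)

theorem trace_conj (c y : GL (Fin 5) (ZMod 2)) :
    Matrix.trace ((c⁻¹ * y * c : GL (Fin 5) (ZMod 2)) : Matrix (Fin 5) (Fin 5) (ZMod 2)) =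
      Matrix.trace (y : Matrix (Fin 5) (Fin 5) (ZMod 2)) := by
  rw [Units.val_mul, Units.val_mul, Matrix.trace_mul_comm, ← mul_assoc, Units.mul_inv, one_mul]

theorem trace_sq (M : Matrix (Fin 5) (Fin 5) (ZMod 2)) :
    Matrix.trace (M ^ 2) = Matrix.trace M := by
  have h := ZMod.trace_pow_card (p := 2) M
  rw [h]
  generalize Matrix.trace M = x
  revert x
  decide

/-- `GL(5,2)` has no element of order `9`: its Sylow `3`-subgroups have order `9`, and
elements of order `3` take two different traces. -/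
theorem no_order9 (g : GL (Fin 5) (ZMod 2)) : orderOf g ≠ 9 := by
  intro hg
  have : Fact (Nat.Prime 3) := ⟨by norm_num⟩
  have hP : IsPGroup 3 (Subgroup.zpowers g) :=
    IsPGroup.of_card (n := 2) (by rw [Nat.card_zpowers, hg]; norm_num)
  obtain ⟨S, hS⟩ := hP.exists_le_sylow
  have hScard : Nat.card (S : Subgroup (GL (Fin 5) (ZMod 2))) = 9 := by
    obtain ⟨k, hk⟩ := IsPGroup.iff_card.mp S.isPGroup'
    have h1 : Nat.card (S : Subgroup (GL (Fin 5) (ZMod 2))) ∣ 9999360 := by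
      rw [← card_GL52]; exact Subgroup.card_subgroup_dvd_card _
    have h2 : 9 ∣ Nat.card (S : Subgroup (GL (Fin 5) (ZMod 2))) := by
      have := Subgroup.card_dvd_of_le hS
      rwa [Nat.card_zpowers, hg] at this
    rw [hk] at h1 h2 ⊢
    have hk3 : k < 3 := by
      by_contra hk3
      have : 3 ^ 3 ∣ 9999360 := (pow_dvd_pow 3 (not_lt.mp hk3)).trans h1
      revert this; decide
    interval_cases k
    · revert h2; decide
    · revert h2; decide
    · norm_num
  have hSeq : Subgroup.zpowers g = (S : Subgroup (GL (Fin 5) (ZMod 2))) :=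
    Subgroup.eq_of_le_of_card_ge hS (by rw [hScard, Nat.card_zpowers, hg])
  have key : ∀ y : GL (Fin 5) (ZMod 2), orderOf y = 3 →
      Matrix.trace (y : Matrix (Fin 5) (Fin 5) (ZMod 2)) =
        Matrix.trace ((g ^ 3 : GL (Fin 5) (ZMod 2)) : Matrix (Fin 5) (Fin 5) (ZMod 2)) := by
    intro y hy
    have hPy : IsPGroup 3 (Subgroup.zpowers y) :=
      IsPGroup.of_card (n := 1) (by rw [Nat.card_zpowers, hy]; norm_num)
    obtain ⟨Q, hQ⟩ := hPy.exists_le_sylow
    obtain ⟨c, hc⟩ := MulAction.exists_smul_eq (GL (Fin 5) (ZMod 2)) S Q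
    have hyQ : y ∈ (Q : Subgroup (GL (Fin 5) (ZMod 2))) := hQ (Subgroup.mem_zpowers y)
    rw [← hc, Sylow.coe_subgroup_smul, Subgroup.mem_pointwise_smul_iff_inv_smul_mem,
      MulAut.smul_def, MulAut.conj_inv_apply, ← hSeq] at hyQ
    obtain ⟨n, hn⟩ := (Submonoid.mem_powers_iff _ _).mp (mem_powers_iff_mem_zpowers.mpr hyQ)
    have hy3 : y ^ 3 = 1 := by rw [← hy]; exact pow_orderOf_eq_one y
    have hz3 : (c⁻¹ * y * c) ^ 3 = 1 := by
      have e : (c⁻¹ * y * c) ^ 3 = c⁻¹ * y ^ 3 * c := by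
        have := conj_pow (i := 3) (a := c⁻¹) (b := y)
        rwa [inv_inv] at this
      rw [e, hy3]; simp
    have hzne : c⁻¹ * y * c ≠ 1 := by
      intro h
      have e : y = c * (c⁻¹ * y * c) * c⁻¹ := by simp [mul_assoc]
      rw [h] at e
      have e' : y = 1 := by rw [e]; simp
      rw [e', orderOf_one] at hy
      norm_num at hy
    have h9 : 9 ∣ n * 3 := by
      rw [← hg]
      apply orderOf_dvd_of_pow_eq_one
      rw [pow_mul, hn, hz3]
    have hmod : g ^ (n % 9) = c⁻¹ * y * c := by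
      rw [← hn, ← hg]; exact pow_mod_orderOf g n
    have hr : n % 9 = 0 ∨ n % 9 = 3 ∨ n % 9 = 6 := by omega
    have htr := trace_conj c y
    rcases hr with h0 | h3 | h6
    · rw [h0, pow_zero] at hmod
      exact absurd hmod.symm hzne
    · rw [h3] at hmod
      rw [← htr, ← hmod]
    · rw [h6] at hmod
      rw [← htr, ← hmod, show g ^ 6 = (g ^ 3) ^ 2 by rw [← pow_mul],
        Units.val_pow_eq_pow_val, trace_sq]
  have h1 := key uA uA_order
  have h2 := key uB uB_order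
  rw [← h1] at h2
  have h3 : Matrix.trace mB = Matrix.trace mA := h2
  rw [mA_trace, mB_trace] at h3
  revert h3
  decide

/-! ### An element of order 9 in PSL(2,8) -/

theorem exists_root {F : Type*} [Field F] [Fintype F] (hF : Fintype.card F = 8) :
    (2 : F) = 0 ∧ ∃ t : F, t ^ 3 + t + 1 = 0 := by
  classical
  obtain ⟨p, hp⟩ := CharP.exists F
  haveI := hp
  obtain ⟨k, hpp, hk⟩ := FiniteField.card F p
  rw [hF] at hk
  have hp2 : p = 2 := by
    have h1 : p ∣ 2 ^ 3 := by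
      rw [show (2:ℕ) ^ 3 = 8 by norm_num, hk]
      exact dvd_pow_self p k.ne_zero
    exact (Nat.prime_dvd_prime_iff_eq hpp Nat.prime_two).mp (hpp.dvd_of_dvd_pow h1)
  subst hp2
  have h2 : (2 : F) = 0 := by
    have := CharP.cast_eq_zero F 2
    exact_mod_cast this
  refine ⟨h2, ?_⟩
  have hex : ∃ a : F, a ≠ 0 ∧ a ≠ 1 := by
    by_contra hcon
    have hsub : (Finset.univ : Finset F) ⊆ {0, 1} := by
      intro a _
      by_contra ha
      rw [Finset.mem_insert, Finset.mem_singleton] at ha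
      exact hcon ⟨a, fun h => ha (Or.inl h), fun h => ha (Or.inr h)⟩
    have h1 := Finset.card_le_card hsub
    rw [Finset.card_univ, hF] at h1
    have h3 : ({0, 1} : Finset F).card ≤ 2 := Finset.card_le_two
    omega
  obtain ⟨a, ha0, ha1⟩ := hex
  have ha8 : a ^ 8 = a := by rw [← hF]; exact FiniteField.pow_card a
  have ha7 : a ^ 7 = 1 := by
    have : a * a ^ 7 = a * 1 := by rw [mul_one, ← pow_succ']; exact ha8
    exact mul_left_cancel₀ ha0 this
  have hprod : (a + 1) * ((a ^ 3 + a + 1) * (a ^ 3 + a ^ 2 + 1)) = 0 := by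
    linear_combination ha7 + (a ^ 6 + a ^ 5 + 2 * a ^ 4 + 2 * a ^ 3 + a ^ 2 + a + 1) * h2
  have ha1' : a + 1 ≠ 0 := by
    intro h
    apply ha1
    linear_combination h - h2
  rcases mul_eq_zero.mp ((mul_eq_zero.mp hprod).resolve_left ha1') with h | h
  · exact ⟨a, h⟩
  · refine ⟨a⁻¹, ?_⟩
    have e : a⁻¹ ^ 3 + a⁻¹ + 1 = a⁻¹ ^ 3 * (a ^ 3 + a ^ 2 + 1) := by
      field_simp
      ring
    rw [e, h, mul_zero]

theorem mat2_ext {F : Type*} {a b c d a' b' c' d' : F} (h1 : a = a') (h2 : b = b')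
    (h3 : c = c') (h4 : d = d') :
    (!![a, b; c, d] : Matrix (Fin 2) (Fin 2) F) = !![a', b'; c', d'] := by
  subst h1 h2 h3 h4; rfl

theorem M_cube {F : Type*} [Field F] (t : F) (h2 : (2 : F) = 0) (ht : t ^ 3 + t + 1 = 0) :
    (!![0, 1; 1, t] : Matrix (Fin 2) (Fin 2) F) ^ 3 =
      !![t, 1 + t ^ 2; 1 + t ^ 2, t + 1] := by
  rw [pow_succ, pow_succ, pow_one, Matrix.mul_fin_two, Matrix.mul_fin_two]
  refine mat2_ext ?_ ?_ ?_ ?_
  · ring
  · ring
  · ring
  · linear_combination ht - h2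

theorem N_sq {F : Type*} [Field F] (t : F) (h2 : (2 : F) = 0) (ht : t ^ 3 + t + 1 = 0) :
    (!![t, 1 + t ^ 2; 1 + t ^ 2, t + 1] : Matrix (Fin 2) (Fin 2) F) *
        !![t, 1 + t ^ 2; 1 + t ^ 2, t + 1] = !![1 + t, 1 + t ^ 2; 1 + t ^ 2, t] := by
  rw [Matrix.mul_fin_two]
  refine mat2_ext ?_ ?_ ?_ ?_
  · linear_combination t * ht + (t ^ 2 - t) * h2
  · linear_combination (t + t ^ 3) * h2
  · linear_combination (t + t ^ 3) * h2
  · linear_combination t * ht + (t ^ 2 + 1) * h2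

theorem N_cube {F : Type*} [Field F] (t : F) (h2 : (2 : F) = 0) (ht : t ^ 3 + t + 1 = 0) :
    (!![1 + t, 1 + t ^ 2; 1 + t ^ 2, t] : Matrix (Fin 2) (Fin 2) F) *
        !![t, 1 + t ^ 2; 1 + t ^ 2, t + 1] = 1 := by
  rw [Matrix.mul_fin_two, Matrix.one_fin_two]
  refine mat2_ext ?_ ?_ ?_ ?_
  · linear_combination t * ht + t ^ 2 * h2
  · linear_combination (1 + t) * (1 + t ^ 2) * h2
  · linear_combination (t + t ^ 3) * h2
  · linear_combination t * ht + t ^ 2 * h2

theorem psl28_order9 {F : Type*} [Field F] [Fintype F] (hF : Fintype.card F = 8) :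
    ∃ x : Matrix.ProjectiveSpecialLinearGroup (Fin 2) F, orderOf x = 9 := by
  classical
  obtain ⟨h2, t, ht⟩ := exists_root hF
  have hdet : Matrix.det (!![0, 1; 1, t] : Matrix (Fin 2) (Fin 2) F) = 1 := by
    rw [Matrix.det_fin_two_of]
    linear_combination -h2
  let M : Matrix.SpecialLinearGroup (Fin 2) F := ⟨!![0, 1; 1, t], hdet⟩
  have hM3 : ((M ^ 3 : Matrix.SpecialLinearGroup (Fin 2) F) : Matrix (Fin 2) (Fin 2) F) =
      !![t, 1 + t ^ 2; 1 + t ^ 2, t + 1] := by
    rw [Matrix.SpecialLinearGroup.coe_pow]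
    exact M_cube t h2 ht
  have hM9 : M ^ 9 = 1 := by
    apply Subtype.ext
    rw [show (9 : ℕ) = 3 * 3 by norm_num, pow_mul, Matrix.SpecialLinearGroup.coe_pow, hM3,
      Matrix.SpecialLinearGroup.coe_one, pow_succ, pow_succ, pow_one, N_sq t h2 ht,
      N_cube t h2 ht]
  have hM3c : M ^ 3 ∉ Subgroup.center (Matrix.SpecialLinearGroup (Fin 2) F) := by
    intro hc
    rw [Matrix.SpecialLinearGroup.mem_center_iff] at hc
    obtain ⟨r, _, hr⟩ := hc
    rw [hM3] at hr
    have h01 : (0 : F) = 1 + t ^ 2 := by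
      have := congrFun (congrFun hr 0) 1
      simpa [Matrix.scalar_apply, Matrix.diagonal_apply_ne] using this
    have : (1 : F) = 0 := by linear_combination ht + t * h01
    exact one_ne_zero this
  refine ⟨(QuotientGroup.mk M : Matrix.ProjectiveSpecialLinearGroup (Fin 2) F), ?_⟩
  have : Fact (Nat.Prime 3) := ⟨by norm_num⟩
  have key := orderOf_eq_prime_pow (p := 3) (n := 1)
    (x := (QuotientGroup.mk M : Matrix.ProjectiveSpecialLinearGroup (Fin 2) F)) ?_ ?_
  · simpa using key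
  · rw [pow_one, ← QuotientGroup.mk_pow, QuotientGroup.eq_one_iff]
    exact hM3c
  · rw [← QuotientGroup.mk_pow, show 3 ^ (1 + 1) = 9 by norm_num, hM9]
    rfl

/-! ### Arithmetic of the orders -/

theorem psl_case {F : Type*} [Field F] [Fintype F] {n : ℕ} (hn : 2 ≤ n)
    (hF : Fintype.card F = 2 ^ n)
    (hN : Nat.card (Matrix.ProjectiveSpecialLinearGroup (Fin 2) F) ∣ 9999360) :
    n = 2 ∨ n = 3 := by
  have h := Cfsg.Agent.S0243.result hF 2 le_rfl
  rw [Fin.prod_univ_two] at h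
  simp only [Fin.val_zero, Fin.val_one, pow_zero, pow_one] at h
  generalize Nat.card (Matrix.ProjectiveSpecialLinearGroup (Fin 2) F) = c at h hN
  have hodd : Odd (2 ^ n - 1) :=
    Nat.Even.sub_odd (Nat.one_le_two_pow) ((Nat.even_pow).mpr ⟨even_two, by omega⟩) odd_one
  have hcop : Nat.Coprime (2 ^ n) (2 ^ n - 1) := (Nat.coprime_two_left.mpr hodd).pow_left n
  have hcop2 : Nat.Coprime (2 ^ n) (Nat.gcd 2 (2 ^ n - 1)) :=
    Nat.Coprime.coprime_dvd_right (Nat.gcd_dvd_right 2 (2 ^ n - 1)) hcop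
  have hd1 : 2 ^ n ∣ ((2 ^ n) ^ 2 - 1) * ((2 ^ n) ^ 2 - 2 ^ n) :=
    Dvd.dvd.mul_left (Nat.dvd_sub (dvd_pow_self _ two_ne_zero) dvd_rfl) _
  rw [← h] at hd1
  have hd2 : 2 ^ n ∣ c := hcop.dvd_of_dvd_mul_left (hcop2.dvd_of_dvd_mul_left hd1)
  have hle : n ≤ 10 := by
    by_contra hcon
    have : 2 ^ 11 ∣ 9999360 := ((pow_dvd_pow 2 (by omega)).trans hd2).trans hN
    revert this; decide
  interval_cases n
  · left; rfl
  · right; rfl
  · exfalso
    norm_num at h
    have hc : c = 4080 := by omega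
    rw [hc] at hN; revert hN; decide
  · exfalso
    norm_num at h
    have hc : c = 32736 := by omega
    rw [hc] at hN; revert hN; decide
  · exfalso
    norm_num at h
    have hc : c = 262080 := by omega
    rw [hc] at hN; revert hN; decide
  · exfalso
    norm_num at h
    have hc : c = 2097024 := by omega
    rw [hc] at hN; revert hN; decide
  · exfalso
    norm_num at h
    have hc : c = 16776960 := by omega
    rw [hc] at hN; revert hN; decide
  · exfalso
    norm_num at h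
    have hc : c = 134217216 := by omega
    rw [hc] at hN; revert hN; decide
  · exfalso
    norm_num at h
    have hc : c = 1073740800 := by omega
    rw [hc] at hN; revert hN; decide

theorem sz_case {F : Type*} [Field F] [Fintype F] {m : ℕ} (hm : 1 ≤ m)
    (hF : Fintype.card F = 2 ^ (2 * m + 1))
    (hN : Nat.card (Cfsg.Lie.Sz F (2 ^ (m + 1))) ∣ 9999360) : False := by
  rw [Cfsg.Agent.H8.lieSz_card hm hF] at hN
  have hle : m ≤ 2 := by
    by_contra hcon
    have h1 : 2 ^ 11 ∣ (2 ^ (2 * m + 1)) ^ 2 * (2 ^ (2 * m + 1) - 1) *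
        ((2 ^ (2 * m + 1)) ^ 2 + 1) := by
      apply Dvd.dvd.mul_right
      apply Dvd.dvd.mul_right
      rw [← pow_mul]
      exact pow_dvd_pow 2 (by omega)
    have := h1.trans hN
    revert this; decide
  interval_cases m
  · revert hN; decide
  · revert hN; decide

theorem psu_case {F : Type*} [Field F] [Fintype F] {n : ℕ} (hn : 2 ≤ n)
    (hF : Fintype.card F = 4 ^ n)
    (hN : Nat.card (Cfsg.PSU 3 F (2 ^ n)) ∣ 9999360) : False := by
  have hF' : Fintype.card F = (2 ^ n) ^ 2 := by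
    rw [hF, show (4 : ℕ) = 2 ^ 2 by norm_num, ← pow_mul, ← pow_mul, mul_comm]
  have h := Cfsg.Agent.S0280.result hF' 3 (by norm_num)
  generalize Nat.card (Cfsg.PSU 3 F (2 ^ n)) = c at h hN
  have h' : Nat.gcd 3 (2 ^ n + 1) * ((2 ^ n + 1) * c) =
      (2 ^ n) ^ 3 * ((2 ^ n + 1) * ((2 ^ n) ^ 2 - 1) * ((2 ^ n) ^ 3 + 1)) := by
    rw [h]
    norm_num [Finset.prod_range_succ]
  have hodd : Odd (2 ^ n + 1) := Even.add_one ((Nat.even_pow).mpr ⟨even_two, by omega⟩)
  have hcop : Nat.Coprime ((2 ^ n) ^ 3) (2 ^ n + 1) :=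
    ((Nat.coprime_two_left.mpr hodd).pow_left n).pow_left 3
  have hcop2 : Nat.Coprime ((2 ^ n) ^ 3) (Nat.gcd 3 (2 ^ n + 1)) :=
    Nat.Coprime.coprime_dvd_right (Nat.gcd_dvd_right 3 (2 ^ n + 1)) hcop
  have hd1 : (2 ^ n) ^ 3 ∣ Nat.gcd 3 (2 ^ n + 1) * ((2 ^ n + 1) * c) := by
    rw [h']; exact dvd_mul_right _ _
  have hd2 : (2 ^ n) ^ 3 ∣ c := hcop.dvd_of_dvd_mul_left (hcop2.dvd_of_dvd_mul_left hd1)
  have hle : n ≤ 3 := by
    by_contra hcon
    have : 2 ^ 11 ∣ 9999360 := by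
      refine (Dvd.dvd.trans ?_ hd2).trans hN
      rw [← pow_mul]
      exact pow_dvd_pow 2 (by omega)
    revert this; decide
  interval_cases n
  · norm_num at h'
    have hc : c = 62400 := by omega
    rw [hc] at hN; revert hN; decide
  · norm_num at h'
    have hc : c = 5515776 := by omega
    rw [hc] at hN; revert hN; decide

end Cfsg.Agent.H98.GL52
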