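import Mathlib
import Cfsg.Agent.H98.GLkDefs
import Cfsg.Agent.H98.GLkNum

set_option autoImplicit false

/-!
# S2478 (helper98): assembly of the upper bound `k(GL_n(q)) ≤ q ^ n` from the team pieces,
which enter as hypotheses.
-/

namespace Cfsg.Agent.H98.GLk

open Polynomial DirectSum

theorem exists_conf_map_of {F : Type*} [Field F] (n : ℕ)
    (exists_primary_decomp : ∀ A : Matrix (Fin n) (Fin n) F,
      ∃ (k : ℕ) (p : Fin k → F[X]) (e : Fin k → ℕ),
        (∀ i, (p i).Monic ∧ Irreducible (p i) ∧ 1 ≤ e i) ∧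
        Nonempty (Module.AEval' (Matrix.toLin' A) ≃ₗ[F[X]]
          ⨁ i : Fin k, F[X] ⧸ F[X] ∙ p i ^ e i))
    (decomp_facts : ∀ (A : Matrix (Fin n) (Fin n) F) (k : ℕ) (p : Fin k → F[X]) (e : Fin k → ℕ)
      (_ : ∀ i, (p i).Monic ∧ Irreducible (p i) ∧ 1 ≤ e i)
      (_ : Module.AEval' (Matrix.toLin' A) ≃ₗ[F[X]] ⨁ i : Fin k, F[X] ⧸ F[X] ∙ p i ^ e i),
      ∑ i, e i * (p i).natDegree = n ∧ (IsUnit A.det → ∀ i, (p i).coeff 0 ≠ 0))
    (isConj_of_aeval_equiv : ∀ (A B : Matrix.GeneralLinearGroup (Fin n) F)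
      (_ : Module.AEval' (Matrix.toLin' (A : Matrix (Fin n) (Fin n) F)) ≃ₗ[F[X]]
        Module.AEval' (Matrix.toLin' (B : Matrix (Fin n) (Fin n) F))), IsConj A B)
    (directSum_equiv_of_prod_eq : ∀ (k k' : ℕ) (p : Fin k → F[X]) (e : Fin k → ℕ)
      (p' : Fin k' → F[X]) (e' : Fin k' → ℕ)
      (_ : ∀ i, (p i).Monic ∧ Irreducible (p i)) (_ : ∀ i, (p' i).Monic ∧ Irreducible (p' i))
      (_ : ∀ m : ℕ, ∏ i ∈ Finset.univ.filter (fun i => e i = m), p i =
        ∏ i ∈ Finset.univ.filter (fun i => e' i = m), p' i),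
      Nonempty ((⨁ i : Fin k, F[X] ⧸ F[X] ∙ p i ^ e i) ≃ₗ[F[X]]
        (⨁ i : Fin k', F[X] ⧸ F[X] ∙ p' i ^ e' i))) :
    ∃ Φ : Matrix.GeneralLinearGroup (Fin n) F → (Fin n → F[X]),
      (∀ A, Φ A ∈ Conf F n n) ∧ ∀ A B, Φ A = Φ B → IsConj A B := by
  classical
  have hdec : ∀ A : Matrix.GeneralLinearGroup (Fin n) F,
      ∃ (k : ℕ) (p : Fin k → F[X]) (e : Fin k → ℕ),
      (∀ i, (p i).Monic ∧ Irreducible (p i) ∧ 1 ≤ e i) ∧
      Nonempty (Module.AEval' (Matrix.toLin' (A : Matrix (Fin n) (Fin n) F)) ≃ₗ[F[X]]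
        ⨁ i : Fin k, F[X] ⧸ F[X] ∙ p i ^ e i) := fun A => exists_primary_decomp _
  choose k p e hp hl using hdec
  have hfacts : ∀ A : Matrix.GeneralLinearGroup (Fin n) F,
      ∑ i, e A i * (p A i).natDegree = n ∧ ∀ i, (p A i).coeff 0 ≠ 0 := by
    intro A
    have h := decomp_facts (A : Matrix (Fin n) (Fin n) F) (k A) (p A) (e A) (hp A) (hl A).some
    refine ⟨h.1, h.2 ?_⟩
    have : IsUnit (A : Matrix (Fin n) (Fin n) F) := ⟨A, rfl⟩
    exact (Matrix.isUnit_iff_isUnit_det _).mp this
  have hen : ∀ A i, e A i ≤ n := by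
    intro A i
    have h1 : 1 ≤ (p A i).natDegree := (hp A i).2.1.natDegree_pos
    have h2 : e A i * (p A i).natDegree ≤ ∑ j, e A j * (p A j).natDegree :=
      Finset.single_le_sum (f := fun j => e A j * (p A j).natDegree)
        (fun _ _ => Nat.zero_le _) (Finset.mem_univ i)
    rw [(hfacts A).1] at h2
    calc e A i = e A i * 1 := (mul_one _).symm
      _ ≤ e A i * (p A i).natDegree := Nat.mul_le_mul_left _ h1
      _ ≤ n := h2
  refine ⟨fun A m => ∏ i ∈ Finset.univ.filter (fun i => e A i = m.val + 1), p A i, ?_, ?_⟩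
  · intro A
    refine ⟨fun m => ⟨?_, ?_⟩, ?_⟩
    · exact Polynomial.monic_prod_of_monic _ _ (fun i _ => (hp A i).1)
    · rw [Polynomial.coeff_zero_prod]
      exact Finset.prod_ne_zero_iff.mpr (fun i _ => (hfacts A).2 i)
    · have h1 : ∀ m : Fin n, (m.val + 1) *
          (∏ i ∈ Finset.univ.filter (fun i => e A i = m.val + 1), p A i).natDegree =
          ∑ i ∈ Finset.univ.filter (fun i => e A i = m.val + 1), e A i * (p A i).natDegree := by
        intro m
        rw [Polynomial.natDegree_prod_of_monic _ _ (fun i _ => (hp A i).1), Finset.mul_sum]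
        apply Finset.sum_congr rfl
        intro i hi
        rw [(Finset.mem_filter.mp hi).2]
      rw [Finset.sum_congr rfl (fun m _ => h1 m)]
      refine Eq.trans ?_ (hfacts A).1
      have h2 := Finset.sum_fiberwise_of_maps_to (s := (Finset.univ : Finset (Fin (k A))))
        (t := Finset.range n) (g := fun i => e A i - 1)
        (fun i _ => by
          have := hen A i; have := (hp A i).2.2
          exact Finset.mem_range.mpr (by omega))
        (fun i => e A i * (p A i).natDegree)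
      rw [← h2, ← Fin.sum_univ_eq_sum_range
        (fun m : ℕ => ∑ i ∈ Finset.univ.filter (fun i : Fin (k A) => e A i - 1 = m),
          e A i * (p A i).natDegree) n]
      refine Fintype.sum_congr _ _ (fun m => ?_)
      have hset : Finset.univ.filter (fun i : Fin (k A) => e A i = m.val + 1) =
          Finset.univ.filter (fun i : Fin (k A) => e A i - 1 = m.val) := by
        ext i
        simp only [Finset.mem_filter, Finset.mem_univ, true_and]
        have := (hp A i).2.2
        omega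
      rw [hset]
  · intro A B hAB
    have hprod : ∀ m : ℕ, ∏ i ∈ Finset.univ.filter (fun i => e A i = m), p A i =
        ∏ i ∈ Finset.univ.filter (fun i => e B i = m), p B i := by
      intro m
      by_cases hm : 1 ≤ m ∧ m ≤ n
      · have := congrFun hAB ⟨m - 1, by omega⟩
        simp only [Nat.sub_add_cancel hm.1] at this
        exact this
      · rw [Finset.filter_false_of_mem (fun i _ hi => by
            have := hen A i; have := (hp A i).2.2; omega),
          Finset.filter_false_of_mem (fun i _ hi => by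
            have := hen B i; have := (hp B i).2.2; omega),
          Finset.prod_empty, Finset.prod_empty]
    obtain ⟨σ⟩ := directSum_equiv_of_prod_eq (k A) (k B) (p A) (e A) (p B) (e B)
      (fun i => ⟨(hp A i).1, (hp A i).2.1⟩) (fun i => ⟨(hp B i).1, (hp B i).2.1⟩) hprod
    exact isConj_of_aeval_equiv A B (((hl A).some.trans σ).trans (hl B).some.symm)

theorem card_conjClasses_le_of {F : Type*} [Field F] [Fintype F] (n : ℕ)
    (hΦ' : ∃ Φ : Matrix.GeneralLinearGroup (Fin n) F → (Fin n → F[X]),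
      (∀ A, Φ A ∈ Conf F n n) ∧ ∀ A B, Φ A = Φ B → IsConj A B)
    (hconf : (Conf F n n).Finite ∧ (Conf F n n).ncard ≤ cfgCount (Fintype.card F) n n) :
    Nat.card (ConjClasses (Matrix.GeneralLinearGroup (Fin n) F)) ≤ Fintype.card F ^ n := by
  classical
  obtain ⟨Φ, hΦ, hinj⟩ := hΦ'
  obtain ⟨hfin, hle⟩ := hconf
  let ψ : ConjClasses (Matrix.GeneralLinearGroup (Fin n) F) → Conf F n n :=
    fun c => ⟨Φ (Quotient.out c), hΦ _⟩
  have hψ : Function.Injective ψ := by
    intro c c' h
    have h1 : Φ (Quotient.out c) = Φ (Quotient.out c') := congrArg Subtype.val h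
    have h2 := hinj _ _ h1
    rw [← Quotient.out_eq c, ← Quotient.out_eq c']
    exact ConjClasses.mk_eq_mk_iff_isConj.mpr h2
  have : Finite (Conf F n n) := hfin.to_subtype
  calc Nat.card (ConjClasses (Matrix.GeneralLinearGroup (Fin n) F))
      ≤ Nat.card (Conf F n n) := Nat.card_le_card_of_injective ψ hψ
    _ = (Conf F n n).ncard := Nat.card_coe_set_eq _
    _ ≤ cfgCount (Fintype.card F) n n := hle
    _ ≤ Fintype.card F ^ n := cfgCount_le _ Fintype.card_pos n n

end Cfsg.Agent.H98.GLk
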