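import Mathlib

set_option autoImplicit false

namespace Cfsg.Agent.H98.GraphCert

/-- decode a field of a big natural number -/
def getN (big width j : ℕ) : ℕ := big / 2 ^ (width * j) % 2 ^ width

/-- evaluation of a word in a monoid -/
def evW {G : Type*} [Monoid G] {r : ℕ} (gens : Fin r → G) : List (Fin r) → G
  | [] => 1
  | k :: l => gens k * evW gens l

theorem evW_mem {G : Type*} [Group G] {r : ℕ} (gens : Fin r → G) (l : List (Fin r)) :
    evW gens l ∈ Subgroup.closure (Set.range gens) := by
  induction l with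
  | nil => exact Subgroup.one_mem _
  | cons k l ih => exact Subgroup.mul_mem _ (Subgroup.subset_closure ⟨k, rfl⟩) ih

theorem map_evW {G H : Type*} [Monoid G] [Monoid H] (f : G →* H) {r : ℕ} (gens : Fin r → G)
    (l : List (Fin r)) : f (evW gens l) = evW (fun k => f (gens k)) l := by
  induction l with
  | nil => exact map_one f
  | cons k l ih => rw [evW, evW, map_mul, ih]

/-- A list of pairs closed under the generators, with injective first projection and trivial
kernel of the second projection, is the graph of an isomorphism. -/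
theorem graph_cert {G1 G2 : Type*} [Group G1] [Group G2] {r N : ℕ}
    (gens : Fin r → G1 × G2) (word : Fin N → List (Fin r)) (nxt : Fin r → Fin N → Fin N)
    (i0 : Fin N)
    (h1 : evW gens (word i0) = 1)
    (h2 : ∀ k j, gens k * evW gens (word j) = evW gens (word (nxt k j)))
    (h4 : ∀ i j, (evW gens (word i)).1 = (evW gens (word j)).1 → i = j)
    (h5 : ∀ j, (evW gens (word j)).2 = 1 → j = i0) :
    Nat.card (Subgroup.closure (Set.range fun k => (gens k).1)) = N ∧
    Nat.card (Subgroup.closure (Set.range fun k => (gens k).2)) = N ∧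
    Nonempty (Subgroup.closure (Set.range fun k => (gens k).1) ≃*
      Subgroup.closure (Set.range fun k => (gens k).2)) := by
  classical
  let w : Fin N → G1 × G2 := fun j => evW gens (word j)
  have hw : ∀ j, w j = evW gens (word j) := fun j => rfl
  let D : Subgroup (G1 × G2) := Subgroup.closure (Set.range gens)
  have hwinj : Function.Injective w := fun i j h => h4 i j (by rw [← hw, ← hw, h])
  have key : ∀ x ∈ D, ∀ j, ∃ j', x * w j = w j' := by
    intro x hx
    induction hx using Subgroup.closure_induction with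
    | mem g hg =>
      obtain ⟨k, rfl⟩ := hg
      intro j
      exact ⟨nxt k j, h2 k j⟩
    | one =>
      intro j
      exact ⟨j, one_mul _⟩
    | mul x y _ _ ihx ihy =>
      intro j
      obtain ⟨j1, e1⟩ := ihy j
      obtain ⟨j2, e2⟩ := ihx j1
      exact ⟨j2, by rw [mul_assoc, e1, e2]⟩
    | inv x _ ih =>
      intro j
      choose f hf using ih
      have finj : Function.Injective f := by
        intro a b hab
        have : x * w a = x * w b := by rw [hf a, hf b, hab]
        exact hwinj (mul_left_cancel this)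
      obtain ⟨a, ha⟩ := (Finite.injective_iff_surjective.1 finj) j
      exact ⟨a, by rw [← ha, ← hf a, inv_mul_cancel_left]⟩
  have hsub : ∀ x ∈ D, ∃ j, x = w j := by
    intro x hx
    obtain ⟨j, hj⟩ := key x hx i0
    rw [hw i0, h1, mul_one] at hj
    exact ⟨j, hj⟩
  have hmem : ∀ j, w j ∈ D := fun j => evW_mem gens (word j)
  -- the two projections
  let φ1 : D →* G1 := (MonoidHom.fst G1 G2).comp D.subtype
  let φ2 : D →* G2 := (MonoidHom.snd G1 G2).comp D.subtype
  have hφ1 : Function.Injective φ1 := by
    rintro ⟨x, hx⟩ ⟨y, hy⟩ hxy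
    obtain ⟨i, rfl⟩ := hsub x hx
    obtain ⟨j, rfl⟩ := hsub y hy
    have h : (w i).1 = (w j).1 := hxy
    have hij := h4 i j h
    subst hij
    rfl
  have hφ2 : Function.Injective φ2 := by
    rw [injective_iff_map_eq_one]
    rintro ⟨x, hx⟩ hx1
    obtain ⟨j, rfl⟩ := hsub x hx
    have h : (w j).2 = 1 := hx1
    have hj := h5 j h
    subst hj
    apply Subtype.ext
    exact h1
  have hA : Subgroup.closure (Set.range fun k => (gens k).1) = φ1.range := by
    have : φ1.range = D.map (MonoidHom.fst G1 G2) := by
      rw [MonoidHom.range_comp, Subgroup.range_subtype]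
    rw [this, MonoidHom.map_closure, ← Set.range_comp]
    rfl
  have hB : Subgroup.closure (Set.range fun k => (gens k).2) = φ2.range := by
    have : φ2.range = D.map (MonoidHom.snd G1 G2) := by
      rw [MonoidHom.range_comp, Subgroup.range_subtype]
    rw [this, MonoidHom.map_closure, ← Set.range_comp]
    rfl
  have hcD : Nat.card D = N := by
    have e : Fin N ≃ D := Equiv.ofBijective (fun j => ⟨w j, hmem j⟩) ⟨by
      intro i j hij
      exact hwinj (congrArg Subtype.val hij), by
      rintro ⟨x, hx⟩
      obtain ⟨j, rfl⟩ := hsub x hx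
      exact ⟨j, rfl⟩⟩
    rw [← Nat.card_congr e, Nat.card_fin]
  rw [hA, hB]
  refine ⟨?_, ?_, ⟨(MonoidHom.ofInjective hφ1).symm.trans (MonoidHom.ofInjective hφ2)⟩⟩
  · rw [← Nat.card_congr (MonoidHom.ofInjective hφ1).toEquiv, hcD]
  · rw [← Nat.card_congr (MonoidHom.ofInjective hφ2).toEquiv, hcD]

/-- A subgroup whose order is the full `p`-part is isomorphic to every Sylow `p`-subgroup. -/
theorem iso_sylow_of_card {G : Type*} [Group G] [Finite G] {p : ℕ} [Fact p.Prime]
    (B : Subgroup G) (k : ℕ) (hB : Nat.card B = p ^ k) (hG : ¬ p ^ (k + 1) ∣ Nat.card G)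
    (Q : Sylow p G) : Nonempty (B ≃* Q) := by
  have hp : p.Prime := Fact.out
  have hBp : IsPGroup p B := IsPGroup.of_card hB
  obtain ⟨Q0, hQ0⟩ := hBp.exists_le_sylow
  obtain ⟨m, hm⟩ := (IsPGroup.iff_card (p := p) (G := Q0)).1 Q0.isPGroup'
  have hmk : m ≤ k := by
    by_contra hcon
    push_neg at hcon
    apply hG
    have h1 : p ^ (k + 1) ∣ p ^ m := pow_dvd_pow p hcon
    have h2 : p ^ m ∣ Nat.card G := by
      rw [← hm]
      exact Subgroup.card_subgroup_dvd_card _
    exact h1.trans h2
  have hkm : k ≤ m := by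
    have h1 : p ^ k ∣ p ^ m := by
      rw [← hB, ← hm]
      exact Subgroup.card_dvd_of_le hQ0
    exact (Nat.pow_dvd_pow_iff_le_right hp.one_lt).1 h1
  have hkm' : k = m := le_antisymm hkm hmk
  have hBQ : B = (Q0 : Subgroup G) :=
    Subgroup.eq_of_le_of_card_ge hQ0 (by
      show Nat.card (Q0 : Subgroup G) ≤ Nat.card B
      rw [hB, hm, hkm'])
  obtain ⟨g, hg⟩ := MulAction.exists_smul_eq G Q0 Q
  subst hg
  rw [hBQ]
  exact ⟨Sylow.equivSMul Q0 g⟩

end Cfsg.Agent.H98.GraphCert
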