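import Mathlib
import Cfsg.Agent.H98.SLkDefs
import Cfsg.Agent.H98.GLkNum
import Cfsg.Agent.H70.Str1
import Cfsg.Agent.H5.GLkStr2
import Cfsg.Agent.H5.GLkStr3
import Cfsg.Agent.H64.GLkStr4

set_option autoImplicit false

/-!
# S2479 (helper98): assembly of the upper bounds for `k(SL_n(q))` from the team pieces,
which enter as hypotheses.
-/

namespace Cfsg.Agent.H98.SLk

open Polynomial DirectSum
open Cfsg.Agent.H98.GLk

/-- The refined configuration map: it also reads off the determinant and controls the index of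
the determinants of the centralizer. -/
theorem exists_conf_map_of' {F : Type*} [Field F] [Fintype F] (n : ℕ)
    (hdet : ∀ (A : Matrix (Fin n) (Fin n) F) (k : ℕ) (p : Fin k → F[X]) (e : Fin k → ℕ)
      (_ : ∀ i, (p i).Monic ∧ Irreducible (p i) ∧ 1 ≤ e i)
      (_ : Module.AEval' (Matrix.toLin' A) ≃ₗ[F[X]] ⨁ i : Fin k, F[X] ⧸ F[X] ∙ p i ^ e i),
      A.det = ∏ i, ((-1) ^ (p i).natDegree * (p i).coeff 0) ^ e i)
    (hpow : ∀ (A : Matrix.GeneralLinearGroup (Fin n) F) (k : ℕ) (p : Fin k → F[X])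
      (e : Fin k → ℕ) (_ : ∀ i, (p i).Monic ∧ Irreducible (p i) ∧ 1 ≤ e i)
      (_ : Module.AEval' (Matrix.toLin' (A : Matrix (Fin n) (Fin n) F)) ≃ₗ[F[X]]
        ⨁ i : Fin k, F[X] ⧸ F[X] ∙ p i ^ e i) (i : Fin k) (c : Fˣ), c ^ e i ∈ detCent A)
    (hidx : ∀ (D : Subgroup Fˣ) (e : ℕ), 1 ≤ e → (∀ c : Fˣ, c ^ e ∈ D) →
      D.index ≤ min e (Fintype.card F - 1)) :
    ∃ Φ : Matrix.GeneralLinearGroup (Fin n) F → (Fin n → F[X]),
      (∀ A, Φ A ∈ Conf F n n) ∧ (∀ A B, Φ A = Φ B → IsConj A B) ∧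
      (∀ A, cdet (Φ A) = (A : Matrix (Fin n) (Fin n) F).det) ∧
      (∀ A (j : Fin n), Φ A j ≠ 1 →
        (detCent A).index ≤ min (j.val + 1) (Fintype.card F - 1)) := by
  classical
  have hdec : ∀ A : Matrix.GeneralLinearGroup (Fin n) F,
      ∃ (k : ℕ) (p : Fin k → F[X]) (e : Fin k → ℕ),
      (∀ i, (p i).Monic ∧ Irreducible (p i) ∧ 1 ≤ e i) ∧
      Nonempty (Module.AEval' (Matrix.toLin' (A : Matrix (Fin n) (Fin n) F)) ≃ₗ[F[X]]
        ⨁ i : Fin k, F[X] ⧸ F[X] ∙ p i ^ e i) :=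
    fun A => Cfsg.Agent.H70.Str1.exists_primary_decomp _
  choose k p e hp hl using hdec
  have hfacts : ∀ A : Matrix.GeneralLinearGroup (Fin n) F,
      ∑ i, e A i * (p A i).natDegree = n ∧ ∀ i, (p A i).coeff 0 ≠ 0 := by
    intro A
    have h := Cfsg.Agent.H5.GLk.decomp_facts (A : Matrix (Fin n) (Fin n) F) (k A) (p A) (e A)
      (hp A) (hl A).some
    refine ⟨h.1, h.2 ?_⟩
    have : IsUnit (A : Matrix (Fin n) (Fin n) F) := ⟨A, rfl⟩
    exact (Matrix.isUnit_iff_isUnit_det _).mp this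
  have hen : ∀ A i, e A i ≤ n := by
    intro A i
    have h1 : 1 ≤ (p A i).natDegree := (hp A i).2.1.natDegree_pos
    have h2 : e A i * (p A i).natDegree ≤ ∑ j, e A j * (p A j).natDegree :=
      Finset.single_le_sum (f := fun j => e A j * (p A j).natDegree)
        (fun _ _ => Nat.zero_le _) (Finset.mem_univ i)
    rw [(hfacts A).1] at h2
    calc e A i = e A i * 1 := (mul_one _).symm
      _ ≤ e A i * (p A i).natDegree := Nat.mul_le_mul_left _ h1
      _ ≤ n := h2
  have hset : ∀ (A : Matrix.GeneralLinearGroup (Fin n) F) (m : Fin n),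
      Finset.univ.filter (fun i : Fin (k A) => e A i = m.val + 1) =
        Finset.univ.filter (fun i : Fin (k A) => e A i - 1 = m.val) := by
    intro A m
    ext i
    simp only [Finset.mem_filter, Finset.mem_univ, true_and]
    have := (hp A i).2.2
    omega
  have hmaps : ∀ (A : Matrix.GeneralLinearGroup (Fin n) F),
      ∀ i ∈ (Finset.univ : Finset (Fin (k A))), e A i - 1 ∈ Finset.range n := by
    intro A i _
    have := hen A i
    have := (hp A i).2.2
    exact Finset.mem_range.mpr (by omega)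
  refine ⟨fun A m => ∏ i ∈ Finset.univ.filter (fun i => e A i = m.val + 1), p A i,
    ?_, ?_, ?_, ?_⟩
  · intro A
    refine ⟨fun m => ⟨?_, ?_⟩, ?_⟩
    · exact Polynomial.monic_prod_of_monic _ _ (fun i _ => (hp A i).1)
    · rw [Polynomial.coeff_zero_prod]
      exact Finset.prod_ne_zero_iff.mpr (fun i _ => (hfacts A).2 i)
    · have h1 : ∀ m : Fin n, (m.val + 1) *
          (∏ i ∈ Finset.univ.filter (fun i => e A i = m.val + 1), p A i).natDegree =
          ∑ i ∈ Finset.univ.filter (fun i => e A i = m.val + 1), e A i * (p A i).natDegree := by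
        intro m
        rw [Polynomial.natDegree_prod_of_monic _ _ (fun i _ => (hp A i).1), Finset.mul_sum]
        apply Finset.sum_congr rfl
        intro i hi
        rw [(Finset.mem_filter.mp hi).2]
      rw [Finset.sum_congr rfl (fun m _ => h1 m)]
      refine Eq.trans ?_ (hfacts A).1
      have h2 := Finset.sum_fiberwise_of_maps_to (s := (Finset.univ : Finset (Fin (k A))))
        (t := Finset.range n) (g := fun i => e A i - 1) (hmaps A)
        (fun i => e A i * (p A i).natDegree)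
      rw [← h2, ← Fin.sum_univ_eq_sum_range
        (fun m : ℕ => ∑ i ∈ Finset.univ.filter (fun i : Fin (k A) => e A i - 1 = m),
          e A i * (p A i).natDegree) n]
      refine Fintype.sum_congr _ _ (fun m => ?_)
      rw [hset A m]
  · intro A B hAB
    have hprod : ∀ m : ℕ, ∏ i ∈ Finset.univ.filter (fun i => e A i = m), p A i =
        ∏ i ∈ Finset.univ.filter (fun i => e B i = m), p B i := by
      intro m
      by_cases hm : 1 ≤ m ∧ m ≤ n
      · have := congrFun hAB ⟨m - 1, by omega⟩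
        simp only [Nat.sub_add_cancel hm.1] at this
        exact this
      · rw [Finset.filter_false_of_mem (fun i _ hi => by
            have := hen A i; have := (hp A i).2.2; omega),
          Finset.filter_false_of_mem (fun i _ hi => by
            have := hen B i; have := (hp B i).2.2; omega),
          Finset.prod_empty, Finset.prod_empty]
    obtain ⟨σ⟩ := Cfsg.Agent.H64.GLk.directSum_equiv_of_prod_eq (k A) (k B) (p A) (e A) (p B)
      (e B) (fun i => ⟨(hp A i).1, (hp A i).2.1⟩) (fun i => ⟨(hp B i).1, (hp B i).2.1⟩) hprod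
    exact Cfsg.Agent.H5.GLk.isConj_of_aeval_equiv A B
      (((hl A).some.trans σ).trans (hl B).some.symm)
  · intro A
    rw [hdet (A : Matrix (Fin n) (Fin n) F) (k A) (p A) (e A) (hp A) (hl A).some, cdet_def]
    have h1 : ∀ m : Fin n,
        ((-1 : F) ^ (∏ i ∈ Finset.univ.filter (fun i => e A i = m.val + 1), p A i).natDegree *
          (∏ i ∈ Finset.univ.filter (fun i => e A i = m.val + 1), p A i).coeff 0) ^ (m.val + 1) =
        ∏ i ∈ Finset.univ.filter (fun i => e A i = m.val + 1),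
          ((-1 : F) ^ (p A i).natDegree * (p A i).coeff 0) ^ e A i := by
      intro m
      rw [Polynomial.natDegree_prod_of_monic _ _ (fun i _ => (hp A i).1),
        Polynomial.coeff_zero_prod, ← Finset.prod_pow_eq_pow_sum, ← Finset.prod_mul_distrib,
        ← Finset.prod_pow]
      apply Finset.prod_congr rfl
      intro i hi
      rw [(Finset.mem_filter.mp hi).2]
    rw [Fintype.prod_congr _ _ h1]
    have h2 := Finset.prod_fiberwise_of_maps_to (s := (Finset.univ : Finset (Fin (k A))))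
      (t := Finset.range n) (g := fun i => e A i - 1) (hmaps A)
      (fun i => ((-1 : F) ^ (p A i).natDegree * (p A i).coeff 0) ^ e A i)
    rw [← h2, ← Fin.prod_univ_eq_prod_range
      (fun m : ℕ => ∏ i ∈ Finset.univ.filter (fun i : Fin (k A) => e A i - 1 = m),
        ((-1 : F) ^ (p A i).natDegree * (p A i).coeff 0) ^ e A i) n]
    refine Fintype.prod_congr _ _ (fun m => ?_)
    rw [hset A m]
  · intro A j hj
    have hex : ∃ i, e A i = j.val + 1 := by
      by_contra hcon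
      apply hj
      have : Finset.univ.filter (fun i : Fin (k A) => e A i = j.val + 1) = ∅ :=
        Finset.filter_false_of_mem (fun i _ hi => hcon ⟨i, hi⟩)
      show ∏ i ∈ Finset.univ.filter (fun i => e A i = j.val + 1), p A i = 1
      rw [this, Finset.prod_empty]
    obtain ⟨i, hi⟩ := hex
    refine hidx (detCent A) (j.val + 1) (by omega) (fun c => ?_)
    rw [← hi]
    exact hpow A (k A) (p A) (e A) (hp A) (hl A).some i c

theorem confFrom_zero {F : Type*} [Field F] (n : ℕ) : ConfFrom F n 0 = Conf F n n := by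
  ext g
  simp [mem_ConfFrom]

theorem confFrom_eq_union {F : Type*} [Field F] (n : ℕ) (j : Fin n) :
    ConfFrom F n j.val = ConfAt F n j ∪ ConfFrom F n (j.val + 1) := by
  ext g
  simp only [mem_ConfFrom, Set.mem_union, mem_ConfAt]
  constructor
  · rintro ⟨h1, h2⟩
    by_cases hj : g j = 1
    · right
      refine ⟨h1, fun i hi => ?_⟩
      rcases Nat.lt_succ_iff_lt_or_eq.mp hi with h | h
      · exact h2 i h
      · have : i = j := Fin.ext h
        rw [this]
        exact hj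
    · left
      exact ⟨h1, h2, hj⟩
  · rintro (⟨h1, h2, -⟩ | ⟨h1, h2⟩)
    · exact ⟨h1, h2⟩
    · exact ⟨h1, fun i hi => h2 i (by omega)⟩

theorem confAt_disjoint {F : Type*} [Field F] (n : ℕ) (j : Fin n) :
    Disjoint (ConfAt F n j) (ConfFrom F n (j.val + 1)) := by
  rw [Set.disjoint_left]
  rintro g ⟨-, -, h3⟩ ⟨-, h4⟩
  exact h3 (h4 j (by omega))

theorem confFrom_ncard_split {F : Type*} [Field F] (n : ℕ) (hfin : (Conf F n n).Finite)
    (j : Fin n) :
    (ConfAt F n j).ncard + (ConfFrom F n (j.val + 1)).ncard = (ConfFrom F n j.val).ncard := by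
  rw [confFrom_eq_union n j]
  exact (Set.ncard_union_eq (confAt_disjoint n j) (hfin.subset (fun g hg => hg.1))
    (hfin.subset (fun g hg => hg.1))).symm

/-- The main count: `(q - 1) * k(SL_n(q))` is at most a weighted count of configurations. -/
theorem main_count {F : Type*} [Field F] [Fintype F] (n : ℕ) (hn : 2 ≤ n) (w : ℕ)
    (hfin : (Conf F n n).Finite)
    (Φ : Matrix.GeneralLinearGroup (Fin n) F → (Fin n → F[X]))
    (hΦ1 : ∀ A, Φ A ∈ Conf F n n)
    (hΦ3 : ∀ A, cdet (Φ A) = (A : Matrix (Fin n) (Fin n) F).det)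
    (hΦ4 : ∀ A (j : Fin n), Φ A j ≠ 1 →
        (detCent A).index ≤ min (j.val + 1) (Fintype.card F - 1))
    (hfib : ∀ (S : Finset (Fin n → F[X])) (W : (Fin n → F[X]) → ℕ),
      (∀ x : Matrix.SpecialLinearGroup (Fin n) F, Φ (Matrix.SpecialLinearGroup.toGL x) ∈ S) →
      (∀ x : Matrix.SpecialLinearGroup (Fin n) F,
        (detCent (Matrix.SpecialLinearGroup.toGL x)).index ≤
          W (Φ (Matrix.SpecialLinearGroup.toGL x))) →
      Nat.card (ConjClasses (Matrix.SpecialLinearGroup (Fin n) F)) ≤ ∑ t ∈ S, W t)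
    (horb : ∀ j : Fin n, (Fintype.card F - 1) * {g | g ∈ ConfAt F n j ∧ cdet g = 1}.ncard ≤
      min (j.val + 1) (Fintype.card F - 1) * (ConfAt F n j).ncard)
    (hw1 : ∀ A : Matrix.GeneralLinearGroup (Fin n) F,
      Φ A ⟨0, by omega⟩ = 1 → Φ A ⟨1, by omega⟩ = 1 → (detCent A).index ≤ w)
    (hw2 : (Fintype.card F - 1) * {g | g ∈ ConfFrom F n 2 ∧ cdet g = 1}.ncard ≤
      w * (ConfFrom F n 2).ncard) :
    (Fintype.card F - 1) * Nat.card (ConjClasses (Matrix.SpecialLinearGroup (Fin n) F)) ≤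
      (ConfAt F n ⟨0, by omega⟩).ncard +
        min 2 (Fintype.card F - 1) ^ 2 * (ConfAt F n ⟨1, by omega⟩).ncard +
        w ^ 2 * (ConfFrom F n 2).ncard := by
  classical
  obtain ⟨j0, hj0⟩ : ∃ j0 : Fin n, j0 = ⟨0, by omega⟩ := ⟨_, rfl⟩
  obtain ⟨j1, hj1⟩ : ∃ j1 : Fin n, j1 = ⟨1, by omega⟩ := ⟨_, rfl⟩
  have hj0v : j0.val = 0 := by rw [hj0]
  have hj1v : j1.val = 1 := by rw [hj1]
  rw [← hj0, ← hj1] at hw1 ⊢
  obtain ⟨q, hq⟩ : ∃ q : ℕ, q = Fintype.card F := ⟨_, rfl⟩
  rw [← hq] at hΦ4 horb hw2 ⊢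
  obtain ⟨h1, hh1⟩ : ∃ h1 : ℕ, h1 = min 2 (q - 1) := ⟨_, rfl⟩
  rw [← hh1]
  let S : Finset (Fin n → F[X]) := hfin.toFinset.filter (fun g => cdet g = 1)
  let W : (Fin n → F[X]) → ℕ := fun g => if g j0 ≠ 1 then 1 else if g j1 ≠ 1 then h1 else w
  have hk : Nat.card (ConjClasses (Matrix.SpecialLinearGroup (Fin n) F)) ≤ ∑ t ∈ S, W t := by
    apply hfib S W
    · intro x
      rw [Finset.mem_filter, Set.Finite.mem_toFinset]
      refine ⟨hΦ1 _, ?_⟩
      rw [hΦ3]
      exact x.2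
    · intro x
      show _ ≤ (if Φ (Matrix.SpecialLinearGroup.toGL x) j0 ≠ 1 then 1
        else if Φ (Matrix.SpecialLinearGroup.toGL x) j1 ≠ 1 then h1 else w)
      by_cases ha : Φ (Matrix.SpecialLinearGroup.toGL x) j0 ≠ 1
      · rw [if_pos ha]
        have h := hΦ4 _ j0 ha
        rw [hj0v] at h
        exact le_trans h (min_le_left _ _)
      · rw [if_neg ha]
        by_cases hb : Φ (Matrix.SpecialLinearGroup.toGL x) j1 ≠ 1
        · rw [if_pos hb]
          have h := hΦ4 _ j1 hb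
          rw [hj1v] at h
          rw [hh1]
          exact h
        · rw [if_neg hb]
          exact hw1 _ (not_not.mp ha) (not_not.mp hb)
  have hWle : ∀ t ∈ S, W t ≤ (if t ∈ ConfAt F n j0 then 1 else 0) +
      h1 * (if t ∈ ConfAt F n j1 then 1 else 0) + w * (if t ∈ ConfFrom F n 2 then 1 else 0) := by
    intro t ht
    have htC : t ∈ Conf F n n := hfin.mem_toFinset.mp (Finset.mem_filter.mp ht).1
    show (if t j0 ≠ 1 then 1 else if t j1 ≠ 1 then h1 else w) ≤ _
    by_cases ha : t j0 ≠ 1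
    · have hmem : t ∈ ConfAt F n j0 :=
        ⟨htC, fun i hi => absurd hi (by rw [hj0v]; exact Nat.not_lt_zero _), ha⟩
      rw [if_pos ha, if_pos hmem]
      omega
    · have ha' : t j0 = 1 := not_not.mp ha
      rw [if_neg ha]
      by_cases hb : t j1 ≠ 1
      · have hmem : t ∈ ConfAt F n j1 := by
          refine ⟨htC, fun i hi => ?_, hb⟩
          have : i = j0 := Fin.ext (by rw [hj0v]; rw [hj1v] at hi; omega)
          rw [this]
          exact ha'
        rw [if_pos hb, if_pos hmem]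
        omega
      · have hb' : t j1 = 1 := not_not.mp hb
        have hmem : t ∈ ConfFrom F n 2 := by
          refine ⟨htC, fun i hi => ?_⟩
          have : i = j0 ∨ i = j1 := by
            rcases Nat.lt_succ_iff_lt_or_eq.mp hi with h | h
            · left
              exact Fin.ext (by rw [hj0v]; omega)
            · right
              exact Fin.ext (by rw [hj1v]; exact h)
          rcases this with h | h
          · rw [h]; exact ha'
          · rw [h]; exact hb'
        rw [if_neg hb, if_pos hmem]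
        omega
  have hcard : ∀ (P : Set (Fin n → F[X])), P ⊆ Conf F n n →
      ∑ t ∈ S, (if t ∈ P then 1 else 0) = {g | g ∈ P ∧ cdet g = 1}.ncard := by
    intro P hP
    rw [← Finset.card_filter, ← Set.ncard_coe_finset]
    congr 1
    ext g
    rw [Finset.mem_coe, Finset.mem_filter, Finset.mem_filter, Set.Finite.mem_toFinset]
    constructor
    · rintro ⟨⟨_, h2⟩, h3⟩
      exact ⟨h3, h2⟩
    · rintro ⟨h3, h2⟩
      exact ⟨⟨hP h3, h2⟩, h3⟩
  have hsum : ∑ t ∈ S, W t ≤ {g | g ∈ ConfAt F n j0 ∧ cdet g = 1}.ncard +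
      h1 * {g | g ∈ ConfAt F n j1 ∧ cdet g = 1}.ncard +
      w * {g | g ∈ ConfFrom F n 2 ∧ cdet g = 1}.ncard := by
    refine le_trans (Finset.sum_le_sum hWle) (le_of_eq ?_)
    rw [Finset.sum_add_distrib, Finset.sum_add_distrib, ← Finset.mul_sum, ← Finset.mul_sum,
      hcard _ (fun g hg => hg.1), hcard _ (fun g hg => hg.1), hcard _ (fun g hg => hg.1)]
  have ho0 : (q - 1) * {g | g ∈ ConfAt F n j0 ∧ cdet g = 1}.ncard ≤ (ConfAt F n j0).ncard := by
    have h := horb j0
    rw [hj0v] at h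
    refine le_trans h ?_
    calc min (0 + 1) (q - 1) * (ConfAt F n j0).ncard ≤ 1 * (ConfAt F n j0).ncard :=
          Nat.mul_le_mul_right _ (min_le_left _ _)
      _ = (ConfAt F n j0).ncard := one_mul _
  have ho1 : (q - 1) * {g | g ∈ ConfAt F n j1 ∧ cdet g = 1}.ncard ≤
      h1 * (ConfAt F n j1).ncard := by
    have h := horb j1
    rw [hj1v] at h
    rw [hh1]
    exact h
  calc (q - 1) * Nat.card (ConjClasses (Matrix.SpecialLinearGroup (Fin n) F))
      ≤ (q - 1) * ({g | g ∈ ConfAt F n j0 ∧ cdet g = 1}.ncard +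
          h1 * {g | g ∈ ConfAt F n j1 ∧ cdet g = 1}.ncard +
          w * {g | g ∈ ConfFrom F n 2 ∧ cdet g = 1}.ncard) :=
        Nat.mul_le_mul_left _ (hk.trans hsum)
    _ = (q - 1) * {g | g ∈ ConfAt F n j0 ∧ cdet g = 1}.ncard +
          h1 * ((q - 1) * {g | g ∈ ConfAt F n j1 ∧ cdet g = 1}.ncard) +
          w * ((q - 1) * {g | g ∈ ConfFrom F n 2 ∧ cdet g = 1}.ncard) := by ring
    _ ≤ (ConfAt F n j0).ncard + h1 * (h1 * (ConfAt F n j1).ncard) +
          w * (w * (ConfFrom F n 2).ncard) :=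
        Nat.add_le_add (Nat.add_le_add ho0 (Nat.mul_le_mul_left _ ho1))
          (Nat.mul_le_mul_left _ hw2)
    _ = (ConfAt F n j0).ncard + h1 ^ 2 * (ConfAt F n j1).ncard +
          w ^ 2 * (ConfFrom F n 2).ncard := by ring

theorem fin_two (K q c0 c1 a0 a1 a2 : ℕ) (hq : 2 ≤ q)
    (h1 : c0 + a1 = a0) (h2 : c1 + a2 = a1) (h3 : a0 + 1 ≤ q ^ 2) (h4 : a1 ≤ q - 1)
    (h5 : a2 = 0)
    (h6 : (q - 1) * K ≤ c0 + min 2 (q - 1) ^ 2 * c1 + (q - 1) ^ 2 * a2) :
    2 * K ≤ 5 * q := by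
  obtain ⟨d, rfl⟩ : ∃ d, q = d + 1 := ⟨q - 1, by omega⟩
  rw [Nat.add_sub_cancel] at h4 h6
  subst h5
  rcases Nat.lt_or_ge d 2 with hd | hd
  · have hd1 : d = 1 := by omega
    subst hd1
    norm_num at h6 h3
    omega
  · have hm : min 2 d = 2 := min_eq_left hd
    rw [hm] at h6
    have h7 : d * K ≤ d * (d + 5) := by nlinarith
    have h8 : K ≤ d + 5 := Nat.le_of_mul_le_mul_left h7 (by omega)
    omega

theorem fin_three (K q c0 c1 a0 a1 a2 : ℕ) (hq : 2 ≤ q)
    (h1 : c0 + a1 = a0) (h2 : c1 + a2 = a1) (h3 : a0 + q ≤ q ^ 3) (h4 : a1 ≤ q - 1)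
    (h6 : (q - 1) * K ≤ c0 + min 2 (q - 1) ^ 2 * c1 + min 3 (q - 1) ^ 2 * a2) :
    K ≤ q ^ 2 + 3 * q := by
  obtain ⟨d, rfl⟩ : ∃ d, q = d + 1 := ⟨q - 1, by omega⟩
  rw [Nat.add_sub_cancel] at h4 h6
  rcases Nat.lt_or_ge d 2 with hd | hd
  · have hd1 : d = 1 := by omega
    subst hd1
    norm_num at h6 h3 ⊢
    omega
  · rcases Nat.lt_or_ge d 3 with hd3 | hd3
    · have hd2 : d = 2 := by omega
      subst hd2
      norm_num at h6 h3 ⊢
      omega
    · have hm : min 2 d = 2 := min_eq_left hd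
      have hm3 : min 3 d = 3 := min_eq_left hd3
      rw [hm, hm3] at h6
      have h7 : d * K ≤ d * (d ^ 2 + 3 * d + 10) := by nlinarith
      have h8 : K ≤ d ^ 2 + 3 * d + 10 := Nat.le_of_mul_le_mul_left h7 (by omega)
      nlinarith

theorem fin_four (K q Q c0 c1 a0 a1 a2 : ℕ) (hq : 2 ≤ q) (hQ : 1 ≤ Q)
    (h1 : c0 + a1 = a0) (h2 : c1 + a2 = a1) (h3 : a0 + 1 ≤ q ^ 3 * Q) (h4 : a1 ≤ q * Q)
    (h5 : a2 ≤ Q)
    (h6 : (q - 1) * K ≤ c0 + min 2 (q - 1) ^ 2 * c1 + (q - 1) ^ 2 * a2) :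
    K ≤ q ^ 2 * Q + 3 * (q * Q) := by
  obtain ⟨d, rfl⟩ : ∃ d, q = d + 1 := ⟨q - 1, by omega⟩
  rw [Nat.add_sub_cancel] at h6
  rcases Nat.lt_or_ge d 2 with hd | hd
  · have hd1 : d = 1 := by omega
    subst hd1
    norm_num at h6 h3 h4 ⊢
    omega
  · have hm : min 2 d = 2 := min_eq_left hd
    rw [hm] at h6
    by_contra hcon
    have hK : (d + 1) ^ 2 * Q + 3 * ((d + 1) * Q) + 1 ≤ K := by omega
    have h7 : d * ((d + 1) ^ 2 * Q + 3 * ((d + 1) * Q) + 1) ≤ d * K :=
      Nat.mul_le_mul_left _ hK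
    have h8 : d ^ 2 * a2 ≤ d ^ 2 * Q := Nat.mul_le_mul_left _ h5
    have h9 : 4 * a2 ≤ d ^ 2 * a2 := Nat.mul_le_mul_right _ (by nlinarith)
    have h10 : 4 * Q ≤ d ^ 2 * Q := Nat.mul_le_mul_right _ (by nlinarith)
    have h11 : 2 * (d * Q) ≤ d * d * Q := by
      have : 2 * d ≤ d * d := Nat.mul_le_mul_right _ hd
      nlinarith
    nlinarith

theorem conf_three_ne_one {F : Type*} [Field F] {g : Fin 3 → F[X]} (hg : g ∈ Conf F 3 3)
    (h0 : g ⟨0, by omega⟩ = 1) (h1 : g ⟨1, by omega⟩ = 1) : g ⟨2, by omega⟩ ≠ 1 := by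
  intro h2
  have h := hg.2
  rw [Fin.sum_univ_three] at h
  have e0 : g 0 = 1 := h0
  have e1 : g 1 = 1 := h1
  have e2 : g 2 = 1 := h2
  rw [e0, e1, e2, Polynomial.natDegree_one] at h
  simp at h

/-- The upper bounds for `k(SL_n(q))`, the team pieces entering as hypotheses. -/
theorem card_conjClasses_SL_le_of {F : Type*} [Field F] [Fintype F] (n : ℕ) (hn : 2 ≤ n)
    (hconf : (Conf F n n).Finite ∧ (Conf F n n).ncard ≤ cfgCount (Fintype.card F) n n)
    (hΦ' : ∃ Φ : Matrix.GeneralLinearGroup (Fin n) F → (Fin n → F[X]),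
      (∀ A, Φ A ∈ Conf F n n) ∧ (∀ A B, Φ A = Φ B → IsConj A B) ∧
      (∀ A, cdet (Φ A) = (A : Matrix (Fin n) (Fin n) F).det) ∧
      (∀ A (j : Fin n), Φ A j ≠ 1 →
        (detCent A).index ≤ min (j.val + 1) (Fintype.card F - 1)))
    (hfib : ∀ (Φ : Matrix.GeneralLinearGroup (Fin n) F → (Fin n → F[X]))
      (S : Finset (Fin n → F[X])) (W : (Fin n → F[X]) → ℕ),
      (∀ x : Matrix.SpecialLinearGroup (Fin n) F, Φ (Matrix.SpecialLinearGroup.toGL x) ∈ S) →
      (∀ x y, Φ x = Φ y → IsConj x y) →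
      (∀ x : Matrix.SpecialLinearGroup (Fin n) F,
        (detCent (Matrix.SpecialLinearGroup.toGL x)).index ≤
          W (Φ (Matrix.SpecialLinearGroup.toGL x))) →
      Nat.card (ConjClasses (Matrix.SpecialLinearGroup (Fin n) F)) ≤ ∑ t ∈ S, W t)
    (hidx' : ∀ D : Subgroup Fˣ, D.index ≤ Fintype.card F - 1)
    (horb : ∀ j : Fin n, (Fintype.card F - 1) * {g | g ∈ ConfAt F n j ∧ cdet g = 1}.ncard ≤
      min (j.val + 1) (Fintype.card F - 1) * (ConfAt F n j).ncard)
    (hpoly : ∀ j : ℕ, (ConfFrom F n j).ncard ≤ cfgB (Fintype.card F) (n - j) (j + 1) n)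
    (hnum : ∀ L s m : ℕ, 2 ≤ s → cfgB (Fintype.card F) L s m ≤
      if m = 0 then 1 else if m < s then 0 else if m ≤ s + 1 then Fintype.card F - 1
        else Fintype.card F ^ (m - s))
    (hthree : cfgCount (Fintype.card F) 3 3 + Fintype.card F ≤ Fintype.card F ^ 3) :
    2 * Nat.card (ConjClasses (Matrix.SpecialLinearGroup (Fin n) F)) ≤
        5 * Fintype.card F ^ (n - 1) ∧
      (3 ≤ n → Nat.card (ConjClasses (Matrix.SpecialLinearGroup (Fin n) F)) ≤
        Fintype.card F ^ (n - 1) + 3 * Fintype.card F ^ (n - 2)) := by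
  classical
  obtain ⟨Φ, hΦ1, hΦ2, hΦ3, hΦ4⟩ := hΦ'
  obtain ⟨hfin, hle⟩ := hconf
  have hq : 2 ≤ Fintype.card F := Fintype.one_lt_card
  have hs0 : (ConfAt F n ⟨0, by omega⟩).ncard + (ConfFrom F n 1).ncard = (Conf F n n).ncard := by
    have h := confFrom_ncard_split n hfin ⟨0, by omega⟩
    rw [confFrom_zero] at h
    exact h
  have hs1 : (ConfAt F n ⟨1, by omega⟩).ncard + (ConfFrom F n 2).ncard =
      (ConfFrom F n 1).ncard := confFrom_ncard_split n hfin ⟨1, by omega⟩
  have ha0 : (Conf F n n).ncard + 1 ≤ Fintype.card F ^ n := by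
    have h := cfgCount_inv (Fintype.card F) (by omega) n n (by omega)
    rw [min_self, Nat.sub_self, pow_zero] at h
    omega
  have hN2 : {g | g ∈ ConfFrom F n 2 ∧ cdet g = 1}.ncard ≤ (ConfFrom F n 2).ncard :=
    Set.ncard_le_ncard (fun g hg => hg.1) (hfin.subset (fun g hg => hg.1))
  have hmain := main_count n hn (Fintype.card F - 1) hfin Φ hΦ1 hΦ3 hΦ4
    (fun S W hS hW => hfib Φ S W hS hΦ2 hW) horb (fun A _ _ => hidx' _)
    (Nat.mul_le_mul_left _ hN2)
  rcases Nat.lt_or_ge n 4 with hlt | hge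
  · rcases Nat.lt_or_ge n 3 with hlt3 | hge3
    · -- n = 2
      have hn2 : n = 2 := by omega
      subst hn2
      have ha2 : (ConfFrom F 2 2).ncard = 0 := by
        have h := hpoly 2
        rw [Nat.sub_self, cfgB_zero, if_neg (by omega)] at h
        omega
      have ha1 : (ConfFrom F 2 1).ncard ≤ Fintype.card F - 1 := by
        have h := hpoly 1
        have h' := hnum 1 2 2 le_rfl
        rw [if_neg (by omega), if_neg (by omega), if_pos (by omega)] at h'
        exact le_trans h h'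
      have hfinal := fin_two _ _ _ _ _ _ _ hq hs0 hs1 ha0 ha1 ha2 hmain
      refine ⟨?_, fun h3 => by omega⟩
      rw [show 2 - 1 = 1 from rfl, pow_one]
      exact hfinal
    · -- n = 3
      have hn3 : n = 3 := by omega
      subst hn3
      have hset : ConfFrom F 3 2 = ConfAt F 3 ⟨2, by omega⟩ := by
        ext g
        rw [mem_ConfFrom, mem_ConfAt]
        constructor
        · rintro ⟨h1, h2⟩
          exact ⟨h1, h2, conf_three_ne_one h1 (h2 _ (by norm_num)) (h2 _ (by norm_num))⟩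
        · rintro ⟨h1, h2, -⟩
          exact ⟨h1, h2⟩
      have hw2 : (Fintype.card F - 1) * {g | g ∈ ConfFrom F 3 2 ∧ cdet g = 1}.ncard ≤
          min 3 (Fintype.card F - 1) * (ConfFrom F 3 2).ncard := by
        rw [hset]
        exact horb ⟨2, by omega⟩
      have hmain3 := main_count 3 hn (min 3 (Fintype.card F - 1)) hfin Φ hΦ1 hΦ3 hΦ4
        (fun S W hS hW => hfib Φ S W hS hΦ2 hW) horb
        (fun A h0 h1 => hΦ4 A ⟨2, by omega⟩ (conf_three_ne_one (hΦ1 A) h0 h1)) hw2
      have ha1 : (ConfFrom F 3 1).ncard ≤ Fintype.card F - 1 := by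
        have h := hpoly 1
        have h' := hnum 2 2 3 le_rfl
        rw [if_neg (by omega), if_neg (by omega), if_pos (by omega)] at h'
        exact le_trans h h'
      have ha03 : (Conf F 3 3).ncard + Fintype.card F ≤ Fintype.card F ^ 3 := by omega
      have hfinal := fin_three _ _ _ _ _ _ _ hq hs0 hs1 ha03 ha1 hmain3
      rw [show 3 - 1 = 2 from rfl, show 3 - 2 = 1 from rfl, pow_one]
      refine ⟨?_, fun _ => hfinal⟩
      nlinarith
  · -- n ≥ 4
    obtain ⟨Q, hQ⟩ : ∃ Q : ℕ, Q = Fintype.card F ^ (n - 3) := ⟨_, rfl⟩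
    have hQ1 : 1 ≤ Q := by
      rw [hQ]
      exact Nat.one_le_pow _ _ (by omega)
    have hp3 : Fintype.card F ^ n = Fintype.card F ^ 3 * Q := by
      rw [hQ, ← pow_add]
      congr 1
      omega
    have hp2 : Fintype.card F ^ (n - 1) = Fintype.card F ^ 2 * Q := by
      rw [hQ, ← pow_add]
      congr 1
      omega
    have hp1 : Fintype.card F ^ (n - 2) = Fintype.card F * Q := by
      rw [hQ, ← pow_succ']
      congr 1
      omega
    have ha1 : (ConfFrom F n 1).ncard ≤ Fintype.card F * Q := by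
      have h := hpoly 1
      have h' := hnum (n - 1) 2 n le_rfl
      rw [if_neg (by omega), if_neg (by omega), if_neg (by omega)] at h'
      rw [← hp1]
      exact le_trans h h'
    have ha2 : (ConfFrom F n 2).ncard ≤ Q := by
      have h := hpoly 2
      have h' := hnum (n - 2) 3 n (by omega)
      rw [if_neg (by omega), if_neg (by omega)] at h'
      refine le_trans h (le_trans h' ?_)
      split_ifs with h4
      · have hn4 : n = 4 := by omega
        rw [hQ, hn4]
        norm_num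
      · rw [hQ]
    rw [hp3] at ha0
    have hfinal := fin_four _ _ Q _ _ _ _ _ hq hQ1 hs0 hs1 ha0 ha1 ha2 hmain
    rw [hp2, hp1]
    refine ⟨?_, fun _ => hfinal⟩
    have h6 : 2 * (Fintype.card F * Q) ≤ Fintype.card F ^ 2 * Q := by
      rw [pow_two, mul_assoc]
      exact Nat.mul_le_mul_right _ hq
    omega

end Cfsg.Agent.H98.SLk
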