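import Mathlib
import Cfsg.Agent.H98.PSLkDefs
import Cfsg.Agent.H98.SLkAsm

set_option autoImplicit false

/-!
# S2480 (helper98): assembly of the bounds for `k(PSL_n(q))` from the team pieces,
which enter as hypotheses.
-/

namespace Cfsg.Agent.H98.SLk

open Polynomial DirectSum
open Cfsg.Agent.H98.GLk

/-- The refined configuration map: it also reads off the determinant and controls the index of
the determinants of the centralizer. -/
theorem exists_conf_map_sc {F : Type*} [Field F] [Fintype F] (n : ℕ)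
    (hscdec : ∀ (A : Matrix (Fin n) (Fin n) F) (ζ : Fˣ) (k : ℕ) (p : Fin k → F[X])
      (e : Fin k → ℕ)
      (_ : Module.AEval' (Matrix.toLin' A) ≃ₗ[F[X]] ⨁ i : Fin k, F[X] ⧸ F[X] ∙ p i ^ e i),
      Nonempty (Module.AEval' (Matrix.toLin' ((ζ : F) • A)) ≃ₗ[F[X]]
        ⨁ i : Fin k, F[X] ⧸ F[X] ∙ ((p i).scaleRoots (ζ : F)) ^ e i))
    (hirr : ∀ (p : F[X]) (ζ : Fˣ), Irreducible p → Irreducible (p.scaleRoots (ζ : F)))
    (hprodsc : ∀ (k : ℕ) (s : Finset (Fin k)) (f : Fin k → F[X]) (a : F),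
      (∏ i ∈ s, f i).scaleRoots a = ∏ i ∈ s, (f i).scaleRoots a)
    (hdet : ∀ (A : Matrix (Fin n) (Fin n) F) (k : ℕ) (p : Fin k → F[X]) (e : Fin k → ℕ)
      (_ : ∀ i, (p i).Monic ∧ Irreducible (p i) ∧ 1 ≤ e i)
      (_ : Module.AEval' (Matrix.toLin' A) ≃ₗ[F[X]] ⨁ i : Fin k, F[X] ⧸ F[X] ∙ p i ^ e i),
      A.det = ∏ i, ((-1) ^ (p i).natDegree * (p i).coeff 0) ^ e i)
    (hpow : ∀ (A : Matrix.GeneralLinearGroup (Fin n) F) (k : ℕ) (p : Fin k → F[X])
      (e : Fin k → ℕ) (_ : ∀ i, (p i).Monic ∧ Irreducible (p i) ∧ 1 ≤ e i)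
      (_ : Module.AEval' (Matrix.toLin' (A : Matrix (Fin n) (Fin n) F)) ≃ₗ[F[X]]
        ⨁ i : Fin k, F[X] ⧸ F[X] ∙ p i ^ e i) (i : Fin k) (c : Fˣ), c ^ e i ∈ detCent A)
    (hidx : ∀ (D : Subgroup Fˣ) (e : ℕ), 1 ≤ e → (∀ c : Fˣ, c ^ e ∈ D) →
      D.index ≤ min e (Fintype.card F - 1)) :
    ∃ Φ : Matrix.GeneralLinearGroup (Fin n) F → (Fin n → F[X]),
      (∀ A, Φ A ∈ Conf F n n) ∧
      (∀ (A B : Matrix.GeneralLinearGroup (Fin n) F) (ζ : Fˣ), Φ B = sc ζ (Φ A) →
        IsConj B (Matrix.GeneralLinearGroup.scalar (Fin n) ζ * A)) ∧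
      (∀ A, cdet (Φ A) = (A : Matrix (Fin n) (Fin n) F).det) ∧
      (∀ A (j : Fin n), Φ A j ≠ 1 →
        (detCent A).index ≤ min (j.val + 1) (Fintype.card F - 1)) := by
  classical
  have hdec : ∀ A : Matrix.GeneralLinearGroup (Fin n) F,
      ∃ (k : ℕ) (p : Fin k → F[X]) (e : Fin k → ℕ),
      (∀ i, (p i).Monic ∧ Irreducible (p i) ∧ 1 ≤ e i) ∧
      Nonempty (Module.AEval' (Matrix.toLin' (A : Matrix (Fin n) (Fin n) F)) ≃ₗ[F[X]]
        ⨁ i : Fin k, F[X] ⧸ F[X] ∙ p i ^ e i) :=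
    fun A => Cfsg.Agent.H70.Str1.exists_primary_decomp _
  choose k p e hp hl using hdec
  have hfacts : ∀ A : Matrix.GeneralLinearGroup (Fin n) F,
      ∑ i, e A i * (p A i).natDegree = n ∧ ∀ i, (p A i).coeff 0 ≠ 0 := by
    intro A
    have h := Cfsg.Agent.H5.GLk.decomp_facts (A : Matrix (Fin n) (Fin n) F) (k A) (p A) (e A)
      (hp A) (hl A).some
    refine ⟨h.1, h.2 ?_⟩
    have : IsUnit (A : Matrix (Fin n) (Fin n) F) := ⟨A, rfl⟩
    exact (Matrix.isUnit_iff_isUnit_det _).mp this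
  have hen : ∀ A i, e A i ≤ n := by
    intro A i
    have h1 : 1 ≤ (p A i).natDegree := (hp A i).2.1.natDegree_pos
    have h2 : e A i * (p A i).natDegree ≤ ∑ j, e A j * (p A j).natDegree :=
      Finset.single_le_sum (f := fun j => e A j * (p A j).natDegree)
        (fun _ _ => Nat.zero_le _) (Finset.mem_univ i)
    rw [(hfacts A).1] at h2
    calc e A i = e A i * 1 := (mul_one _).symm
      _ ≤ e A i * (p A i).natDegree := Nat.mul_le_mul_left _ h1
      _ ≤ n := h2
  have hset : ∀ (A : Matrix.GeneralLinearGroup (Fin n) F) (m : Fin n),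
      Finset.univ.filter (fun i : Fin (k A) => e A i = m.val + 1) =
        Finset.univ.filter (fun i : Fin (k A) => e A i - 1 = m.val) := by
    intro A m
    ext i
    simp only [Finset.mem_filter, Finset.mem_univ, true_and]
    have := (hp A i).2.2
    omega
  have hmaps : ∀ (A : Matrix.GeneralLinearGroup (Fin n) F),
      ∀ i ∈ (Finset.univ : Finset (Fin (k A))), e A i - 1 ∈ Finset.range n := by
    intro A i _
    have := hen A i
    have := (hp A i).2.2
    exact Finset.mem_range.mpr (by omega)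
  refine ⟨fun A m => ∏ i ∈ Finset.univ.filter (fun i => e A i = m.val + 1), p A i,
    ?_, ?_, ?_, ?_⟩
  · intro A
    refine ⟨fun m => ⟨?_, ?_⟩, ?_⟩
    · exact Polynomial.monic_prod_of_monic _ _ (fun i _ => (hp A i).1)
    · rw [Polynomial.coeff_zero_prod]
      exact Finset.prod_ne_zero_iff.mpr (fun i _ => (hfacts A).2 i)
    · have h1 : ∀ m : Fin n, (m.val + 1) *
          (∏ i ∈ Finset.univ.filter (fun i => e A i = m.val + 1), p A i).natDegree =
          ∑ i ∈ Finset.univ.filter (fun i => e A i = m.val + 1), e A i * (p A i).natDegree := by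
        intro m
        rw [Polynomial.natDegree_prod_of_monic _ _ (fun i _ => (hp A i).1), Finset.mul_sum]
        apply Finset.sum_congr rfl
        intro i hi
        rw [(Finset.mem_filter.mp hi).2]
      rw [Finset.sum_congr rfl (fun m _ => h1 m)]
      refine Eq.trans ?_ (hfacts A).1
      have h2 := Finset.sum_fiberwise_of_maps_to (s := (Finset.univ : Finset (Fin (k A))))
        (t := Finset.range n) (g := fun i => e A i - 1) (hmaps A)
        (fun i => e A i * (p A i).natDegree)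
      rw [← h2, ← Fin.sum_univ_eq_sum_range
        (fun m : ℕ => ∑ i ∈ Finset.univ.filter (fun i : Fin (k A) => e A i - 1 = m),
          e A i * (p A i).natDegree) n]
      refine Fintype.sum_congr _ _ (fun m => ?_)
      rw [hset A m]
  · intro A B ζ hAB
    have hprod : ∀ m : ℕ, ∏ i ∈ Finset.univ.filter (fun i => e B i = m), p B i =
        ∏ i ∈ Finset.univ.filter (fun i => e A i = m), (p A i).scaleRoots (ζ : F) := by
      intro m
      by_cases hm : 1 ≤ m ∧ m ≤ n
      · have h := congrFun hAB ⟨m - 1, by omega⟩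
        rw [sc_apply] at h
        simp only [Nat.sub_add_cancel hm.1] at h
        rw [h, hprodsc]
      · rw [Finset.filter_false_of_mem (fun i _ hi => by
            have := hen B i; have := (hp B i).2.2; omega),
          Finset.filter_false_of_mem (fun i _ hi => by
            have := hen A i; have := (hp A i).2.2; omega),
          Finset.prod_empty, Finset.prod_empty]
    obtain ⟨σ⟩ := Cfsg.Agent.H64.GLk.directSum_equiv_of_prod_eq (k B) (k A) (p B) (e B)
      (fun i => (p A i).scaleRoots (ζ : F)) (e A)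
      (fun i => ⟨(hp B i).1, (hp B i).2.1⟩)
      (fun i => ⟨(Polynomial.monic_scaleRoots_iff _).mpr (hp A i).1, hirr _ ζ (hp A i).2.1⟩)
      hprod
    obtain ⟨l'⟩ := hscdec (A : Matrix (Fin n) (Fin n) F) ζ (k A) (p A) (e A) (hl A).some
    have hmat : ((Matrix.GeneralLinearGroup.scalar (Fin n) ζ * A :
        Matrix.GeneralLinearGroup (Fin n) F) : Matrix (Fin n) (Fin n) F) =
        (ζ : F) • (A : Matrix (Fin n) (Fin n) F) := by
      rw [Units.val_mul, Matrix.GeneralLinearGroup.coe_scalar, Matrix.scalar_apply,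
        ← Matrix.smul_eq_diagonal_mul]
    have l0 : Module.AEval' (Matrix.toLin' (B : Matrix (Fin n) (Fin n) F)) ≃ₗ[F[X]]
        Module.AEval' (Matrix.toLin' ((Matrix.GeneralLinearGroup.scalar (Fin n) ζ * A :
          Matrix.GeneralLinearGroup (Fin n) F) : Matrix (Fin n) (Fin n) F)) := by
      rw [hmat]
      exact ((hl B).some.trans σ).trans l'.symm
    exact Cfsg.Agent.H5.GLk.isConj_of_aeval_equiv B _ l0
  · intro A
    rw [hdet (A : Matrix (Fin n) (Fin n) F) (k A) (p A) (e A) (hp A) (hl A).some, cdet_def]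
    have h1 : ∀ m : Fin n,
        ((-1 : F) ^ (∏ i ∈ Finset.univ.filter (fun i => e A i = m.val + 1), p A i).natDegree *
          (∏ i ∈ Finset.univ.filter (fun i => e A i = m.val + 1), p A i).coeff 0) ^ (m.val + 1) =
        ∏ i ∈ Finset.univ.filter (fun i => e A i = m.val + 1),
          ((-1 : F) ^ (p A i).natDegree * (p A i).coeff 0) ^ e A i := by
      intro m
      rw [Polynomial.natDegree_prod_of_monic _ _ (fun i _ => (hp A i).1),
        Polynomial.coeff_zero_prod, ← Finset.prod_pow_eq_pow_sum, ← Finset.prod_mul_distrib,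
        ← Finset.prod_pow]
      apply Finset.prod_congr rfl
      intro i hi
      rw [(Finset.mem_filter.mp hi).2]
    rw [Fintype.prod_congr _ _ h1]
    have h2 := Finset.prod_fiberwise_of_maps_to (s := (Finset.univ : Finset (Fin (k A))))
      (t := Finset.range n) (g := fun i => e A i - 1) (hmaps A)
      (fun i => ((-1 : F) ^ (p A i).natDegree * (p A i).coeff 0) ^ e A i)
    rw [← h2, ← Fin.prod_univ_eq_prod_range
      (fun m : ℕ => ∏ i ∈ Finset.univ.filter (fun i : Fin (k A) => e A i - 1 = m),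
        ((-1 : F) ^ (p A i).natDegree * (p A i).coeff 0) ^ e A i) n]
    refine Fintype.prod_congr _ _ (fun m => ?_)
    rw [hset A m]
  · intro A j hj
    have hex : ∃ i, e A i = j.val + 1 := by
      by_contra hcon
      apply hj
      have : Finset.univ.filter (fun i : Fin (k A) => e A i = j.val + 1) = ∅ :=
        Finset.filter_false_of_mem (fun i _ hi => hcon ⟨i, hi⟩)
      show ∏ i ∈ Finset.univ.filter (fun i => e A i = j.val + 1), p A i = 1
      rw [this, Finset.prod_empty]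
    obtain ⟨i, hi⟩ := hex
    refine hidx (detCent A) (j.val + 1) (by omega) (fun c => ?_)
    rw [← hi]
    exact hpow A (k A) (p A) (e A) (hp A) (hl A).some i c


theorem sc_one {F : Type*} [Field F] {n : ℕ} (g : Fin n → F[X]) : sc (1 : Fˣ) g = g := by
  funext i
  rw [sc_apply, Units.val_one, Polynomial.scaleRoots_one]

theorem sc_mul {F : Type*} [Field F] {n : ℕ} (a b : Fˣ) (g : Fin n → F[X]) :
    sc (a * b) g = sc a (sc b g) := by
  funext i
  rw [sc_apply, sc_apply, sc_apply, mul_comm, Units.val_mul, Polynomial.scaleRoots_mul]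

/-- The weighted count of the configurations with `cdet = 1`. -/
theorem main_count_sum {F : Type*} [Field F] [Fintype F] (n : ℕ) (hn : 2 ≤ n) (w : ℕ)
    (S : Finset (Fin n → F[X]))
    (hS : ∀ g, g ∈ S ↔ g ∈ Conf F n n ∧ cdet g = 1)
    (horb : ∀ j : Fin n, (Fintype.card F - 1) * {g | g ∈ ConfAt F n j ∧ cdet g = 1}.ncard ≤
      min (j.val + 1) (Fintype.card F - 1) * (ConfAt F n j).ncard)
    (hw2 : (Fintype.card F - 1) * {g | g ∈ ConfFrom F n 2 ∧ cdet g = 1}.ncard ≤
      w * (ConfFrom F n 2).ncard) :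
    (Fintype.card F - 1) * ∑ t ∈ S, wt n hn (min 2 (Fintype.card F - 1)) w t ≤
      (ConfAt F n ⟨0, by omega⟩).ncard +
        min 2 (Fintype.card F - 1) ^ 2 * (ConfAt F n ⟨1, by omega⟩).ncard +
        w ^ 2 * (ConfFrom F n 2).ncard := by
  classical
  obtain ⟨q, hq⟩ : ∃ q : ℕ, q = Fintype.card F := ⟨_, rfl⟩
  rw [← hq] at horb hw2 ⊢
  obtain ⟨h1, hh1⟩ : ∃ h1 : ℕ, h1 = min 2 (q - 1) := ⟨_, rfl⟩
  rw [← hh1]
  have hWle : ∀ t ∈ S, wt n hn h1 w t ≤ (if t ∈ ConfAt F n ⟨0, by omega⟩ then 1 else 0) +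
      h1 * (if t ∈ ConfAt F n ⟨1, by omega⟩ then 1 else 0) +
      w * (if t ∈ ConfFrom F n 2 then 1 else 0) := by
    intro t ht
    have htC : t ∈ Conf F n n := ((hS t).mp ht).1
    rw [wt_def]
    by_cases ha : t ⟨0, by omega⟩ ≠ 1
    · have hmem : t ∈ ConfAt F n ⟨0, by omega⟩ :=
        ⟨htC, fun i hi => absurd hi (Nat.not_lt_zero _), ha⟩
      rw [if_pos ha, if_pos hmem]
      omega
    · have ha' : t ⟨0, by omega⟩ = 1 := not_not.mp ha
      rw [if_neg ha]
      by_cases hb : t ⟨1, by omega⟩ ≠ 1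
      · have hmem : t ∈ ConfAt F n ⟨1, by omega⟩ := by
          refine ⟨htC, fun i hi => ?_, hb⟩
          have : i = ⟨0, by omega⟩ := Fin.ext (by simpa using hi)
          rw [this]
          exact ha'
        rw [if_pos hb, if_pos hmem]
        omega
      · have hb' : t ⟨1, by omega⟩ = 1 := not_not.mp hb
        have hmem : t ∈ ConfFrom F n 2 := by
          refine ⟨htC, fun i hi => ?_⟩
          have : i = ⟨0, by omega⟩ ∨ i = ⟨1, by omega⟩ := by
            rcases Nat.lt_succ_iff_lt_or_eq.mp hi with h | h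
            · left
              exact Fin.ext (by simpa using h)
            · right
              exact Fin.ext h
          rcases this with h | h
          · rw [h]; exact ha'
          · rw [h]; exact hb'
        rw [if_neg hb, if_pos hmem]
        omega
  have hcard : ∀ (P : Set (Fin n → F[X])), P ⊆ Conf F n n →
      ∑ t ∈ S, (if t ∈ P then 1 else 0) = {g | g ∈ P ∧ cdet g = 1}.ncard := by
    intro P hP
    rw [← Finset.card_filter, ← Set.ncard_coe_finset]
    congr 1
    ext g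
    rw [Finset.mem_coe, Finset.mem_filter, hS]
    constructor
    · rintro ⟨⟨_, h2⟩, h3⟩
      exact ⟨h3, h2⟩
    · rintro ⟨h3, h2⟩
      exact ⟨⟨hP h3, h2⟩, h3⟩
  have hsum : ∑ t ∈ S, wt n hn h1 w t ≤
      {g | g ∈ ConfAt F n ⟨0, by omega⟩ ∧ cdet g = 1}.ncard +
      h1 * {g | g ∈ ConfAt F n ⟨1, by omega⟩ ∧ cdet g = 1}.ncard +
      w * {g | g ∈ ConfFrom F n 2 ∧ cdet g = 1}.ncard := by
    refine le_trans (Finset.sum_le_sum hWle) (le_of_eq ?_)
    rw [Finset.sum_add_distrib, Finset.sum_add_distrib, ← Finset.mul_sum, ← Finset.mul_sum,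
      hcard _ (fun g hg => hg.1), hcard _ (fun g hg => hg.1), hcard _ (fun g hg => hg.1)]
  have ho0 : (q - 1) * {g | g ∈ ConfAt F n ⟨0, by omega⟩ ∧ cdet g = 1}.ncard ≤
      (ConfAt F n ⟨0, by omega⟩).ncard := by
    have h := horb ⟨0, by omega⟩
    refine le_trans h ?_
    calc min (0 + 1) (q - 1) * (ConfAt F n ⟨0, by omega⟩).ncard
        ≤ 1 * (ConfAt F n ⟨0, by omega⟩).ncard := Nat.mul_le_mul_right _ (min_le_left _ _)
      _ = (ConfAt F n ⟨0, by omega⟩).ncard := one_mul _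
  have ho1 : (q - 1) * {g | g ∈ ConfAt F n ⟨1, by omega⟩ ∧ cdet g = 1}.ncard ≤
      h1 * (ConfAt F n ⟨1, by omega⟩).ncard := by
    have h := horb ⟨1, by omega⟩
    rw [hh1]
    exact h
  calc (q - 1) * ∑ t ∈ S, wt n hn h1 w t
      ≤ (q - 1) * ({g | g ∈ ConfAt F n ⟨0, by omega⟩ ∧ cdet g = 1}.ncard +
          h1 * {g | g ∈ ConfAt F n ⟨1, by omega⟩ ∧ cdet g = 1}.ncard +
          w * {g | g ∈ ConfFrom F n 2 ∧ cdet g = 1}.ncard) :=
        Nat.mul_le_mul_left _ hsum
    _ = (q - 1) * {g | g ∈ ConfAt F n ⟨0, by omega⟩ ∧ cdet g = 1}.ncard +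
          h1 * ((q - 1) * {g | g ∈ ConfAt F n ⟨1, by omega⟩ ∧ cdet g = 1}.ncard) +
          w * ((q - 1) * {g | g ∈ ConfFrom F n 2 ∧ cdet g = 1}.ncard) := by ring
    _ ≤ (ConfAt F n ⟨0, by omega⟩).ncard + h1 * (h1 * (ConfAt F n ⟨1, by omega⟩).ncard) +
          w * (w * (ConfFrom F n 2).ncard) :=
        Nat.add_le_add (Nat.add_le_add ho0 (Nat.mul_le_mul_left _ ho1))
          (Nat.mul_le_mul_left _ hw2)
    _ = (ConfAt F n ⟨0, by omega⟩).ncard + h1 ^ 2 * (ConfAt F n ⟨1, by omega⟩).ncard +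
          w ^ 2 * (ConfFrom F n 2).ncard := by ring

/-- The weight on the configurations with `g 0 = 1 = g 1`. -/
def wn (n q : ℕ) : ℕ := if n = 3 then min 3 (q - 1) else q - 1

theorem wn_le (n q : ℕ) : wn n q ≤ q - 1 := by
  unfold wn
  split_ifs
  · exact min_le_right _ _
  · exact le_rfl

theorem fin_two' (K q c0 c1 a0 a1 a2 : ℕ) (hq : 2 ≤ q)
    (h1 : c0 + a1 = a0) (h2 : c1 + a2 = a1) (h3 : a0 + 1 ≤ q ^ 2) (h4 : a1 ≤ q - 1)
    (h5 : a2 = 0)
    (h6 : (q - 1) * K ≤ c0 + min 2 (q - 1) ^ 2 * c1 + (q - 1) ^ 2 * a2) :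
    K ≤ q + 4 := by
  obtain ⟨d, rfl⟩ : ∃ d, q = d + 1 := ⟨q - 1, by omega⟩
  rw [Nat.add_sub_cancel] at h4 h6
  subst h5
  rcases Nat.lt_or_ge d 2 with hd | hd
  · have hd1 : d = 1 := by omega
    subst hd1
    norm_num at h6 h3
    omega
  · have hm : min 2 d = 2 := min_eq_left hd
    rw [hm] at h6
    have h7 : d * K ≤ d * (d + 5) := by nlinarith
    have h8 : K ≤ d + 5 := Nat.le_of_mul_le_mul_left h7 (by omega)
    omega

/-- The bound for the weighted count of the configurations with `cdet = 1` (the term of the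
trivial central element). -/
theorem sum_wt_le_of {F : Type*} [Field F] [Fintype F] (n : ℕ) (hn : 2 ≤ n)
    (hconf : (Conf F n n).Finite ∧ (Conf F n n).ncard ≤ cfgCount (Fintype.card F) n n)
    (S : Finset (Fin n → F[X]))
    (hS : ∀ g, g ∈ S ↔ g ∈ Conf F n n ∧ cdet g = 1)
    (horb : ∀ j : Fin n, (Fintype.card F - 1) * {g | g ∈ ConfAt F n j ∧ cdet g = 1}.ncard ≤
      min (j.val + 1) (Fintype.card F - 1) * (ConfAt F n j).ncard)
    (hpoly : ∀ j : ℕ, (ConfFrom F n j).ncard ≤ cfgB (Fintype.card F) (n - j) (j + 1) n)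
    (hnum : ∀ L s m : ℕ, 2 ≤ s → cfgB (Fintype.card F) L s m ≤
      if m = 0 then 1 else if m < s then 0 else if m ≤ s + 1 then Fintype.card F - 1
        else Fintype.card F ^ (m - s))
    (hthree : cfgCount (Fintype.card F) 3 3 + Fintype.card F ≤ Fintype.card F ^ 3) :
    (n = 2 → ∑ t ∈ S, wt n hn (min 2 (Fintype.card F - 1)) (wn n (Fintype.card F)) t ≤
      Fintype.card F + 4) ∧
    (3 ≤ n → ∑ t ∈ S, wt n hn (min 2 (Fintype.card F - 1)) (wn n (Fintype.card F)) t ≤
      Fintype.card F ^ (n - 1) + 3 * Fintype.card F ^ (n - 2)) := by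
  classical
  obtain ⟨hfin, hle⟩ := hconf
  have hq : 2 ≤ Fintype.card F := Fintype.one_lt_card
  have hs0 : (ConfAt F n ⟨0, by omega⟩).ncard + (ConfFrom F n 1).ncard = (Conf F n n).ncard := by
    have h := confFrom_ncard_split n hfin ⟨0, by omega⟩
    rw [confFrom_zero] at h
    exact h
  have hs1 : (ConfAt F n ⟨1, by omega⟩).ncard + (ConfFrom F n 2).ncard =
      (ConfFrom F n 1).ncard := confFrom_ncard_split n hfin ⟨1, by omega⟩
  have ha0 : (Conf F n n).ncard + 1 ≤ Fintype.card F ^ n := by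
    have h := cfgCount_inv (Fintype.card F) (by omega) n n (by omega)
    rw [min_self, Nat.sub_self, pow_zero] at h
    omega
  have hN2 : {g | g ∈ ConfFrom F n 2 ∧ cdet g = 1}.ncard ≤ (ConfFrom F n 2).ncard :=
    Set.ncard_le_ncard (fun g hg => hg.1) (hfin.subset (fun g hg => hg.1))
  have hmain := main_count_sum n hn (Fintype.card F - 1) S hS horb
    (Nat.mul_le_mul_left _ hN2)
  rcases Nat.lt_or_ge n 4 with hlt | hge
  · rcases Nat.lt_or_ge n 3 with hlt3 | hge3
    · -- n = 2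
      have hn2 : n = 2 := by omega
      subst hn2
      have hwn : wn 2 (Fintype.card F) = Fintype.card F - 1 := by
        unfold wn
        rw [if_neg (by omega)]
      rw [hwn]
      have ha2 : (ConfFrom F 2 2).ncard = 0 := by
        have h := hpoly 2
        rw [Nat.sub_self, cfgB_zero, if_neg (by omega)] at h
        omega
      have ha1 : (ConfFrom F 2 1).ncard ≤ Fintype.card F - 1 := by
        have h := hpoly 1
        have h' := hnum 1 2 2 le_rfl
        rw [if_neg (by omega), if_neg (by omega), if_pos (by omega)] at h'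
        exact le_trans h h'
      exact ⟨fun _ => fin_two' _ _ _ _ _ _ _ hq hs0 hs1 ha0 ha1 ha2 hmain, fun h3 => by omega⟩
    · -- n = 3
      have hn3 : n = 3 := by omega
      subst hn3
      have hwn : wn 3 (Fintype.card F) = min 3 (Fintype.card F - 1) := by
        unfold wn
        rw [if_pos rfl]
      rw [hwn]
      have hset : ConfFrom F 3 2 = ConfAt F 3 ⟨2, by omega⟩ := by
        ext g
        rw [mem_ConfFrom, mem_ConfAt]
        constructor
        · rintro ⟨h1, h2⟩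
          exact ⟨h1, h2, conf_three_ne_one h1 (h2 _ (by norm_num)) (h2 _ (by norm_num))⟩
        · rintro ⟨h1, h2, -⟩
          exact ⟨h1, h2⟩
      have hw2 : (Fintype.card F - 1) * {g | g ∈ ConfFrom F 3 2 ∧ cdet g = 1}.ncard ≤
          min 3 (Fintype.card F - 1) * (ConfFrom F 3 2).ncard := by
        rw [hset]
        exact horb ⟨2, by omega⟩
      have hmain3 := main_count_sum 3 hn (min 3 (Fintype.card F - 1)) S hS horb hw2
      have ha1 : (ConfFrom F 3 1).ncard ≤ Fintype.card F - 1 := by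
        have h := hpoly 1
        have h' := hnum 2 2 3 le_rfl
        rw [if_neg (by omega), if_neg (by omega), if_pos (by omega)] at h'
        exact le_trans h h'
      have ha03 : (Conf F 3 3).ncard + Fintype.card F ≤ Fintype.card F ^ 3 := by omega
      have hfinal := fin_three _ _ _ _ _ _ _ hq hs0 hs1 ha03 ha1 hmain3
      refine ⟨fun h => by omega, fun _ => ?_⟩
      rw [show 3 - 1 = 2 from rfl, show 3 - 2 = 1 from rfl, pow_one]
      exact hfinal
  · -- n ≥ 4
    have hwn : wn n (Fintype.card F) = Fintype.card F - 1 := by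
      unfold wn
      rw [if_neg (by omega)]
    rw [hwn]
    obtain ⟨Q, hQ⟩ : ∃ Q : ℕ, Q = Fintype.card F ^ (n - 3) := ⟨_, rfl⟩
    have hQ1 : 1 ≤ Q := by
      rw [hQ]
      exact Nat.one_le_pow _ _ (by omega)
    have hp3 : Fintype.card F ^ n = Fintype.card F ^ 3 * Q := by
      rw [hQ, ← pow_add]
      congr 1
      omega
    have hp2 : Fintype.card F ^ (n - 1) = Fintype.card F ^ 2 * Q := by
      rw [hQ, ← pow_add]
      congr 1
      omega
    have hp1 : Fintype.card F ^ (n - 2) = Fintype.card F * Q := by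
      rw [hQ, ← pow_succ']
      congr 1
      omega
    have ha1 : (ConfFrom F n 1).ncard ≤ Fintype.card F * Q := by
      have h := hpoly 1
      have h' := hnum (n - 1) 2 n le_rfl
      rw [if_neg (by omega), if_neg (by omega), if_neg (by omega)] at h'
      rw [← hp1]
      exact le_trans h h'
    have ha2 : (ConfFrom F n 2).ncard ≤ Q := by
      have h := hpoly 2
      have h' := hnum (n - 2) 3 n (by omega)
      rw [if_neg (by omega), if_neg (by omega)] at h'
      refine le_trans h (le_trans h' ?_)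
      split_ifs with h4
      · have hn4 : n = 4 := by omega
        rw [hQ, hn4]
        norm_num
      · rw [hQ]
    rw [hp3] at ha0
    have hfinal := fin_four _ _ Q _ _ _ _ _ hq hQ1 hs0 hs1 ha0 ha1 ha2 hmain
    rw [hp2, hp1]
    exact ⟨fun h => by omega, fun _ => hfinal⟩

/-- The weighted count of the configurations fixed by a central element. -/
theorem sum_wt_inv_le {F : Type*} [Field F] [Fintype F] (n : ℕ) (hn : 2 ≤ n) (h1 w : ℕ)
    (hh1 : h1 ≤ Fintype.card F - 1) (hw : w ≤ Fintype.card F - 1)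
    (hfin : (Conf F n n).Finite) (ζ : Fˣ)
    (Sζ : Finset (Fin n → F[X])) (hSζ : ∀ g ∈ Sζ, g ∈ Conf F n n ∧ sc ζ g = g)
    (a b : ℕ)
    (hinvA : {g | g ∈ Conf F n n ∧ sc ζ g = g}.ncard ≤ a)
    (hinvB : {g | g ∈ ConfFrom F n 1 ∧ sc ζ g = g}.ncard ≤ b) :
    ∑ t ∈ Sζ, wt n hn h1 w t ≤ a + (Fintype.card F - 2) * b := by
  classical
  have hq : 2 ≤ Fintype.card F := Fintype.one_lt_card
  have hWle : ∀ t ∈ Sζ, wt n hn h1 w t ≤
      1 + (Fintype.card F - 2) * (if t ∈ ConfFrom F n 1 then 1 else 0) := by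
    intro t ht
    have htC : t ∈ Conf F n n := (hSζ t ht).1
    rw [wt_def]
    by_cases ha : t ⟨0, by omega⟩ ≠ 1
    · rw [if_pos ha]
      omega
    · have ha' : t ⟨0, by omega⟩ = 1 := not_not.mp ha
      have hmem : t ∈ ConfFrom F n 1 := by
        refine ⟨htC, fun i hi => ?_⟩
        have : i = ⟨0, by omega⟩ := Fin.ext (by simpa using hi)
        rw [this]
        exact ha'
      rw [if_neg ha, if_pos hmem]
      split_ifs <;> omega
  have hA : Sζ.card ≤ a := by
    refine le_trans ?_ hinvA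
    rw [← Set.ncard_coe_finset]
    exact Set.ncard_le_ncard (fun g hg => hSζ g (Finset.mem_coe.mp hg))
      (hfin.subset (fun g hg => hg.1))
  have hB : (Sζ.filter (fun t => t ∈ ConfFrom F n 1)).card ≤ b := by
    refine le_trans ?_ hinvB
    rw [← Set.ncard_coe_finset]
    refine Set.ncard_le_ncard (fun g hg => ?_) (hfin.subset (fun g hg => hg.1.1))
    have hg' := Finset.mem_filter.mp (Finset.mem_coe.mp hg)
    exact ⟨hg'.2, (hSζ g hg'.1).2⟩
  calc ∑ t ∈ Sζ, wt n hn h1 w t
      ≤ ∑ t ∈ Sζ, (1 + (Fintype.card F - 2) * (if t ∈ ConfFrom F n 1 then 1 else 0)) :=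
        Finset.sum_le_sum hWle
    _ = Sζ.card + (Fintype.card F - 2) * (Sζ.filter (fun t => t ∈ ConfFrom F n 1)).card := by
        rw [Finset.sum_add_distrib, ← Finset.mul_sum, Finset.card_filter, Finset.sum_const,
          smul_eq_mul, mul_one]
    _ ≤ a + (Fintype.card F - 2) * b := Nat.add_le_add hA (Nat.mul_le_mul_left _ hB)

theorem wt_sc {F : Type*} [Field F] (n : ℕ) (hn : 2 ≤ n) (h1 w : ℕ)
    (hsc1 : ∀ (p : F[X]) (a : F), p.scaleRoots a = 1 ↔ p = 1)
    (ζ : Fˣ) (t : Fin n → F[X]) : wt n hn h1 w (sc ζ t) = wt n hn h1 w t := by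
  classical
  rw [wt_def, wt_def, sc_apply, sc_apply]
  simp only [ne_eq, hsc1]

theorem index_le_wt {F : Type*} [Field F] [Fintype F] (n : ℕ) (hn : 2 ≤ n)
    (Φ : Matrix.GeneralLinearGroup (Fin n) F → (Fin n → F[X]))
    (hΦ1 : ∀ A, Φ A ∈ Conf F n n)
    (hΦ4 : ∀ A (j : Fin n), Φ A j ≠ 1 →
        (detCent A).index ≤ min (j.val + 1) (Fintype.card F - 1))
    (hidx' : ∀ D : Subgroup Fˣ, D.index ≤ Fintype.card F - 1)
    (A : Matrix.GeneralLinearGroup (Fin n) F) :
    (detCent A).index ≤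
      wt n hn (min 2 (Fintype.card F - 1)) (wn n (Fintype.card F)) (Φ A) := by
  classical
  rw [wt_def]
  by_cases ha : Φ A ⟨0, by omega⟩ ≠ 1
  · rw [if_pos ha]
    exact le_trans (hΦ4 A ⟨0, by omega⟩ ha) (min_le_left _ _)
  · rw [if_neg ha]
    by_cases hb : Φ A ⟨1, by omega⟩ ≠ 1
    · rw [if_pos hb]
      exact hΦ4 A ⟨1, by omega⟩ hb
    · rw [if_neg hb]
      unfold wn
      by_cases h3 : n = 3
      · subst h3
        rw [if_pos rfl]
        exact hΦ4 A ⟨2, by omega⟩
          (conf_three_ne_one (hΦ1 A) (not_not.mp ha) (not_not.mp hb))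
      · rw [if_neg h3]
        exact hidx' _

theorem tb_le_two_mul (q r A B : ℕ) (hq : 2 ≤ q) (hr : 1 ≤ r) (hA : A + 1 ≤ q ^ r)
    (hB : B ≤ if r = 0 then 1 else if r < 2 then 0 else if r ≤ 2 + 1 then q - 1
      else q ^ (r - 2)) :
    A + (q - 2) * B ≤ 2 * q ^ r := by
  have hqr : q ^ 2 ≤ q ^ r ∨ r = 1 := by
    rcases Nat.lt_or_ge r 2 with h | h
    · right; omega
    · left; exact Nat.pow_le_pow_right (by omega) h
  have key : (q - 2) * B ≤ q ^ r := by
    rw [if_neg (by omega)] at hB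
    split_ifs at hB with h1 h2
    · have : B = 0 := by omega
      rw [this, mul_zero]
      exact Nat.zero_le _
    · rcases hqr with h | h
      · refine le_trans (Nat.mul_le_mul_left _ hB) (le_trans ?_ h)
        calc (q - 2) * (q - 1) ≤ q * q := Nat.mul_le_mul (Nat.sub_le _ _) (Nat.sub_le _ _)
          _ = q ^ 2 := (pow_two q).symm
      · omega
    · refine le_trans (Nat.mul_le_mul_left _ hB) ?_
      calc (q - 2) * q ^ (r - 2) ≤ q ^ 2 * q ^ (r - 2) := by
            refine Nat.mul_le_mul_right _ ?_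
            calc q - 2 ≤ q := Nat.sub_le _ _
              _ ≤ q ^ 2 := Nat.le_self_pow (by omega) q
        _ = q ^ r := by
            rw [← pow_add]
            congr 1
            omega
  omega

/-- The upper bound for `gcd(n, q - 1) * k(PSL_n(q))`, the team pieces entering as hypotheses. -/
theorem card_conjClasses_PSL_le_of {F : Type*} [Field F] [Fintype F] (n : ℕ) (hn : 2 ≤ n)
    (hconf : (Conf F n n).Finite ∧ (Conf F n n).ncard ≤ cfgCount (Fintype.card F) n n)
    (hΦ' : ∃ Φ : Matrix.GeneralLinearGroup (Fin n) F → (Fin n → F[X]),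
      (∀ A, Φ A ∈ Conf F n n) ∧
      (∀ (A B : Matrix.GeneralLinearGroup (Fin n) F) (ζ : Fˣ), Φ B = sc ζ (Φ A) →
        IsConj B (Matrix.GeneralLinearGroup.scalar (Fin n) ζ * A)) ∧
      (∀ A, cdet (Φ A) = (A : Matrix (Fin n) (Fin n) F).det) ∧
      (∀ A (j : Fin n), Φ A j ≠ 1 →
        (detCent A).index ≤ min (j.val + 1) (Fintype.card F - 1)))
    (hfibp : ∀ (Φ : Matrix.GeneralLinearGroup (Fin n) F → (Fin n → F[X]))
      (S : Finset (Fin n → F[X])) (W : (Fin n → F[X]) → ℕ)
      (μ : Finset Fˣ) (fixS : Fˣ → Finset (Fin n → F[X])),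
      (∀ ζ : Fˣ, ζ ∈ μ ↔ ζ ^ n = 1) →
      (∀ (ζ : Fˣ) (t : Fin n → F[X]), t ∈ fixS ζ ↔ t ∈ S ∧ sc ζ t = t) →
      (∀ x : Matrix.SpecialLinearGroup (Fin n) F, Φ (Matrix.SpecialLinearGroup.toGL x) ∈ S) →
      (∀ ζ : Fˣ, ζ ^ n = 1 → ∀ t ∈ S, sc ζ t ∈ S) →
      (∀ (x y : Matrix.GeneralLinearGroup (Fin n) F) (ζ : Fˣ), Φ y = sc ζ (Φ x) →
        IsConj y (Matrix.GeneralLinearGroup.scalar (Fin n) ζ * x)) →
      (∀ (ζ : Fˣ) (t : Fin n → F[X]), W (sc ζ t) = W t) →
      (∀ x : Matrix.SpecialLinearGroup (Fin n) F,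
        (detCent (Matrix.SpecialLinearGroup.toGL x)).index ≤
          W (Φ (Matrix.SpecialLinearGroup.toGL x))) →
      Nat.gcd n (Fintype.card F - 1) *
          Nat.card (ConjClasses (Matrix.ProjectiveSpecialLinearGroup (Fin n) F)) ≤
        ∑ ζ ∈ μ, ∑ t ∈ fixS ζ, W t)
    (hidx' : ∀ D : Subgroup Fˣ, D.index ≤ Fintype.card F - 1)
    (horb : ∀ j : Fin n, (Fintype.card F - 1) * {g | g ∈ ConfAt F n j ∧ cdet g = 1}.ncard ≤
      min (j.val + 1) (Fintype.card F - 1) * (ConfAt F n j).ncard)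
    (hpoly : ∀ j : ℕ, (ConfFrom F n j).ncard ≤ cfgB (Fintype.card F) (n - j) (j + 1) n)
    (hnum : ∀ L s m : ℕ, 2 ≤ s → cfgB (Fintype.card F) L s m ≤
      if m = 0 then 1 else if m < s then 0 else if m ≤ s + 1 then Fintype.card F - 1
        else Fintype.card F ^ (m - s))
    (hthree : cfgCount (Fintype.card F) 3 3 + Fintype.card F ≤ Fintype.card F ^ 3)
    (hsc1 : ∀ (p : F[X]) (a : F), p.scaleRoots a = 1 ↔ p = 1)
    (hcdetsc : ∀ (ζ : Fˣ) (g : Fin n → F[X]), g ∈ Conf F n n →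
      cdet (sc ζ g) = (ζ : F) ^ n * cdet g)
    (hscmem : ∀ (ζ : Fˣ) (g : Fin n → F[X]), g ∈ Conf F n n → sc ζ g ∈ Conf F n n)
    (hinvA : ∀ ζ : Fˣ, ζ ^ n = 1 → {g | g ∈ Conf F n n ∧ sc ζ g = g}.ncard ≤
      cfgCount (Fintype.card F) n (n / orderOf ζ))
    (hinvB : ∀ ζ : Fˣ, ζ ^ n = 1 → {g | g ∈ ConfFrom F n 1 ∧ sc ζ g = g}.ncard ≤
      cfgB (Fintype.card F) (n - 1) 2 (n / orderOf ζ))
    (hinv2 : n = 2 → ∀ ζ : Fˣ, ζ ≠ 1 → ζ ^ 2 = 1 → ∀ g : Fin n → F[X], g ∈ Conf F n n →
      sc ζ g = g → cdet g = 1 → ∀ i : Fin n, g i = if i.val = 0 then X ^ 2 + 1 else 1)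
    (htot : ∀ (m : ℕ) (s : Finset Fˣ), (∀ ζ ∈ s, orderOf ζ = m) → s.card ≤ Nat.totient m) :
    Nat.gcd n (Fintype.card F - 1) *
        Nat.card (ConjClasses (Matrix.ProjectiveSpecialLinearGroup (Fin n) F)) ≤
      Fintype.card F ^ (n - 1) + 5 * Fintype.card F ^ (n - 2) := by
  classical
  obtain ⟨Φ, hΦ1, hΦ2, hΦ3, hΦ4⟩ := hΦ'
  have hfin := hconf.1
  have hq : 2 ≤ Fintype.card F := Fintype.one_lt_card
  obtain ⟨S, hS⟩ : ∃ S : Finset (Fin n → F[X]), ∀ g, g ∈ S ↔ g ∈ Conf F n n ∧ cdet g = 1 :=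
    ⟨hfin.toFinset.filter (fun g => cdet g = 1), fun g => by
      rw [Finset.mem_filter, Set.Finite.mem_toFinset]⟩
  obtain ⟨μ, hμ⟩ : ∃ μ : Finset Fˣ, ∀ ζ : Fˣ, ζ ∈ μ ↔ ζ ^ n = 1 :=
    ⟨Finset.univ.filter (fun ζ => ζ ^ n = 1), fun ζ => by
      rw [Finset.mem_filter]
      exact and_iff_right (Finset.mem_univ ζ)⟩
  obtain ⟨fixS, hfix⟩ : ∃ fixS : Fˣ → Finset (Fin n → F[X]),
      ∀ (ζ : Fˣ) (t : Fin n → F[X]), t ∈ fixS ζ ↔ t ∈ S ∧ sc ζ t = t :=
    ⟨fun ζ => S.filter (fun t => sc ζ t = t), fun ζ t => Finset.mem_filter⟩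
  obtain ⟨W, hWdef⟩ : ∃ W : (Fin n → F[X]) → ℕ,
      W = wt n hn (min 2 (Fintype.card F - 1)) (wn n (Fintype.card F)) := ⟨_, rfl⟩
  have hk := hfibp Φ S W μ fixS hμ hfix
    (fun x => (hS _).mpr ⟨hΦ1 _, by rw [hΦ3]; exact x.2⟩)
    (fun ζ hζ t ht => (hS _).mpr ⟨hscmem ζ t ((hS t).mp ht).1, by
      rw [hcdetsc ζ t ((hS t).mp ht).1, ((hS t).mp ht).2, mul_one, ← Units.val_pow_eq_pow_val,
        hζ, Units.val_one]⟩)
    hΦ2
    (fun ζ t => by rw [hWdef]; exact wt_sc n hn _ _ hsc1 ζ t)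
    (fun x => by rw [hWdef]; exact index_le_wt n hn Φ hΦ1 hΦ4 hidx' _)
  have h1μ : (1 : Fˣ) ∈ μ := (hμ 1).mpr (one_pow n)
  rw [← Finset.add_sum_erase μ _ h1μ] at hk
  have hfix1 : fixS 1 = S := by
    ext t
    rw [hfix, sc_one]
    exact and_iff_left rfl
  rw [hfix1] at hk
  have hterm1 := sum_wt_le_of n hn hconf S hS horb hpoly hnum hthree
  rw [← hWdef] at hterm1
  have hT : ∀ ζ ∈ μ.erase 1, ∑ t ∈ fixS ζ, W t ≤
      cfgCount (Fintype.card F) n (n / orderOf ζ) +
        (Fintype.card F - 2) * cfgB (Fintype.card F) (n - 1) 2 (n / orderOf ζ) := by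
    intro ζ hζ
    have hζn : ζ ^ n = 1 := (hμ ζ).mp (Finset.mem_of_mem_erase hζ)
    rw [hWdef]
    exact sum_wt_inv_le n hn _ _ (min_le_right _ _) (wn_le _ _) hfin ζ (fixS ζ)
      (fun g hg => ⟨((hS g).mp ((hfix ζ g).mp hg).1).1, ((hfix ζ g).mp hg).2⟩) _ _
      (hinvA ζ hζn) (hinvB ζ hζn)
  have hord : ∀ ζ ∈ μ.erase 1, orderOf ζ ∣ n ∧ orderOf ζ ≠ 1 ∧ 0 < orderOf ζ := by
    intro ζ hζ
    have hζn : ζ ^ n = 1 := (hμ ζ).mp (Finset.mem_of_mem_erase hζ)
    refine ⟨orderOf_dvd_of_pow_eq_one hζn, ?_, orderOf_pos ζ⟩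
    intro h
    exact (Finset.ne_of_mem_erase hζ) (orderOf_eq_one_iff.mp h)
  have hA : ∀ r, 1 ≤ r → r ≤ n → cfgCount (Fintype.card F) n r + 1 ≤ Fintype.card F ^ r := by
    intro r hr hrn
    have h := cfgCount_inv (Fintype.card F) (by omega) n r hr
    rw [min_eq_right hrn, Nat.sub_self, pow_zero] at h
    exact h
  -- the elements of prime order case
  have hprime : ∀ p : ℕ, p.Prime → n = p → ∑ ζ ∈ μ.erase 1, ∑ t ∈ fixS ζ, W t ≤
      (p - 1) * (Fintype.card F - 1) := by
    intro p hp hnp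
    have ho : ∀ ζ ∈ μ.erase 1, orderOf ζ = p := by
      intro ζ hζ
      obtain ⟨h1, h2, -⟩ := hord ζ hζ
      rw [hnp] at h1
      rcases (Nat.dvd_prime hp).mp h1 with h | h
      · exact absurd h h2
      · exact h
    have hc : (μ.erase 1).card ≤ p - 1 := by
      have := htot p (μ.erase 1) ho
      rwa [Nat.totient_prime hp] at this
    have hT1 : ∀ ζ ∈ μ.erase 1, ∑ t ∈ fixS ζ, W t ≤ Fintype.card F - 1 := by
      intro ζ hζ
      have h := hT ζ hζ
      have hr : n / orderOf ζ = 1 := by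
        rw [ho ζ hζ, hnp]
        exact Nat.div_self hp.pos
      rw [hr] at h
      have h1 := hA 1 le_rfl (by omega)
      rw [pow_one] at h1
      have h2 := hnum (n - 1) 2 1 le_rfl
      rw [if_neg (by omega), if_pos (by omega)] at h2
      have h3 : cfgB (Fintype.card F) (n - 1) 2 1 = 0 := by omega
      rw [h3, mul_zero, add_zero] at h
      omega
    calc ∑ ζ ∈ μ.erase 1, ∑ t ∈ fixS ζ, W t ≤ ∑ ζ ∈ μ.erase 1, (Fintype.card F - 1) :=
          Finset.sum_le_sum hT1
      _ = (μ.erase 1).card * (Fintype.card F - 1) := by rw [Finset.sum_const, smul_eq_mul]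
      _ ≤ (p - 1) * (Fintype.card F - 1) := Nat.mul_le_mul_right _ hc
  rcases Nat.lt_or_ge n 3 with hlt3 | hge3
  · -- n = 2
    have hn2 : n = 2 := by omega
    have ht1 := hterm1.1 hn2
    have ho : ∀ ζ ∈ μ.erase 1, orderOf ζ = 2 := by
      intro ζ hζ
      obtain ⟨h1, h2, -⟩ := hord ζ hζ
      rw [hn2] at h1
      rcases (Nat.dvd_prime Nat.prime_two).mp h1 with h | h
      · exact absurd h h2
      · exact h
    have hc : (μ.erase 1).card ≤ 1 := by
      have := htot 2 (μ.erase 1) ho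
      rwa [Nat.totient_two] at this
    have hT1 : ∀ ζ ∈ μ.erase 1, ∑ t ∈ fixS ζ, W t ≤ 1 := by
      intro ζ hζ
      have hζ1 : ζ ≠ 1 := Finset.ne_of_mem_erase hζ
      have hζ2 : ζ ^ 2 = 1 := by
        have := (hμ ζ).mp (Finset.mem_of_mem_erase hζ)
        rwa [hn2] at this
      have hall : ∀ g ∈ fixS ζ, ∀ i : Fin n, g i = if i.val = 0 then X ^ 2 + 1 else 1 := by
        intro g hg
        have hg' := (hfix ζ g).mp hg
        exact hinv2 hn2 ζ hζ1 hζ2 g ((hS g).mp hg'.1).1 hg'.2 ((hS g).mp hg'.1).2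
      have hcard : (fixS ζ).card ≤ 1 := by
        rw [Finset.card_le_one]
        intro a ha b hb
        funext i
        rw [hall a ha i, hall b hb i]
      have hW1 : ∀ g ∈ fixS ζ, W g = 1 := by
        intro g hg
        rw [hWdef, wt_def, if_pos]
        rw [hall g hg ⟨0, by omega⟩, if_pos rfl]
        intro h
        have := congrArg (fun p : F[X] => p.coeff 2) h
        simp at this
      rw [Finset.sum_congr rfl hW1, Finset.sum_const, smul_eq_mul, mul_one]
      exact hcard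
    have hR : ∑ ζ ∈ μ.erase 1, ∑ t ∈ fixS ζ, W t ≤ 1 := by
      calc ∑ ζ ∈ μ.erase 1, ∑ t ∈ fixS ζ, W t ≤ ∑ ζ ∈ μ.erase 1, 1 := Finset.sum_le_sum hT1
        _ = (μ.erase 1).card := by rw [Finset.sum_const, smul_eq_mul, mul_one]
        _ ≤ 1 := hc
    subst hn2
    rw [show 2 - 1 = 1 from rfl, show 2 - 2 = 0 from rfl, pow_one, pow_zero]
    omega
  · have ht1 := hterm1.2 hge3
    rcases Nat.lt_or_ge n 6 with hlt6 | hge6
    · -- n ∈ {3, 4, 5}
      have hcases : n = 3 ∨ n = 4 ∨ n = 5 := by omega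
      rcases hcases with h3 | h4 | h5
      · have hR := hprime 3 Nat.prime_three h3
        subst h3
        rw [show 3 - 1 = 2 from rfl, show 3 - 2 = 1 from rfl, pow_one] at ht1 ⊢
        have : (3 - 1) * (Fintype.card F - 1) ≤ 2 * Fintype.card F := by omega
        omega
      · -- n = 4
        have ho : ∀ ζ ∈ μ.erase 1, orderOf ζ = 2 ∨ orderOf ζ = 4 := by
          intro ζ hζ
          obtain ⟨h1, h2, -⟩ := hord ζ hζ
          rw [h4] at h1
          have h1' : orderOf ζ ∣ 2 ^ 2 := h1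
          obtain ⟨j, hj, hj'⟩ := (Nat.dvd_prime_pow Nat.prime_two).mp h1'
          interval_cases j
          · exact absurd hj' h2
          · left; exact hj'
          · right; exact hj'
        have hTa : ∀ ζ ∈ μ.erase 1, ∑ t ∈ fixS ζ, W t ≤
            if orderOf ζ = 2 then Fintype.card F ^ 2 - 1 + (Fintype.card F - 2) *
              (Fintype.card F - 1) else Fintype.card F - 1 := by
          intro ζ hζ
          have h := hT ζ hζ
          rcases ho ζ hζ with h2 | h2
          · rw [if_pos h2]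
            have hr : n / orderOf ζ = 2 := by rw [h2, h4]
            rw [hr] at h
            have h1 := hA 2 (by omega) (by omega)
            have h3 := hnum (n - 1) 2 2 le_rfl
            rw [if_neg (by omega), if_neg (by omega), if_pos (by omega)] at h3
            have h5 : (Fintype.card F - 2) * cfgB (Fintype.card F) (n - 1) 2 2 ≤
                (Fintype.card F - 2) * (Fintype.card F - 1) := Nat.mul_le_mul_left _ h3
            omega
          · rw [if_neg (by omega)]
            have hr : n / orderOf ζ = 1 := by rw [h2, h4]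
            rw [hr] at h
            have h1 := hA 1 le_rfl (by omega)
            rw [pow_one] at h1
            have h3 := hnum (n - 1) 2 1 le_rfl
            rw [if_neg (by omega), if_pos (by omega)] at h3
            have h5 : cfgB (Fintype.card F) (n - 1) 2 1 = 0 := by omega
            rw [h5, mul_zero, add_zero] at h
            omega
        have hc2 : ((μ.erase 1).filter (fun ζ => orderOf ζ = 2)).card ≤ 1 := by
          have := htot 2 ((μ.erase 1).filter (fun ζ => orderOf ζ = 2))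
            (fun ζ hζ => (Finset.mem_filter.mp hζ).2)
          rwa [Nat.totient_two] at this
        have hc4 : ((μ.erase 1).filter (fun ζ => ¬ orderOf ζ = 2)).card ≤ 2 := by
          have := htot 4 ((μ.erase 1).filter (fun ζ => ¬ orderOf ζ = 2)) (fun ζ hζ => by
            have hζ' := Finset.mem_filter.mp hζ
            rcases ho ζ hζ'.1 with h | h
            · exact absurd h hζ'.2
            · exact h)
          have h4t : Nat.totient 4 = 2 := by decide
          rwa [h4t] at this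
        have hR : ∑ ζ ∈ μ.erase 1, ∑ t ∈ fixS ζ, W t ≤
            (Fintype.card F ^ 2 - 1 + (Fintype.card F - 2) * (Fintype.card F - 1)) +
              2 * (Fintype.card F - 1) := by
          refine le_trans (Finset.sum_le_sum hTa) ?_
          rw [Finset.sum_ite, Finset.sum_const, Finset.sum_const, smul_eq_mul, smul_eq_mul]
          refine Nat.add_le_add ?_ (Nat.mul_le_mul_right _ hc4)
          calc ((μ.erase 1).filter (fun ζ => orderOf ζ = 2)).card *
                (Fintype.card F ^ 2 - 1 + (Fintype.card F - 2) * (Fintype.card F - 1))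
              ≤ 1 * (Fintype.card F ^ 2 - 1 + (Fintype.card F - 2) * (Fintype.card F - 1)) :=
                Nat.mul_le_mul_right _ hc2
            _ = _ := one_mul _
        subst h4
        rw [show 4 - 1 = 3 from rfl, show 4 - 2 = 2 from rfl] at ht1 ⊢
        obtain ⟨d, hd⟩ : ∃ d, Fintype.card F = d + 2 := ⟨Fintype.card F - 2, by omega⟩
        rw [hd] at hR ht1 hk ⊢
        have e1 : d + 2 - 2 = d := by omega
        have e2 : d + 2 - 1 = d + 1 := by omega
        rw [e1, e2] at hR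
        have e3 : (d + 2) ^ 2 - 1 = d ^ 2 + 4 * d + 3 := by
          have : (d + 2) ^ 2 = d ^ 2 + 4 * d + 3 + 1 := by ring
          omega
        rw [e3] at hR
        nlinarith
      · have hR := hprime 5 (by norm_num) h5
        subst h5
        rw [show 5 - 1 = 4 from rfl, show 5 - 2 = 3 from rfl] at ht1 ⊢
        have h6 : (5 - 1) * (Fintype.card F - 1) ≤ 2 * Fintype.card F ^ 3 := by
          have h7 : 2 * Fintype.card F ≤ Fintype.card F ^ 3 := by
            calc 2 * Fintype.card F ≤ Fintype.card F * Fintype.card F :=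
                  Nat.mul_le_mul_right _ hq
              _ = Fintype.card F ^ 2 := (pow_two _).symm
              _ ≤ Fintype.card F ^ 3 := Nat.pow_le_pow_right (by omega) (by omega)
          omega
        omega
    · -- n ≥ 6
      have hTb : ∀ ζ ∈ μ.erase 1, ∑ t ∈ fixS ζ, W t ≤ 2 * Fintype.card F ^ (n / 2) := by
        intro ζ hζ
        obtain ⟨h1, h2, h3⟩ := hord ζ hζ
        have hr1 : 1 ≤ n / orderOf ζ := Nat.div_pos (Nat.le_of_dvd (by omega) h1) h3
        have hr2 : n / orderOf ζ ≤ n / 2 := Nat.div_le_div_left (by omega) (by omega)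
        have hrn : n / orderOf ζ ≤ n := Nat.div_le_self _ _
        refine le_trans (hT ζ hζ) (le_trans
          (tb_le_two_mul _ _ _ _ hq hr1 (hA _ hr1 hrn) (hnum (n - 1) 2 _ le_rfl)) ?_)
        exact Nat.mul_le_mul_left _ (Nat.pow_le_pow_right (by omega) hr2)
      have hc : (μ.erase 1).card ≤ Fintype.card F - 2 := by
        rw [Finset.card_erase_of_mem h1μ]
        have h1 : μ.card ≤ Fintype.card Fˣ := Finset.card_le_univ μ
        rw [Fintype.card_units] at h1
        omega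
      have hR : ∑ ζ ∈ μ.erase 1, ∑ t ∈ fixS ζ, W t ≤ 2 * Fintype.card F ^ (n - 2) := by
        calc ∑ ζ ∈ μ.erase 1, ∑ t ∈ fixS ζ, W t
            ≤ ∑ ζ ∈ μ.erase 1, 2 * Fintype.card F ^ (n / 2) := Finset.sum_le_sum hTb
          _ = (μ.erase 1).card * (2 * Fintype.card F ^ (n / 2)) := by
              rw [Finset.sum_const, smul_eq_mul]
          _ ≤ Fintype.card F * (2 * Fintype.card F ^ (n / 2)) :=
              Nat.mul_le_mul_right _ (le_trans hc (Nat.sub_le _ _))
          _ = 2 * Fintype.card F ^ (n / 2 + 1) := by ring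
          _ ≤ 2 * Fintype.card F ^ (n - 2) :=
              Nat.mul_le_mul_left _ (Nat.pow_le_pow_right (by omega) (by omega))
      omega

end Cfsg.Agent.H98.SLk
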