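import Mathlib
import Cfsg.Agent.H98.SLkDefs
import Cfsg.Agent.H4.SLkDetX
import Cfsg.Agent.H4.SLkCen
import Cfsg.Agent.H20.SLkNormA

set_option autoImplicit false

/-!
# S2479 (helper98): the determinant facts of a primary decomposition

From the team pieces (DETX, NORMA, NORMB, CEN; DSUM enters as a hypothesis): the determinant of a
matrix is read off its primary decomposition, and an elementary divisor `p ^ e` puts all `e`-th
powers into the determinants of the centralizer.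
-/

namespace Cfsg.Agent.H98.SLk

open Polynomial DirectSum
open Cfsg.Agent.H98.GLk

theorem pow_mem_detCent {F : Type*} [Field F] [Fintype F] {n : ℕ}
    (hdsum : ∀ (k : ℕ) (f : Fin k → F[X]) (_ : ∀ i, (f i).Monic) (r : Fin k → F[X]),
      LinearMap.det (M := ⨁ i : Fin k, F[X] ⧸ F[X] ∙ f i) ((DirectSum.lmap
        (fun i => LinearMap.lsmul F[X] (F[X] ⧸ F[X] ∙ f i) (r i))).restrictScalars F) =
      ∏ i, LinearMap.det
        ((LinearMap.lsmul F[X] (F[X] ⧸ F[X] ∙ f i) (r i)).restrictScalars F))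
    (A : Matrix.GeneralLinearGroup (Fin n) F)
    (k : ℕ) (p : Fin k → F[X]) (e : Fin k → ℕ)
    (hp : ∀ i, (p i).Monic ∧ Irreducible (p i) ∧ 1 ≤ e i)
    (l : Module.AEval' (Matrix.toLin' (A : Matrix (Fin n) (Fin n) F)) ≃ₗ[F[X]]
      ⨁ i : Fin k, F[X] ⧸ F[X] ∙ p i ^ e i)
    (i : Fin k) (c : Fˣ) : c ^ e i ∈ detCent A := by
  classical
  obtain ⟨r, hr⟩ := Cfsg.Agent.H4.SLk.exists_det_lsmul_eq (p i) (hp i).1 (hp i).2.1 c
  let r' : Fin k → F[X] := Function.update (fun _ => 1) i r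
  let ψ : (⨁ i : Fin k, F[X] ⧸ F[X] ∙ p i ^ e i) →ₗ[F[X]]
      (⨁ i : Fin k, F[X] ⧸ F[X] ∙ p i ^ e i) :=
    DirectSum.lmap (fun j => LinearMap.lsmul F[X] (F[X] ⧸ F[X] ∙ p j ^ e j) (r' j))
  refine Cfsg.Agent.H4.SLk.mem_detCent_of_det (M := ⨁ i : Fin k, F[X] ⧸ F[X] ∙ p i ^ e i)
    A l ψ (c ^ e i) ?_
  rw [hdsum k (fun j => p j ^ e j) (fun j => (hp j).1.pow _) r']
  rw [Finset.prod_eq_single i]
  · have h1 : r' i = r := Function.update_self ..
    rw [h1, Cfsg.Agent.H20.SLk.det_lsmul_pow (p i) (hp i).1 r (e i), hr,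
      Units.val_pow_eq_pow_val]
  · intro j _ hj
    have h1 : r' j = 1 := Function.update_of_ne hj ..
    rw [h1]
    have : (LinearMap.lsmul F[X] (F[X] ⧸ F[X] ∙ p j ^ e j) 1).restrictScalars F
        = LinearMap.id := LinearMap.ext fun x => one_smul F[X] x
    rw [this, LinearMap.det_id]
  · intro h
    exact absurd (Finset.mem_univ i) h

theorem det_eq_prod_of_decomp {F : Type*} [Field F] {n : ℕ}
    (hdsum : ∀ (k : ℕ) (f : Fin k → F[X]) (_ : ∀ i, (f i).Monic) (r : Fin k → F[X]),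
      LinearMap.det (M := ⨁ i : Fin k, F[X] ⧸ F[X] ∙ f i) ((DirectSum.lmap
        (fun i => LinearMap.lsmul F[X] (F[X] ⧸ F[X] ∙ f i) (r i))).restrictScalars F) =
      ∏ i, LinearMap.det
        ((LinearMap.lsmul F[X] (F[X] ⧸ F[X] ∙ f i) (r i)).restrictScalars F))
    (A : Matrix (Fin n) (Fin n) F)
    (k : ℕ) (p : Fin k → F[X]) (e : Fin k → ℕ)
    (hp : ∀ i, (p i).Monic ∧ Irreducible (p i) ∧ 1 ≤ e i)
    (l : Module.AEval' (Matrix.toLin' A) ≃ₗ[F[X]] ⨁ i : Fin k, F[X] ⧸ F[X] ∙ p i ^ e i) :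
    A.det = ∏ i, ((-1) ^ (p i).natDegree * (p i).coeff 0) ^ e i := by
  classical
  rw [Cfsg.Agent.H4.SLk.det_eq_det_lsmul_X (M := ⨁ i : Fin k, F[X] ⧸ F[X] ∙ p i ^ e i) A l]
  have h1 : LinearMap.lsmul F[X] (⨁ i : Fin k, F[X] ⧸ F[X] ∙ p i ^ e i) X =
      DirectSum.lmap (fun j => LinearMap.lsmul F[X] (F[X] ⧸ F[X] ∙ p j ^ e j) X) := by
    apply DirectSum.linearMap_ext
    intro j
    refine LinearMap.ext fun x => ?_
    simp
  rw [h1, hdsum k (fun j => p j ^ e j) (fun j => (hp j).1.pow _) (fun _ => X)]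
  refine Finset.prod_congr rfl (fun i _ => ?_)
  rw [Cfsg.Agent.H4.SLk.det_lsmul_X _ ((hp i).1.pow _), (hp i).1.natDegree_pow,
    Polynomial.coeff_zero_eq_eval_zero, eval_pow, ← coeff_zero_eq_eval_zero, mul_pow, ← pow_mul,
    mul_comm (p i).natDegree]

end Cfsg.Agent.H98.SLk
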