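import Mathlib
import Cfsg.Agent.H98.PSLkAsm
import Cfsg.Agent.H98.SLkDet
import Cfsg.Agent.H4.SLkIdx
import Cfsg.Agent.H4.PSLkFib
import Cfsg.Agent.H28.SLkPoly
import Cfsg.Agent.H28.SLkOrb
import Cfsg.Agent.H89.SLkNum
import Cfsg.Agent.H24.SLkDSum
import Cfsg.Agent.H24.PSLkScAlg
import Cfsg.Agent.H77.PSLkInv
import Cfsg.Agent.H80.PSLkMu
import Cfsg.Agent.H80.PSLkInv2
import Cfsg.Agent.H28.GLkPoly2
import Cfsg.Agent.H36.GLkPoly1

set_option autoImplicit false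

/-!
# S2480 (helper98): the upper bound for `gcd(n, q - 1) * k(PSL_n(q))` with the team pieces
plugged in (the decomposition of a scalar multiple, S2480-SCDEC, enters as a hypothesis).
-/

namespace Cfsg.Agent.H98.SLk

open Polynomial DirectSum
open Cfsg.Agent.H98.GLk

theorem inv_two_form {F : Type*} [Field F] (n : ℕ) :
    n = 2 → ∀ ζ : Fˣ, ζ ≠ 1 → ζ ^ 2 = 1 → ∀ g : Fin n → F[X], g ∈ Conf F n n →
      sc ζ g = g → cdet g = 1 → ∀ i : Fin n, g i = if i.val = 0 then X ^ 2 + 1 else 1 := by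
  intro h2
  subst h2
  intro ζ hζ1 hζ g hg hsc hdet i
  obtain ⟨h0, h1⟩ := Cfsg.Agent.H80.PSLk.inv_two ζ hζ1 hζ g hg hsc hdet
  fin_cases i
  · simpa using h0
  · simpa using h1

theorem card_conjClasses_PSL_le {F : Type*} [Field F] [Fintype F] (n : ℕ) (hn : 2 ≤ n)
    (hscdec : ∀ (A : Matrix (Fin n) (Fin n) F) (ζ : Fˣ) (k : ℕ) (p : Fin k → F[X])
      (e : Fin k → ℕ)
      (_ : Module.AEval' (Matrix.toLin' A) ≃ₗ[F[X]] ⨁ i : Fin k, F[X] ⧸ F[X] ∙ p i ^ e i),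
      Nonempty (Module.AEval' (Matrix.toLin' ((ζ : F) • A)) ≃ₗ[F[X]]
        ⨁ i : Fin k, F[X] ⧸ F[X] ∙ ((p i).scaleRoots (ζ : F)) ^ e i)) :
    Nat.gcd n (Fintype.card F - 1) *
        Nat.card (ConjClasses (Matrix.ProjectiveSpecialLinearGroup (Fin n) F)) ≤
      Fintype.card F ^ (n - 1) + 5 * Fintype.card F ^ (n - 2) := by
  have hq : 2 ≤ Fintype.card F := Fintype.one_lt_card
  exact card_conjClasses_PSL_le_of (F := F) n hn
    (Cfsg.Agent.H28.GLk.conf_finite_ncard_le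
      (fun m => Cfsg.Agent.H36.GLk.card_monic_coeff_zero_ne m) n n)
    (exists_conf_map_sc n hscdec
      (fun p ζ hp => Cfsg.Agent.H24.PSLk.irreducible_scaleRoots p ζ hp)
      (fun k s f a => Cfsg.Agent.H24.PSLk.prod_scaleRoots s f a)
      (fun A k p e hp l => det_eq_prod_of_decomp
        (fun k f hf r => Cfsg.Agent.H24.SLk.det_lmap_lsmul k f hf r) A k p e hp l)
      (fun A k p e hp l i c => pow_mem_detCent
        (fun k f hf r => Cfsg.Agent.H24.SLk.det_lmap_lsmul k f hf r) A k p e hp l i c)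
      (fun D e he h => Cfsg.Agent.H4.SLk.index_le_of_pow_mem D e he h))
    (fun Φ S W μ fixS hμ hfix hS hSsc hinj hWsc hW =>
      Cfsg.Agent.H4.SLk.card_conjClasses_PSL_le_sum Φ sc S W μ fixS hμ hfix
        (fun t => sc_one t) (fun a b t => sc_mul a b t) hS hSsc hinj hWsc hW)
    (fun D => Cfsg.Agent.H4.SLk.index_le_card_sub_one D)
    (fun j => Cfsg.Agent.H28.SLk.card_cdet_one_le n j)
    (fun j => Cfsg.Agent.H28.SLk.confFrom_ncard_le n j)
    (fun L s m hs => Cfsg.Agent.H89.SLk.cfgB_le _ hq L s m hs)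
    (Cfsg.Agent.H89.SLk.cfgCount_three _ hq)
    (fun p a => Cfsg.Agent.H24.PSLk.scaleRoots_eq_one_iff p a)
    (fun ζ g hg => Cfsg.Agent.H24.PSLk.cdet_sc ζ g hg)
    (fun ζ g hg => Cfsg.Agent.H24.PSLk.sc_mem_Conf ζ g hg)
    (fun ζ hζ => Cfsg.Agent.H77.PSLk.confInv_ncard_le n ζ hζ)
    (fun ζ hζ => Cfsg.Agent.H77.PSLk.confFromInv_ncard_le n 1 ζ hζ)
    (inv_two_form n)
    (fun m s hs => Cfsg.Agent.H80.PSLk.card_orderOf_le_totient m s hs)

end Cfsg.Agent.H98.SLk
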