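import Mathlib
import Cfsg.Agent.H98.PsInstDefs

/-! S3664 (helper7), PS-INST: assembly of the instance `Sz(8) : 3` on `Mat₄(𝔽₈)` from the
sub-pieces (helper98). -/

set_option autoImplicit false

namespace Cfsg.Agent.H98.Ps

open Cfsg Cfsg.Agent.H8 Matrix

instance instFiniteAut : Finite (RingAut K) :=
  Finite.of_injective (fun σ : RingAut K => (σ : K → K)) DFunLike.coe_injective

instance instFiniteA : Finite A := Finite.of_equiv _ SemidirectProduct.equivProd.symm

theorem primes_of_card (h : StCard) : ∀ p : ℕ, p.Prime → p ∣ Nat.card A →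
    p = 2 ∨ p = 3 ∨ p = 5 ∨ p = 7 ∨ p = 13 := by
  intro p hp hd
  rw [h] at hd
  have e : (87360 : ℕ) = 2 ^ 6 * 3 * 5 * 7 * 13 := by norm_num
  rw [e] at hd
  rcases (Nat.Prime.dvd_mul hp).1 hd with h1 | h1
  · rcases (Nat.Prime.dvd_mul hp).1 h1 with h2 | h2
    · rcases (Nat.Prime.dvd_mul hp).1 h2 with h3 | h3
      · rcases (Nat.Prime.dvd_mul hp).1 h3 with h4 | h4
        · left
          exact (Nat.prime_dvd_prime_iff_eq hp Nat.prime_two).1 (hp.dvd_of_dvd_pow h4)
        · right; left
          exact (Nat.prime_dvd_prime_iff_eq hp Nat.prime_three).1 h4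
      · right; right; left
        exact (Nat.prime_dvd_prime_iff_eq hp (by norm_num)).1 h3
    · right; right; right; left
      exact (Nat.prime_dvd_prime_iff_eq hp (by norm_num)).1 h2
  · right; right; right; right
    exact (Nat.prime_dvd_prime_iff_eq hp (by norm_num)).1 h1

theorem ex13_of_card (h : StCard) : ∃ a : A, orderOf a = 13 := by
  haveI : Fact (Nat.Prime 13) := ⟨by norm_num⟩
  have h13 : 13 ∣ Nat.card A := by rw [h]; norm_num
  exact exists_prime_orderOf_dvd_card' 13 h13

/-- an element of order 13 of `A` lies in `Sz(8)` -/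
theorem eq_inl_of_order13 (a : A) (ha : orderOf a = 13) :
    a = SemidirectProduct.inl a.left ∧ orderOf a.left = 13 := by
  have hr : a.right = 1 := by
    have h1 : orderOf a.right ∣ 13 := by
      rw [← ha, ← SemidirectProduct.rightHom_eq_right]
      exact orderOf_map_dvd SemidirectProduct.rightHom a
    have h2 : orderOf a.right ∣ 3 := by
      have := orderOf_dvd_natCard a.right
      rwa [sz_card_ringAut hK] at this
    have h3 : orderOf a.right ∣ Nat.gcd 13 3 := Nat.dvd_gcd h1 h2
    have h4 : orderOf a.right = 1 := by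
      have : Nat.gcd 13 3 = 1 := by norm_num
      rw [this] at h3
      exact Nat.dvd_one.1 h3
    exact orderOf_eq_one_iff.1 h4
  have ha' : a = SemidirectProduct.inl a.left := by
    ext
    · simp
    · simp [hr]
  refine ⟨ha', ?_⟩
  rw [← ha]
  conv_rhs => rw [ha']
  exact (orderOf_injective (SemidirectProduct.inl : S →* A) SemidirectProduct.inl_injective
    a.left).symm

/-- [PS-I-FPF13, variant through helper7's generic PS-TW13] -/
theorem fpf13T (hT : Cfsg.Agent.H7.Ps.StTw13) : StFpf13 := by
  intro a ha X hX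
  obtain ⟨ha', hs⟩ := eq_inl_of_order13 a ha
  rw [ha', inl_smul_eq_iff, fm_frob] at hX
  have hK8 : Fintype.card K = 8 := rfl
  refine hT K hK8 (mat a.left) ?_ ?_ X hX
  · rw [← mat_pow, ← hs, pow_orderOf_eq_one, mat_one]
  · intro v hv
    refine sz_fixed_vec (le_refl 1) hK (g := a.left) ?_ ?_ hv
    · intro h
      rw [h, orderOf_one] at hs
      omega
    · rw [hs]
      decide

/-- the assembly of the instance from its pieces -/
theorem inst_of (hC : StCard) (h6 : StEx6) (h15 : StEx15) (h5 : StFix5) (h7 : StFix7)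
    (hF : StFpf13) (hN : StNo) : Cfsg.Agent.H7.Ps.StInst := by
  refine ⟨A, inferInstance, instFiniteA, M, inferInstance, inferInstance, instAct, ?_⟩
  exact
    { two := by
        intro x
        ext i j
        exact (by decide : ∀ t : K, t + t = 0) (x i j)
      nz := ⟨1, one_ne_zero⟩
      primes := primes_of_card hC
      ex6 := h6
      ex15 := h15
      fix5 := h5
      fix7 := h7
      ex13 := ex13_of_card hC
      fpf13 := hF
      no21 := fun a => (hN a).1
      no35 := fun a => (hN a).2.1
      no26 := fun a => (hN a).2.2.1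
      no39 := fun a => (hN a).2.2.2.1
      no65 := fun a => (hN a).2.2.2.2.1
      no91 := fun a => (hN a).2.2.2.2.2 }

end Cfsg.Agent.H98.Ps
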