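import Mathlib
import Cfsg.Agent.H98.PsInstAsm
import Cfsg.Agent.H8.SzTori

/-! S3664 (helper7), PS-I-NO (backup copy by helper98): the element orders 21, 35, 26, 39, 65, 91
do not occur in `Sz(8) : 3`, from the generic PS-IDX3. -/

set_option autoImplicit false

namespace Cfsg.Agent.H98.Ps

open Cfsg Cfsg.Agent.H8 Matrix

theorem frob_pow_three : frob ^ 3 = 1 := by
  ext x
  show frob (frob (frob x)) = x
  simp only [frob_apply]
  revert x
  decide

theorem frob_ne_one : frob ≠ 1 := by
  intro h
  have h1 : frob (Cfsg.Agent.H41.F8.ofNat 2) = Cfsg.Agent.H41.F8.ofNat 2 := by rw [h]; rfl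
  revert h1
  rw [frob_apply]
  decide

theorem orderOf_frob : orderOf frob = 3 := by
  haveI : Fact (Nat.Prime 3) := ⟨by norm_num⟩
  exact orderOf_eq_prime frob_pow_three frob_ne_one

theorem noB (hI : Cfsg.Agent.H7.Ps.StIdx3) (h1 : StNoS) (h2 : StCent) : StNo := by
  have hR : (SemidirectProduct.inl : S →* A).range =
      (SemidirectProduct.rightHom : A →* RingAut K).ker :=
    SemidirectProduct.range_inl_eq_ker_rightHom
  have hnorm : ((SemidirectProduct.inl : S →* A).range).Normal := by
    rw [hR]; infer_instance
  have hidx : ((SemidirectProduct.inl : S →* A).range).index = 3 := by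
    rw [hR, Subgroup.index_ker,
      MonoidHom.range_eq_top.2 SemidirectProduct.rightHom_surjective, Subgroup.card_top,
      sz_card_ringAut hK]
  have hcard : Nat.card ((SemidirectProduct.inl : S →* A).range) = Nat.card S :=
    Nat.card_congr (MonoidHom.ofInjective SemidirectProduct.inl_injective).symm.toEquiv
  have h3 : ¬ 3 ∣ Nat.card ((SemidirectProduct.inl : S →* A).range) := by
    rw [hcard]; exact sz_three_not_dvd (le_refl 1) hK
  have hS : ∀ s ∈ (SemidirectProduct.inl : S →* A).range,
      orderOf s ≠ 35 ∧ orderOf s ≠ 26 ∧ orderOf s ≠ 65 ∧ orderOf s ≠ 91 := by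
    rintro _ ⟨s, rfl⟩
    rw [orderOf_injective _ SemidirectProduct.inl_injective]
    exact h1 s
  have ht : orderOf (SemidirectProduct.inr frob : A) = 3 := by
    rw [orderOf_injective _ SemidirectProduct.inr_injective]
    exact orderOf_frob
  have hc : ∀ s ∈ (SemidirectProduct.inl : S →* A).range,
      s * (SemidirectProduct.inr frob : A) = SemidirectProduct.inr frob * s →
      orderOf s ≠ 7 ∧ orderOf s ≠ 13 := by
    rintro _ ⟨s, rfl⟩ hcomm
    rw [orderOf_injective _ SemidirectProduct.inl_injective]
    apply h2
    have h := congrArg SemidirectProduct.left hcomm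
    rw [SemidirectProduct.mul_left, SemidirectProduct.mul_left, SemidirectProduct.left_inl,
      SemidirectProduct.right_inl, SemidirectProduct.left_inr, SemidirectProduct.right_inr,
      map_one, mul_one, one_mul] at h
    exact h.symm
  exact hI A ((SemidirectProduct.inl : S →* A).range) hnorm hidx h3 hS
    (SemidirectProduct.inr frob) ht hc

example (hI : Cfsg.Agent.H7.Ps.StIdx3) (h1 : StNoS) (h2 : StCent) : StNo := noB hI h1 h2

end Cfsg.Agent.H98.Ps

#print axioms Cfsg.Agent.H98.Ps.noB
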