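import Mathlib
import Cfsg.Agent.H98.PsINoB
import Cfsg.Agent.H8.SzCard

/-! S3664 (helper7), backup copies (helper98) of the small PS-I pieces. -/

set_option autoImplicit false

namespace Cfsg.Agent.H98.Ps

open Cfsg Cfsg.Agent.H8 Matrix

theorem cardS : Nat.card S = 29120 := by
  rw [sz_card (le_refl 1) hK]
  norm_num

theorem cardB : StCard := by
  show Nat.card A = 87360
  rw [SemidirectProduct.card, cardS, sz_card_ringAut hK]

theorem noSB : StNoS := by
  intro s
  have key : ∀ r t : ℕ, r.Prime → t.Prime → r ≠ t → ¬ r * t ∣ 7 → ¬ r * t ∣ 13 → ¬ r * t ∣ 5 →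
      orderOf s ≠ r * t := by
    intro r t hr ht hrt h7 h13 h5 hs
    have h := (sz_exists_orderOf_iff (le_refl 1) hK hr ht hrt).1 ⟨s, hs⟩
    norm_num at h
    rcases h with h | h | h
    · exact h7 h
    · exact h13 h
    · exact h5 h
  refine ⟨key 5 7 (by norm_num) (by norm_num) (by norm_num) (by decide) (by decide) (by decide),
    key 2 13 (by norm_num) (by norm_num) (by norm_num) (by decide) (by decide) (by decide),
    key 5 13 (by norm_num) (by norm_num) (by norm_num) (by decide) (by decide) (by decide),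
    key 7 13 (by norm_num) (by norm_num) (by norm_num) (by decide) (by decide) (by decide)⟩

set_option maxRecDepth 100000 in
theorem mat_g5_pow : mat g5 ^ 5 = 1 := by
  show (szMmat 1 (0 : K) 1 * szWmat K) ^ 5 = 1
  decide +kernel

set_option maxRecDepth 100000 in
theorem mat_g5_ne : mat g5 ≠ 1 := by
  show (szMmat 1 (0 : K) 1 * szWmat K) ≠ 1
  decide +kernel

set_option maxRecDepth 100000 in
theorem mat_g5_frob : fm frob (mat g5) = mat g5 := by
  show fm frob (szMmat 1 (0 : K) 1 * szWmat K) = szMmat 1 (0 : K) 1 * szWmat K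
  decide +kernel

theorem orderOf_g5 : orderOf g5 = 5 := by
  have : Fact (Nat.Prime 5) := ⟨by norm_num⟩
  refine orderOf_eq_prime ?_ ?_
  · apply mat_inj
    rw [mat_pow, mat_g5_pow, mat_one]
  · intro h
    apply mat_g5_ne
    rw [h, mat_one]

theorem tw_g5 : tw g5 = g5 := by
  apply mat_inj
  rw [mat_tw, mat_g5_frob]

set_option maxRecDepth 100000 in
theorem mat_u_sq : mat (gU 0 1) ^ 2 = 1 := by
  show (szMmat 1 (0 : K) 1) ^ 2 = 1
  decide +kernel

set_option maxRecDepth 100000 in
theorem mat_u_ne : mat (gU 0 1) ≠ 1 := by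
  show (szMmat 1 (0 : K) 1) ≠ 1
  decide +kernel

set_option maxRecDepth 100000 in
theorem mat_u_frob : fm frob (mat (gU 0 1)) = mat (gU 0 1) := by
  show fm frob (szMmat 1 (0 : K) 1) = szMmat 1 (0 : K) 1
  decide +kernel

theorem orderOf_u : orderOf (gU 0 1) = 2 := by
  have : Fact (Nat.Prime 2) := ⟨by norm_num⟩
  refine orderOf_eq_prime ?_ ?_
  · apply mat_inj
    rw [mat_pow, mat_u_sq, mat_one]
  · intro h
    apply mat_u_ne
    rw [h, mat_one]

theorem tw_u : tw (gU 0 1) = gU 0 1 := by
  apply mat_inj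
  rw [mat_tw, mat_u_frob]

/-- a `tw`-fixed element of `Sz(8)` commutes with the field automorphism -/
theorem comm_of_tw (s : S) (h : tw s = s) :
    Commute (SemidirectProduct.inl s : A) (SemidirectProduct.inr frob) := by
  show (SemidirectProduct.inl s : A) * SemidirectProduct.inr frob =
    SemidirectProduct.inr frob * SemidirectProduct.inl s
  refine SemidirectProduct.ext ?_ ?_
  · rw [SemidirectProduct.mul_left, SemidirectProduct.mul_left, SemidirectProduct.left_inl,
      SemidirectProduct.right_inl, SemidirectProduct.left_inr, SemidirectProduct.right_inr,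
      map_one, mul_one, one_mul]
    exact h.symm
  · simp

theorem orderOf_mul_frob (s : S) (h : tw s = s) (hc : (orderOf s).Coprime 3) :
    orderOf ((SemidirectProduct.inl s : A) * SemidirectProduct.inr frob) = orderOf s * 3 := by
  have h1 : orderOf (SemidirectProduct.inl s : A) = orderOf s :=
    orderOf_injective _ SemidirectProduct.inl_injective s
  have h2 : orderOf (SemidirectProduct.inr frob : A) = 3 := by
    rw [orderOf_injective _ SemidirectProduct.inr_injective]
    exact orderOf_frob
  rw [(comm_of_tw s h).orderOf_mul_eq_mul_orderOf_of_coprime (by rw [h1, h2]; exact hc), h1, h2]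

theorem ex6B : StEx6 :=
  ⟨_, by rw [orderOf_mul_frob _ tw_u (by rw [orderOf_u]; decide), orderOf_u]⟩

theorem ex15B : StEx15 :=
  ⟨_, by rw [orderOf_mul_frob _ tw_g5 (by rw [orderOf_g5]; decide), orderOf_g5]⟩

theorem fix5B : StFix5 := by
  refine ⟨SemidirectProduct.inl g5, ?_, 1, one_ne_zero, ?_⟩
  · rw [orderOf_injective _ SemidirectProduct.inl_injective]
    exact orderOf_g5
  · rw [inl_smul_eq_iff, mat_g5_frob, mul_one, one_mul]

set_option maxRecDepth 100000 in
theorem mat_g7_pow : mat g7 ^ 7 = 1 := by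
  show (szHmat 1 u3) ^ 7 = 1
  decide +kernel

set_option maxRecDepth 100000 in
theorem mat_g7_ne : mat g7 ≠ 1 := by
  show (szHmat 1 u3) ≠ 1
  decide +kernel

set_option maxRecDepth 100000 in
theorem mat_g7_fix : mat g7 * Matrix.single (0 : Fin 4) (2 : Fin 4) (1 : K) =
    Matrix.single (0 : Fin 4) (2 : Fin 4) (1 : K) * fm frob (mat g7) := by
  show szHmat 1 u3 * Matrix.single (0 : Fin 4) (2 : Fin 4) (1 : K) =
    Matrix.single (0 : Fin 4) (2 : Fin 4) (1 : K) * fm frob (szHmat 1 u3)
  decide +kernel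

set_option maxRecDepth 100000 in
theorem single_ne : Matrix.single (0 : Fin 4) (2 : Fin 4) (1 : K) ≠ 0 := by
  decide +kernel

theorem orderOf_g7 : orderOf g7 = 7 := by
  have : Fact (Nat.Prime 7) := ⟨by norm_num⟩
  refine orderOf_eq_prime ?_ ?_
  · apply mat_inj
    rw [mat_pow, mat_g7_pow, mat_one]
  · intro h
    apply mat_g7_ne
    rw [h, mat_one]

theorem fix7B : StFix7 := by
  refine ⟨SemidirectProduct.inl g7, ?_, Matrix.single (0 : Fin 4) (2 : Fin 4) (1 : K),
    single_ne, ?_⟩
  · rw [orderOf_injective _ SemidirectProduct.inl_injective]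
    exact orderOf_g7
  · rw [inl_smul_eq_iff]
    exact mat_g7_fix

example : StCard := cardB
example : StNoS := noSB
example : StEx6 := ex6B
example : StEx15 := ex15B
example : StFix5 := fix5B
example : StFix7 := fix7B

end Cfsg.Agent.H98.Ps

#print axioms Cfsg.Agent.H98.Ps.cardB
#print axioms Cfsg.Agent.H98.Ps.noSB
#print axioms Cfsg.Agent.H98.Ps.ex6B
#print axioms Cfsg.Agent.H98.Ps.ex15B
#print axioms Cfsg.Agent.H98.Ps.fix5B
#print axioms Cfsg.Agent.H98.Ps.fix7B
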