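import Mathlib
import Cfsg.Agent.H98.PsInstDefs

/-! S3664 (helper7), PS-I-SYL (backup copy by helper98): elements of order `p` are conjugate up
to a power when `p² ∤ |G|`. -/

set_option autoImplicit false

namespace Cfsg.Agent.H98.Ps

theorem sylB : StSyl := by
  intro G _ _ p hp hp2 g s hg hs
  haveI : Fact p.Prime := ⟨hp⟩
  have key : ∀ x : G, orderOf x = p → ∀ P : Sylow p G, Subgroup.zpowers x ≤ (P : Subgroup G) →
      (P : Subgroup G) = Subgroup.zpowers x := by
    intro x hx P hle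
    obtain ⟨n, hn⟩ := IsPGroup.iff_card.mp P.isPGroup'
    have hdvd : Nat.card (P : Subgroup G) ∣ Nat.card G := Subgroup.card_subgroup_dvd_card _
    have hn2 : n < 2 := by
      by_contra hcon
      apply hp2
      have : p ^ 2 ∣ p ^ n := pow_dvd_pow p (by omega)
      exact this.trans (hn ▸ hdvd)
    have hle' : Nat.card (P : Subgroup G) ≤ Nat.card (Subgroup.zpowers x) := by
      rw [Nat.card_zpowers, hx, hn]
      calc p ^ n ≤ p ^ 1 := Nat.pow_le_pow_right hp.pos (by omega)
        _ = p := pow_one p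
    exact (Subgroup.eq_of_le_of_card_ge hle hle').symm
  obtain ⟨P, hP⟩ := (IsPGroup.of_card (n := 1) (by rw [Nat.card_zpowers, hg, pow_one]) :
    IsPGroup p (Subgroup.zpowers g)).exists_le_sylow
  obtain ⟨Q, hQ⟩ := (IsPGroup.of_card (n := 1) (by rw [Nat.card_zpowers, hs, pow_one]) :
    IsPGroup p (Subgroup.zpowers s)).exists_le_sylow
  have hPe := key g hg P hP
  have hQe := key s hs Q hQ
  obtain ⟨c, hc⟩ := MulAction.exists_smul_eq G P Q
  have hs_mem : s ∈ ((c • P : Sylow p G) : Subgroup G) := by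
    rw [hc, hQe]
    exact Subgroup.mem_zpowers s
  rw [Sylow.coe_subgroup_smul, Subgroup.mem_pointwise_smul_iff_inv_smul_mem, hPe] at hs_mem
  obtain ⟨k, hk⟩ := Subgroup.mem_zpowers_iff.1 hs_mem
  have hk' : c⁻¹ * s * c = g ^ k := by
    rw [hk]
    simp [MulAut.smul_def]
  refine ⟨c, (k % (p : ℤ)).toNat, ?_⟩
  have h1 : g ^ (k % (p : ℤ)).toNat = g ^ k := by
    rw [← zpow_natCast, Int.toNat_of_nonneg (Int.emod_nonneg _ (by exact_mod_cast hp.ne_zero)),
      ← hg, zpow_mod_orderOf]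
  rw [h1, ← hk']
  group

example : StSyl := sylB

end Cfsg.Agent.H98.Ps

#print axioms Cfsg.Agent.H98.Ps.sylB
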