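import Mathlib
import Cfsg.Agent.H98.PsIB
import Cfsg.Agent.H98.PsISylB
import Cfsg.Agent.H44.PsICent
import Cfsg.Agent.H63.PsTw13
import Cfsg.Agent.H71.PsIdx3

/-! S3664 (helper7), PS-INST: the instance `Sz(8) : 3` acting on `Mat₄(𝔽₈)` (helper98, with
pieces by helper44 (PS-I-CENT), helper63 (PS-TW13), helper71 (PS-IDX3)). -/

set_option autoImplicit false

namespace Cfsg.Agent.H98.Ps

/-- [PS-INST] with helper7's signature -/
theorem inst (hI : Cfsg.Agent.H7.Ps.StIdx3) (hT : Cfsg.Agent.H7.Ps.StTw13) :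
    Cfsg.Agent.H7.Ps.StInst :=
  inst_of cardB ex6B ex15B fix5B fix7B (fpf13T hT)
    (noB hI noSB (Cfsg.Agent.H44.Ps.cent sylB))

/-- [PS-INST] hypothesis-free -/
theorem inst' : Cfsg.Agent.H7.Ps.StInst :=
  inst Cfsg.Agent.H71.Ps.idx3 Cfsg.Agent.H63.Ps.tw13

example (hI : Cfsg.Agent.H7.Ps.StIdx3) (hT : Cfsg.Agent.H7.Ps.StTw13) :
    Cfsg.Agent.H7.Ps.StInst := inst hI hT

example : Cfsg.Agent.H7.Ps.StInst := inst'

end Cfsg.Agent.H98.Ps

#print axioms Cfsg.Agent.H98.Ps.inst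
#print axioms Cfsg.Agent.H98.Ps.inst'
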