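import Mathlib

set_option autoImplicit false

/-!
# Abelian subgroups of `GL_F(W)` of Singer order

Counting lemmas: an abelian subgroup of `GL_F(W)` whose order is prime to the characteristic
and which fixes a proper subspace `V₀` pointwise has at most `|W| / |V₀| - 1` elements.
Consequently an abelian subgroup of order `|W| - 1` is regular on the non-zero vectors.
-/

namespace Cfsg.Agent.H98

section Singer

variable {F W : Type*} [Field F] [AddCommGroup W] [Module F W]

theorem singer_unit_inv_apply (u : (Module.End F W)ˣ) (w : W) :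
    ((u⁻¹ : (Module.End F W)ˣ) : Module.End F W) ((u : Module.End F W) w) = w := by
  have h : ((u⁻¹ : (Module.End F W)ˣ) : Module.End F W) * (u : Module.End F W) = 1 :=
    Units.inv_mul u
  have := congrArg (fun f : Module.End F W => f w) h
  exact this

theorem singer_unit_apply_inv (u : (Module.End F W)ˣ) (w : W) :
    (u : Module.End F W) (((u⁻¹ : (Module.End F W)ˣ) : Module.End F W) w) = w := by
  have h : (u : Module.End F W) * ((u⁻¹ : (Module.End F W)ˣ) : Module.End F W) = 1 :=
    Units.mul_inv u
  have := congrArg (fun f : Module.End F W => f w) h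
  exact this

theorem singer_finite_units [Finite W] : Finite (Module.End F W)ˣ := by
  have : Finite (Module.End F W) := DFunLike.finite _
  infer_instance

/-- The key step: passing from `(B, V₀)` to the stabiliser of a vector `v ∉ V₀` and the
subspace spanned by `V₀` and the orbit of `v`. -/
theorem singer_step [Finite W] (B : Subgroup (Module.End F W)ˣ)
    (hcomm : ∀ a ∈ B, ∀ b ∈ B, a * b = b * a)
    (hp : ((Nat.card B : ℕ) : F) ≠ 0)
    (V₀ : Submodule F W) (hfix : ∀ b ∈ B, ∀ w ∈ V₀, (b : Module.End F W) w = w)
    (v : W) (hv : v ∉ V₀) :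
    ∃ (k : ℕ) (B' : Subgroup (Module.End F W)ˣ) (V₁ : Submodule F W),
      Nat.card B = k * Nat.card B' ∧ B' ≤ B ∧
      (∀ b ∈ B', ∀ w ∈ V₁, (b : Module.End F W) w = w) ∧
      (k + 1) * Nat.card V₀ ≤ Nat.card V₁ ∧ V₀ ≤ V₁ ∧ v ∈ V₁ ∧
      (∀ b ∈ B, (b : Module.End F W) v = v → b ∈ B') := by
  classical
  have : Finite (Module.End F W)ˣ := singer_finite_units
  have hsm : ∀ (c : B) (w : W), c • w = ((c : (Module.End F W)ˣ) : Module.End F W) w :=
    fun _ _ => rfl
  set O : Set W := MulAction.orbit B v with hO
  set St : Subgroup B := MulAction.stabilizer B v with hSt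
  set V₁ : Submodule F W := V₀ ⊔ Submodule.span F O with hV₁
  have hOV : ∀ x ∈ O, x ∈ V₁ := fun x hx =>
    (le_sup_right : Submodule.span F O ≤ V₁) (Submodule.subset_span hx)
  have hV₀V : V₀ ≤ V₁ := le_sup_left
  refine ⟨O.ncard, St.map B.subtype, V₁, ?_, Subgroup.map_subtype_le St, ?_, ?_, hV₀V,
    hOV v (MulAction.mem_orbit_self v), ?_⟩
  · rw [Subgroup.card_map_of_injective B.subtype_injective, ← MulAction.index_stabilizer,
      mul_comm]
    exact (Subgroup.card_mul_index St).symm
  · rintro _ ⟨⟨b, hbB⟩, hst, rfl⟩ w hw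
    have hbv : (b : Module.End F W) v = v := hst
    have hle : V₁ ≤ LinearMap.eqLocus (b : Module.End F W) LinearMap.id := by
      refine sup_le (fun w hw => ?_) (Submodule.span_le.2 ?_)
      · exact hfix b hbB w hw
      · rintro _ ⟨c, rfl⟩
        show (b : Module.End F W) (((c : (Module.End F W)ˣ) : Module.End F W) v) =
          ((c : (Module.End F W)ˣ) : Module.End F W) v
        have h1 : (b : Module.End F W) * ((c : (Module.End F W)ˣ) : Module.End F W) =
            ((c : (Module.End F W)ˣ) : Module.End F W) * (b : Module.End F W) := by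
          rw [← Units.val_mul, ← Units.val_mul, hcomm b hbB c c.2]
        have h2 := congrArg (fun f : Module.End F W => f v) h1
        simp only [Module.End.mul_apply] at h2
        rw [h2, hbv]
    exact hle hw
  · -- the counting injection
    have hkey : ∀ o o' : Option O, (o.elim 0 Subtype.val - o'.elim 0 Subtype.val : W) ∈ V₀ →
        o = o' := by
      have hnone : ∀ x : O, (x : W) ∉ V₀ := by
        rintro ⟨_, ⟨c, rfl⟩⟩ hx
        apply hv
        have hx' : ((c : (Module.End F W)ˣ) : Module.End F W) v ∈ V₀ := hx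
        have h1 : (((c⁻¹ : B) : (Module.End F W)ˣ) : Module.End F W)
            (((c : (Module.End F W)ˣ) : Module.End F W) v) =
            ((c : (Module.End F W)ˣ) : Module.End F W) v := hfix (c⁻¹ : B) (c⁻¹ : B).2 _ hx'
        rw [Subgroup.coe_inv, singer_unit_inv_apply] at h1
        rw [h1]; exact hx'
      rintro (_ | x) (_ | x') h
      · rfl
      · exfalso
        simp only [Option.elim_none, Option.elim_some, zero_sub, neg_mem_iff] at h
        exact hnone x' h
      · exfalso
        simp only [Option.elim_none, Option.elim_some, sub_zero] at h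
        exact hnone x h
      · simp only [Option.elim_some] at h
        obtain ⟨_, ⟨c, rfl⟩⟩ := x
        obtain ⟨_, ⟨c', rfl⟩⟩ := x'
        simp only [hsm] at h
        set w₀ : W := ((c : (Module.End F W)ˣ) : Module.End F W) v -
          ((c' : (Module.End F W)ˣ) : Module.End F W) v with hw₀
        set u : B := c'⁻¹ * c with hu
        have huv : ((u : (Module.End F W)ˣ) : Module.End F W) v = v + w₀ := by
          have e1 : ((c : (Module.End F W)ˣ) : Module.End F W) v =
              ((c' : (Module.End F W)ˣ) : Module.End F W) v + w₀ := by rw [hw₀]; abel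
          rw [hu, Subgroup.coe_mul, Units.val_mul, Module.End.mul_apply, e1, map_add,
            Subgroup.coe_inv, singer_unit_inv_apply]
          congr 1
          exact hfix _ (c'⁻¹ : B).2 w₀ h
        have hpow : ∀ m : ℕ, (((u ^ m : B) : (Module.End F W)ˣ) : Module.End F W) v =
            v + m • w₀ := by
          intro m
          induction m with
          | zero => simp
          | succ m ih =>
            rw [pow_succ, Subgroup.coe_mul, Units.val_mul, Module.End.mul_apply, huv, map_add,
              ih, hfix _ (u ^ m : B).2 w₀ h, succ_nsmul, add_assoc]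
        have h1 := hpow (Nat.card B)
        rw [pow_card_eq_one'] at h1
        simp only [OneMemClass.coe_one, Units.val_one, Module.End.one_apply] at h1
        have h2 : (Nat.card B) • w₀ = 0 := by
          have : v + 0 = v + (Nat.card B) • w₀ := by rw [add_zero]; exact h1
          exact (add_left_cancel this).symm
        rw [← Nat.cast_smul_eq_nsmul F, smul_eq_zero] at h2
        have h3 : w₀ = 0 := h2.resolve_left hp
        rw [hw₀, sub_eq_zero] at h3
        congr 1
        exact Subtype.ext h3
    let f : Option O × V₀ → V₁ := fun p =>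
      ⟨p.1.elim 0 Subtype.val + (p.2 : W), by
        refine V₁.add_mem ?_ (hV₀V p.2.2)
        rcases p.1 with _ | x
        · exact V₁.zero_mem
        · exact hOV x x.2⟩
    have hf : Function.Injective f := by
      rintro ⟨o, w⟩ ⟨o', w'⟩ h
      have h' : o.elim 0 Subtype.val + (w : W) = o'.elim 0 Subtype.val + (w' : W) :=
        congrArg Subtype.val h
      have h1 : (o.elim 0 Subtype.val - o'.elim 0 Subtype.val : W) = (w' : W) - (w : W) := by
        rw [sub_eq_sub_iff_add_eq_add, h', add_comm]
      have h2 : o = o' := hkey o o' (by rw [h1]; exact V₀.sub_mem w'.2 w.2)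
      subst h2
      have h3 : (w : W) = (w' : W) := add_left_cancel h'
      rw [Subtype.ext h3]
    have hcard := Nat.card_le_card_of_injective f hf
    rw [Nat.card_prod, Finite.card_option] at hcard
    rw [← Nat.card_coe_set_eq]
    exact hcard
  · intro b hb hbv
    exact ⟨⟨b, hb⟩, hbv, rfl⟩

/-- An abelian `p'`-subgroup of `GL_F(W)` fixing a proper subspace `V₀` pointwise has
order at most `|W| / |V₀| - 1`. -/
theorem singer_bound [Finite W] :
    ∀ (V₀ : Submodule F W) (B : Subgroup (Module.End F W)ˣ),
    (∀ a ∈ B, ∀ b ∈ B, a * b = b * a) → ((Nat.card B : ℕ) : F) ≠ 0 →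
    (∀ b ∈ B, ∀ w ∈ V₀, (b : Module.End F W) w = w) → V₀ ≠ ⊤ →
    (Nat.card B + 1) * Nat.card V₀ ≤ Nat.card W := by
  intro V₀
  induction V₀ using WellFoundedGT.induction with
  | ind V₀ ih =>
    intro B hcomm hp hfix hne
    obtain ⟨v, hv⟩ : ∃ v, v ∉ V₀ := by
      by_contra h
      simp only [not_exists, not_not] at h
      exact hne (Submodule.eq_top_iff'.2 h)
    obtain ⟨k, B', V₁, hcard, hle, hfix', hk, hV, hvV, -⟩ :=
      singer_step B hcomm hp V₀ hfix v hv
    have hlt : V₀ < V₁ := lt_of_le_of_ne hV (by rintro rfl; exact hv hvV)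
    have hp' : ((Nat.card B' : ℕ) : F) ≠ 0 := by
      intro h; apply hp; rw [hcard, Nat.cast_mul, h, mul_zero]
    have hcomm' : ∀ a ∈ B', ∀ b ∈ B', a * b = b * a :=
      fun a ha b hb => hcomm a (hle ha) b (hle hb)
    by_cases htop : V₁ = ⊤
    · have hB' : B' = ⊥ := by
        rw [eq_bot_iff]; intro b hb
        rw [Subgroup.mem_bot]
        exact Units.ext (LinearMap.ext fun w => hfix' b hb w (htop ▸ Submodule.mem_top))
      have hV₁ : Nat.card V₁ = Nat.card W := by
        rw [htop]; exact Nat.card_congr (Equiv.Set.univ W)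
      rw [hcard, hB', Subgroup.card_bot, mul_one, ← hV₁]
      exact hk
    · have h1 := ih V₁ hlt B' hcomm' hp' hfix' htop
      calc (Nat.card B + 1) * Nat.card V₀
          = (k * Nat.card B' + 1) * Nat.card V₀ := by rw [hcard]
        _ ≤ ((Nat.card B' + 1) * (k + 1)) * Nat.card V₀ := by
            apply Nat.mul_le_mul_right; nlinarith
        _ = (Nat.card B' + 1) * ((k + 1) * Nat.card V₀) := by ring
        _ ≤ (Nat.card B' + 1) * Nat.card V₁ := Nat.mul_le_mul_left _ hk
        _ ≤ Nat.card W := h1

/-- An abelian `p'`-subgroup of `GL_F(W)` of order `|W| - 1` acts freely on non-zero vectors. -/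
theorem singer_free [Finite W] (U : Subgroup (Module.End F W)ˣ)
    (hcomm : ∀ a ∈ U, ∀ b ∈ U, a * b = b * a) (hp : ((Nat.card U : ℕ) : F) ≠ 0)
    (hcard : Nat.card U + 1 = Nat.card W) (v : W) (hv : v ≠ 0)
    (u : (Module.End F W)ˣ) (hu : u ∈ U) (huv : (u : Module.End F W) v = v) : u = 1 := by
  have : Finite (Module.End F W)ˣ := singer_finite_units
  by_contra hne
  obtain ⟨k, B', V₁, hc, hle, hfix', hk, -, hvV, hmem⟩ :=
    singer_step U hcomm hp ⊥ (by
      intro b _ w hw
      rw [Submodule.mem_bot] at hw
      subst hw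
      simp) v (by simpa using hv)
  have hV₁ : V₁ ≠ ⊤ := by
    rintro rfl
    exact hne (Units.ext (LinearMap.ext fun w => hfix' u (hmem u hu huv) w Submodule.mem_top))
  have hp' : ((Nat.card B' : ℕ) : F) ≠ 0 := by
    intro h; apply hp; rw [hc, Nat.cast_mul, h, mul_zero]
  have h1 := singer_bound V₁ B' (fun a ha b hb => hcomm a (hle ha) b (hle hb)) hp' hfix' hV₁
  have h2 : Nat.card (⊥ : Submodule F W) = 1 := by simp
  rw [h2, mul_one] at hk
  have hpos : 0 < Nat.card B' := Nat.card_pos
  have h3 := Nat.mul_le_mul_left (Nat.card B' + 1) hk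
  nlinarith

/-- An abelian `p'`-subgroup of `GL_F(W)` of order `|W| - 1` is transitive on non-zero
vectors. -/
theorem singer_trans [Finite W] (U : Subgroup (Module.End F W)ˣ)
    (hcomm : ∀ a ∈ U, ∀ b ∈ U, a * b = b * a) (hp : ((Nat.card U : ℕ) : F) ≠ 0)
    (hcard : Nat.card U + 1 = Nat.card W) (v : W) (hv : v ≠ 0) (x : W) (hx : x ≠ 0) :
    ∃ u ∈ U, (u : Module.End F W) v = x := by
  classical
  have : Finite (Module.End F W)ˣ := singer_finite_units
  let φ : U → {x : W // x ≠ 0} := fun u =>
    ⟨((u : (Module.End F W)ˣ) : Module.End F W) v, fun h => hv (by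
      have := singer_unit_inv_apply (u : (Module.End F W)ˣ) v
      rw [h, map_zero] at this
      exact this.symm)⟩
  have hinj : Function.Injective φ := by
    intro a b hab
    have h1 : ((a : (Module.End F W)ˣ) : Module.End F W) v =
        ((b : (Module.End F W)ˣ) : Module.End F W) v := congrArg Subtype.val hab
    have h2 : (((b⁻¹ * a : U) : (Module.End F W)ˣ) : Module.End F W) v = v := by
      rw [Subgroup.coe_mul, Units.val_mul, Module.End.mul_apply, h1, Subgroup.coe_inv,
        singer_unit_inv_apply]
    have h3 := singer_free U hcomm hp hcard v hv _ (b⁻¹ * a : U).2 h2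
    have h4 : b⁻¹ * a = 1 := Subtype.ext h3
    exact (inv_mul_eq_one.1 h4).symm
  have hc : Nat.card {x : W // x ≠ 0} ≤ Nat.card U := by
    have h1 := Nat.card_congr (Equiv.optionSubtypeNe (0 : W))
    rw [Finite.card_option] at h1
    omega
  obtain ⟨u, hu⟩ := (hinj.bijective_of_nat_card_le hc).2 ⟨x, hx⟩
  exact ⟨u, u.2, congrArg Subtype.val hu⟩

end Singer

section SingerField

open scoped IsMulCommutative in
/-- A finite commutative subalgebra in which every non-zero element is invertible receives
an algebra map from any finite field of the same degree. -/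
theorem singer_exists_algHom {F K E : Type*} [Field F] [Field K] [Algebra F K]
    [Ring E] [Algebra F E] (A : Subalgebra F E) [Finite A] [IsMulCommutative A]
    [Nontrivial A]
    (hunit : ∀ a : A, a ≠ 0 → ∃ b : A, a * b = 1)
    (hrank : Module.finrank F K = Module.finrank F A) :
    ∃ θ : K →ₐ[F] E, ∀ x, θ x ∈ A := by
  classical
  have hfield : IsField A := ⟨exists_pair_ne A, mul_comm, fun {a} ha => hunit a ha⟩
  let _ : Field A := hfield.toField
  obtain ⟨θ⟩ := @FiniteField.nonempty_algHom_of_finrank_dvd F K A _ _ _ ‹Field A›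
    (Subalgebra.algebra A) _ (dvd_of_eq hrank)
  exact ⟨A.val.comp θ, fun x => (θ x).2⟩

/-- An abelian subgroup of `GL_F(K)` that is regular on the non-zero vectors of the finite
field `K` is conjugate to the Singer group. -/
theorem singer_conj {F K : Type*} [Field F] [Field K] [Finite K] [Algebra F K]
    (U : Subgroup (Module.End F K)ˣ)
    (hcomm : ∀ a ∈ U, ∀ b ∈ U, a * b = b * a)
    (htrans : ∀ x : K, x ≠ 0 → ∃ u ∈ U, (u : Module.End F K) 1 = x)
    (hcard : Nat.card U + 1 = Nat.card K) :
    ∃ g : (Module.End F K)ˣ, U.map (MulAut.conj g).toMonoidHom =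
      (Units.map ((Algebra.lmul F K : K →ₐ[F] Module.End F K) : K →* Module.End F K)).range := by
  classical
  have hfinE : Finite (Module.End F K) := DFunLike.finite _
  have hfinU : Finite (Module.End F K)ˣ := singer_finite_units
  set S : Set (Module.End F K) :=
    (fun u : (Module.End F K)ˣ => (u : Module.End F K)) '' (U : Set (Module.End F K)ˣ) with hS
  set A : Subalgebra F (Module.End F K) := Algebra.adjoin F S with hA
  have hScomm : ∀ a ∈ S, ∀ b ∈ S, a * b = b * a := by
    rintro _ ⟨a, ha, rfl⟩ _ ⟨b, hb, rfl⟩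
    show (a : Module.End F K) * (b : Module.End F K) = (b : Module.End F K) * (a : Module.End F K)
    rw [← Units.val_mul, ← Units.val_mul, hcomm a ha b hb]
  have hAcomm : IsMulCommutative A := Algebra.isMulCommutative_adjoin F hScomm
  have hUA : ∀ u ∈ U, (u : Module.End F K) ∈ A := fun u hu =>
    Algebra.subset_adjoin ⟨u, hu, rfl⟩
  -- evaluation at `1` is injective on `A`
  have hev : ∀ a ∈ A, a 1 = 0 → a = 0 := by
    intro a ha h1
    refine LinearMap.ext fun x => ?_
    by_cases hx : x = 0
    · rw [hx, map_zero, map_zero]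
    · obtain ⟨u, hu, rfl⟩ := htrans x hx
      have h2 : a * (u : Module.End F K) = (u : Module.End F K) * a :=
        setLike_mul_comm ha (hUA u hu)
      have h3 := congrArg (fun f : Module.End F K => f 1) h2
      simp only [Module.End.mul_apply] at h3
      rw [h3, h1, map_zero]; rfl
  have hAU : ∀ a ∈ A, a ≠ 0 → ∃ u ∈ U, (u : Module.End F K) = a := by
    intro a ha hne
    have h1 : a 1 ≠ 0 := fun h => hne (hev a ha h)
    obtain ⟨u, hu, hu1⟩ := htrans _ h1
    refine ⟨u, hu, ?_⟩
    have h2 := hev (a - (u : Module.End F K)) (A.sub_mem ha (hUA u hu)) (by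
      rw [LinearMap.sub_apply, hu1, sub_self])
    exact (sub_eq_zero.1 h2).symm
  -- `A` is a field of the same degree as `K`
  have hfinA : Finite A := Finite.of_injective _ Subtype.val_injective
  have hntA : Nontrivial A := ⟨⟨0, 1, fun h => by
    have := congrArg (fun a : A => (a : Module.End F K) 1) h
    simp at this⟩⟩
  have hunit : ∀ a : A, a ≠ 0 → ∃ b : A, a * b = 1 := by
    intro a ha
    obtain ⟨u, hu, hua⟩ := hAU a a.2 (fun h => ha (Subtype.ext h))
    refine ⟨⟨((u⁻¹ : (Module.End F K)ˣ) : Module.End F K), hUA _ (U.inv_mem hu)⟩, ?_⟩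
    apply Subtype.ext
    show (a : Module.End F K) * ((u⁻¹ : (Module.End F K)ˣ) : Module.End F K) = 1
    rw [← hua, Units.mul_inv]
  let evl : A →ₗ[F] K :=
    { toFun := fun a => (a : Module.End F K) 1
      map_add' := fun a b => by simp
      map_smul' := fun c a => by simp }
  have hevl : Function.Bijective evl := by
    constructor
    · intro a b hab
      have hab' : (a : Module.End F K) 1 = (b : Module.End F K) 1 := hab
      have h1 : ((a : Module.End F K) - (b : Module.End F K)) 1 = 0 := by
        rw [LinearMap.sub_apply]; exact sub_eq_zero.2 hab'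
      exact Subtype.ext (sub_eq_zero.1 (hev _ (A.sub_mem a.2 b.2) h1))
    · intro x
      by_cases hx : x = 0
      · exact ⟨0, by rw [hx, map_zero]⟩
      · obtain ⟨u, hu, hux⟩ := htrans x hx
        exact ⟨⟨u, hUA u hu⟩, hux⟩
  have hrank : Module.finrank F K = Module.finrank F A :=
    (LinearEquiv.finrank_eq (LinearEquiv.ofBijective evl hevl)).symm
  obtain ⟨θ, hθ⟩ := singer_exists_algHom (K := K) A hunit hrank
  have hθinj : Function.Injective θ := (θ : K →+* Module.End F K).injective
  -- the intertwiner
  let g : K →ₗ[F] K :=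
    { toFun := fun x => θ x 1
      map_add' := fun a b => by simp
      map_smul' := fun c a => by simp }
  have hg : ∀ x, g x = θ x 1 := fun _ => rfl
  have hginj : Function.Injective g := by
    refine (injective_iff_map_eq_zero g).2 fun x hx => ?_
    exact hθinj (by rw [map_zero]; exact hev _ (hθ x) hx)
  let ge : K ≃ₗ[F] K := LinearEquiv.ofInjectiveEndo g hginj
  let G : (Module.End F K)ˣ := LinearMap.GeneralLinearGroup.ofLinearEquiv ge
  have hG : ∀ x, (G : Module.End F K) x = θ x 1 := fun _ => rfl
  have hint : ∀ z : K, (G : Module.End F K) * (Algebra.lmul F K z) =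
      θ z * (G : Module.End F K) := by
    intro z
    refine LinearMap.ext fun y => ?_
    rw [Module.End.mul_apply, Module.End.mul_apply, hG, hG]
    show θ (z * y) 1 = θ z (θ y 1)
    rw [map_mul, Module.End.mul_apply]
  refine ⟨G⁻¹, ?_⟩
  symm
  apply Subgroup.eq_of_le_of_card_ge
  · rintro _ ⟨z, rfl⟩
    have hz : θ (z : K) ≠ 0 := fun h => z.ne_zero (hθinj (by rw [h, map_zero]))
    obtain ⟨u, hu, huz⟩ := hAU _ (hθ z) hz
    refine ⟨u, hu, ?_⟩
    apply Units.ext
    show ((G⁻¹ * u * G⁻¹⁻¹ : (Module.End F K)ˣ) : Module.End F K) = Algebra.lmul F K (z : K)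
    rw [inv_inv, Units.val_mul, Units.val_mul, huz, mul_assoc, ← hint, ← mul_assoc,
      Units.inv_mul, one_mul]
  · rw [Subgroup.card_map_of_injective (MulEquiv.injective _)]
    have hinj : Function.Injective (Units.map ((Algebra.lmul F K : K →ₐ[F] Module.End F K) :
        K →* Module.End F K)) := Units.map_injective Algebra.lmul_injective
    have h1 : Nat.card (Units.map ((Algebra.lmul F K : K →ₐ[F] Module.End F K) :
        K →* Module.End F K)).range = Nat.card Kˣ :=
      (Nat.card_congr (MonoidHom.ofInjective hinj).toEquiv).symm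
    have h2 : Nat.card Kˣ = Nat.card K - 1 := Nat.card_units K
    omega

end SingerField

end Cfsg.Agent.H98
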