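import Mathlib
import Cfsg.Agent.H44.SpODefs

/-!
# SPO-CHIMOVE (helper98, for helper44's S2347 part A): the character identity behind the Levi move.
-/

set_option autoImplicit false

namespace Cfsg.Agent.H98.SpO

open Matrix Module Cfsg.Agent.H17 Cfsg.Agent.H44.SpL Cfsg.Agent.H44.SpO

universe u

/-- The dot product of two families indexed by pairs, as a trace. -/
theorem dot_eq_trace {F : Type u} [Field F] (n : ℕ) (a p : Fin n × Fin n → F) :
    a ⬝ᵥ p = Matrix.trace (toMat n a * (toMat n p)ᵀ) := by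
  unfold dotProduct Matrix.trace
  rw [Fintype.sum_prod_type]
  apply Finset.sum_congr rfl
  intro i _
  rw [Matrix.diag_apply, Matrix.mul_apply]
  rfl

theorem toMat_ofMat {F : Type u} [Field F] (n : ℕ) (M : Matrix (Fin n) (Fin n) F) :
    toMat n (ofMat n M) = M := rfl

/-- **SPO-CHIMOVE**. -/
theorem chiMove : StChiMove.{u} := by
  intro F _ n ψ D p a
  unfold Cfsg.Agent.H44.SpO.chi
  congr 1
  rw [dot_eq_trace, dot_eq_trace]
  unfold congR congL
  rw [toMat_ofMat, toMat_ofMat, Matrix.transpose_mul, Matrix.transpose_mul, Matrix.transpose_transpose]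
  calc Matrix.trace (toMat n a * (Dᵀ * ((toMat n p)ᵀ * D)))
      = Matrix.trace ((toMat n a * Dᵀ * (toMat n p)ᵀ) * D) := by simp only [Matrix.mul_assoc]
    _ = Matrix.trace (D * (toMat n a * Dᵀ * (toMat n p)ᵀ)) := Matrix.trace_mul_comm _ _
    _ = Matrix.trace (D * toMat n a * Dᵀ * (toMat n p)ᵀ) := by simp only [Matrix.mul_assoc]

example : StChiMove.{u} := chiMove

end Cfsg.Agent.H98.SpO
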