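import Mathlib
import Cfsg.Agent.H97.SuLDefs

/-!
# Common lemmas for helper98's pieces of helper97's S2334/S2335 project.
-/

set_option autoImplicit false

namespace Cfsg.Agent.H98.SuL

open Module Cfsg.Agent.H17 Cfsg.Agent.H97.SuL

universe u

variable {F : Type u} [Field F] [Fintype F] {q n : ℕ}

/-- The identity is the trivial root element. -/
theorem isE_one (hF : Fintype.card F = q ^ 2) (e : Fin n → F) :
    IsE e 0 0 (1 : ↥(Cfsg.SU n F q)) := by
  intro z
  rw [suAct_one, hermForm_zero_right n hF]
  simp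

/-- Existence of root elements. -/
theorem ex_root (hF : Fintype.card F = q ^ 2) (e : Fin n → F)
    (he : Cfsg.hermForm n F q e e = 0) (c : F) (hc : c ^ q = -c) :
    ∃ g : ↥(Cfsg.SU n F q), IsE e 0 c g := by
  have h1 : Cfsg.hermForm n F q (0 : Fin n → F) e = 0 := hermForm_zero_left n e
  have h2 : c + c ^ q + Cfsg.hermForm n F q (0 : Fin n → F) 0 = 0 := by
    rw [hermForm_zero_left, hc]; ring
  exact ex_E hF e 0 c he h1 h2

end Cfsg.Agent.H98.SuL
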