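import Mathlib
import Cfsg.Agent.H97.SuLDefs
import Cfsg.Agent.H98.SuLCommon

/-!
# SuL-ASUB (helper98, for helper97's S2334/S2335): the maximal abelian subgroup
`A = {E(e, emb x, c) | x ∈ F_q^m}` of the Heisenberg group of `e`.
-/

set_option autoImplicit false

namespace Cfsg.Agent.H98.SuL

open Module Cfsg.Agent.H17 Cfsg.Agent.H97.SuL

universe u

theorem emb_add {F : Type u} [Field F] (m : ℕ) (x x' : Fin m → F) :
    emb m (x + x') = emb m x + emb m x' := by
  funext i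
  refine Fin.addCases (fun j => ?_) (fun j => ?_) i <;> simp [emb]

theorem emb_zero {F : Type u} [Field F] (m : ℕ) : emb m (0 : Fin m → F) = 0 := by
  funext i
  refine Fin.addCases (fun j => ?_) (fun j => ?_) i <;> simp [emb]

/-- **SuL-ASUB** (from `StEMul`, `StAMove`, `StFormEmb`). -/
theorem asub (hE : StEMul.{u}) (hA : StAMove.{u}) (hFE : StFormEmb.{u}) : StASub.{u} := by
  intro F _ _ q hF m e hpl he
  classical
  have hq := two_le_of_card_sq hF
  obtain ⟨w, rfl⟩ := hpl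
  have hxe : ∀ x : Fin m → F,
      Cfsg.hermForm (m + 2) F q (emb m x) (Fin.append 0 w) = 0 := by
    intro x
    show Cfsg.hermForm (m + 2) F q (Fin.append x 0) (Fin.append 0 w) = 0
    rw [hFE hF, hermForm_zero_right m hF, hermForm_zero_left, add_zero]
  have hxx : ∀ x x' : Fin m → F, (∀ i, x i ^ q = x i) → (∀ i, x' i ^ q = x' i) →
      Cfsg.hermForm (m + 2) F q (emb m x) (emb m x') =
        Cfsg.hermForm (m + 2) F q (emb m x') (emb m x) := by
    intro x x' hx hx'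
    show Cfsg.hermForm (m + 2) F q (Fin.append x 0) (Fin.append x' 0) =
      Cfsg.hermForm (m + 2) F q (Fin.append x' 0) (Fin.append x 0)
    rw [hFE hF, hFE hF]
    congr 1
    unfold Cfsg.hermForm
    apply Finset.sum_congr rfl
    intro i _
    rw [hx i, hx' i, mul_comm]
  have hone : (1 : ↥(Cfsg.SU (m + 2) F q)) ∈
      {g : ↥(Cfsg.SU (m + 2) F q) | ∃ (x : Fin m → F) (c : F), (∀ i, x i ^ q = x i) ∧
        IsE (Fin.append 0 w) (emb m x) c g} := by
    refine ⟨0, 0, fun i => by simp [zero_pow (by omega : q ≠ 0)], ?_⟩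
    rw [emb_zero]; exact isE_one hF _
  have hmul : ∀ a b : ↥(Cfsg.SU (m + 2) F q),
      a ∈ {g : ↥(Cfsg.SU (m + 2) F q) | ∃ (x : Fin m → F) (c : F), (∀ i, x i ^ q = x i) ∧
        IsE (Fin.append 0 w) (emb m x) c g} →
      b ∈ {g : ↥(Cfsg.SU (m + 2) F q) | ∃ (x : Fin m → F) (c : F), (∀ i, x i ^ q = x i) ∧
        IsE (Fin.append 0 w) (emb m x) c g} →
      a * b ∈ {g : ↥(Cfsg.SU (m + 2) F q) | ∃ (x : Fin m → F) (c : F), (∀ i, x i ^ q = x i) ∧
        IsE (Fin.append 0 w) (emb m x) c g} := by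
    rintro a b ⟨x, c, hx, hg⟩ ⟨x', c', hx', hg'⟩
    refine ⟨x + x', c + c' - Cfsg.hermForm (m + 2) F q (emb m x') (emb m x), ?_, ?_⟩
    · intro i
      rw [Pi.add_apply, frob_add hF, hx i, hx' i]
    · rw [emb_add]
      exact hE hF _ _ _ c c' a b he (hxe x) (hxe x') hg hg'
  have hpow : ∀ a : ↥(Cfsg.SU (m + 2) F q),
      a ∈ {g : ↥(Cfsg.SU (m + 2) F q) | ∃ (x : Fin m → F) (c : F), (∀ i, x i ^ q = x i) ∧
        IsE (Fin.append 0 w) (emb m x) c g} → ∀ k : ℕ,
      a ^ k ∈ {g : ↥(Cfsg.SU (m + 2) F q) | ∃ (x : Fin m → F) (c : F), (∀ i, x i ^ q = x i) ∧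
        IsE (Fin.append 0 w) (emb m x) c g} := by
    intro a ha k
    induction k with
    | zero => rw [pow_zero]; exact hone
    | succ k ih => rw [pow_succ]; exact hmul _ _ ih ha
  have hinv : ∀ a : ↥(Cfsg.SU (m + 2) F q),
      a ∈ {g : ↥(Cfsg.SU (m + 2) F q) | ∃ (x : Fin m → F) (c : F), (∀ i, x i ^ q = x i) ∧
        IsE (Fin.append 0 w) (emb m x) c g} →
      a⁻¹ ∈ {g : ↥(Cfsg.SU (m + 2) F q) | ∃ (x : Fin m → F) (c : F), (∀ i, x i ^ q = x i) ∧
        IsE (Fin.append 0 w) (emb m x) c g} := by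
    intro a ha
    have h1 : a⁻¹ = a ^ (orderOf a - 1) := by
      apply inv_eq_of_mul_eq_one_right
      rw [← pow_succ', Nat.sub_add_cancel (orderOf_pos a), pow_orderOf_eq_one]
    rw [h1]; exact hpow a ha _
  refine ⟨{ carrier := {g : ↥(Cfsg.SU (m + 2) F q) | ∃ (x : Fin m → F) (c : F),
              (∀ i, x i ^ q = x i) ∧ IsE (Fin.append 0 w) (emb m x) c g}
            mul_mem' := fun {a b} ha hb => hmul a b ha hb
            one_mem' := hone
            inv_mem' := fun {a} ha => hinv a ha }, ?_, ?_, ?_⟩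
  · rintro a ⟨x, c, hx, hg⟩ b ⟨x', c', hx', hg'⟩
    have hz : IsE (Fin.append 0 w) 0 (Cfsg.hermForm (m + 2) F q (emb m x) (emb m x') -
        Cfsg.hermForm (m + 2) F q (emb m x') (emb m x)) (1 : ↥(Cfsg.SU (m + 2) F q)) := by
      rw [hxx x x' hx hx', sub_self]; exact isE_one hF _
    have h1 := hA hF _ _ _ c c' a b 1 he (hxe x) (hxe x') hg hg' hz
    rw [h1, mul_one]
  · intro x c g hx hg
    exact ⟨x, c, hx, hg⟩
  · rintro g ⟨x, c, hx, hg⟩
    exact ⟨x, c, hx, hg⟩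

example (hE : StEMul.{u}) (hA : StAMove.{u}) (hFE : StFormEmb.{u}) : StASub.{u} := asub hE hA hFE

end Cfsg.Agent.H98.SuL
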