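import Mathlib
import Cfsg.Agent.H97.SuLDefs
import Cfsg.Agent.H98.SuLCommon

/-!
# SuL-ALMULT (helper98, for helper97's S2334/S2335): the character of the group `{E(e₂, γ e₁, 0)}` is
multiplicative.
-/

set_option autoImplicit false

namespace Cfsg.Agent.H98.SuL

open Module Cfsg.Agent.H17 Cfsg.Agent.H97.SuL

universe u

/-- **SuL-ALMULT** (from `StEMul`). -/
theorem alMult (hE : StEMul.{u}) : StAlMult.{u} := by
  intro F _ _ q n hF e₁ e₂ he₁ he₂ he₁₂ V _ _ _ ρ al v hv hal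
  have hq := two_le_of_card_sq hF
  have hex : ∀ γ : F, ∃ a : ↥(Cfsg.SU n F q), IsE e₂ (γ • e₁) 0 a := by
    intro γ
    have h1 : Cfsg.hermForm n F q (γ • e₁) e₂ = 0 := by rw [hermForm_smul_left, he₁₂, mul_zero]
    have h2 : (0 : F) + 0 ^ q + Cfsg.hermForm n F q (γ • e₁) (γ • e₁) = 0 := by
      rw [hermForm_smul_left, hermForm_smul_right, he₁, zero_pow (by omega)]; ring
    exact ex_E hF e₂ (γ • e₁) 0 he₂ h1 h2
  refine ⟨?_, ?_⟩
  · have h1 : IsE e₂ ((0 : F) • e₁) 0 (1 : ↥(Cfsg.SU n F q)) := by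
      rw [zero_smul]; exact isE_one hF e₂
    have h2 := hal 0 1 h1
    rw [map_one, Module.End.one_apply] at h2
    have h3 : (1 : ℂ) • v = al 0 • v := by rw [one_smul]; exact h2
    exact (smul_left_injective ℂ hv h3).symm
  · intro x y
    obtain ⟨g, hg⟩ := hex x
    obtain ⟨g', hg'⟩ := hex y
    have hx : Cfsg.hermForm n F q (x • e₁) e₂ = 0 := by rw [hermForm_smul_left, he₁₂, mul_zero]
    have hy : Cfsg.hermForm n F q (y • e₁) e₂ = 0 := by rw [hermForm_smul_left, he₁₂, mul_zero]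
    have h1 := hE hF e₂ (x • e₁) (y • e₁) 0 0 g g' he₂ hx hy hg hg'
    have h2 : (0 : F) + 0 - Cfsg.hermForm n F q (y • e₁) (x • e₁) = 0 := by
      rw [hermForm_smul_left, hermForm_smul_right, he₁]; ring
    rw [h2, ← add_smul] at h1
    have h3 := hal (x + y) (g * g') h1
    rw [map_mul, Module.End.mul_apply, hal y g' hg', map_smul, hal x g hg, smul_smul] at h3
    have h4 := smul_left_injective ℂ hv h3
    rw [← h4, mul_comm]

example (hE : StEMul.{u}) : StAlMult.{u} := alMult hE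

end Cfsg.Agent.H98.SuL
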