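import Mathlib
import Cfsg.Agent.H97.SuLDefs
import Cfsg.Agent.H98.SuLCommon

/-!
# SuL-ZMULT (helper98, for helper97's S2334/S2335): an occurring character of a root group is
multiplicative on `K`.
-/

set_option autoImplicit false

namespace Cfsg.Agent.H98.SuL

open Module Cfsg.Agent.H17 Cfsg.Agent.H97.SuL

universe u

/-- **SuL-ZMULT** (from `StEMul`). -/
theorem zMult (hE : StEMul.{u}) : StZMult.{u} := by
  intro F _ _ q n hF e he V _ _ _ ρ lam v hv hmem
  have hq := two_le_of_card_sq hF
  refine ⟨?_, ?_⟩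
  · have h0 : (0 : F) ^ q = -0 := by rw [zero_pow (by omega), neg_zero]
    have h1 := hmem 0 1 h0 (isE_one hF e)
    rw [map_one, Module.End.one_apply] at h1
    have h2 : (1 : ℂ) • v = lam 0 • v := by rw [one_smul]; exact h1
    exact (smul_left_injective ℂ hv h2).symm
  · intro c d hc hd
    obtain ⟨g, hg⟩ := ex_root hF e he c hc
    obtain ⟨g', hg'⟩ := ex_root hF e he d hd
    have h0e : Cfsg.hermForm n F q (0 : Fin n → F) e = 0 := hermForm_zero_left n e
    have h1 := hE hF e 0 0 c d g g' he h0e h0e hg hg'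
    rw [add_zero, hermForm_zero_left, sub_zero] at h1
    have hcd : (c + d) ^ q = -(c + d) := by rw [frob_add hF, hc, hd]; ring
    have h2 := hmem (c + d) (g * g') hcd h1
    rw [map_mul, Module.End.mul_apply, hmem d g' hd hg', map_smul, hmem c g hc hg, smul_smul] at h2
    have h3 := smul_left_injective ℂ hv h2
    rw [← h3, mul_comm]

example (hE : StEMul.{u}) : StZMult.{u} := zMult hE

end Cfsg.Agent.H98.SuL
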