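import Mathlib
import Cfsg.Prelude.Def_Classical
import Cfsg.Agent.H98.GraphCert
import Cfsg.Agent.H48.FieldTwo
import Cfsg.Agent.S0288

set_option autoImplicit false

namespace Cfsg.Agent.H98.Syl8O

open Cfsg Cfsg.Agent.H98.GraphCert

/-- the index type of the six-dimensional space -/
abbrev I6 : Type := (Fin 2 ⊕ Fin 2) ⊕ Fin 2

/-- position of an index -/
def ix : I6 → ℕ
  | .inl (.inl i) => i.1
  | .inl (.inr i) => i.1 + 2
  | .inr i => i.1 + 4

/-- decode a `6 × 6` matrix over `ZMod 2` -/
def decM (code : ℕ) : Matrix I6 I6 (ZMod 2) :=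
  fun a b => ((code / 2 ^ (6 * ix a + ix b) % 2 : ℕ) : ZMod 2)

/-- decode a map on `Fin 8` -/
def decP (code : ℕ) : Fin 8 → Fin 8 := fun x => ⟨code / 8 ^ x.1 % 8, Nat.mod_lt _ (by norm_num)⟩

/-- the permutation table -/
def BIGT : ℕ := 754143914649263843238432184545098443209467910573013124696816137160010393972882586576660094620547589229041105790450072859066622402789327040074084293783480127150480190462719795370454704637437631255175276289369203247126877910706458016341444932640412837926100065701180660431042711595654942037718993844349787134814632905560442745113532564316045538326003937696603035899700819355468730896502521088252981411265432299869506824273987478886276318291300026867521443834471317650780575193145194423863737213749478907555571144313995431913601752865244160619588529998936138222698302069690986327733742681769380118285071991684627109815828842825162921286833851559215515431836714071965091157841611169316252889659293608177747287755250513847601394547244824702072503815542052167848615972387673736817124320159690244600747376666119009471206913934982932014356295307359964600299190360906572605778340947846499375467849986205737522905882656752097161823880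

/-- the matrix table -/
def BIGM : ℕ := 10860916021336803908726148347146083750160975753332280870883949758725091963712448549104009130049073131354069075815341766830064578188907844367584415980284533582373528290217576959971785753821505102201801826213330385492990564442812609147085671398618149009244027034725929728616438062205553545308607100654485401702294374181011616608395850901251191690659394813053859237895813642573629391488838191239278825828277315786630431426275516915485879429467034463008523663383565685345233720438356351234023941496944888102047737395362427313888790706070206961346835285396871926637016491308896818332887607741312972736760086792725820033420690814792817849522114132353405345682828628033063337507506062112934747457735245860733602365419038031899266755475370944365076010381503767122811382820098511943867540059302506623863186726790350962025765784348009372366993256574398841958753542167072334198025117389108063576707770266118940055709793024761260952349577751139674188320980997058431069966568738484586095508708510021863186513924073613689087817634119066306882569161262657229229831455643010814237940675487011045864486652740714051602731458254334084228014036843137796766265121228453768791484086959165796856630708587648978957998076693837878530656746779573171309579182406408806435102016489251906296894801492734401785181460140733306825744337987094102341599777191221406049313110180885392199091552101226115780733758515168952449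

/-- the multiplication table -/
def nxtN : Fin 3 → ℕ := ![81069649236225145294650418243751952618995937353062137387765066241347987086818128837619778361962734529119274883304682911892762528169418313915370714391446803814105940828623447143690514396723445656093683981432665772775676725233411544849140300852368650368232660392057783497759643054411720859001862341272772411393, 37514528164791567915972381941860039719131672861259202541566659568140751956622492805051114938847289008833693864157283866395047931213517894261863475962618735738407751080076953169875273507508602682437793033942435090582995618726591542783366233453810488720148642577828584272317126619831710082895641891242508747778, 36809679265791892276488522481375091462694496375955855724291907255912452665276241456410908988105557737587769579301218997327014747519204773388885910039210188598666719422019586793391221153910782912334712004521460151773665076344597185096412033284905400987322575718810777986657241841020994597669931602655578686723]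

/-- the multiplication table -/
def nxt (k : Fin 3) (j : Fin 128) : Fin 128 :=
  ⟨getN (nxtN k) 8 j.1 % 128, Nat.mod_lt _ (by norm_num)⟩

/-- the words -/
def word : Fin 128 → List (Fin 3) :=
  ![[],
    [0],
    [1],
    [2],
    [1, 0],
    [2, 0],
    [0, 1],
    [1, 1],
    [2, 1],
    [0, 2],
    [1, 2],
    [2, 2],
    [0, 1, 0],
    [1, 1, 0],
    [2, 1, 0],
    [0, 2, 0],
    [1, 2, 0],
    [2, 2, 0],
    [1, 0, 1],
    [2, 0, 1],
    [0, 1, 1],
    [1, 1, 1],
    [2, 1, 1],
    [1, 2, 1],
    [2, 2, 1],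
    [1, 0, 2],
    [1, 1, 2],
    [1, 2, 2],
    [1, 0, 1, 0],
    [2, 0, 1, 0],
    [0, 1, 1, 0],
    [1, 1, 1, 0],
    [2, 1, 1, 0],
    [1, 2, 1, 0],
    [2, 2, 1, 0],
    [1, 0, 2, 0],
    [1, 1, 2, 0],
    [1, 2, 2, 0],
    [0, 1, 0, 1],
    [1, 1, 0, 1],
    [2, 1, 0, 1],
    [0, 2, 0, 1],
    [1, 2, 0, 1],
    [2, 2, 0, 1],
    [1, 0, 1, 1],
    [2, 0, 1, 1],
    [0, 1, 1, 1],
    [1, 2, 1, 1],
    [2, 2, 1, 1],
    [1, 1, 2, 1],
    [1, 2, 2, 1],
    [0, 1, 0, 2],
    [1, 1, 0, 2],
    [2, 1, 0, 2],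
    [0, 1, 1, 2],
    [1, 1, 2, 2],
    [0, 1, 0, 1, 0],
    [1, 1, 0, 1, 0],
    [2, 1, 0, 1, 0],
    [0, 2, 0, 1, 0],
    [1, 2, 0, 1, 0],
    [2, 2, 0, 1, 0],
    [1, 0, 1, 1, 0],
    [2, 0, 1, 1, 0],
    [0, 1, 1, 1, 0],
    [1, 2, 1, 1, 0],
    [2, 2, 1, 1, 0],
    [1, 1, 2, 1, 0],
    [1, 2, 2, 1, 0],
    [0, 1, 0, 2, 0],
    [1, 1, 0, 2, 0],
    [2, 1, 0, 2, 0],
    [0, 1, 1, 2, 0],
    [1, 1, 2, 2, 0],
    [2, 0, 1, 0, 1],
    [1, 1, 1, 0, 1],
    [2, 1, 1, 0, 1],
    [1, 2, 1, 0, 1],
    [2, 2, 1, 0, 1],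
    [1, 1, 2, 0, 1],
    [1, 1, 0, 1, 1],
    [2, 1, 0, 1, 1],
    [0, 2, 0, 1, 1],
    [1, 0, 1, 1, 1],
    [2, 0, 1, 1, 1],
    [1, 2, 2, 1, 1],
    [0, 1, 1, 2, 1],
    [1, 1, 2, 2, 1],
    [0, 1, 1, 0, 2],
    [2, 0, 1, 0, 1, 0],
    [1, 1, 1, 0, 1, 0],
    [2, 1, 1, 0, 1, 0],
    [1, 2, 1, 0, 1, 0],
    [2, 2, 1, 0, 1, 0],
    [1, 1, 2, 0, 1, 0],
    [1, 1, 0, 1, 1, 0],
    [2, 1, 0, 1, 1, 0],
    [0, 2, 0, 1, 1, 0],
    [1, 0, 1, 1, 1, 0],
    [2, 0, 1, 1, 1, 0],
    [1, 2, 2, 1, 1, 0],
    [0, 1, 1, 2, 1, 0],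
    [1, 1, 2, 2, 1, 0],
    [0, 1, 1, 0, 2, 0],
    [0, 2, 0, 1, 0, 1],
    [1, 2, 0, 1, 0, 1],
    [2, 2, 0, 1, 0, 1],
    [1, 2, 1, 1, 0, 1],
    [2, 2, 1, 1, 0, 1],
    [1, 2, 2, 1, 0, 1],
    [0, 1, 1, 2, 0, 1],
    [1, 1, 1, 0, 1, 1],
    [2, 1, 1, 0, 1, 1],
    [1, 1, 0, 1, 1, 1],
    [1, 1, 2, 2, 1, 1],
    [2, 0, 1, 1, 0, 2],
    [0, 2, 0, 1, 0, 1, 0],
    [1, 2, 0, 1, 0, 1, 0],
    [2, 2, 0, 1, 0, 1, 0],
    [1, 2, 1, 1, 0, 1, 0],
    [2, 2, 1, 1, 0, 1, 0],
    [1, 2, 2, 1, 0, 1, 0],
    [0, 1, 1, 2, 0, 1, 0],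
    [1, 1, 1, 0, 1, 1, 0],
    [2, 1, 1, 0, 1, 1, 0],
    [1, 1, 0, 1, 1, 1, 0],
    [1, 1, 2, 2, 1, 1, 0],
    [2, 0, 1, 1, 0, 2, 0]]

/-- the permutation parts -/
def tab (j : Fin 128) : Fin 8 → Fin 8 := decP (getN BIGT 24 j.1)

/-- the matrix parts -/
def WM (j : Fin 128) : Matrix I6 I6 (ZMod 2) := decM (getN BIGM 36 j.1)

/-- the generators: permutations -/
def tabg : Fin 3 → Fin 8 → Fin 8 := ![![4, 5, 6, 7, 0, 1, 2, 3], ![4, 5, 7, 6, 2, 3, 1, 0], ![4, 5, 6, 7, 0, 1, 3, 2]]

/-- the generators: inverse permutations -/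
def tabgi : Fin 3 → Fin 8 → Fin 8 := ![![4, 5, 6, 7, 0, 1, 2, 3], ![7, 6, 4, 5, 0, 1, 3, 2], ![4, 5, 7, 6, 0, 1, 2, 3]]

/-- the generators: matrices -/
def Ym (k : Fin 3) : Matrix I6 I6 (ZMod 2) := decM ((![58258396122, 56252689127, 19523362433] : Fin 3 → ℕ) k)

/-- the generators: inverse matrices -/
def Ymi (k : Fin 3) : Matrix I6 I6 (ZMod 2) := decM ((![58258396122, 55284910805, 25969720001] : Fin 3 → ℕ) k)

/-- shadow multiplication -/
def mulC (x y : (Fin 8 → Fin 8) × Matrix I6 I6 (ZMod 2)) : (Fin 8 → Fin 8) × Matrix I6 I6 (ZMod 2) :=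
  (x.1 ∘ y.1, x.2 * y.2)

/-- shadow evaluation of a word -/
def evC : List (Fin 3) → (Fin 8 → Fin 8) × Matrix I6 I6 (ZMod 2)
  | [] => (id, 1)
  | k :: l => mulC (tabg k, Ym k) (evC l)

theorem T1 : ∀ j : Fin 128, (evC (word j)).1 = tab j ∧ (evC (word j)).2 = WM j := by
  decide +kernel

theorem T2 : ∀ k : Fin 3, ∀ j : Fin 128,
    tabg k ∘ tab j = tab (nxt k j) ∧ Ym k * WM j = WM (nxt k j) := by
  decide +kernel

theorem T3 : ∀ i j : Fin 128, tab i = tab j → i = j := by
  decide +kernel

theorem T4 : ∀ j : Fin 128, WM j = 1 → j = 0 := by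
  decide +kernel

/-! ### the generators as group elements -/

theorem tabg_left : ∀ k : Fin 3, ∀ x : Fin 8, tabgi k (tabg k x) = x := by decide

theorem tabg_right : ∀ k : Fin 3, ∀ x : Fin 8, tabg k (tabgi k x) = x := by decide

/-- the permutation generators -/
def sg (k : Fin 3) : Equiv.Perm (Fin 8) := ⟨tabg k, tabgi k, tabg_left k, tabg_right k⟩

theorem Ym_mul : ∀ k : Fin 3, Ym k * Ymi k = 1 := by decide +kernel

theorem Ymi_mul : ∀ k : Fin 3, Ymi k * Ym k = 1 := by decide +kernel

/-- the quadratic form over `ZMod 2` -/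
abbrev Q0 : (I6 → ZMod 2) → ZMod 2 := Cfsg.quadFormMinus 2 (ZMod 2) 1 1

/-- a vector from its coordinates -/
def mkv (a b c d e f : ZMod 2) : I6 → ZMod 2 := Sum.elim (Sum.elim ![a, b] ![c, d]) ![e, f]

theorem Ym_iso0 : ∀ k : Fin 3, ∀ a b c d e f : ZMod 2,
    Q0 (Matrix.mulVec (Ym k) (mkv a b c d e f)) = Q0 (mkv a b c d e f) := by
  decide +kernel

theorem Ym_iso (k : Fin 3) (u : I6 → ZMod 2) : Q0 (Matrix.mulVec (Ym k) u) = Q0 u := by
  have hu : u = mkv (u (.inl (.inl 0))) (u (.inl (.inl 1))) (u (.inl (.inr 0)))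
      (u (.inl (.inr 1))) (u (.inr 0)) (u (.inr 1)) := by
    funext i
    rcases i with (i | i) | i <;> fin_cases i <;> rfl
  rw [hu]
  exact Ym_iso0 k _ _ _ _ _ _

/-- the matrix generators -/
def Yg (k : Fin 3) : ↥(Cfsg.isometryGroup (ZMod 2) Q0) :=
  ⟨⟨Ym k, Ymi k, Ym_mul k, Ymi_mul k⟩, fun u _ => Ym_iso k u⟩

/-- the pairs of generators -/
def gens (k : Fin 3) : Equiv.Perm (Fin 8) × ↥(Cfsg.isometryGroup (ZMod 2) Q0) := (sg k, Yg k)

/-- the shadow of a pair -/
def sh (x : Equiv.Perm (Fin 8) × ↥(Cfsg.isometryGroup (ZMod 2) Q0)) :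
    (Fin 8 → Fin 8) × Matrix I6 I6 (ZMod 2) :=
  (⇑x.1, ((x.2 : Matrix.GeneralLinearGroup I6 (ZMod 2)) : Matrix I6 I6 (ZMod 2)))

theorem sh_inj : Function.Injective sh := by
  rintro ⟨a1, a2⟩ ⟨b1, b2⟩ h
  have h1 : (⇑a1 : Fin 8 → Fin 8) = ⇑b1 := congrArg Prod.fst h
  have h2 : ((a2 : Matrix.GeneralLinearGroup I6 (ZMod 2)) : Matrix I6 I6 (ZMod 2)) =
      ((b2 : Matrix.GeneralLinearGroup I6 (ZMod 2)) : Matrix I6 I6 (ZMod 2)) := congrArg Prod.snd h
  have e1 : a1 = b1 := DFunLike.coe_injective h1
  have e2 : a2 = b2 := Subtype.ext (Units.ext h2)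
  rw [e1, e2]

theorem sh_mul (x y : Equiv.Perm (Fin 8) × ↥(Cfsg.isometryGroup (ZMod 2) Q0)) :
    sh (x * y) = mulC (sh x) (sh y) := rfl

theorem sh_evW (l : List (Fin 3)) : sh (evW gens l) = evC l := by
  induction l with
  | nil => rfl
  | cons k l ih =>
    rw [evW, sh_mul, ih]
    rfl

theorem word_zero : word 0 = [] := by decide

theorem cert :
    Nat.card (Subgroup.closure (Set.range fun k => (gens k).1)) = 128 ∧
    Nat.card (Subgroup.closure (Set.range fun k => (gens k).2)) = 128 ∧
    Nonempty (Subgroup.closure (Set.range fun k => (gens k).1) ≃*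
      Subgroup.closure (Set.range fun k => (gens k).2)) := by
  have hsh : ∀ j : Fin 128, sh (evW gens (word j)) = (tab j, WM j) := by
    intro j
    rw [sh_evW]
    exact Prod.ext (T1 j).1 (T1 j).2
  refine graph_cert gens word nxt 0 ?_ ?_ ?_ ?_
  · rw [word_zero]
    rfl
  · intro k j
    apply sh_inj
    rw [sh_mul, hsh, hsh]
    exact Prod.ext (T2 k j).1 (T2 k j).2
  · intro i j h
    apply T3
    have hi := congrArg Prod.fst (hsh i)
    have hj := congrArg Prod.fst (hsh j)
    have hi' : (⇑(evW gens (word i)).1 : Fin 8 → Fin 8) = tab i := hi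
    have hj' : (⇑(evW gens (word j)).1 : Fin 8 → Fin 8) = tab j := hj
    rw [← hi', ← hj', h]
  · intro j h
    apply T4
    have hj := congrArg Prod.snd (hsh j)
    have hj' : (((evW gens (word j)).2 : Matrix.GeneralLinearGroup I6 (ZMod 2)) :
        Matrix I6 I6 (ZMod 2)) = WM j := hj
    rw [← hj', h]
    rfl

theorem zero_or_one {K : Type*} [Field K] [Fintype K] (hK : Fintype.card K = 2) (x : K) :
    x = 0 ∨ x = 1 := by
  let σ : ZMod 2 ≃+* K := ZMod.ringEquivOfPrime K Nat.prime_two hK
  have h0 : ∀ y : ZMod 2, y = 0 ∨ y = 1 := by decide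
  rcases h0 (σ.symm x) with h | h
  · left
    have := congrArg σ h
    rwa [RingEquiv.apply_symm_apply, map_zero] at this
  · right
    have := congrArg σ h
    rwa [RingEquiv.apply_symm_apply, map_one] at this

theorem one_add_one {K : Type*} [Field K] [Fintype K] (hK : Fintype.card K = 2) :
    (1 : K) + 1 = 0 := by
  let σ : ZMod 2 ≃+* K := ZMod.ringEquivOfPrime K Nat.prime_two hK
  have h0 : (1 : ZMod 2) + 1 = 0 := by decide
  have := congrArg σ h0
  rwa [map_add, map_one, map_zero] at this

/-- Sylow 2-subgroups of `S₈` and of `O₆⁻(2)` are isomorphic. -/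
theorem main (K : Type) [Field K] [Fintype K] (hK : Fintype.card K = 2) (a b : K)
    (hab : ∀ z₁ z₂ : K, z₁ ^ 2 + a * z₁ * z₂ + b * z₂ ^ 2 = 0 → z₁ = 0 ∧ z₂ = 0)
    (P' : Sylow 2 (Equiv.Perm (Fin 8)))
    (Q' : Sylow 2 ↥(Cfsg.isometryGroup K (Cfsg.quadFormMinus 2 K a b))) :
    Nonempty (↥(P' : Subgroup (Equiv.Perm (Fin 8))) ≃*
      ↥(Q' : Subgroup ↥(Cfsg.isometryGroup K (Cfsg.quadFormMinus 2 K a b)))) := by
  haveI : Fact (Nat.Prime 2) := ⟨Nat.prime_two⟩
  have hb : b = 1 := by
    rcases zero_or_one hK b with h | h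
    · exfalso
      have := (hab 0 1 (by rw [h]; ring)).2
      exact one_ne_zero this
    · exact h
  have ha : a = 1 := by
    rcases zero_or_one hK a with h | h
    · exfalso
      have := (hab 1 1 (by rw [h, hb]; have := one_add_one hK; linear_combination this)).1
      exact one_ne_zero this
    · exact h
  subst ha hb
  have hcardG : Nat.card ↥(Cfsg.isometryGroup K (Cfsg.quadFormMinus 2 K 1 1)) = 51840 := by
    have h := Cfsg.Agent.S0288.key hK 1 1 hab 2
    rw [h]
    norm_num [Finset.prod_range_succ]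
  haveI : Finite ↥(Cfsg.isometryGroup K (Cfsg.quadFormMinus 2 K 1 1)) :=
    Nat.finite_of_card_ne_zero (by rw [hcardG]; norm_num)
  let σ : ZMod 2 ≃+* K := ZMod.ringEquivOfPrime K Nat.prime_two hK
  obtain ⟨τ, hτ⟩ := Cfsg.Agent.H48.exists_hom_isometryGroup_of_ringEquiv σ
    (Cfsg.quadFormMinus 2 (ZMod 2) 1 1) (Cfsg.quadFormMinus 2 K 1 1)
    (Cfsg.Agent.H48.quadFormMinus_map σ 2)
  obtain ⟨hA, hB, ⟨eAB⟩⟩ := cert
  -- the permutation side
  have hcardS : Nat.card (Equiv.Perm (Fin 8)) = 40320 := by
    rw [Nat.card_perm, Nat.card_fin]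
    rfl
  obtain ⟨e1⟩ := iso_sylow_of_card (p := 2)
    (Subgroup.closure (Set.range fun k => (gens k).1)) 7 (by rw [hA]; norm_num)
    (by rw [hcardS]; norm_num) P'
  -- the matrix side
  have hcB : Nat.card ((Subgroup.closure (Set.range fun k => (gens k).2)).map τ) = 2 ^ 7 := by
    rw [← Nat.card_congr
      ((Subgroup.closure (Set.range fun k => (gens k).2)).equivMapOfInjective τ hτ).toEquiv, hB]
    norm_num
  obtain ⟨e2⟩ := iso_sylow_of_card (p := 2)
    ((Subgroup.closure (Set.range fun k => (gens k).2)).map τ) 7 hcB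
    (by rw [hcardG]; norm_num) Q'
  exact ⟨e1.symm.trans (eAB.trans
    (((Subgroup.closure (Set.range fun k => (gens k).2)).equivMapOfInjective τ hτ).trans e2))⟩

end Cfsg.Agent.H98.Syl8O
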