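import Mathlib
import Cfsg.Prelude.Def_Classical
import Cfsg.Agent.H98.GraphCert
import Cfsg.Agent.H50.SpCard
import Cfsg.Agent.H61.L211

set_option autoImplicit false

namespace Cfsg.Agent.H98.Syl8Sp

open Cfsg Cfsg.Agent.H98.GraphCert

/-- the index type of the four-dimensional space -/
abbrev I4 : Type := Fin 2 ⊕ Fin 2

/-- position of an index -/
def ix4 : I4 → ℕ
  | .inl i => i.1
  | .inr i => i.1 + 2

/-- decode a `4 × 4` matrix over `ZMod 3` -/
def decM (code : ℕ) : Matrix I4 I4 (ZMod 3) :=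
  fun a b => ((code / 4 ^ (4 * ix4 a + ix4 b) % 4 : ℕ) : ZMod 3)

/-- decode a map on `Fin 8` -/
def decP (code : ℕ) : Fin 8 → Fin 8 := fun x => ⟨code / 8 ^ x.1 % 8, Nat.mod_lt _ (by norm_num)⟩

/-- the permutation table -/
def BIGT : ℕ := 2361057133615008488857479323031421400042309496362962885671810745922868038311578615172998689519319386660367749676533308849331937635651959605608543869516728904608700179345334264617766384925383829933596451767650516977134552793423879876369263249288284684120405079222308045244566549138602437519346703065934343055941027724705692209707970827906673051055936090110956022747649816977943730771916587969836350916771737494614539556187417656730711751179142159484023703435134600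

/-- the matrix table -/
def BIGM : ℕ := 506186136274885403356864789904774912950924824252107892762453632313867759823659298227257295235800375953834046274109758287927625209798288177046302340948968631946074294123192574110225704466354198976675462042474484849439840711303778981491107984555686606726262001722981177612357529219199170826445758779255629610107527234670330759466401374782042083245827099622141681389406957559781443694423836755602535768961366431471604023079881495922064432688174984831592979335809514455021079320469279645646466501124077414835398801296552362825519666437750384379471372582720344445882463423917584063933979330037891229353408990313337324545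

/-- the multiplication table -/
def nxtN : Fin 3 → ℕ := ![2995401116580285374006954589686163806390544366628256357201904845643073193319934573331777844092490772834396292501864592004239901976458278617308463423160321, 2577427661941634376800461093630066286763500669051886350488264347653725569183976949288542802808903295427870272686122333879242844956932413161568856629576706, 684592726729657340084927720729037844754075896952087983114978889608822742966941327924886389208425419216516838136051823489569413548702933565750483958039811]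

/-- the multiplication table -/
def nxt (k : Fin 3) (j : Fin 64) : Fin 64 :=
  ⟨getN (nxtN k) 8 j.1 % 64, Nat.mod_lt _ (by norm_num)⟩

/-- the words -/
def word : Fin 64 → List (Fin 3) :=
  ![[],
    [0],
    [1],
    [2],
    [1, 0],
    [2, 0],
    [0, 1],
    [2, 1],
    [0, 2],
    [1, 2],
    [2, 2],
    [0, 1, 0],
    [2, 1, 0],
    [0, 2, 0],
    [1, 2, 0],
    [2, 2, 0],
    [1, 0, 1],
    [2, 0, 1],
    [0, 2, 1],
    [1, 2, 1],
    [2, 2, 1],
    [1, 0, 2],
    [2, 0, 2],
    [0, 2, 2],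
    [1, 0, 1, 0],
    [2, 0, 1, 0],
    [0, 2, 1, 0],
    [1, 2, 1, 0],
    [2, 2, 1, 0],
    [1, 0, 2, 0],
    [2, 0, 2, 0],
    [0, 2, 2, 0],
    [2, 1, 0, 1],
    [0, 2, 0, 1],
    [1, 2, 0, 1],
    [2, 2, 0, 1],
    [1, 0, 2, 1],
    [2, 0, 2, 1],
    [0, 2, 2, 1],
    [2, 1, 0, 2],
    [0, 2, 0, 2],
    [2, 2, 0, 2],
    [2, 1, 0, 1, 0],
    [0, 2, 0, 1, 0],
    [1, 2, 0, 1, 0],
    [2, 2, 0, 1, 0],
    [1, 0, 2, 1, 0],
    [2, 0, 2, 1, 0],
    [0, 2, 2, 1, 0],
    [2, 1, 0, 2, 0],
    [0, 2, 0, 2, 0],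
    [2, 2, 0, 2, 0],
    [0, 2, 1, 0, 1],
    [1, 2, 1, 0, 1],
    [2, 1, 0, 2, 1],
    [2, 2, 0, 2, 1],
    [0, 2, 1, 0, 2],
    [1, 2, 1, 0, 2],
    [0, 2, 1, 0, 1, 0],
    [1, 2, 1, 0, 1, 0],
    [2, 1, 0, 2, 1, 0],
    [2, 2, 0, 2, 1, 0],
    [0, 2, 1, 0, 2, 0],
    [1, 2, 1, 0, 2, 0]]

/-- the permutation parts -/
def tab (j : Fin 64) : Fin 8 → Fin 8 := decP (getN BIGT 24 j.1)

/-- the matrix parts -/
def WM (j : Fin 64) : Matrix I4 I4 (ZMod 3) := decM (getN BIGM 32 j.1)

/-- the generators: permutations -/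
def tabg : Fin 3 → Fin 8 → Fin 8 := ![![0, 1, 3, 2, 4, 5, 7, 6], ![0, 1, 2, 3, 6, 7, 4, 5], ![6, 7, 4, 5, 0, 1, 2, 3]]

/-- the generators: inverse permutations -/
def tabgi : Fin 3 → Fin 8 → Fin 8 := ![![0, 1, 3, 2, 4, 5, 7, 6], ![0, 1, 2, 3, 6, 7, 4, 5], ![4, 5, 6, 7, 2, 3, 0, 1]]

/-- the generators: matrices -/
def Ym (k : Fin 3) : Matrix I4 I4 (ZMod 3) := decM ((![2216838177, 310649412, 285741632] : Fin 3 → ℕ) k)

/-- non-commuting witnesses -/
def Xm (l : Fin 2) : Matrix I4 I4 (ZMod 3) := decM ((![1209009153, 1243218945] : Fin 2 → ℕ) l)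

/-- shadow evaluation of a word: permutations -/
def evP : List (Fin 3) → Fin 8 → Fin 8
  | [] => id
  | k :: l => tabg k ∘ evP l

/-- shadow evaluation of a word: matrices -/
def evM : List (Fin 3) → Matrix I4 I4 (ZMod 3)
  | [] => 1
  | k :: l => Ym k * evM l

theorem T1 : ∀ j : Fin 64, evP (word j) = tab j ∧ evM (word j) = WM j := by
  decide +kernel

theorem T2 : ∀ k : Fin 3, ∀ j : Fin 64,
    tabg k ∘ tab j = tab (nxt k j) ∧
      (Ym k * WM j = WM (nxt k j) ∨ Ym k * WM j = -WM (nxt k j)) := by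
  decide +kernel

theorem T3 : ∀ i j : Fin 64, tab i = tab j → i = j := by
  decide +kernel

theorem T4 : ∀ j : Fin 64, (∀ l : Fin 2, WM j * Xm l = Xm l * WM j) → j = 0 := by
  decide +kernel

theorem T5 : ∀ k : Fin 3, Ym k * Matrix.J (Fin 2) (ZMod 3) * (Ym k).transpose =
    Matrix.J (Fin 2) (ZMod 3) := by
  decide +kernel

theorem T6 : ∀ l : Fin 2, Xm l * Matrix.J (Fin 2) (ZMod 3) * (Xm l).transpose =
    Matrix.J (Fin 2) (ZMod 3) := by
  decide +kernel

/-! ### the generators as group elements -/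

theorem tabg_left : ∀ k : Fin 3, ∀ x : Fin 8, tabgi k (tabg k x) = x := by decide

theorem tabg_right : ∀ k : Fin 3, ∀ x : Fin 8, tabg k (tabgi k x) = x := by decide

/-- the permutation generators -/
def sg (k : Fin 3) : Equiv.Perm (Fin 8) := ⟨tabg k, tabgi k, tabg_left k, tabg_right k⟩

theorem sg_sign : ∀ k : Fin 3, Equiv.Perm.sign (sg k) = 1 := by decide

/-- the symplectic group over `ZMod 3` -/
abbrev Sp3 : Type := ↥(Matrix.symplecticGroup (Fin 2) (ZMod 3))

/-- the matrix generators -/
def Ys (k : Fin 3) : Sp3 := ⟨Ym k, SymplecticGroup.mem_iff.2 (T5 k)⟩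

/-- the witnesses -/
def Xs (l : Fin 2) : Sp3 := ⟨Xm l, SymplecticGroup.mem_iff.2 (T6 l)⟩

/-- the central element `-1` -/
def negOne : Sp3 := ⟨-1, SymplecticGroup.neg_mem (one_mem _)⟩

theorem negOne_mem_center : negOne ∈ Subgroup.center Sp3 := by
  rw [Subgroup.mem_center_iff]
  intro g
  apply Subtype.ext
  show (g : Matrix I4 I4 (ZMod 3)) * (-1) = (-1) * (g : Matrix I4 I4 (ZMod 3))
  rw [mul_neg, neg_mul, mul_one, one_mul]

/-- the projection onto `PSp₄(3)` -/
def pr : Sp3 →* Cfsg.PSp 2 (ZMod 3) := QuotientGroup.mk' (Subgroup.center Sp3)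

theorem pr_eq_of (A B : Sp3) (h : (A : Matrix I4 I4 (ZMod 3)) = B ∨
    (A : Matrix I4 I4 (ZMod 3)) = -(B : Matrix I4 I4 (ZMod 3))) : pr A = pr B := by
  rcases h with h | h
  · rw [Subtype.ext h]
  · have hA : A = negOne * B := by
      apply Subtype.ext
      show (A : Matrix I4 I4 (ZMod 3)) = (-1) * (B : Matrix I4 I4 (ZMod 3))
      rw [h, neg_mul, one_mul]
    have h1 : pr negOne = 1 := (QuotientGroup.eq_one_iff negOne).2 negOne_mem_center
    rw [hA, map_mul, h1, one_mul]

/-- the pairs of generators -/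
def gens (k : Fin 3) : Equiv.Perm (Fin 8) × Cfsg.PSp 2 (ZMod 3) := (sg k, pr (Ys k))

theorem evW_fst (l : List (Fin 3)) : (evW gens l).1 = evW sg l :=
  map_evW (MonoidHom.fst (Equiv.Perm (Fin 8)) (Cfsg.PSp 2 (ZMod 3))) gens l

theorem evW_snd (l : List (Fin 3)) : (evW gens l).2 = pr (evW Ys l) := by
  rw [map_evW pr Ys l]
  exact map_evW (MonoidHom.snd (Equiv.Perm (Fin 8)) (Cfsg.PSp 2 (ZMod 3))) gens l

theorem coe_evW_sg (l : List (Fin 3)) : (⇑(evW sg l) : Fin 8 → Fin 8) = evP l := by
  induction l with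
  | nil => rfl
  | cons k l ih =>
    rw [evW, evP, Equiv.Perm.coe_mul, ih]
    rfl

theorem coe_evW_Ys (l : List (Fin 3)) : ((evW Ys l : Sp3) : Matrix I4 I4 (ZMod 3)) = evM l := by
  induction l with
  | nil => rfl
  | cons k l ih =>
    rw [evW, evM, ← ih]
    rfl

theorem word_zero : word 0 = [] := by decide

theorem cert :
    Nat.card (Subgroup.closure (Set.range fun k => (gens k).1)) = 64 ∧
    Nat.card (Subgroup.closure (Set.range fun k => (gens k).2)) = 64 ∧
    Nonempty (Subgroup.closure (Set.range fun k => (gens k).1) ≃*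
      Subgroup.closure (Set.range fun k => (gens k).2)) := by
  have hP : ∀ j : Fin 64, (⇑(evW gens (word j)).1 : Fin 8 → Fin 8) = tab j := by
    intro j
    rw [evW_fst, coe_evW_sg]
    exact (T1 j).1
  have hM : ∀ j : Fin 64, ((evW Ys (word j) : Sp3) : Matrix I4 I4 (ZMod 3)) = WM j := by
    intro j
    rw [coe_evW_Ys]
    exact (T1 j).2
  refine graph_cert gens word nxt 0 ?_ ?_ ?_ ?_
  · rw [word_zero]
    rfl
  · intro k j
    refine Prod.ext ?_ ?_
    · apply DFunLike.coe_injective
      show (⇑((gens k).1 * (evW gens (word j)).1) : Fin 8 → Fin 8) = _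
      rw [Equiv.Perm.coe_mul, hP, hP]
      exact (T2 k j).1
    · show (gens k).2 * (evW gens (word j)).2 = (evW gens (word (nxt k j))).2
      rw [evW_snd, evW_snd]
      show pr (Ys k) * pr (evW Ys (word j)) = pr (evW Ys (word (nxt k j)))
      rw [← map_mul]
      apply pr_eq_of
      have h1 : ((Ys k * evW Ys (word j) : Sp3) : Matrix I4 I4 (ZMod 3)) = Ym k * WM j := by
        rw [← hM j]
        rfl
      rw [h1, hM]
      exact (T2 k j).2
  · intro i j h
    apply T3
    rw [← hP i, ← hP j, h]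
  · intro j h
    apply T4
    intro l
    rw [evW_snd] at h
    have hc : evW Ys (word j) ∈ Subgroup.center Sp3 := (QuotientGroup.eq_one_iff _).1 h
    rw [Subgroup.mem_center_iff] at hc
    have h2 := congrArg (Subtype.val) (hc (Xs l))
    have h3 : Xm l * WM j = WM j * Xm l := by
      rw [← hM j]
      exact h2
    exact h3.symm

/-- symplectic groups of isomorphic rings are isomorphic -/
def spEquiv {R S : Type*} [CommRing R] [CommRing S] (e : R ≃+* S) :
    Matrix.symplecticGroup (Fin 2) R ≃* Matrix.symplecticGroup (Fin 2) S where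
  toFun A := ⟨A.1.map e, SymplecticGroup.map_mem A.2 e⟩
  invFun A := ⟨A.1.map e.symm, SymplecticGroup.map_mem A.2 e.symm⟩
  left_inv A := by
    apply Subtype.ext
    ext i j
    simp
  right_inv A := by
    apply Subtype.ext
    ext i j
    simp
  map_mul' A B := by
    apply Subtype.ext
    simp [Matrix.map_mul]

theorem card_PSp3 : ¬ 2 ^ (6 + 1) ∣ Nat.card (Cfsg.PSp 2 (ZMod 3)) := by
  have : Fact (Nat.Prime 2) := ⟨Nat.prime_two⟩
  have h1 : Nat.card Sp3 = 51840 := by
    have h := Cfsg.Agent.H50.SpCard.card_sp (F := ZMod 3) (q := 3) (ZMod.card 3) 2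
    rw [h]
    norm_num [Finset.prod_range_succ]
  have h2 := Subgroup.card_eq_card_quotient_mul_card_subgroup (Subgroup.center Sp3)
  have h3 : 2 ∣ Nat.card (Subgroup.center Sp3) := by
    have ho : orderOf (⟨negOne, negOne_mem_center⟩ : Subgroup.center Sp3) = 2 := by
      apply orderOf_eq_prime
      · apply Subtype.ext
        apply Subtype.ext
        show (-1 : Matrix I4 I4 (ZMod 3)) ^ 2 = 1
        rw [neg_one_sq]
      · intro h
        have h' := congrArg (fun x : Subgroup.center Sp3 => ((x : Sp3) : Matrix I4 I4 (ZMod 3))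
          (Sum.inl 0) (Sum.inl 0)) h
        revert h'
        show ¬ ((-1 : Matrix I4 I4 (ZMod 3)) (Sum.inl 0) (Sum.inl 0) =
          (1 : Matrix I4 I4 (ZMod 3)) (Sum.inl 0) (Sum.inl 0))
        decide
    have hd := orderOf_dvd_natCard (⟨negOne, negOne_mem_center⟩ : Subgroup.center Sp3)
    rw [ho] at hd
    exact hd
  rw [h1] at h2
  obtain ⟨z, hz⟩ := h3
  rw [hz] at h2
  intro hdvd
  obtain ⟨c, hc⟩ := hdvd
  have hc' : Nat.card (Sp3 ⧸ Subgroup.center Sp3) = 2 ^ (6 + 1) * c := hc
  rw [hc'] at h2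
  have h4 : 51840 = 256 * (c * z) := by rw [h2]; ring
  omega

/-- Sylow 2-subgroups of `A₈` and of `PSp₄(3)` are isomorphic. -/
theorem main (F : Type) [Field F] [Fintype F] (hF : Fintype.card F = 3)
    (P : Sylow 2 ↥(alternatingGroup (Fin 8))) (Q : Sylow 2 (Cfsg.PSp 2 F)) :
    Nonempty (↥(P : Subgroup ↥(alternatingGroup (Fin 8))) ≃* ↥(Q : Subgroup (Cfsg.PSp 2 F))) := by
  classical
  have : Fact (Nat.Prime 2) := ⟨Nat.prime_two⟩
  have : Fact (Nat.Prime 3) := ⟨Nat.prime_three⟩
  obtain ⟨hA, hB, ⟨eAB⟩⟩ := cert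
  -- the permutation side
  have hle : Subgroup.closure (Set.range fun k => (gens k).1) ≤ alternatingGroup (Fin 8) := by
    rw [Subgroup.closure_le]
    rintro _ ⟨k, rfl⟩
    exact Equiv.Perm.mem_alternatingGroup.2 (sg_sign k)
  have hcardA8 : Nat.card ↥(alternatingGroup (Fin 8)) = 20160 := by
    have h := two_mul_nat_card_alternatingGroup (α := Fin 8)
    rw [Nat.card_perm, Nat.card_fin] at h
    have h8 : (8 : ℕ).factorial = 40320 := rfl
    omega
  have hcA' : Nat.card ((Subgroup.closure (Set.range fun k => (gens k).1)).subgroupOf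
      (alternatingGroup (Fin 8))) = 2 ^ 6 := by
    rw [Nat.card_congr (Subgroup.subgroupOfEquivOfLe hle).toEquiv, hA]
    norm_num
  obtain ⟨e1⟩ := iso_sylow_of_card (p := 2)
    ((Subgroup.closure (Set.range fun k => (gens k).1)).subgroupOf (alternatingGroup (Fin 8)))
    6 hcA' (by rw [hcardA8]; norm_num) P
  -- the matrix side
  let eF : ZMod 3 ≃+* F := ZMod.ringEquivOfPrime F Nat.prime_three hF
  let e : Cfsg.PSp 2 (ZMod 3) ≃* Cfsg.PSp 2 F :=
    QuotientGroup.congr (Subgroup.center (Matrix.symplecticGroup (Fin 2) (ZMod 3)))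
      (Subgroup.center (Matrix.symplecticGroup (Fin 2) F))
      (spEquiv eF) (Cfsg.Agent.H61.map_center_of_mulEquiv _)
  have hcB : Nat.card ((Subgroup.closure (Set.range fun k => (gens k).2)).map
      (e : Cfsg.PSp 2 (ZMod 3) →* Cfsg.PSp 2 F)) = 2 ^ 6 := by
    rw [← Nat.card_congr
      (e.subgroupMap (Subgroup.closure (Set.range fun k => (gens k).2))).toEquiv, hB]
    norm_num
  have hG : ¬ 2 ^ (6 + 1) ∣ Nat.card (Cfsg.PSp 2 F) := by
    rw [← Nat.card_congr e.toEquiv]
    exact card_PSp3
  obtain ⟨e2⟩ := iso_sylow_of_card (p := 2)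
    ((Subgroup.closure (Set.range fun k => (gens k).2)).map
      (e : Cfsg.PSp 2 (ZMod 3) →* Cfsg.PSp 2 F)) 6 hcB hG Q
  exact ⟨e1.symm.trans ((Subgroup.subgroupOfEquivOfLe hle).trans (eAB.trans
    ((e.subgroupMap (Subgroup.closure (Set.range fun k => (gens k).2))).trans e2)))⟩

end Cfsg.Agent.H98.Syl8Sp
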