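import Mathlib
import Cfsg.Agent.H1.Basic
import Cfsg.Agent.H1.Coprime
import Cfsg.Agent.S0023
import Cfsg.Agent.H58.SylInv

/-!
# Counting Sylow subgroups (helper98)

* `relIndex_sup_swap` : `|A X : A| = |X : A ∩ X|` when `A` normalizes `X`.
* `card_sylow_of_le` : `n_p(H) = |H : N_H(P)|` for `P ≤ H` a Sylow `p`-subgroup of `G`.
* `frattini_normalizer` : `N_G(X) ≤ N_G(P) X` for `P ≤ X`.
* `card_sylow_quotient_mul` : `n_p(G) = n_p(G/N) * n_p(PN)`.
* `card_sylow_normal_mul` : if `G = PN` then `n_p(G) = n_p(N) * n_p(N_G(P ∩ N))`.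
* `relIndex_normalizer_sup` : `n_p(P D) = |D : C_D(P)|` if `P` normalizes `D`, `P ∩ D = 1`.
* `good_card_sylow` : M. Hall's theorem on the number of Sylow subgroups.
-/

set_option autoImplicit false

universe u

namespace Cfsg.Agent.H98

open Subgroup

variable {G : Type*} [Group G]

/-- `|A X : A| = |X : A ∩ X|` when `A` normalizes `X`. -/
theorem relIndex_sup_swap [Finite G] (A X : Subgroup G) (h : A ≤ normalizer (X : Set G)) :
    A.relIndex (A ⊔ X) = A.relIndex X := by
  have e1 : X.relIndex (A ⊔ X) = X.relIndex A :=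
    Cfsg.Agent.H1.relIndex_sup_of_le_normalizer A X h
  have c1 : Nat.card X * X.relIndex (A ⊔ X) = Nat.card (A ⊔ X : Subgroup G) := by
    have := Subgroup.relIndex_mul_relIndex (H := ⊥) (K := X) (L := A ⊔ X) bot_le le_sup_right
    rwa [Subgroup.relIndex_bot_left, Subgroup.relIndex_bot_left] at this
  have c2 : Nat.card (X ⊓ A : Subgroup G) * X.relIndex A = Nat.card A := by
    have := Subgroup.relIndex_mul_relIndex (H := ⊥) (K := X ⊓ A) (L := A) bot_le inf_le_right
    rwa [Subgroup.relIndex_bot_left, Subgroup.relIndex_bot_left,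
      Subgroup.inf_relIndex_right] at this
  have c3 : Nat.card A * A.relIndex (A ⊔ X) = Nat.card (A ⊔ X : Subgroup G) := by
    have := Subgroup.relIndex_mul_relIndex (H := ⊥) (K := A) (L := A ⊔ X) bot_le le_sup_left
    rwa [Subgroup.relIndex_bot_left, Subgroup.relIndex_bot_left] at this
  have c4 : Nat.card (A ⊓ X : Subgroup G) * A.relIndex X = Nat.card X := by
    have := Subgroup.relIndex_mul_relIndex (H := ⊥) (K := A ⊓ X) (L := X) bot_le inf_le_right
    rwa [Subgroup.relIndex_bot_left, Subgroup.relIndex_bot_left,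
      Subgroup.inf_relIndex_right] at this
  have hpos : 0 < Nat.card A := Nat.card_pos
  rw [inf_comm] at c2
  apply Nat.eq_of_mul_eq_mul_left hpos
  rw [c3, ← c1, e1, ← c4]
  conv_rhs => rw [← c2]
  ring

theorem le_normalizer_of_normal' (A N : Subgroup G) [N.Normal] : A ≤ normalizer (N : Set G) := by
  rw [Subgroup.normalizer_eq_top_iff.mpr inferInstance]; exact le_top

/-- The number of Sylow subgroups of a subgroup `H`, given a Sylow subgroup of `H`. -/
theorem card_sylow_subgroup [Finite G] {p : ℕ} [Fact p.Prime] (H S : Subgroup G) (hS : S ≤ H)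
    (Q : Sylow p ↥H) (hQ : (Q : Subgroup ↥H) = S.subgroupOf H) :
    Nat.card (Sylow p ↥H) = (normalizer (S : Set G)).relIndex H := by
  rw [Q.card_eq_index_normalizer, ← Sylow.coe_coe, hQ, ← Subgroup.subgroupOf_normalizer_eq hS]
  rfl

/-- `n_p(H) = |H : N_H(P)|` for a Sylow subgroup `P` of `G` inside `H`. -/
theorem card_sylow_of_le [Finite G] {p : ℕ} [Fact p.Prime] (P : Sylow p G) (H : Subgroup G)
    (hP : (P : Subgroup G) ≤ H) :
    Nat.card (Sylow p ↥H) = (normalizer ((P : Subgroup G) : Set G)).relIndex H :=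
  card_sylow_subgroup H P hP (P.subtype hP) (Sylow.coe_subtype _ hP)

/-- Frattini argument for a subgroup `X` containing the Sylow subgroup `P`. -/
theorem frattini_normalizer [Finite G] {p : ℕ} [Fact p.Prime] (P : Sylow p G) (X : Subgroup G)
    (hPX : (P : Subgroup G) ≤ X) :
    normalizer (X : Set G) ≤ normalizer ((P : Subgroup G) : Set G) ⊔ X := by
  intro g hg
  have hXM : X ≤ normalizer (X : Set G) := Subgroup.le_normalizer
  have hPM : (P : Subgroup G) ≤ normalizer (X : Set G) := hPX.trans hXM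
  have : (X.subgroupOf (normalizer (X : Set G))).Normal := Subgroup.normal_in_normalizer
  have key := Sylow.normalizer_sup_eq_top' (P.subtype hPM)
    (N := X.subgroupOf (normalizer (X : Set G)))
    (by rw [Sylow.coe_subtype]; exact Subgroup.comap_mono hPX)
  have hmem : (⟨g, hg⟩ : normalizer (X : Set G)) ∈
      normalizer ((P.subtype hPM : Sylow p ↥(normalizer (X : Set G))) : Set _) ⊔
        X.subgroupOf (normalizer (X : Set G)) := by
    rw [key]; exact Subgroup.mem_top _
  rw [← SetLike.mem_coe, Subgroup.mul_normal] at hmem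
  obtain ⟨a, ha, b, hb, hab⟩ := Set.mem_mul.mp hmem
  have ha' : (a : G) ∈ normalizer ((P : Subgroup G) : Set G) := by
    rw [SetLike.mem_coe, ← Sylow.coe_coe, Sylow.coe_subtype,
      ← Subgroup.subgroupOf_normalizer_eq hPM] at ha
    exact Subgroup.mem_subgroupOf.mp ha
  have hb' : (b : G) ∈ X := Subgroup.mem_subgroupOf.mp hb
  have hg' : g = (a : G) * (b : G) := by
    have := congrArg Subtype.val hab
    simpa using this.symm
  rw [hg']
  exact Subgroup.mul_mem_sup ha' hb'

/-- `n_p(G) = n_p(G/N) * n_p(PN)`. -/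
theorem card_sylow_quotient_mul [Finite G] {p : ℕ} [Fact p.Prime] (P : Sylow p G)
    (N : Subgroup G) [N.Normal] :
    Nat.card (Sylow p G) = Nat.card (Sylow p (G ⧸ N)) *
      (normalizer ((P : Subgroup G) : Set G)).relIndex ((P : Subgroup G) ⊔ N) := by
  have hsurj := QuotientGroup.mk'_surjective N
  have h1 : Nat.card (Sylow p (G ⧸ N)) =
      (normalizer (((P : Subgroup G) ⊔ N : Subgroup G) : Set G)).index := by
    rw [(P.mapSurjective hsurj).card_eq_index_normalizer, ← Sylow.coe_coe,
      Sylow.coe_mapSurjective, ← Subgroup.index_comap_of_surjective _ hsurj,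
      Subgroup.comap_normalizer_eq_of_surjective _ hsurj, Subgroup.comap_map_eq,
      QuotientGroup.ker_mk']
  have hNPM : normalizer ((P : Subgroup G) : Set G) ≤
      normalizer (((P : Subgroup G) ⊔ N : Subgroup G) : Set G) :=
    Cfsg.Agent.H1.le_normalizer_sup _ (P : Subgroup G) N le_rfl (le_normalizer_of_normal' _ N)
  have hfr : normalizer (((P : Subgroup G) ⊔ N : Subgroup G) : Set G) =
      normalizer ((P : Subgroup G) : Set G) ⊔ ((P : Subgroup G) ⊔ N) :=
    le_antisymm (frattini_normalizer P _ le_sup_left) (sup_le hNPM Subgroup.le_normalizer)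
  have h2 : (normalizer ((P : Subgroup G) : Set G)).relIndex
      (normalizer (((P : Subgroup G) ⊔ N : Subgroup G) : Set G)) =
      (normalizer ((P : Subgroup G) : Set G)).relIndex ((P : Subgroup G) ⊔ N) := by
    conv_lhs => rw [hfr]
    exact relIndex_sup_swap _ _ hNPM
  rw [P.card_eq_index_normalizer, h1, ← h2, mul_comm]
  exact (Subgroup.relIndex_mul_index hNPM).symm

/-- If `G = PN` then `n_p(G) = n_p(N) * n_p(N_G(P ∩ N))`. -/
theorem card_sylow_normal_mul [Finite G] {p : ℕ} [Fact p.Prime] (P : Sylow p G) (N : Subgroup G)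
    [N.Normal] (hPN : (P : Subgroup G) ⊔ N = ⊤) :
    Nat.card (Sylow p G) = Nat.card (Sylow p ↥N) *
      Nat.card (Sylow p ↥(normalizer (((P : Subgroup G) ⊓ N : Subgroup G) : Set G))) := by
  have hPnN : (P : Subgroup G) ≤ normalizer (N : Set G) := le_normalizer_of_normal' _ N
  have hNPT : normalizer ((P : Subgroup G) : Set G) ≤
      normalizer (((P : Subgroup G) ⊓ N : Subgroup G) : Set G) :=
    Cfsg.Agent.H1.le_normalizer_inf _ (P : Subgroup G) N le_rfl (le_normalizer_of_normal' _ N)
  have hPT : (P : Subgroup G) ≤ normalizer (((P : Subgroup G) ⊓ N : Subgroup G) : Set G) :=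
    Subgroup.le_normalizer.trans hNPT
  have hidx : ¬ p ∣ (((P : Subgroup G) ⊓ N).subgroupOf N).index := by
    have e : (((P : Subgroup G) ⊓ N).subgroupOf N).index = (P : Subgroup G).relIndex N := by
      rw [← Subgroup.inf_relIndex_right]; rfl
    rw [e, ← relIndex_sup_swap (P : Subgroup G) N hPnN, hPN, Subgroup.relIndex_top_right]
    exact P.not_dvd_index
  have hpg : IsPGroup p ↥(((P : Subgroup G) ⊓ N).subgroupOf N) :=
    (P.isPGroup'.to_le inf_le_left).comap_subtype
  have h1 : Nat.card (Sylow p ↥N) =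
      (normalizer (((P : Subgroup G) ⊓ N : Subgroup G) : Set G)).relIndex N :=
    card_sylow_subgroup N ((P : Subgroup G) ⊓ N) inf_le_right (hpg.toSylow hidx) rfl
  have h2 := card_sylow_of_le P _ hPT
  have h3 : (normalizer (((P : Subgroup G) ⊓ N : Subgroup G) : Set G)).index =
      (normalizer (((P : Subgroup G) ⊓ N : Subgroup G) : Set G)).relIndex N := by
    have hT : normalizer (((P : Subgroup G) ⊓ N : Subgroup G) : Set G) ⊔ N = ⊤ :=
      top_le_iff.mp (hPN ▸ sup_le_sup_right hPT N)
    rw [← relIndex_sup_swap _ N (le_normalizer_of_normal' _ N), hT, Subgroup.relIndex_top_right]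
  rw [P.card_eq_index_normalizer, h1, h2, ← h3, mul_comm]
  exact (Subgroup.relIndex_mul_index hNPT).symm

/-- `n_p(P D) = |D : C_D(P)|` if `P` normalizes `D` and `P ∩ D = 1`. -/
theorem relIndex_normalizer_sup [Finite G] (P D : Subgroup G)
    (hPD : P ≤ normalizer (D : Set G)) (hdisj : P ⊓ D = ⊥) :
    (normalizer (P : Set G)).relIndex (P ⊔ D) = (D ⊓ centralizer (P : Set G)).relIndex D := by
  have hA : (normalizer (P : Set G) ⊓ (P ⊔ D)) ⊔ D = P ⊔ D := by
    apply le_antisymm
    · exact sup_le inf_le_right le_sup_right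
    · exact sup_le (le_sup_of_le_left (le_inf Subgroup.le_normalizer le_sup_left)) le_sup_right
  have hAn : normalizer (P : Set G) ⊓ (P ⊔ D) ≤ normalizer (D : Set G) :=
    inf_le_right.trans (sup_le hPD Subgroup.le_normalizer)
  have hinf : normalizer (P : Set G) ⊓ (P ⊔ D) ⊓ D = D ⊓ centralizer (P : Set G) := by
    ext x
    simp only [Subgroup.mem_inf]
    constructor
    · rintro ⟨⟨hxN, _⟩, hxD⟩
      refine ⟨hxD, ?_⟩
      rw [Subgroup.mem_centralizer_iff]
      intro y hy
      have h1 : x * y * x⁻¹ ∈ P := (Subgroup.mem_normalizer_iff.mp hxN y).mp hy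
      have h2 : y * x⁻¹ * y⁻¹ ∈ D :=
        (Subgroup.mem_normalizer_iff.mp (hPD hy) x⁻¹).mp (D.inv_mem hxD)
      have h3 : x * y * x⁻¹ * y⁻¹ ∈ P ⊓ D := by
        refine Subgroup.mem_inf.mpr ⟨P.mul_mem h1 (P.inv_mem hy), ?_⟩
        have : x * y * x⁻¹ * y⁻¹ = x * (y * x⁻¹ * y⁻¹) := by group
        rw [this]; exact D.mul_mem hxD h2
      rw [hdisj, Subgroup.mem_bot] at h3
      have h4 := congrArg (fun t => t * y * x) h3
      simp only [mul_assoc, inv_mul_cancel, mul_one, one_mul] at h4
      exact h4.symm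
    · rintro ⟨hxD, hxC⟩
      exact ⟨⟨(Subgroup.centralizer_le_normalizer _) hxC, Subgroup.mem_sup_right hxD⟩, hxD⟩
  calc (normalizer (P : Set G)).relIndex (P ⊔ D)
      = (normalizer (P : Set G) ⊓ (P ⊔ D)).relIndex (P ⊔ D) :=
        (Subgroup.inf_relIndex_right _ _).symm
    _ = (normalizer (P : Set G) ⊓ (P ⊔ D)).relIndex ((normalizer (P : Set G) ⊓ (P ⊔ D)) ⊔ D) := by
        rw [hA]
    _ = (normalizer (P : Set G) ⊓ (P ⊔ D)).relIndex D := relIndex_sup_swap _ D hAn
    _ = (normalizer (P : Set G) ⊓ (P ⊔ D) ⊓ D).relIndex D :=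
        (Subgroup.inf_relIndex_right _ _).symm
    _ = (D ⊓ centralizer (P : Set G)).relIndex D := by rw [hinf]

/-- Products of prime powers `≡ 1 (mod p)` and Sylow numbers of simple groups. -/
def Good (p : ℕ) (m : ℕ) : Prop :=
  ∃ l : List ℕ, l.prod = m ∧ ∀ x ∈ l, (IsPrimePow x ∧ x % p = 1) ∨
    ∃ (S : Type u) (_ : Group S) (_ : Finite S), IsSimpleGroup S ∧ x = Nat.card (Sylow p S)

theorem Good.one (p : ℕ) : Good.{u} p 1 := ⟨[], rfl, by simp⟩

theorem Good.mul {p a b : ℕ} (ha : Good.{u} p a) (hb : Good.{u} p b) : Good.{u} p (a * b) := by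
  obtain ⟨la, rfl, ha⟩ := ha
  obtain ⟨lb, rfl, hb⟩ := hb
  exact ⟨la ++ lb, List.prod_append, fun x hx => (List.mem_append.mp hx).elim (ha x) (hb x)⟩

theorem Good.of_primePow (p m : ℕ) (hm : m ≠ 0)
    (h : ∀ q ∈ m.primeFactors, q ^ m.factorization q % p = 1) : Good.{u} p m := by
  refine ⟨m.primeFactors.toList.map (fun q => q ^ m.factorization q), ?_, ?_⟩
  · rw [Finset.prod_map_toList]
    have := Nat.prod_factorization_pow_eq_self hm
    rw [Finsupp.prod, Nat.support_factorization] at this
    exact this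
  · intro x hx
    obtain ⟨q, hq, rfl⟩ := List.mem_map.mp hx
    rw [Finset.mem_toList] at hq
    left
    refine ⟨?_, h q hq⟩
    have hqp := Nat.prime_of_mem_primeFactors hq
    have hpos := Nat.Prime.factorization_pos_of_dvd hqp hm (Nat.dvd_of_mem_primeFactors hq)
    exact hqp.isPrimePow.pow (by omega)

/-- The coprime case: `G = P N` with `N` a normal `p'`-subgroup. -/
theorem good_of_coprime [Finite G] {p : ℕ} [Fact p.Prime] (P : Sylow p G) (N : Subgroup G)
    [N.Normal] (hPN : (P : Subgroup G) ⊔ N = ⊤) (hdisj : (P : Subgroup G) ⊓ N = ⊥) :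
    Good.{u} p (Nat.card (Sylow p G)) := by
  have hp : p.Prime := Fact.out
  obtain ⟨C, hC⟩ : ∃ C : Subgroup G, C = N ⊓ centralizer ((P : Subgroup G) : Set G) := ⟨_, rfl⟩
  have hPnN : (P : Subgroup G) ≤ normalizer (N : Set G) := le_normalizer_of_normal' _ N
  have h1 : Nat.card (Sylow p G) = C.relIndex N := by
    calc Nat.card (Sylow p G) = (normalizer ((P : Subgroup G) : Set G)).index :=
          P.card_eq_index_normalizer
      _ = (normalizer ((P : Subgroup G) : Set G)).relIndex ⊤ :=
          (Subgroup.relIndex_top_right _).symm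
      _ = (normalizer ((P : Subgroup G) : Set G)).relIndex ((P : Subgroup G) ⊔ N) := by rw [hPN]
      _ = (N ⊓ centralizer ((P : Subgroup G) : Set G)).relIndex N :=
          relIndex_normalizer_sup (P : Subgroup G) N hPnN hdisj
      _ = C.relIndex N := by rw [hC]
  have hCN : C ≤ N := hC ▸ inf_le_left
  have hcardNC : Nat.card C * C.relIndex N = Nat.card N := by
    have := Subgroup.relIndex_mul_relIndex (H := ⊥) (K := C) (L := N) bot_le hCN
    rwa [Subgroup.relIndex_bot_left, Subgroup.relIndex_bot_left] at this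
  have hm0 : C.relIndex N ≠ 0 := by
    intro h
    rw [h, mul_zero] at hcardNC
    exact (Nat.card_pos (α := N)).ne' hcardNC.symm
  rw [h1]
  apply Good.of_primePow p _ hm0
  intro q hq
  have hqp : q.Prime := Nat.prime_of_mem_primeFactors hq
  have : Fact q.Prime := ⟨hqp⟩
  have hcop : (Nat.card (P : Subgroup G)).Coprime (Nat.card N) := by
    have hcard : Nat.card ((P : Subgroup G) ⊔ N : Subgroup G) =
        Nat.card (P : Subgroup G) * Nat.card N :=
      Cfsg.Agent.H1.card_sup_of_le_normalizer (P : Subgroup G) N hPnN hdisj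
    rw [hPN, Subgroup.card_top] at hcard
    have hidx : (P : Subgroup G).index = Nat.card N := by
      have := Subgroup.card_mul_index (P : Subgroup G)
      rw [hcard] at this
      exact Nat.eq_of_mul_eq_mul_left Nat.card_pos this
    have hnd : ¬ p ∣ Nat.card N := hidx ▸ P.not_dvd_index
    obtain ⟨k, hk⟩ := IsPGroup.iff_card.mp P.isPGroup'
    rw [hk]
    exact Nat.Coprime.pow_left _ ((Nat.Prime.coprime_iff_not_dvd hp).mpr hnd)
  have hsolv : Group.IsSolvable ↥(P : Subgroup G) := by
    have := P.isPGroup'.isNilpotent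
    infer_instance
  obtain ⟨Q, hQ⟩ := Cfsg.Agent.S0023.result (P : Subgroup G) N hPnN hcop (Or.inl hsolv) q
  obtain ⟨Q', hQ'⟩ : ∃ Q' : Subgroup G, Q' = (Q : Subgroup ↥N).map N.subtype := ⟨_, rfl⟩
  rw [← hQ'] at hQ
  have hQN : Q' ≤ N := hQ' ▸ Subgroup.map_subtype_le _
  have hQq : IsPGroup q ↥Q' := hQ' ▸ Q.isPGroup'.map _
  have hQc : Nat.card ↥Q' = q ^ (Nat.card ↥N).factorization q :=
    hQ' ▸ Cfsg.Agent.H58.card_map_sylow Q
  have hPC : (P : Subgroup G) ≤ normalizer (C : Set G) := by
    intro a ha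
    rw [Subgroup.mem_normalizer_iff]
    intro x
    constructor
    · intro hx
      have hx' : x ∈ N ⊓ centralizer ((P : Subgroup G) : Set G) := hC ▸ hx
      have h := (Subgroup.mem_centralizer_iff.mp (Subgroup.mem_inf.mp hx').2) a ha
      have : a * x * a⁻¹ = x := by rw [h]; group
      rw [this]; exact hx
    · intro hx
      have hx' : a * x * a⁻¹ ∈ N ⊓ centralizer ((P : Subgroup G) : Set G) := hC ▸ hx
      have h := (Subgroup.mem_centralizer_iff.mp (Subgroup.mem_inf.mp hx').2) a ha
      have : a * x * a⁻¹ = x := by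
        have h2 : a * (a * x * a⁻¹) = a * x := by rw [h]; group
        exact mul_left_cancel h2
      rw [this] at hx; exact hx
  have hcardinf : Nat.card ↥(Q' ⊓ C) = q ^ (Nat.card ↥C).factorization q :=
    Cfsg.Agent.H58.card_inf_of_invariant_sylow (P : Subgroup G) N C Q' hPnN hcop hsolv hCN hPC
      (by rw [← hC]; exact Subgroup.le_normalizer) hQN hQq hQ hQc
  have hdisjQ : (P : Subgroup G) ⊓ Q' = ⊥ :=
    le_bot_iff.mp (hdisj ▸ inf_le_inf_left _ hQN)
  have h2 : Nat.card (Sylow p ↥((P : Subgroup G) ⊔ Q')) =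
      (Q' ⊓ centralizer ((P : Subgroup G) : Set G)).relIndex Q' := by
    rw [card_sylow_of_le P _ le_sup_left]
    exact relIndex_normalizer_sup (P : Subgroup G) Q' hQ hdisjQ
  have h3 : Q' ⊓ centralizer ((P : Subgroup G) : Set G) = Q' ⊓ C := by
    rw [hC, ← inf_assoc, inf_eq_left.mpr hQN]
  have hmod : (Q' ⊓ C).relIndex Q' % p = 1 := by
    have := card_sylow_modEq_one p ↥((P : Subgroup G) ⊔ Q')
    rw [h2, h3] at this
    have h1p : 1 % p = 1 := Nat.mod_eq_of_lt hp.one_lt
    unfold Nat.ModEq at this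
    rw [this, h1p]
  have hrel : Nat.card ↥(Q' ⊓ C) * (Q' ⊓ C).relIndex Q' = Nat.card ↥Q' := by
    have := Subgroup.relIndex_mul_relIndex (H := ⊥) (K := Q' ⊓ C) (L := Q') bot_le inf_le_left
    rwa [Subgroup.relIndex_bot_left, Subgroup.relIndex_bot_left] at this
  have hdvd : Nat.card ↥C ∣ Nat.card ↥N := Subgroup.card_dvd_of_le hCN
  have hfac : (C.relIndex N).factorization q =
      (Nat.card ↥N).factorization q - (Nat.card ↥C).factorization q := by
    have hdiv : C.relIndex N = Nat.card ↥N / Nat.card ↥C := by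
      rw [← hcardNC]; exact (Nat.mul_div_cancel_left _ Nat.card_pos).symm
    rw [hdiv, Nat.factorization_div hdvd]
    rfl
  have hle : (Nat.card ↥C).factorization q ≤ (Nat.card ↥N).factorization q :=
    (Nat.factorization_le_iff_dvd Nat.card_pos.ne' Nat.card_pos.ne').mpr hdvd q
  have hval : (Q' ⊓ C).relIndex Q' =
      q ^ ((Nat.card ↥N).factorization q - (Nat.card ↥C).factorization q) := by
    rw [hcardinf, hQc] at hrel
    have : q ^ (Nat.card ↥C).factorization q *
        q ^ ((Nat.card ↥N).factorization q - (Nat.card ↥C).factorization q) =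
        q ^ (Nat.card ↥N).factorization q := by
      rw [← pow_add]; congr 1; omega
    rw [← this] at hrel
    exact Nat.eq_of_mul_eq_mul_left (pow_pos hqp.pos _) hrel
  rw [hfac, ← hval]; exact hmod

/-- **M. Hall**: the number of Sylow `p`-subgroups is a product of prime powers `≡ 1 (mod p)`
and Sylow numbers of simple groups. -/
theorem good_card_sylow (p : ℕ) [Fact p.Prime] : ∀ (n : ℕ) (G : Type u) [Group G] [Finite G],
    Nat.card G = n → Good.{u} p (Nat.card (Sylow p G)) := by
  intro n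
  induction n using Nat.strong_induction_on with
  | _ n ih =>
    intro G _ _ hn
    by_cases hs : IsSimpleGroup G
    · exact ⟨[Nat.card (Sylow p G)], by simp, fun x hx => by
        rw [List.mem_singleton] at hx
        exact Or.inr ⟨G, inferInstance, inferInstance, hs, hx⟩⟩
    by_cases hsub : Subsingleton G
    · have : Nat.card (Sylow p G) = 1 := by
        haveI : Subsingleton (Sylow p G) := ⟨fun a b => Sylow.ext (Subsingleton.elim _ _)⟩
        exact Nat.card_eq_one_iff_unique.mpr ⟨inferInstance, inferInstance⟩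
      rw [this]; exact Good.one p
    rw [not_subsingleton_iff_nontrivial] at hsub
    have hN : ∃ N : Subgroup G, N.Normal ∧ N ≠ ⊥ ∧ N ≠ ⊤ := by
      by_contra hcon
      refine hs ⟨fun N hN => ?_⟩
      by_cases hb : N = ⊥
      · exact Or.inl hb
      · exact Or.inr (by
          by_contra ht
          exact hcon ⟨N, hN, hb, ht⟩)
    obtain ⟨N, hNn, hNb, hNt⟩ := hN
    have := hNn
    obtain ⟨P⟩ : Nonempty (Sylow p G) := inferInstance
    have hlt_sub : ∀ H : Subgroup G, H ≠ ⊤ → Nat.card ↥H < n := by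
      intro H hH
      rw [← hn]
      exact lt_of_le_of_ne (Subgroup.card_le_card_group H)
        (fun h => hH ((Subgroup.card_eq_iff_eq_top H).mp h))
    have hlt_quot : ∀ K : Subgroup G, K.Normal → K ≠ ⊥ → Nat.card (G ⧸ K) < n := by
      intro K _ hK
      have h1 : 1 < Nat.card ↥K :=
        Finite.one_lt_card_iff_nontrivial.mpr ((Subgroup.nontrivial_iff_ne_bot K).mpr hK)
      have h2 := Subgroup.card_mul_index K
      have hpos : 0 < K.index := Nat.pos_of_ne_zero Subgroup.index_ne_zero_of_finite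
      have h3 : Nat.card (G ⧸ K) = K.index := rfl
      rw [h3, ← hn, ← h2]
      nlinarith
    by_cases hPN : (P : Subgroup G) ⊔ N = ⊤
    · by_cases hT : normalizer (((P : Subgroup G) ⊓ N : Subgroup G) : Set G) = ⊤
      · by_cases hK : (P : Subgroup G) ⊓ N = ⊥
        · exact good_of_coprime P N hPN hK
        · have hKn : ((P : Subgroup G) ⊓ N).Normal := Subgroup.normalizer_eq_top_iff.mp hT
          rw [card_sylow_quotient_mul P ((P : Subgroup G) ⊓ N)]
          have h1 : (normalizer ((P : Subgroup G) : Set G)).relIndex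
              ((P : Subgroup G) ⊔ ((P : Subgroup G) ⊓ N)) = 1 := by
            rw [sup_eq_left.mpr inf_le_left]
            exact Subgroup.relIndex_eq_one.mpr Subgroup.le_normalizer
          rw [h1, mul_one]
          exact ih _ (hlt_quot _ hKn hK) (G ⧸ ((P : Subgroup G) ⊓ N)) rfl
      · rw [card_sylow_normal_mul P N hPN]
        exact Good.mul (ih _ (hlt_sub N hNt) ↥N rfl) (ih _ (hlt_sub _ hT) _ rfl)
    · rw [card_sylow_quotient_mul P N, ← card_sylow_of_le P _ le_sup_left]
      exact Good.mul (ih _ (hlt_quot N hNn hNb) (G ⧸ N) rfl) (ih _ (hlt_sub _ hPN) _ rfl)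

end Cfsg.Agent.H98
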