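import Mathlib
import Cfsg.Agent.H98.SymAut

/-!
# helper98: subgroups of index 6 in the symmetric group of degree 6
-/

set_option autoImplicit false

namespace Cfsg.Agent.H98

open Equiv

/-- A transposition-preserving isomorphism `Perm Ω ≃* Perm X` pulls point stabilizers back
to point stabilizers. -/
theorem exists_stabilizer_eq {Ω X : Type*} [Fintype Ω] [DecidableEq Ω] [Fintype X]
    [DecidableEq X] (hXcard : Fintype.card X = Fintype.card Ω) (hn : 2 < Fintype.card Ω)
    (e : Perm Ω ≃* Perm X)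
    (hswap : ∀ t : Perm Ω, t.IsSwap → (e t).IsSwap)
    (hswap' : ∀ s : Perm X, s.IsSwap → (e.symm s).IsSwap) (c₀ : X) :
    ∃ x : Ω, ∀ g : Perm Ω, e g c₀ = c₀ ↔ g x = x := by
  set H : Subgroup (Perm Ω) := (MulAction.stabilizer (Perm X) c₀).comap e.toMonoidHom with hHdef
  have hmem : ∀ g : Perm Ω, g ∈ H ↔ e g c₀ = c₀ := fun g => Iff.rfl
  have hH : H.index = Fintype.card Ω := by
    rw [hHdef, Subgroup.index_comap_of_surjective _ e.surjective,
      MulAction.index_stabilizer_of_transitive, Nat.card_eq_fintype_card, hXcard]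
  have hstabidx : ∀ x : Ω, (MulAction.stabilizer (Perm Ω) x).index = Fintype.card Ω :=
    fun x => by rw [MulAction.index_stabilizer_of_transitive, Nat.card_eq_fintype_card]
  have hn0 : Fintype.card Ω ≠ 0 := by omega
  have heq_of_le : ∀ x : Ω, H ≤ MulAction.stabilizer (Perm Ω) x →
      H = MulAction.stabilizer (Perm Ω) x := by
    intro x hle
    have h1 := Subgroup.relIndex_mul_index hle
    rw [hH, hstabidx] at h1
    have h2 : H.relIndex (MulAction.stabilizer (Perm Ω) x) = 1 :=
      Nat.eq_of_mul_eq_mul_right (Nat.pos_of_ne_zero hn0) (by rw [h1, one_mul])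
    exact le_antisymm hle (Subgroup.relIndex_eq_one.mp h2)
  suffices hsuff : ∃ x : Ω, H = MulAction.stabilizer (Perm Ω) x by
    obtain ⟨x, hx⟩ := hsuff
    refine ⟨x, fun g => ?_⟩
    rw [← hmem, hx, MulAction.mem_stabilizer_iff, Perm.smul_def]
  set t : X → Perm Ω := fun y => e.symm (Equiv.swap c₀ y) with ht
  have het : ∀ y, e (t y) = Equiv.swap c₀ y := fun y => e.apply_symm_apply _
  have P1 : ∀ y, y ≠ c₀ → (t y).IsSwap := fun y hy => hswap' _ ⟨c₀, y, Ne.symm hy, rfl⟩
  have P2 : ∀ y, y ≠ c₀ → t y ∉ H := by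
    intro y hy hmemH
    have := (hmem (t y)).mp hmemH
    rw [het, Equiv.swap_apply_left] at this
    exact hy this
  have P4 : ∀ s : Perm Ω, s.IsSwap → s ∉ H → ∃ y, y ≠ c₀ ∧ s = t y := by
    intro s hs hsH
    have h1 : e s c₀ ≠ c₀ := fun h => hsH ((hmem s).mpr h)
    have h2 := isSwap_eq_swap_of_ne (hswap s hs) h1
    refine ⟨e s c₀, h1, ?_⟩
    show s = e.symm (Equiv.swap c₀ (e s c₀))
    rw [← h2, e.symm_apply_apply]
  have P5 : ∀ y y', y ≠ c₀ → y' ≠ c₀ → y ≠ y' → ¬ Commute (t y) (t y') := by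
    intro y y' hy hy' hyy' hcomm
    have h1 : Commute (e (t y)) (e (t y')) := hcomm.map e
    rw [het, het] at h1
    have h2 := congrArg (fun σ : Perm X => σ c₀) h1.eq
    simp only [Perm.mul_apply, Equiv.swap_apply_left] at h2
    rw [Equiv.swap_apply_of_ne_of_ne hy' (Ne.symm hyy'),
      Equiv.swap_apply_of_ne_of_ne hy hyy'] at h2
    exact hyy' h2.symm
  -- two further points
  have hX3 : 2 < Fintype.card X := by rw [hXcard]; exact hn
  have : Nontrivial X := Fintype.one_lt_card_iff_nontrivial.mp (by omega)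
  obtain ⟨y₁, hy₁⟩ : ∃ y₁, y₁ ≠ c₀ := exists_ne c₀
  obtain ⟨y₂, hy₂, hy₁₂⟩ : ∃ y₂, y₂ ≠ c₀ ∧ y₁ ≠ y₂ := by
    by_contra hcon
    have hcon' : ∀ y₂, y₂ ≠ c₀ → y₁ = y₂ := by
      intro y₂ h2
      by_contra h3
      exact hcon ⟨y₂, h2, h3⟩
    have hsub : (Finset.univ : Finset X) ⊆ {c₀, y₁} := by
      intro y _
      by_cases hy : y = c₀
      · simp [hy]
      · simp [← hcon' y hy]
    have h1 := Finset.card_le_card hsub
    have h2 : ({c₀, y₁} : Finset X).card ≤ 2 := Finset.card_le_two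
    rw [Finset.card_univ] at h1
    omega
  obtain ⟨p₁, q₁, hpq₁, ht₁⟩ := P1 y₁ hy₁
  obtain ⟨p₂, q₂, hpq₂, ht₂⟩ := P1 y₂ hy₂
  have hnc := P5 y₁ y₂ hy₁ hy₂ hy₁₂
  rw [ht₁, ht₂] at hnc
  obtain ⟨x, a, b, hxa, hxb, hab, h1, h2⟩ := swap_star hpq₁ hpq₂ hnc
  have hty₁ : t y₁ = Equiv.swap x a := ht₁.trans h1
  have hty₂ : t y₂ = Equiv.swap x b := ht₂.trans h2
  -- every `t y` moves `x`
  have claimA : ∀ y, y ≠ c₀ → t y x ≠ x := by
    intro y hy hfix
    obtain ⟨p, q, hpq, hty⟩ := P1 y hy
    have hyy₁ : y ≠ y₁ := by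
      rintro rfl
      rw [hty₁, Equiv.swap_apply_left] at hfix
      exact hxa hfix.symm
    have hyy₂ : y ≠ y₂ := by
      rintro rfl
      rw [hty₂, Equiv.swap_apply_left] at hfix
      exact hxb hfix.symm
    have hxp : x ≠ p := by
      rintro rfl
      rw [hty, Equiv.swap_apply_left] at hfix
      exact hpq hfix.symm
    have hxq : x ≠ q := by
      rintro rfl
      rw [hty, Equiv.swap_apply_right] at hfix
      exact hpq hfix
    have nc1 := P5 y y₁ hy hy₁ hyy₁
    have nc2 := P5 y y₂ hy hy₂ hyy₂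
    rw [hty, hty₁] at nc1
    rw [hty, hty₂] at nc2
    have c1 := swap_not_commute nc1
    have c2 := swap_not_commute nc2
    have h4 : 3 < Fintype.card Ω := by
      rw [← hXcard]
      have hc4 : ({c₀, y₁, y₂, y} : Finset X).card = 4 := by
        rw [Finset.card_insert_of_notMem, Finset.card_insert_of_notMem,
          Finset.card_insert_of_notMem, Finset.card_singleton]
        · simp [Ne.symm hyy₂]
        · simp [hy₁₂, Ne.symm hyy₁]
        · simp [Ne.symm hy₁, Ne.symm hy₂, Ne.symm hy]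
      have := Finset.card_le_univ ({c₀, y₁, y₂, y} : Finset X)
      omega
    obtain ⟨d, hdx, hda, hdb⟩ : ∃ d, d ≠ x ∧ d ≠ a ∧ d ≠ b := by
      by_contra hcon
      have hcon' : ∀ d, d ≠ x → d ≠ a → d = b := by
        intro d h1 h2
        by_contra h3
        exact hcon ⟨d, h1, h2, h3⟩
      have hsub : (Finset.univ : Finset Ω) ⊆ {x, a, b} := by
        intro d _
        by_cases h1 : d = x
        · simp [h1]
        by_cases h2 : d = a
        · simp [h2]
        simp [hcon' d h1 h2]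
      have h1 := Finset.card_le_card hsub
      have h3 : ({x, a, b} : Finset Ω).card ≤ 3 := Finset.card_le_three
      rw [Finset.card_univ] at h1
      omega
    have hfixd : ∀ z, z ≠ c₀ → t z d = d := by
      intro z hz
      obtain ⟨p', q', hpq', htz⟩ := P1 z hz
      by_contra hd
      rw [htz] at hd
      have hd' := (Equiv.swap_apply_ne_self_iff.mp hd).2
      by_cases hz1 : z = y₁
      · subst hz1
        rw [hty₁] at htz
        have : Equiv.swap x a d = d := Equiv.swap_apply_of_ne_of_ne hdx hda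
        rw [htz] at this
        exact hd this
      by_cases hz2 : z = y₂
      · subst hz2
        rw [hty₂] at htz
        have : Equiv.swap x b d = d := Equiv.swap_apply_of_ne_of_ne hdx hdb
        rw [htz] at this
        exact hd this
      by_cases hz3 : z = y
      · subst hz3
        rw [hty] at htz
        have hdp : d ≠ p := by grind
        have hdq : d ≠ q := by grind
        have : Equiv.swap p q d = d := Equiv.swap_apply_of_ne_of_ne hdp hdq
        rw [htz] at this
        exact hd this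
      · have n1 := P5 z y₁ hz hy₁ hz1
        have n2 := P5 z y₂ hz hy₂ hz2
        have n3 := P5 z y hz hy hz3
        rw [htz, hty₁] at n1
        rw [htz, hty₂] at n2
        rw [htz, hty] at n3
        have d1 := swap_not_commute n1
        have d2 := swap_not_commute n2
        have d3 := swap_not_commute n3
        grind
    have hstar : ∀ w, w ≠ d → Equiv.swap d w ∈ H := by
      intro w hw
      by_contra hnot
      obtain ⟨z, hz, hsz⟩ := P4 _ ⟨d, w, Ne.symm hw, rfl⟩ hnot
      have := hfixd z hz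
      rw [← hsz, Equiv.swap_apply_left] at this
      exact hw this
    have htop := eq_top_of_star_mem H d hstar
    rw [htop, Subgroup.index_top] at hH
    omega
  have claimB : ∀ p q, p ≠ q → p ≠ x → q ≠ x → Equiv.swap p q ∈ H := by
    intro p q hpq hp hq
    by_contra hnot
    obtain ⟨z, hz, hsz⟩ := P4 _ ⟨p, q, hpq, rfl⟩ hnot
    apply claimA z hz
    rw [← hsz]
    exact Equiv.swap_apply_of_ne_of_ne (Ne.symm hp) (Ne.symm hq)
  refine ⟨x, heq_of_le x ?_⟩
  intro h hh
  rw [MulAction.mem_stabilizer_iff, Perm.smul_def]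
  by_contra hhx
  have key : ∀ y, y ≠ c₀ → h (t y x) = x := by
    intro y hy
    by_contra hne
    have hty := isSwap_eq_swap_of_ne (P1 y hy) (claimA y hy)
    have hconj : h * t y * h⁻¹ ∈ H := by
      have h3 : h * t y * h⁻¹ = Equiv.swap (h x) (h (t y x)) := by
        rw [Equiv.swap_apply_apply, ← hty]
      rw [h3]
      exact claimB _ _ (fun heq => claimA y hy (h.injective heq).symm) hhx hne
    have hmemH : t y ∈ H := by
      have h3 : t y = h⁻¹ * (h * t y * h⁻¹) * h := by group
      rw [h3]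
      exact H.mul_mem (H.mul_mem (H.inv_mem hh) hconj) hh
    exact P2 y hy hmemH
  have k1 := key y₁ hy₁
  have k2 := key y₂ hy₂
  rw [hty₁, Equiv.swap_apply_left] at k1
  rw [hty₂, Equiv.swap_apply_left] at k2
  exact hab (h.injective (k1.trans k2.symm))

/-- For a subgroup `H` of index `n ≥ 5` in `S_n`, the action on the cosets of `H` is an
isomorphism onto the symmetric group of the coset space. -/
theorem exists_cosetIso {Ω : Type*} [Fintype Ω] [DecidableEq Ω] (h5 : 5 ≤ Fintype.card Ω)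
    (H : Subgroup (Perm Ω)) (hH : H.index = Fintype.card Ω) :
    ∃ e : Perm Ω ≃* Perm (Perm Ω ⧸ H), ∀ g c, e g c = g • c := by
  have hcore : H.normalCore = ⊥ := by
    by_contra hne
    have hnt : Nontrivial H.normalCore := (Subgroup.nontrivial_iff_ne_bot _).mpr hne
    have hle : alternatingGroup Ω ≤ H :=
      (Equiv.Perm.alternatingGroup_le_of_normal (by simpa using h5) hnt).trans
        (Subgroup.normalCore_le H)
    have hdvd : H.index ∣ (alternatingGroup Ω).index := Subgroup.index_dvd_of_le hle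
    have : Nontrivial Ω := Fintype.one_lt_card_iff_nontrivial.mp (by omega)
    rw [alternatingGroup.index_eq_two, hH] at hdvd
    have := Nat.le_of_dvd (by norm_num) hdvd
    omega
  have hinj : Function.Injective (MulAction.toPermHom (Perm Ω) (Perm Ω ⧸ H)) := by
    rw [← MonoidHom.ker_eq_bot_iff, ← Subgroup.normalCore_eq_ker]
    exact hcore
  have hbij : Function.Bijective (MulAction.toPermHom (Perm Ω) (Perm Ω ⧸ H)) := by
    rw [Nat.bijective_iff_injective_and_card]
    refine ⟨hinj, ?_⟩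
    have hc : Nat.card (Perm Ω ⧸ H) = Nat.card Ω := by
      rw [Nat.card_eq_fintype_card (α := Ω)]
      exact hH
    rw [Nat.card_perm, Nat.card_perm, hc]
  exact ⟨MulEquiv.ofBijective _ hbij, fun g c => rfl⟩

theorem isConj_mulEquiv_iff {G G' : Type*} [Group G] [Group G'] (e : G ≃* G') {a b : G} :
    IsConj (e a) (e b) ↔ IsConj a b := by
  constructor
  · intro h
    have := e.symm.toMonoidHom.map_isConj h
    simpa using this
  · exact fun h => e.toMonoidHom.map_isConj h

section Six

variable {α β γ : Type*} [Fintype α] [DecidableEq α] [Fintype β] [DecidableEq β]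
  [Fintype γ] [DecidableEq γ]

/-- Class sizes in `S₆`: the image of a transposition or of a product of three disjoint
transpositions under an isomorphism is again of one of these two types. -/
theorem cycleType_mulEquiv_six (hα : Fintype.card α = 6) (hβ : Fintype.card β = 6)
    (e : Perm α ≃* Perm β) {σ : Perm α}
    (hσ : σ.cycleType = {2} ∨ σ.cycleType = {2, 2, 2}) :
    (e σ).cycleType = {2} ∨ (e σ).cycleType = {2, 2, 2} := by
  have hord : orderOf σ = 2 := by
    rw [← Equiv.Perm.lcm_cycleType]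
    rcases hσ with h | h <;> rw [h] <;> rfl
  have hord' : orderOf (e σ) = 2 := by rw [MulEquiv.orderOf_eq, hord]
  obtain ⟨k, hk⟩ := Equiv.Perm.cycleType_prime_order (σ := e σ)
    (by rw [hord']; exact Nat.prime_two)
  rw [hord'] at hk
  have hc : Nat.card {h : Perm α | IsConj σ h} = Nat.card {h : Perm β | IsConj (e σ) h} := by
    apply Nat.card_congr
    exact Equiv.subtypeEquiv e.toEquiv (fun h => (isConj_mulEquiv_iff e).symm)
  have h1 := Equiv.Perm.card_isConj_mul_eq σ
  have h2 := Equiv.Perm.card_isConj_mul_eq (e σ)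
  have hsum : (e σ).cycleType.sum ≤ Fintype.card β := Equiv.Perm.sum_cycleType_le _
  have h1' : Nat.card {h : Perm α | IsConj σ h} * 48 = 720 := by
    rcases hσ with h | h
    · rw [h, hα] at h1
      exact h1
    · rw [h, hα] at h1
      exact h1
  rw [hk, hβ] at h2 hsum
  rw [← hc] at h2
  have hk3 : k + 1 ≤ 3 := by
    rw [Multiset.sum_replicate, smul_eq_mul] at hsum
    omega
  have hk' : k = 0 ∨ k = 1 ∨ k = 2 := by omega
  rcases hk' with rfl | rfl | rfl
  · left
    rw [hk]
    rfl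
  · exfalso
    have h2' : Nat.card {h : Perm α | IsConj σ h} * 16 = 720 := h2
    omega
  · right
    rw [hk]
    rfl

theorem exists_isSwap (hα : 2 ≤ Fintype.card α) : ∃ t : Perm α, t.IsSwap := by
  have : Nontrivial α := Fintype.one_lt_card_iff_nontrivial.mp (by omega)
  obtain ⟨a, b, hab⟩ := exists_pair_ne α
  exact ⟨Equiv.swap a b, a, b, hab, rfl⟩

/-- If an isomorphism preserves transpositions, so does its inverse. -/
theorem swapPres_symm (hα : 2 ≤ Fintype.card α) (e : Perm α ≃* Perm β)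
    (hs : ∀ t : Perm α, t.IsSwap → (e t).IsSwap) :
    ∀ s : Perm β, s.IsSwap → (e.symm s).IsSwap := by
  intro s hsw
  obtain ⟨t₀, ht₀⟩ := exists_isSwap hα
  have h1 : IsConj (e t₀) (e (e.symm s)) := by
    rw [e.apply_symm_apply, Equiv.Perm.isConj_iff_cycleType_eq,
      Equiv.Perm.isSwap_iff_cycleType.mp (hs t₀ ht₀), Equiv.Perm.isSwap_iff_cycleType.mp hsw]
  rw [isConj_mulEquiv_iff, Equiv.Perm.isConj_iff_cycleType_eq,
    Equiv.Perm.isSwap_iff_cycleType.mp ht₀] at h1
  exact Equiv.Perm.isSwap_iff_cycleType.mpr h1.symm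

/-- An isomorphism of `S₆` not preserving transpositions maps them to products of three
disjoint transpositions. -/
theorem cycleType_of_not_swapPres (hα : Fintype.card α = 6) (hβ : Fintype.card β = 6)
    (e : Perm α ≃* Perm β) (hns : ¬ ∀ t : Perm α, t.IsSwap → (e t).IsSwap) :
    ∀ t : Perm α, t.IsSwap → (e t).cycleType = {2, 2, 2} := by
  intro t ht
  obtain ⟨t₀, ht₀, hnt₀⟩ : ∃ t₀ : Perm α, t₀.IsSwap ∧ ¬ (e t₀).IsSwap := by
    by_contra hcon
    apply hns
    intro t ht
    by_contra h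
    exact hcon ⟨t, ht, h⟩
  have h0 : (e t₀).cycleType = {2, 2, 2} := by
    rcases cycleType_mulEquiv_six hα hβ e (Or.inl (Equiv.Perm.isSwap_iff_cycleType.mp ht₀))
      with h | h
    · exact absurd (Equiv.Perm.isSwap_iff_cycleType.mpr h) hnt₀
    · exact h
  have h1 : IsConj (e t) (e t₀) := by
    rw [isConj_mulEquiv_iff, Equiv.Perm.isConj_iff_cycleType_eq,
      Equiv.Perm.isSwap_iff_cycleType.mp ht, Equiv.Perm.isSwap_iff_cycleType.mp ht₀]
  rw [Equiv.Perm.isConj_iff_cycleType_eq] at h1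
  rw [h1, h0]

/-- An isomorphism of `S₆` not preserving transpositions maps products of three
disjoint transpositions to transpositions. -/
theorem isSwap_of_not_swapPres (hα : Fintype.card α = 6) (hβ : Fintype.card β = 6)
    (e : Perm α ≃* Perm β) (hns : ¬ ∀ t : Perm α, t.IsSwap → (e t).IsSwap) :
    ∀ σ : Perm α, σ.cycleType = {2, 2, 2} → (e σ).IsSwap := by
  intro σ hσ
  rcases cycleType_mulEquiv_six hα hβ e (Or.inr hσ) with h | h
  · exact Equiv.Perm.isSwap_iff_cycleType.mpr h
  · exfalso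
    obtain ⟨t₀, ht₀⟩ := exists_isSwap (α := α) (by omega)
    have h0 := cycleType_of_not_swapPres hα hβ e hns t₀ ht₀
    have h1 : IsConj (e σ) (e t₀) := by
      rw [Equiv.Perm.isConj_iff_cycleType_eq, h, h0]
    rw [isConj_mulEquiv_iff, Equiv.Perm.isConj_iff_cycleType_eq, hσ,
      Equiv.Perm.isSwap_iff_cycleType.mp ht₀] at h1
    revert h1
    decide

theorem not_swapPres_symm (hα : Fintype.card α = 6) (hβ : Fintype.card β = 6)
    (e : Perm α ≃* Perm β) (hns : ¬ ∀ t : Perm α, t.IsSwap → (e t).IsSwap) :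
    ¬ ∀ s : Perm β, s.IsSwap → (e.symm s).IsSwap := by
  intro h
  apply hns
  have := swapPres_symm (by omega) e.symm h
  rwa [MulEquiv.symm_symm] at this

/-- The composite of two isomorphisms of `S₆` that do not preserve transpositions does. -/
theorem swapPres_trans_of_not (hα : Fintype.card α = 6) (hβ : Fintype.card β = 6)
    (hγ : Fintype.card γ = 6) (e₁ : Perm α ≃* Perm β) (e₂ : Perm β ≃* Perm γ)
    (h₁ : ¬ ∀ t : Perm α, t.IsSwap → (e₁ t).IsSwap)
    (h₂ : ¬ ∀ t : Perm β, t.IsSwap → (e₂ t).IsSwap) :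
    ∀ t : Perm α, t.IsSwap → ((e₁.trans e₂) t).IsSwap := by
  intro t ht
  exact isSwap_of_not_swapPres hβ hγ e₂ h₂ _ (cycleType_of_not_swapPres hα hβ e₁ h₁ t ht)

end Six

/-- `S₆` has a transitive subgroup of index 6 (the image of `S₅` acting on the cosets of the
normalizer of a Sylow 5-subgroup). -/
theorem exists_index_six_transitive {Ω : Type*} [Fintype Ω] [DecidableEq Ω]
    (h6 : Fintype.card Ω = 6) :
    ∃ H : Subgroup (Perm Ω), H.index = 6 ∧ ∀ x y : Ω, ∃ h ∈ H, h x = y := by
  have hp5 : Fact (Nat.Prime 5) := ⟨by norm_num⟩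
  have hS : Nat.card (Perm (Fin 5)) = 120 := by
    rw [Nat.card_perm, Nat.card_fin]
    rfl
  obtain ⟨P⟩ : Nonempty (Sylow 5 (Perm (Fin 5))) := Sylow.nonempty
  have hPcard : Nat.card P = 5 := by
    obtain ⟨k, hk⟩ := IsPGroup.iff_card.mp P.isPGroup'
    have h1 := (P : Subgroup (Perm (Fin 5))).card_mul_index
    have h2 : ¬ 5 ∣ (P : Subgroup (Perm (Fin 5))).index := P.not_dvd_index
    rw [hS] at h1
    have hk1 : k ≤ 2 := by
      by_contra hcon
      have h3 : 5 ^ 3 ∣ 5 ^ k := Nat.pow_dvd_pow 5 (by omega)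
      have h4 : 5 ^ k ∣ 120 := by
        rw [← hk, ← h1]
        exact Dvd.intro _ rfl
      have := h3.trans h4
      omega
    have hk' : k = 0 ∨ k = 1 ∨ k = 2 := by omega
    rcases hk' with rfl | rfl | rfl
    · exfalso
      apply h2
      rw [hk] at h1
      omega
    · rw [hk]
      rfl
    · exfalso
      rw [hk] at h1
      omega
  set K : Subgroup (Perm (Fin 5)) := Subgroup.normalizer (P : Set (Perm (Fin 5))) with hK
  have hn5 : Nat.card (Sylow 5 (Perm (Fin 5))) = K.index := Sylow.card_eq_index_normalizer P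
  have hmod : Nat.card (Sylow 5 (Perm (Fin 5))) ≡ 1 [MOD 5] :=
    card_sylow_modEq_one 5 (Perm (Fin 5))
  have hdvd : Nat.card (Sylow 5 (Perm (Fin 5))) ∣ (P : Subgroup (Perm (Fin 5))).index :=
    Sylow.card_dvd_index P
  have hPidx : (P : Subgroup (Perm (Fin 5))).index = 24 := by
    have := (P : Subgroup (Perm (Fin 5))).card_mul_index
    rw [hPcard, hS] at this
    omega
  have hA5 : ∀ N : Subgroup (Perm (Fin 5)), N.Normal → N ≠ ⊥ → N.index ∣ 2 := by
    intro N hN hne
    have hnt : Nontrivial N := (Subgroup.nontrivial_iff_ne_bot _).mpr hne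
    have hle : alternatingGroup (Fin 5) ≤ N :=
      Equiv.Perm.alternatingGroup_le_of_normal (by simp) hnt
    have hdvd : N.index ∣ (alternatingGroup (Fin 5)).index := Subgroup.index_dvd_of_le hle
    rwa [alternatingGroup.index_eq_two] at hdvd
  have hKidx : K.index = 6 := by
    rw [← hn5]
    rw [hPidx] at hdvd
    have h1 : Nat.card (Sylow 5 (Perm (Fin 5))) ≤ 24 := Nat.le_of_dvd (by norm_num) hdvd
    have h2 : Nat.card (Sylow 5 (Perm (Fin 5))) ≠ 1 := by
      intro h
      rw [hn5] at h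
      have hKtop : K = ⊤ := Subgroup.index_eq_one.mp h
      have hnormal : (P : Subgroup (Perm (Fin 5))).Normal :=
        Subgroup.normalizer_eq_top_iff.mp hKtop
      have hne : (P : Subgroup (Perm (Fin 5))) ≠ ⊥ := by
        intro hbot
        rw [hbot, Subgroup.index_bot, hS] at hPidx
        omega
      have := hA5 _ hnormal hne
      rw [hPidx] at this
      omega
    have h3 : Nat.card (Sylow 5 (Perm (Fin 5))) % 5 = 1 := hmod
    generalize Nat.card (Sylow 5 (Perm (Fin 5))) = m at hdvd h1 h2 h3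
    interval_cases m <;> omega
  have hρinj : Function.Injective (MulAction.toPermHom (Perm (Fin 5)) (Perm (Fin 5) ⧸ K)) := by
    rw [← MonoidHom.ker_eq_bot_iff, ← Subgroup.normalCore_eq_ker]
    by_contra hne
    have h1 := hA5 _ inferInstance hne
    have h2 : K.index ∣ K.normalCore.index := Subgroup.index_dvd_of_le (Subgroup.normalCore_le K)
    rw [hKidx] at h2
    have := Nat.le_of_dvd (by norm_num) (h2.trans h1)
    omega
  have hcardSK : Nat.card (Perm (Fin 5) ⧸ K) = Nat.card Ω := by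
    rw [Nat.card_eq_fintype_card (α := Ω), h6]
    exact hKidx
  have : Finite (Perm (Fin 5) ⧸ K) := Nat.finite_of_card_ne_zero (by rw [hcardSK]; simp [h6])
  obtain ⟨b⟩ := Finite.card_eq.mp hcardSK
  refine ⟨(MulAction.toPermHom (Perm (Fin 5)) (Perm (Fin 5) ⧸ K)).range.map
    b.permCongrHom.toMonoidHom, ?_, ?_⟩
  · have hHcard : Nat.card ((MulAction.toPermHom (Perm (Fin 5)) (Perm (Fin 5) ⧸ K)).range.map
        b.permCongrHom.toMonoidHom) = 120 := by
      rw [Subgroup.card_map_of_injective b.permCongrHom.injective,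
        ← Nat.card_congr (MonoidHom.ofInjective hρinj).toEquiv, hS]
    have h1 := ((MulAction.toPermHom (Perm (Fin 5)) (Perm (Fin 5) ⧸ K)).range.map
      b.permCongrHom.toMonoidHom).card_mul_index
    rw [hHcard, Nat.card_perm, Nat.card_eq_fintype_card, h6] at h1
    have h2 : (6 : ℕ).factorial = 720 := rfl
    omega
  · intro x y
    obtain ⟨s, hs⟩ := MulAction.exists_smul_eq (Perm (Fin 5)) (b.symm x) (b.symm y)
    refine ⟨b.permCongrHom (MulAction.toPermHom (Perm (Fin 5)) (Perm (Fin 5) ⧸ K) s),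
      ⟨_, ⟨s, rfl⟩, rfl⟩, ?_⟩
    show b (s • b.symm x) = y
    rw [hs, b.apply_symm_apply]

/-- A transitive subgroup is not a point stabilizer. -/
theorem ne_stabilizer_of_transitive {Ω : Type*} [Fintype Ω] [DecidableEq Ω]
    (h2 : 2 ≤ Fintype.card Ω) (H : Subgroup (Perm Ω)) (htr : ∀ x y : Ω, ∃ h ∈ H, h x = y)
    (x : Ω) : H ≠ MulAction.stabilizer (Perm Ω) x := by
  intro heq
  have : Nontrivial Ω := Fintype.one_lt_card_iff_nontrivial.mp (by omega)
  obtain ⟨y, hy⟩ := exists_ne x
  obtain ⟨h, hh, hxy⟩ := htr x y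
  rw [heq, MulAction.mem_stabilizer_iff, Perm.smul_def] at hh
  exact hy (hxy.symm.trans hh)

/-- Stabilizers of cosets are the conjugates of the subgroup. -/
theorem stabilizer_quotient_eq_map_conj {G : Type*} [Group G] (H : Subgroup G) (g : G) :
    MulAction.stabilizer G (QuotientGroup.mk g : G ⧸ H) = H.map (MulAut.conj g).toMonoidHom := by
  have : (QuotientGroup.mk g : G ⧸ H) = g • (QuotientGroup.mk 1 : G ⧸ H) := by
    rw [MulAction.Quotient.smul_mk, smul_eq_mul, mul_one]
  rw [this, MulAction.stabilizer_smul_eq_stabilizer_map_conj]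
  congr 1
  exact MulAction.stabilizer_quotient H

/-- If `H₂` is not a point stabilizer, neither are the stabilizers of its cosets. -/
theorem stabilizer_quotient_ne_stabilizer {Ω : Type*} [Fintype Ω] [DecidableEq Ω]
    (H₂ : Subgroup (Perm Ω)) (hH₂' : ∀ x : Ω, H₂ ≠ MulAction.stabilizer (Perm Ω) x)
    (y : Perm Ω ⧸ H₂) (x : Ω) :
    MulAction.stabilizer (Perm Ω) y ≠ MulAction.stabilizer (Perm Ω) x := by
  obtain ⟨g, rfl⟩ := QuotientGroup.mk_surjective y
  intro heq
  apply hH₂' (g⁻¹ • x)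
  have hy : (QuotientGroup.mk g : Perm Ω ⧸ H₂) = g • (QuotientGroup.mk 1 : Perm Ω ⧸ H₂) := by
    rw [MulAction.Quotient.smul_mk, smul_eq_mul, mul_one]
  rw [MulAction.stabilizer_smul_eq_stabilizer_map_conj g⁻¹ x, ← heq,
    ← MulAction.stabilizer_smul_eq_stabilizer_map_conj, hy, inv_smul_smul]
  exact (MulAction.stabilizer_quotient H₂).symm

/-- Point stabilizers of distinct points are distinct, when the group induces the full
symmetric group. -/
theorem stabilizer_injective_of_surjective {G X : Type*} [Group G] [MulAction G X]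
    [DecidableEq X] [Fintype X] (h3 : 3 ≤ Fintype.card X)
    (hsurj : ∀ σ : Perm X, ∃ g : G, ∀ c, g • c = σ c) {y y' : X}
    (h : MulAction.stabilizer G y = MulAction.stabilizer G y') : y = y' := by
  by_contra hne
  obtain ⟨z, hzy, hzy'⟩ : ∃ z, z ≠ y ∧ z ≠ y' := by
    by_contra hcon
    have hcon' : ∀ z, z ≠ y → z = y' := by
      intro z h1
      by_contra h2
      exact hcon ⟨z, h1, h2⟩
    have hsub : (Finset.univ : Finset X) ⊆ {y, y'} := by
      intro z _
      by_cases hz : z = y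
      · simp [hz]
      · simp [hcon' z hz]
    have h1 := Finset.card_le_card hsub
    have h2 : ({y, y'} : Finset X).card ≤ 2 := Finset.card_le_two
    rw [Finset.card_univ] at h1
    omega
  obtain ⟨g, hg⟩ := hsurj (Equiv.swap y' z)
  have h1 : g ∈ MulAction.stabilizer G y := by
    rw [MulAction.mem_stabilizer_iff, hg, Equiv.swap_apply_of_ne_of_ne hne (Ne.symm hzy)]
  rw [h, MulAction.mem_stabilizer_iff, hg, Equiv.swap_apply_left] at h1
  exact hzy' h1

/-- The subgroups of index 6 in `S₆` are the point stabilizers and the stabilizers of the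
cosets of any fixed subgroup `H₂` of index 6 that is not a point stabilizer. -/
theorem index_six_classification {Ω : Type*} [Fintype Ω] [DecidableEq Ω]
    (h6 : Fintype.card Ω = 6) (H₂ : Subgroup (Perm Ω)) (hH₂ : H₂.index = 6)
    (hH₂' : ∀ x : Ω, H₂ ≠ MulAction.stabilizer (Perm Ω) x)
    (H : Subgroup (Perm Ω)) (hH : H.index = 6) :
    (∃ x : Ω, H = MulAction.stabilizer (Perm Ω) x) ∨
      (∃ y : Perm Ω ⧸ H₂, H = MulAction.stabilizer (Perm Ω) y) := by
  classical
  have : Fintype (Perm Ω ⧸ H) := Fintype.ofFinite _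
  have : Fintype (Perm Ω ⧸ H₂) := Fintype.ofFinite _
  have hc : Fintype.card (Perm Ω ⧸ H) = 6 := by
    rw [← Nat.card_eq_fintype_card]
    exact hH
  have hc₂ : Fintype.card (Perm Ω ⧸ H₂) = 6 := by
    rw [← Nat.card_eq_fintype_card]
    exact hH₂
  obtain ⟨e, he⟩ := exists_cosetIso (by omega) H (by rw [hH, h6])
  obtain ⟨e₂, he₂⟩ := exists_cosetIso (by omega) H₂ (by rw [hH₂, h6])
  have hmemH : ∀ g : Perm Ω, g ∈ H ↔
      e g (QuotientGroup.mk 1 : Perm Ω ⧸ H) = QuotientGroup.mk 1 := by
    intro g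
    rw [he, MulAction.Quotient.smul_mk, QuotientGroup.eq]
    simp
  have hmemH₂ : ∀ g : Perm Ω, g ∈ H₂ ↔
      e₂ g (QuotientGroup.mk 1 : Perm Ω ⧸ H₂) = QuotientGroup.mk 1 := by
    intro g
    rw [he₂, MulAction.Quotient.smul_mk, QuotientGroup.eq]
    simp
  have hns₂ : ¬ ∀ t : Perm Ω, t.IsSwap → (e₂ t).IsSwap := by
    intro hs
    obtain ⟨x, hx⟩ := exists_stabilizer_eq (by rw [hc₂, h6]) (by omega) e₂ hs
      (swapPres_symm (by omega) e₂ hs) (QuotientGroup.mk 1)
    apply hH₂' x
    ext g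
    rw [hmemH₂, hx, MulAction.mem_stabilizer_iff, Perm.smul_def]
  by_cases hs : ∀ t : Perm Ω, t.IsSwap → (e t).IsSwap
  · left
    obtain ⟨x, hx⟩ := exists_stabilizer_eq (by rw [hc, h6]) (by omega) e hs
      (swapPres_symm (by omega) e hs) (QuotientGroup.mk 1)
    refine ⟨x, ?_⟩
    ext g
    rw [hmemH, hx, MulAction.mem_stabilizer_iff, Perm.smul_def]
  · right
    have hψ := swapPres_trans_of_not hc₂ h6 hc e₂.symm e
      (not_swapPres_symm h6 hc₂ e₂ hns₂) hs
    obtain ⟨y, hy⟩ := exists_stabilizer_eq (Ω := Perm Ω ⧸ H₂) (X := Perm Ω ⧸ H)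
      (by rw [hc, hc₂]) (by omega) (e₂.symm.trans e) hψ (swapPres_symm (by omega) _ hψ)
      (QuotientGroup.mk 1)
    refine ⟨y, ?_⟩
    ext g
    rw [hmemH, MulAction.mem_stabilizer_iff]
    have := hy (e₂ g)
    rw [MulEquiv.trans_apply, e₂.symm_apply_apply] at this
    rw [this, he₂]

/-- A subgroup of index `n + 1 ≥ 5` in `S_{n+1}` is isomorphic to `S_n`. -/
theorem nonempty_mulEquiv_perm_of_index {Ω : Type*} [Fintype Ω] [DecidableEq Ω] (n : ℕ)
    (hn : Fintype.card Ω = n + 1) (h5 : 5 ≤ n + 1) (H : Subgroup (Perm Ω))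
    (hH : H.index = n + 1) : Nonempty (H ≃* Perm (Fin n)) := by
  classical
  have : Fintype (Perm Ω ⧸ H) := Fintype.ofFinite _
  have hc : Fintype.card (Perm Ω ⧸ H) = n + 1 := by
    rw [← Nat.card_eq_fintype_card]
    exact hH
  obtain ⟨e, he⟩ := exists_cosetIso (by omega) H (by rw [hH, hn])
  have hmemH : ∀ g : Perm Ω, g ∈ H ↔
      e g (QuotientGroup.mk 1 : Perm Ω ⧸ H) = QuotientGroup.mk 1 := by
    intro g
    rw [he, MulAction.Quotient.smul_mk, QuotientGroup.eq]
    simp
  set c₀ : Perm Ω ⧸ H := QuotientGroup.mk 1 with hc₀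
  set φ : Perm {x : Perm Ω ⧸ H // x ≠ c₀} →* Perm Ω :=
    e.symm.toMonoidHom.comp Equiv.Perm.ofSubtype with hφ
  have hφinj : Function.Injective φ := e.symm.injective.comp Equiv.Perm.ofSubtype_injective
  have hrange : φ.range = H := by
    ext g
    rw [hmemH]
    constructor
    · rintro ⟨σ, rfl⟩
      show e (e.symm (Equiv.Perm.ofSubtype σ)) c₀ = c₀
      rw [e.apply_symm_apply]
      exact Equiv.Perm.ofSubtype_apply_of_not_mem σ (by simp)
    · intro hg
      have : e g ∈ (Equiv.Perm.ofSubtype :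
          Perm {x : Perm Ω ⧸ H // x ≠ c₀} →* Perm (Perm Ω ⧸ H)).range := by
        rw [Equiv.Perm.mem_range_ofSubtype_iff]
        intro x hx
        rw [Finset.mem_coe, Equiv.Perm.mem_support] at hx
        show x ≠ c₀
        rintro rfl
        exact hx hg
      obtain ⟨σ, hσ⟩ := this
      exact ⟨σ, by show e.symm (Equiv.Perm.ofSubtype σ) = g; rw [hσ, e.symm_apply_apply]⟩
  have hcard : Fintype.card {x : Perm Ω ⧸ H // x ≠ c₀} = Fintype.card (Fin n) := by
    rw [Fintype.card_subtype_compl, Fintype.card_fin, hc]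
    simp
  obtain ⟨b⟩ := Fintype.card_eq.mp hcard
  exact ⟨((MulEquiv.subgroupCongr hrange).symm.trans (MonoidHom.ofInjective hφinj).symm).trans
    b.permCongrHom⟩

end Cfsg.Agent.H98
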