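import Mathlib
import Cfsg.Agent.H17.TgDefs

/-!
# TG-LAYER (helper98, for helper17, S1904)

A nontrivial layer `Ω_{j+1}(B) / Ω_j(B)` maps onto `V_B = Ω₁(B)` under the `2^j`-th power: the
image is an `A`-invariant nontrivial subgroup of `V_B`.
-/

set_option autoImplicit false

universe u

namespace Cfsg.Agent.H98.Tg

open Cfsg.Agent.H17.Tg

/-- **TG-LAYER**. -/
theorem layer (hVB : StVB.{u}) : StLayer.{u} := by
  intro X _ _ A hyp B hB hBZ j b hb hb1 hb2 v hv hv2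
  obtain ⟨hBn, hBA, hBc⟩ := hB
  obtain ⟨-, -, -, -, -, hlast⟩ := hVB X A hyp B ⟨hBn, hBA, hBc⟩ hBZ
  obtain ⟨W, hW⟩ : ∃ W : Subgroup X,
      ∀ w, w ∈ W ↔ ∃ c ∈ B, c ^ 2 ^ (j + 1) = 1 ∧ c ^ 2 ^ j = w := by
    refine ⟨{ carrier := {w | ∃ c ∈ B, c ^ 2 ^ (j + 1) = 1 ∧ c ^ 2 ^ j = w}
              mul_mem' := ?_
              one_mem' := ⟨1, B.one_mem, one_pow _, one_pow _⟩
              inv_mem' := ?_ }, fun w => Iff.rfl⟩
    · rintro _ _ ⟨c, hc, hc1, rfl⟩ ⟨c', hc', hc1', rfl⟩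
      have hcomm : Commute c c' := hBc c hc c' hc'
      exact ⟨c * c', B.mul_mem hc hc', by rw [hcomm.mul_pow, hc1, hc1', one_mul],
        by rw [hcomm.mul_pow]⟩
    · rintro _ ⟨c, hc, hc1, rfl⟩
      exact ⟨c⁻¹, B.inv_mem hc, by rw [inv_pow, hc1, inv_one], by rw [inv_pow]⟩
  have hWA : AInv A W := by
    intro φ hφ w hw
    obtain ⟨c, hc, hc1, rfl⟩ := (hW w).mp hw
    exact (hW _).mpr ⟨φ c, hBA φ hφ c hc, by rw [← map_pow, hc1, map_one], by rw [map_pow]⟩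
  have hWB : ∀ w ∈ W, w ∈ B ∧ w ^ 2 = 1 := by
    intro w hw
    obtain ⟨c, hc, hc1, rfl⟩ := (hW w).mp hw
    refine ⟨B.pow_mem hc _, ?_⟩
    rw [← pow_mul, ← pow_succ]
    exact hc1
  rcases hlast W hWA hWB with hbot | hall
  · exfalso
    have h1 : b ^ 2 ^ j ∈ W := (hW _).mpr ⟨b, hb, hb1, rfl⟩
    rw [hbot, Subgroup.mem_bot] at h1
    exact hb2 h1
  · obtain ⟨c, hc, -, hcv⟩ := (hW v).mp (hall v hv hv2)
    exact ⟨c, hc, hcv⟩

example (hVB : Cfsg.Agent.H17.Tg.StVB.{u}) : Cfsg.Agent.H17.Tg.StLayer.{u} := layer hVB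

end Cfsg.Agent.H98.Tg

#print axioms Cfsg.Agent.H98.Tg.layer
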