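import Mathlib
import Cfsg.Agent.H17.TgDefs

/-!
# TG-SQ (helper98, for helper17, S1904)

If `B` has an element of order `> 2^m` then every element of `Ω_m(B)` is a square in `B`
(induction on the exponent, using TG-LAYER).
-/

set_option autoImplicit false

universe u

namespace Cfsg.Agent.H98.Tg

open Cfsg.Agent.H17.Tg

/-- In a group, if `b₀ ^ 2 ^ n = 1` for some `n` and `b₀ ^ 2 ^ m ≠ 1`, then for every `j ≤ m` a
power `b` of `b₀` has `b ^ 2 ^ (j + 1) = 1` and `b ^ 2 ^ j ≠ 1`. -/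
theorem sq_layer_elt {X : Type u} [Group X] (b₀ : X) (hfin : ∃ n : ℕ, b₀ ^ 2 ^ n = 1) (m : ℕ)
    (hb₀ : b₀ ^ 2 ^ m ≠ 1) (j : ℕ) (hj : j ≤ m) :
    ∃ i : ℕ, (b₀ ^ i) ^ 2 ^ (j + 1) = 1 ∧ (b₀ ^ i) ^ 2 ^ j ≠ 1 := by
  classical
  obtain ⟨n, hn, hmin⟩ : ∃ n : ℕ, b₀ ^ 2 ^ n = 1 ∧ ∀ k < n, b₀ ^ 2 ^ k ≠ 1 :=
    ⟨Nat.find hfin, Nat.find_spec hfin, fun k hk => Nat.find_min hfin hk⟩
  have hmn : m < n := by
    by_contra hle'
    have hle : n ≤ m := Nat.le_of_not_lt hle'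
    apply hb₀
    obtain ⟨t, rfl⟩ := Nat.exists_eq_add_of_le hle
    rw [pow_add, pow_mul, hn, one_pow]
  refine ⟨2 ^ (n - (j + 1)), ?_, ?_⟩
  · rw [← pow_mul, ← pow_add, Nat.sub_add_cancel (by omega)]
    exact hn
  · rw [← pow_mul, ← pow_add]
    have h1 : n - (j + 1) + j = n - 1 := by omega
    rw [h1]
    exact hmin (n - 1) (by omega)

/-- **TG-SQ**. -/
theorem sq (hLayer : StLayer.{u}) (hVB : StVB.{u}) : StSq.{u} := by
  intro X _ _ A hyp B hB hBZ m b₀ hb₀ hb₀m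
  have hBc : ∀ a ∈ B, ∀ b ∈ B, a * b = b * a := hB.2.2
  have hfin : ∃ n : ℕ, b₀ ^ 2 ^ n = 1 := hyp.pgrp b₀
  have key : ∀ k : ℕ, k ≤ m → ∀ c ∈ B, c ^ 2 ^ k = 1 → ∃ b ∈ B, b ^ 2 = c := by
    intro k
    induction k with
    | zero =>
      intro _ c _ hc1
      rw [pow_zero, pow_one] at hc1
      exact ⟨1, B.one_mem, by rw [hc1, one_pow]⟩
    | succ k ih =>
      intro hk c hc hc1
      by_cases hv : c ^ 2 ^ k = 1
      · exact ih (by omega) c hc hv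
      · have hv2 : (c ^ 2 ^ k) ^ 2 = 1 := by
          rw [← pow_mul, ← pow_succ]
          exact hc1
        obtain ⟨i, hi1, hi2⟩ := sq_layer_elt b₀ hfin m hb₀m (k + 1) hk
        obtain ⟨d, hd, hdv⟩ := hLayer X A hyp B hB hBZ (k + 1) (b₀ ^ i) (B.pow_mem hb₀ i) hi1 hi2
          (c ^ 2 ^ k) (B.pow_mem hc _) hv2
        have hd2 : d ^ 2 ∈ B := B.pow_mem hd 2
        have hcomm : Commute c (d ^ 2)⁻¹ := hBc c hc _ (B.inv_mem hd2)
        have hc' : (c * (d ^ 2)⁻¹) ^ 2 ^ k = 1 := by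
          rw [hcomm.mul_pow, inv_pow, ← pow_mul, ← pow_succ', hdv, mul_inv_cancel]
        obtain ⟨b', hb', hb'2⟩ := ih (by omega) (c * (d ^ 2)⁻¹) (B.mul_mem hc (B.inv_mem hd2)) hc'
        refine ⟨b' * d, B.mul_mem hb' hd, ?_⟩
        have hcomm2 : Commute b' d := hBc b' hb' d hd
        rw [hcomm2.mul_pow, hb'2, inv_mul_cancel_right]
  intro c hc hc1
  exact key m le_rfl c hc hc1

example (hLayer : Cfsg.Agent.H17.Tg.StLayer.{u}) (hVB : Cfsg.Agent.H17.Tg.StVB.{u}) :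
    Cfsg.Agent.H17.Tg.StSq.{u} := sq hLayer hVB

end Cfsg.Agent.H98.Tg

#print axioms Cfsg.Agent.H98.Tg.sq
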